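import Cfsg.Agent.H308.CA.Stmts
import Cfsg.Agent.H381.Car.Wp
import Mathlib
import Mathlib.Combinatorics.Colex
import Cfsg.Agent.ClassicalGeometry.HermOrthonormal
import Cfsg.Agent.ClassicalGeometry.AutPSL.Main
import Cfsg.Agent.SolvableStructure.CarterSystem
import Cfsg.Agent.FastGrp
import Cfsg.Agent.Prune
set_option linter.all false

section
prune_inst 0x7ffda8fbbbf8a9dedffd7e77a7d4cdfc39901fffa4dff94bbfe029ef0bdf030009c5238509e000fe0e82401410a87803f97eca3fea6bdc7ffffd5ff41ffbee0fe5f7b508511488240fb40ff603f0678e7f3fffffffffffffffffffffffffffaeffbfffffffff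

-- part: H308/CA/TGrp
section
prune_inst 0x15000400140120020188582b12000001c0005b20040040095010b420206b4402883094149201d1752380a0100050060024c0000000000000000040000050120808840082201010406009f801183180c00000000000000000000000000051004000000000
set_option linter.all false
open scoped Cfsg.Agent.FastGrp

-- part: H308/CA/Basic
section
/-!
# Basic facts on `TA`
-/

set_option autoImplicit false
set_option linter.unusedSectionVars false

namespace Cfsg.Agent.H308.CA

open Matrix

universe u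

section Sc

variable {ι : Type} [Fintype ι] [DecidableEq ι] {E : Type} [CommRing E] [StarRing E]

theorem Sc.refl (x : Matrix ι ι E) : Sc x x := ⟨1, by rw [star_one, one_mul], (one_smul _ _).symm⟩

theorem Sc.symm {x y : Matrix ι ι E} (h : Sc x y) : Sc y x := by
  obtain ⟨c, hc, rfl⟩ := h
  refine ⟨star c, by rw [star_star, mul_comm, hc], ?_⟩
  rw [smul_smul, hc, one_smul]

theorem Sc.trans {x y z : Matrix ι ι E} (h : Sc x y) (h' : Sc y z) : Sc x z := by
  obtain ⟨c, hc, rfl⟩ := h
  obtain ⟨d, hd, rfl⟩ := h'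
  refine ⟨c * d, ?_, by rw [smul_smul]⟩
  rw [star_mul]
  calc star d * star c * (c * d) = (star c * c) * (star d * d) := by ring
    _ = 1 := by rw [hc, hd, one_mul]

theorem Sc.mul {x y x' y' : Matrix ι ι E} (h : Sc x y) (h' : Sc x' y') : Sc (x * x') (y * y') := by
  obtain ⟨c, hc, rfl⟩ := h
  obtain ⟨d, hd, rfl⟩ := h'
  refine ⟨c * d, ?_, by rw [smul_mul_smul_comm]⟩
  rw [star_mul]
  calc star d * star c * (c * d) = (star c * c) * (star d * d) := by ring
    _ = 1 := by rw [hc, hd, one_mul]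

theorem Sc.pow {x y : Matrix ι ι E} (h : Sc x y) (n : ℕ) : Sc (x ^ n) (y ^ n) := by
  induction n with
  | zero => rw [pow_zero, pow_zero]; exact Sc.refl _
  | succ n ih => rw [pow_succ, pow_succ]; exact ih.mul h

theorem Sc.star {x y : Matrix ι ι E} (h : Sc x y) : Sc (star x) (star y) := by
  obtain ⟨c, hc, rfl⟩ := h
  refine ⟨Star.star c, by rw [star_star, mul_comm, hc], ?_⟩
  rw [star_smul]

/-- a matrix commuting with all unitary matrices... the centre -/
theorem exists_scalar {x : Matrix ι ι E} (h : ∀ a : Matrix ι ι E, x * a = a * x) : ∃ c : E, x = c • (1 : Matrix ι ι E) := by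
  rcases isEmpty_or_nonempty ι with hι | hι
  · exact ⟨1, Matrix.ext fun i => hι.elim i⟩
  · have h1 : x ∈ Set.range (Matrix.scalar ι) := by
      rw [Matrix.mem_range_scalar_iff_commute_single']
      intro i j
      exact (h _).symm
    obtain ⟨c, hc⟩ := h1
    exact ⟨c, by rw [← hc, Matrix.smul_one_eq_diagonal]; rfl⟩

/-- the scalar elements of `SU` -/
def scal (ι : Type) [Fintype ι] [DecidableEq ι] (E : Type) [CommRing E] [StarRing E] : Subgroup (SU ι E) where
  carrier := {u | Sc (mt u) 1}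
  one_mem' := by
    show Sc (mt 1) 1
    rw [map_one]
    exact Sc.refl _
  mul_mem' := by
    intro a b ha hb
    show Sc (mt (a * b)) 1
    rw [map_mul, ← mul_one (1 : Matrix ι ι E)]
    exact Sc.mul ha hb
  inv_mem' := by
    intro a ha
    show Sc (mt a⁻¹) 1
    rw [mt_inv, ← star_one]
    exact Sc.star ha

theorem mem_scal {u : SU ι E} : u ∈ scal ι E ↔ Sc (mt u) 1 := Iff.rfl

theorem scal_comm {u v : SU ι E} (hu : u ∈ scal ι E) : u * v = v * u := by
  obtain ⟨c, -, hc⟩ := hu
  apply mt_injective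
  rw [map_mul, map_mul, hc, smul_mul_assoc, one_mul, mul_smul_comm, mul_one]

/-- an element of `SU` commuting with everything is scalar -/
theorem sc_of_comm {u : SU ι E} (h : ∀ a : Matrix ι ι E, mt u * a = a * mt u) : Sc (mt u) 1 := by
  obtain ⟨c, hc⟩ := exists_scalar h
  rcases isEmpty_or_nonempty ι with hι | hι
  · exact ⟨1, by rw [star_one, one_mul], Matrix.ext fun i => hι.elim i⟩
  refine ⟨c, ?_, hc⟩
  have h1 := star_mt_mul u
  rw [hc, star_smul, star_one, smul_mul_smul_comm, one_mul] at h1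
  obtain ⟨i⟩ := hι
  have h2 := congrFun (congrFun h1 i) i
  rwa [Matrix.smul_apply, Matrix.one_apply_eq, smul_eq_mul, mul_one] at h2

end Sc

namespace TA

variable {Γ : Type u} [Group Γ] {ι : Type} [Fintype ι] [DecidableEq ι] {E : Type} [CommRing E] [StarRing E]
variable (T : TA Γ ι E)

theorem ρ_mul (g h : Γ) (a : Matrix ι ι E) : T.ρ (g * h) a = T.ρ g (T.ρ h a) := by
  rw [map_mul]; rfl

theorem ρ_one (a : Matrix ι ι E) : T.ρ 1 a = a := by
  rw [map_one]; rfl

theorem ρ_inv (g : Γ) (a : Matrix ι ι E) : T.ρ g⁻¹ (T.ρ g a) = a := by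
  rw [← ρ_mul, inv_mul_cancel, ρ_one]

theorem ρ_inv' (g : Γ) (a : Matrix ι ι E) : T.ρ g (T.ρ g⁻¹ a) = a := by
  rw [← ρ_mul, mul_inv_cancel, ρ_one]

theorem ρ_smul_one (g : Γ) {c : E} (hc : star c * c = 1) : Sc (T.ρ g (c • (1 : Matrix ι ι E))) 1 := by
  have h1 : ∀ a, T.ρ g (c • (1 : Matrix ι ι E)) * a = a * T.ρ g (c • (1 : Matrix ι ι E)) := by
    intro a
    have h2 : (c • (1 : Matrix ι ι E)) * T.ρ g⁻¹ a = T.ρ g⁻¹ a * (c • (1 : Matrix ι ι E)) := by
      rw [smul_mul_assoc, one_mul, mul_smul_comm, mul_one]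
    have h3 := congrArg (T.ρ g) h2
    rwa [map_mul, map_mul, ρ_inv'] at h3
  obtain ⟨d, hd⟩ := exists_scalar h1
  rcases isEmpty_or_nonempty ι with hι | hι
  · exact ⟨1, by rw [star_one, one_mul], Matrix.ext fun i => hι.elim i⟩
  refine ⟨d, ?_, hd⟩
  have h4 : star (T.ρ g (c • (1 : Matrix ι ι E))) * T.ρ g (c • (1 : Matrix ι ι E)) = 1 := by
    rw [← T.st, ← map_mul, star_smul, star_one, smul_mul_smul_comm, hc, one_mul, one_smul, map_one]
  rw [hd, star_smul, star_one, smul_mul_smul_comm, one_mul] at h4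
  obtain ⟨i⟩ := hι
  have h2 := congrFun (congrFun h4 i) i
  rwa [Matrix.smul_apply, Matrix.one_apply_eq, smul_eq_mul, mul_one] at h2

/-- `ρ` preserves proportionality -/
theorem ρ_sc (g : Γ) {x y : Matrix ι ι E} (h : Sc x y) : Sc (T.ρ g x) (T.ρ g y) := by
  obtain ⟨c, hc, rfl⟩ := h
  have h1 : c • y = (c • (1 : Matrix ι ι E)) * y := by rw [smul_mul_assoc, one_mul]
  rw [h1, map_mul]
  have h2 := (T.ρ_smul_one g hc).mul (Sc.refl (T.ρ g y))
  rwa [one_mul] at h2

theorem ρ_isP (g : Γ) {e : Matrix ι ι E} (h : IsP e) : IsP (T.ρ g e) :=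
  ⟨by rw [← map_mul, h.idem], by rw [← T.st, h.sym]⟩

/-- the stabiliser of the line of `x` -/
def stab (x : Matrix ι ι E) : Subgroup Γ where
  carrier := {g | Sc (T.ρ g x) x}
  one_mem' := by
    show Sc (T.ρ 1 x) x
    rw [T.ρ_one]; exact Sc.refl _
  mul_mem' := by
    intro g h hg hh
    show Sc (T.ρ (g * h) x) x
    rw [T.ρ_mul]
    exact (T.ρ_sc g hh).trans hg
  inv_mem' := by
    intro g hg
    show Sc (T.ρ g⁻¹ x) x
    have := T.ρ_sc g⁻¹ hg
    rw [T.ρ_inv] at this
    exact this.symm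

theorem mem_stab {x : Matrix ι ι E} {g : Γ} : g ∈ T.stab x ↔ Sc (T.ρ g x) x := Iff.rfl

/-- the stabiliser of an element -/
def fixer (e : Matrix ι ι E) : Subgroup Γ where
  carrier := {g | T.ρ g e = e}
  one_mem' := T.ρ_one e
  mul_mem' := by
    intro g h hg hh
    show T.ρ (g * h) e = e
    rw [T.ρ_mul, hh, hg]
  inv_mem' := by
    intro g hg
    show T.ρ g⁻¹ e = e
    have := T.ρ_inv g e
    rwa [hg] at this

theorem mem_fixer {e : Matrix ι ι E} {g : Γ} : g ∈ T.fixer e ↔ T.ρ g e = e := Iff.rfl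

variable (hD : DetSt E)

/-- the action on `SU` -/
def act (g : Γ) (u : SU ι E) : SU ι E :=
  mkSU (T.ρ g (mt u)) (by rw [← T.st, ← map_mul, star_mt_mul, map_one]) (hD ι (T.ρ g) (T.st g) u)

@[simp] theorem mt_act (g : Γ) (u : SU ι E) : mt (T.act hD g u) = T.ρ g (mt u) := rfl

include hD in
theorem conj_eq (g : Γ) (u : SU ι E) : g * T.j u * g⁻¹ = T.j (T.act hD g u) := T.conj_j g u _ (T.mt_act hD g u)

include hD in
theorem range_normal : T.j.range.Normal := by
  refine ⟨?_⟩
  rintro _ ⟨u, rfl⟩ g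
  rw [T.conj_eq hD]
  exact ⟨_, rfl⟩

/-- the image of the scalars -/
def Z : Subgroup Γ := (scal ι E).map T.j

theorem Z_le : T.Z ≤ T.j.range := by
  rintro _ ⟨u, -, rfl⟩
  exact ⟨u, rfl⟩

include hD in
theorem Z_normal : T.Z.Normal := by
  refine ⟨?_⟩
  rintro _ ⟨u, hu, rfl⟩ g
  rw [T.conj_eq hD]
  refine ⟨_, ?_, rfl⟩
  rw [SetLike.mem_coe, mem_scal, T.mt_act]
  have := T.ρ_sc g hu
  rwa [map_one] at this

theorem Z_comm {z s : Γ} (hz : z ∈ T.Z) (hs : s ∈ T.j.range) : z * s = s * z := by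
  obtain ⟨u, hu, rfl⟩ := hz
  obtain ⟨v, rfl⟩ := hs
  rw [← map_mul, scal_comm hu, map_mul]

/-- `j u ∈ Z` iff `u` is scalar -/
theorem j_mem_Z {u : SU ι E} : T.j u ∈ T.Z ↔ Sc (mt u) 1 := by
  constructor
  · rintro ⟨v, hv, h⟩
    have h1 : T.j (v⁻¹ * u) = 1 := by rw [map_mul, map_inv, h, inv_mul_cancel]
    have h2 : Sc (mt (v⁻¹ * u)) 1 := by
      apply sc_of_comm
      intro a
      have h3 := T.ρ_j (v⁻¹ * u) a
      rw [h1, T.ρ_one] at h3
      calc mt (v⁻¹ * u) * a = mt (v⁻¹ * u) * a * (star (mt (v⁻¹ * u)) * mt (v⁻¹ * u)) := by rw [star_mt_mul, mul_one]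
        _ = (mt (v⁻¹ * u) * a * star (mt (v⁻¹ * u))) * mt (v⁻¹ * u) := by rw [mul_assoc, mul_assoc, mul_assoc]
        _ = a * mt (v⁻¹ * u) := by rw [← h3]
    have h4 : u ∈ scal ι E := by
      have := (scal ι E).mul_mem hv h2
      rwa [mul_inv_cancel_left] at this
    exact h4
  · intro h
    exact ⟨u, h, rfl⟩

theorem j_stab {x : SU ι E} {g : SU ι E} : T.j g ∈ T.stab (mt x) ↔ Sc (mt (g * x * g⁻¹)) (mt x) := by
  rw [mem_stab, T.ρ_j, map_mul, map_mul, mt_inv]

end TA

end Cfsg.Agent.H308.CA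
end

-- part: H248/CA/On
section
/-!
# (ON) symmetric decompositions of `1` are diagonalisable; the rank of a diagonal idempotent (helper248, for S3852)
-/

set_option autoImplicit false

namespace Cfsg.Agent.H248.CA

open Matrix Cfsg.Agent.H308.CA

section

variable {ι : Type} [Fintype ι] [DecidableEq ι] {E : Type} [CommRing E] [StarRing E]

omit [DecidableEq ι] in
theorem inner_symm (v w : ι → E) : star (star v ⬝ᵥ w) = star w ⬝ᵥ v := by
  rw [← Matrix.star_dotProduct_star, star_star, dotProduct_comm]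

omit [DecidableEq ι] in
/-- symmetric matrices are self adjoint -/
theorem inner_mulVec {f : Matrix ι ι E} (hf : star f = f) (v w : ι → E) : star (f *ᵥ v) ⬝ᵥ w = star v ⬝ᵥ (f *ᵥ w) := by
  rw [Matrix.star_mulVec, ← star_eq_conjTranspose, hf, dotProduct_mulVec]

/-- an anisotropic vector of norm one -/
theorem exists_unit (h : Gd E) {f : Matrix ι ι E} (hf : IsP f) (h0 : f ≠ 0) :
    ∃ v : ι → E, f *ᵥ v = v ∧ star v ⬝ᵥ v = 1 := by
  obtain ⟨a, b, hab⟩ : ∃ a b, f a b ≠ 0 := by
    by_contra hc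
    push Not at hc
    exact h0 (by ext a b; exact hc a b)
  have hff : ∀ v : ι → E, f *ᵥ (f *ᵥ v) = f *ᵥ v := fun v => by rw [mulVec_mulVec, hf.idem]
  have hin : star (f *ᵥ Pi.single a (1 : E)) ⬝ᵥ (f *ᵥ Pi.single b (1 : E)) = f a b := by
    rw [inner_mulVec hf.sym, hff]
    simp
  -- a vector of nonzero norm
  obtain ⟨v, hv, hv0⟩ : ∃ v : ι → E, f *ᵥ v = v ∧ star v ⬝ᵥ v ≠ 0 := by
    by_contra hcon
    push Not at hcon
    obtain ⟨c, hc⟩ := h.trace hab
    apply hc
    set v₁ := f *ᵥ Pi.single a (1 : E) with hv₁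
    set w₁ := f *ᵥ Pi.single b (1 : E) with hw₁
    have k1 := hcon v₁ (hff _)
    have k2 := hcon w₁ (hff _)
    have k3 := hcon (v₁ + c • w₁) (by rw [mulVec_add, mulVec_smul, hff, hff])
    rw [star_add, star_smul, add_dotProduct, dotProduct_add, dotProduct_add, smul_dotProduct, smul_dotProduct,
      dotProduct_smul, dotProduct_smul, k1, k2, ← inner_symm v₁ w₁, hin, smul_eq_mul, smul_eq_mul, smul_eq_mul, smul_eq_mul] at k3
    rw [star_mul, mul_comm (star (f a b))]
    rw [zero_add, mul_zero, mul_zero, add_zero] at k3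
    exact k3
  have hs : star (star v ⬝ᵥ v) = star v ⬝ᵥ v := inner_symm v v
  obtain ⟨x, hx⟩ := h.isUnit_of_sym hs hv0
  have hxs : star ((x⁻¹ : Eˣ) : E) = ((x⁻¹ : Eˣ) : E) := by
    have h1 : star ((x⁻¹ : Eˣ) : E) * (x : E) = 1 := by
      have h2 : star (x : E) = x := by rw [hx]; exact hs
      calc star ((x⁻¹ : Eˣ) : E) * (x : E) = star ((x⁻¹ : Eˣ) : E) * star (x : E) := by rw [h2]
        _ = star ((x : E) * ((x⁻¹ : Eˣ) : E)) := (star_mul _ _).symm
        _ = 1 := by rw [Units.mul_inv, star_one]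
    calc star ((x⁻¹ : Eˣ) : E) = star ((x⁻¹ : Eˣ) : E) * ((x : E) * ((x⁻¹ : Eˣ) : E)) := by rw [Units.mul_inv, mul_one]
      _ = ((x⁻¹ : Eˣ) : E) := by rw [← mul_assoc, h1, one_mul]
  have hnt := h.nontrivial
  obtain ⟨c, hc⟩ := h.norm hxs (Units.ne_zero _)
  refine ⟨c • v, by rw [mulVec_smul, hv], ?_⟩
  rw [star_smul, smul_dotProduct, dotProduct_smul, smul_eq_mul, smul_eq_mul, ← mul_assoc, hc, ← hx, Units.inv_mul]

omit [DecidableEq ι] in
theorem pv_mulVec (v w : ι → E) : vecMulVec v (star v) *ᵥ w = (star v ⬝ᵥ w) • v := by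
  rw [vecMulVec_mulVec]
  ext i
  simp [mul_comm]

omit [DecidableEq ι] in
theorem pv_isP {v : ι → E} (hv : star v ⬝ᵥ v = 1) : IsP (vecMulVec v (star v)) := by
  refine ⟨?_, ?_⟩
  · rw [vecMulVec_mul_vecMulVec, hv, one_smul]
  · rw [star_eq_conjTranspose, conjTranspose_vecMulVec, star_star]

omit [DecidableEq ι] in
theorem mul_pv {f : Matrix ι ι E} {v : ι → E} (hv : f *ᵥ v = v) : f * vecMulVec v (star v) = vecMulVec v (star v) := by
  rw [mul_vecMulVec, hv]

omit [DecidableEq ι] in
theorem pv_mul {f : Matrix ι ι E} (hf : star f = f) {v : ι → E} (hv : f *ᵥ v = v) :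
    vecMulVec v (star v) * f = vecMulVec v (star v) := by
  have h1 : star v ᵥ* f = star v := by
    conv_rhs => rw [← hv, Matrix.star_mulVec, ← star_eq_conjTranspose, hf]
  rw [vecMulVec_mul, h1]

/-- an orthonormal decomposition of a symmetric idempotent -/
theorem exists_decomp (h : Gd E) (N : ℕ) : ∀ f : Matrix ι ι E, IsP f → Nat.card {w : ι → E // f *ᵥ w = w} ≤ N →
    ∃ (n : ℕ) (v : Fin n → ι → E), (∀ s t, star (v s) ⬝ᵥ v t = if s = t then 1 else 0) ∧ (∀ s, f *ᵥ v s = v s) ∧
      f = ∑ s, vecMulVec (v s) (star (v s)) := by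
  have hfin := h.finite
  have hnt := h.nontrivial
  induction N with
  | zero =>
    intro f hf hN
    exfalso
    have h1 : Nonempty {w : ι → E // f *ᵥ w = w} := ⟨⟨0, mulVec_zero f⟩⟩
    have := Nat.card_pos (α := {w : ι → E // f *ᵥ w = w})
    omega
  | succ N ih =>
    intro f hf hN
    by_cases h0 : f = 0
    · refine ⟨0, Fin.elim0, fun s => s.elim0, fun s => s.elim0, ?_⟩
      rw [h0, Finset.univ_eq_empty, Finset.sum_empty]
    · obtain ⟨v, hv, hv1⟩ := exists_unit h hf h0
      set g := f - vecMulVec v (star v) with hg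
      have hgP : IsP g := by
        refine ⟨?_, ?_⟩
        · rw [hg, mul_sub, sub_mul, sub_mul, hf.idem, mul_pv hv, pv_mul hf.sym hv, (pv_isP hv1).idem]
          abel
        · rw [hg, star_sub, hf.sym, (pv_isP hv1).sym]
      have hgv : g *ᵥ v = 0 := by rw [hg, sub_mulVec, hv, pv_mulVec, hv1, one_smul, sub_self]
      have hfg : f * g = g := by rw [hg, mul_sub, hf.idem, mul_pv hv]
      have hsub : ∀ w, g *ᵥ w = w → f *ᵥ w = w := by
        intro w hw
        conv_lhs => rw [← hw, mulVec_mulVec, hfg]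
        exact hw
      have hlt : Nat.card {w : ι → E // g *ᵥ w = w} < Nat.card {w : ι → E // f *ᵥ w = w} := by
        have hv0 : v ≠ 0 := by
          rintro rfl
          rw [dotProduct_zero] at hv1
          exact zero_ne_one hv1
        classical
        have i1 := Fintype.ofFinite {w : ι → E // g *ᵥ w = w}
        have i2 := Fintype.ofFinite {w : ι → E // f *ᵥ w = w}
        rw [Nat.card_eq_fintype_card, Nat.card_eq_fintype_card]
        refine Fintype.card_lt_of_injective_of_notMem (fun w : {w : ι → E // g *ᵥ w = w} =>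
          (⟨w.1, hsub w.1 w.2⟩ : {w : ι → E // f *ᵥ w = w})) (fun a b hab => ?_) (b := ⟨v, hv⟩) ?_
        · exact Subtype.ext (congrArg (fun x => x.1) hab)
        · rintro ⟨⟨w, hw⟩, hwv⟩
          have : w = v := congrArg (fun x => x.1) hwv
          subst this
          rw [hgv] at hw
          exact hv0 hw.symm
      obtain ⟨n, w, hw1, hw2, hw3⟩ := ih g hgP (by omega)
      have hvw : ∀ s, star v ⬝ᵥ w s = 0 := by
        intro s
        rw [← hw2 s, ← inner_mulVec hgP.sym, hgv, star_zero, zero_dotProduct]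
      refine ⟨n + 1, Fin.cons v w, ?_, ?_, ?_⟩
      · intro s t
        refine Fin.cases ?_ (fun s => ?_) s <;> refine Fin.cases ?_ (fun t => ?_) t
        · rw [Fin.cons_zero, hv1, if_pos rfl]
        · rw [Fin.cons_zero, Fin.cons_succ, hvw, if_neg (Fin.succ_ne_zero t).symm]
        · rw [Fin.cons_zero, Fin.cons_succ, ← inner_symm, hvw, star_zero, if_neg (Fin.succ_ne_zero s)]
        · rw [Fin.cons_succ, Fin.cons_succ, hw1]
          simp only [Fin.succ_inj]
      · intro s
        refine Fin.cases ?_ (fun s => ?_) s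
        · rw [Fin.cons_zero]; exact hv
        · rw [Fin.cons_succ]; exact hsub _ (hw2 s)
      · rw [Fin.sum_univ_succ, Fin.cons_zero]
        simp only [Fin.cons_succ]
        rw [← hw3, hg]
        abel

/-- unitary diagonalization, without the determinant -/
theorem exists_unitary (h : Gd E) {κ : Type} [Fintype κ] [DecidableEq κ] (e : κ → Matrix ι ι E) (hP : ∀ i, IsP (e i))
    (ho : ∀ i j, i ≠ j → e i * e j = 0) (hs : ∑ i, e i = 1) :
    ∃ (a : Matrix ι ι E) (c : ι → κ), star a * a = 1 ∧ ∀ i, e i = star a * dg (fun x => c x = i) * a := by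
  have hfin := h.finite
  have hnt := h.nontrivial
  choose n v hv1 hv2 hv3 using fun i => exists_decomp h _ (e i) (hP i) le_rfl
  let A : Matrix (Σ i, Fin (n i)) ι E := fun s => star (v s.1 s.2)
  have hAA : A * Aᴴ = 1 := by
    ext ⟨i, s⟩ ⟨j, t⟩
    have h1 : (A * Aᴴ) ⟨i, s⟩ ⟨j, t⟩ = star (v i s) ⬝ᵥ v j t := by
      rw [mul_apply, dotProduct]
      refine Finset.sum_congr rfl fun x _ => ?_
      rw [conjTranspose_apply]
      change star (v i s x) * star (star (v j t x)) = star (v i s x) * v j t x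
      rw [star_star]
    rw [h1]
    by_cases hij : i = j
    · subst hij
      rw [hv1]
      by_cases hst : s = t
      · subst hst
        rw [if_pos rfl, one_apply_eq]
      · rw [if_neg hst, one_apply_ne]
        intro h2
        exact hst (eq_of_heq (Sigma.mk.inj h2).2)
    · rw [one_apply_ne (fun h2 => hij (Sigma.mk.inj h2).1), ← hv2 i s, inner_mulVec (hP i).sym, ← hv2 j t, mulVec_mulVec,
        ho i j hij, zero_mulVec, dotProduct_zero]
  have hsum : ∀ i, (∑ s : Fin (n i), vecMulVec (v i s) (star (v i s))) = e i := fun i => (hv3 i).symm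
  have hAA' : Aᴴ * A = 1 := by
    rw [← hs]
    ext x y
    rw [mul_apply, Fintype.sum_sigma, Matrix.sum_apply]
    refine Finset.sum_congr rfl fun i _ => ?_
    rw [← hsum i, Matrix.sum_apply]
    refine Finset.sum_congr rfl fun s _ => ?_
    rw [conjTranspose_apply, vecMulVec_apply]
    change star (star (v i s x)) * star (v i s y) = v i s x * star (v i s y)
    rw [star_star]
  have hcard : Fintype.card (Σ i, Fin (n i)) = Fintype.card ι := Matrix.square_of_invertible A Aᴴ hAA hAA'
  let ε : ι ≃ (Σ i, Fin (n i)) := Fintype.equivOfCardEq hcard.symm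
  refine ⟨A.submatrix ε id, fun x => (ε x).1, ?_, fun i => ?_⟩
  · rw [star_eq_conjTranspose, conjTranspose_submatrix, submatrix_mul_equiv, hAA', submatrix_id_id]
  · rw [← hsum i]
    ext x y
    have h1 : ∀ z, (star (A.submatrix ε id) : Matrix ι ι E) x z *
        ((dg (fun x => (ε x).1 = i) : Matrix ι ι E) * A.submatrix ε id) z y =
        (fun σ : (Σ i, Fin (n i)) => v σ.1 σ.2 x * ((if σ.1 = i then 1 else 0) * star (v σ.1 σ.2 y))) (ε z) := by
      intro z
      rw [dg, diagonal_mul]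
      change star (star (v (ε z).1 (ε z).2 x)) * ((if (ε z).1 = i then 1 else 0) * star (v (ε z).1 (ε z).2 y)) = _
      rw [star_star]
    have h2 := Equiv.sum_comp ε
      (fun σ : (Σ i, Fin (n i)) => v σ.1 σ.2 x * ((if σ.1 = i then 1 else 0) * star (v σ.1 σ.2 y)))
    have h3 : ((∑ s : Fin (n i), vecMulVec (v i s) (star (v i s))) : Matrix ι ι E) x y =
        ∑ s : Fin (n i), v i s x * star (v i s y) := by
      rw [Matrix.sum_apply]
      rfl
    rw [mul_assoc, mul_apply, Finset.sum_congr rfl fun z _ => h1 z, h2, h3, Fintype.sum_sigma, Finset.sum_eq_single i]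
    · refine Finset.sum_congr rfl fun s _ => ?_
      rw [if_pos rfl, one_mul]
    · intro j _ hj
      refine Finset.sum_eq_zero fun s _ => ?_
      rw [if_neg hj, zero_mul, mul_zero]
    · intro h2
      exact absurd (Finset.mem_univ i) h2

/-- **(ON)** -/
theorem on_main (h : Gd E) {κ : Type} [Fintype κ] [DecidableEq κ] (e : κ → Matrix ι ι E) (hP : ∀ i, IsP (e i))
    (ho : ∀ i j, i ≠ j → e i * e j = 0) (hs : ∑ i, e i = 1) :
    ∃ (u : SU ι E) (c : ι → κ), ∀ i, e i = star (H308.CA.mt u) * dg (fun x => c x = i) * H308.CA.mt u := by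
  obtain ⟨a, c, ha, hc⟩ := exists_unitary h e hP ho hs
  have hdet : star a.det * a.det = 1 := by
    have h1 := congrArg Matrix.det ha
    rw [det_mul, star_eq_conjTranspose, det_conjTranspose, det_one] at h1
    exact h1
  rcases isEmpty_or_nonempty ι with hι | ⟨⟨x₀⟩⟩
  · refine ⟨mkSU a ha det_isEmpty, c, hc⟩
  · set d : ι → E := Function.update 1 x₀ (star a.det) with hd
    have hd1 : ∀ x, star (d x) * d x = 1 := by
      intro x
      by_cases hx : x = x₀
      · subst hx
        rw [hd, Function.update_self, star_star, mul_comm]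
        exact hdet
      · rw [hd, Function.update_of_ne hx, Pi.one_apply, star_one, one_mul]
    have hdd : star (diagonal d) * diagonal d = (1 : Matrix ι ι E) := by
      rw [star_eq_conjTranspose, diagonal_conjTranspose, diagonal_mul_diagonal, ← diagonal_one]
      congr 1
      ext x
      exact hd1 x
    refine ⟨mkSU (diagonal d * a) ?_ ?_, c, fun i => ?_⟩
    · rw [star_mul, mul_assoc, ← mul_assoc (star (diagonal d)), hdd, one_mul, ha]
    · rw [det_mul, det_diagonal, hd, Finset.prod_update_of_mem (Finset.mem_univ _)]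
      simp only [Pi.one_apply, Finset.prod_const_one, mul_one]
      exact hdet
    · rw [mt_mkSU, hc i, star_mul]
      have hcomm : star (diagonal d) * dg (fun x => c x = i) * diagonal d = (dg (fun x => c x = i) : Matrix ι ι E) := by
        rw [dg, mul_assoc, diagonal_mul_diagonal, star_eq_conjTranspose, diagonal_conjTranspose, diagonal_mul_diagonal]
        congr 1
        ext x
        rw [mul_left_comm, Pi.star_apply, hd1, mul_one]
      calc star a * dg (fun x => c x = i) * a = star a * (star (diagonal d) * dg (fun x => c x = i) * diagonal d) * a := by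
            rw [hcomm]
        _ = star a * star (diagonal d) * dg (fun x => c x = i) * (diagonal d * a) := by
            simp only [mul_assoc]

/-- the rank of a conjugate of a diagonal idempotent -/
theorem rk_conj' (h : Gd E) {a : Matrix ι ι E} (ha : star a * a = 1) (p : ι → Prop) [DecidablePred p] :
    rk (star a * dg p * a) = Fintype.card {x // p x} := by
  have hfin := h.finite
  have hnt := h.nontrivial
  have ha' : a * star a = 1 := mul_eq_one_comm.1 ha
  have hE : 1 < Nat.card E := Finite.one_lt_card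
  have key : ∀ v : ι → E, (star a * dg p * a) *ᵥ v = v → dg p *ᵥ (a *ᵥ v) = a *ᵥ v := by
    intro v h1
    calc dg p *ᵥ (a *ᵥ v) = (a * (star a * dg p * a)) *ᵥ v := by
          rw [mulVec_mulVec, mul_assoc (star a), ← mul_assoc a, ha', one_mul]
      _ = a *ᵥ v := by rw [← mulVec_mulVec, h1]
  have e1 : {v : ι → E // (star a * dg p * a) *ᵥ v = v} ≃ {w : ι → E // dg p *ᵥ w = w} :=
    { toFun := fun v => ⟨a *ᵥ v.1, key v.1 v.2⟩
      invFun := fun w => ⟨star a *ᵥ w.1, by
        rw [mulVec_mulVec, mul_assoc, ha', mul_one, ← mulVec_mulVec, w.2]⟩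
      left_inv := fun v => Subtype.ext (by
        change star a *ᵥ (a *ᵥ v.1) = v.1
        rw [mulVec_mulVec, ha, one_mulVec])
      right_inv := fun w => Subtype.ext (by
        change a *ᵥ (star a *ᵥ w.1) = w.1
        rw [mulVec_mulVec, ha', one_mulVec]) }
  have hdg : ∀ w : ι → E, dg p *ᵥ w = w ↔ ∀ x, ¬ p x → w x = 0 := by
    intro w
    rw [funext_iff]
    refine forall_congr' fun x => ?_
    rw [dg, mulVec_diagonal]
    by_cases hx : p x
    · rw [if_pos hx, one_mul]
      exact ⟨fun _ h => absurd hx h, fun _ => rfl⟩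
    · rw [if_neg hx, zero_mul]
      exact ⟨fun h _ => h.symm, fun h => (h hx).symm⟩
  have e2 : {w : ι → E // dg p *ᵥ w = w} ≃ ({x // p x} → E) :=
    { toFun := fun w x => w.1 x
      invFun := fun f => ⟨fun x => if hx : p x then f ⟨x, hx⟩ else 0, by
        rw [hdg]
        intro x hx
        rw [dif_neg hx]⟩
      left_inv := fun w => Subtype.ext (by
        funext x
        by_cases hx : p x
        · simp only [dif_pos hx]
        · simp only [dif_neg hx]
          exact ((hdg _).1 w.2 x hx).symm)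
      right_inv := fun f => by
        funext x
        simp only [dif_pos x.2] }
  rw [rk, Nat.card_congr (e1.trans e2), Nat.card_fun, Nat.card_eq_fintype_card (α := {x // p x}), Nat.log_pow hE]

theorem rk_conj (h : Gd E) (u : SU ι E) (p : ι → Prop) [DecidablePred p] :
    rk (star (H308.CA.mt u) * dg p * H308.CA.mt u) = Fintype.card {x // p x} := rk_conj' h (star_mt_mul u) p

end

theorem onSt {E : Type} [CommRing E] [StarRing E] (h : Gd E) : ONSt E := fun _ _ _ _ _ _ e hP ho hs => on_main h e hP ho hs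

end Cfsg.Agent.H248.CA
end

-- part: H308/CA/Fam
section
/-!
# Families of symmetric idempotents with equal ranks are conjugate under `SU`
-/

set_option autoImplicit false
set_option linter.unusedSectionVars false

namespace Cfsg.Agent.H308.CA

open Matrix

/-- (FAM) complete families with the same ranks are conjugate -/
def FamSt (E : Type) [CommRing E] [StarRing E] : Prop :=
  ∀ (ι κ : Type) [Fintype ι] [DecidableEq ι] [Fintype κ] [DecidableEq κ] (e f : κ → Matrix ι ι E),
    (∀ i, IsP (e i)) → (∀ i j, i ≠ j → e i * e j = 0) → ∑ i, e i = 1 →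
    (∀ i, IsP (f i)) → (∀ i j, i ≠ j → f i * f j = 0) → ∑ i, f i = 1 → (∀ i, rk (e i) = rk (f i)) →
    ∃ g : SU ι E, ∀ i, mt g * e i * star (mt g) = f i

/-- (EIG) the eigenspace alternative -/
def EigSt (E : Type) [CommRing E] [StarRing E] : Prop :=
  ∀ (ι : Type) [Fintype ι] [DecidableEq ι] (r : ℕ), r.Prime → r ≠ 2 → IsUnit (r : E) → r ∣ Nat.card (unitary E) →
    ∀ (x : SU ι E) (m : E), star m * m = 1 → mt x ^ r = m ^ r • (1 : Matrix ι ι E) → ¬ Sc (mt x) 1 →
      (∃ (g : SU ι E) (a : ℕ), ¬ a ≡ 1 [MOD r] ∧ Sc (mt (g * x * g⁻¹)) (mt x ^ a)) ∨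
      ∃ e : Matrix ι ι E, IsP e ∧ e ≠ 0 ∧ e ≠ 1 ∧
        ∀ θ : RingAut (Matrix ι ι E), (∀ a, θ (star a) = star (θ a)) → Sc (θ (mt x)) (mt x) → θ e = e

section

variable {ι κ : Type} [Fintype ι] [DecidableEq ι] [Fintype κ] [DecidableEq κ] {E : Type} [CommRing E] [StarRing E]

/-- a permutation carrying one labelling into another with the same fibres -/
theorem exists_perm (c c' : ι → κ) (h : ∀ i, Fintype.card {x // c x = i} = Fintype.card {x // c' x = i}) :
    ∃ σ : Equiv.Perm ι, ∀ x, c' (σ x) = c x := by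
  have e : ∀ i, Nonempty ({x // c x = i} ≃ {x // c' x = i}) := fun i => Fintype.card_eq.1 (h i)
  let F : ι ≃ ι := (Equiv.sigmaFiberEquiv c).symm.trans
    ((Equiv.sigmaCongrRight fun i => (e i).some).trans (Equiv.sigmaFiberEquiv c'))
  refine ⟨F, fun x => ?_⟩
  exact ((e (c x)).some ⟨x, rfl⟩).2

/-- the permutation matrix -/
def pm (E : Type) [CommRing E] (σ : Equiv.Perm ι) : Matrix ι ι E := σ.toPEquiv.toMatrix

theorem star_pm (σ : Equiv.Perm ι) : star (pm E σ) = pm E σ.symm := by
  ext x y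
  simp only [pm, Matrix.star_apply, PEquiv.toMatrix_apply, Equiv.toPEquiv_apply, Option.mem_def, Option.some.injEq]
  by_cases h : σ y = x
  · have h' : σ.symm x = y := by rw [← h, Equiv.symm_apply_apply]
    rw [if_pos h, if_pos h', star_one]
  · have h' : ¬ σ.symm x = y := fun h2 => h (by rw [← h2, Equiv.apply_symm_apply])
    rw [if_neg h, if_neg h', star_zero]

theorem pm_mul (σ : Equiv.Perm ι) (M : Matrix ι ι E) : pm E σ * M = M.submatrix σ id := by
  unfold pm
  rw [PEquiv.toMatrix_toPEquiv_mul]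

theorem mul_pm (σ : Equiv.Perm ι) (M : Matrix ι ι E) : M * pm E σ = M.submatrix id σ.symm := by
  unfold pm
  rw [PEquiv.mul_toMatrix_toPEquiv]

theorem star_pm_mul (σ : Equiv.Perm ι) : star (pm E σ) * pm E σ = 1 := by
  rw [star_pm, pm_mul]
  ext x y
  rw [Matrix.submatrix_apply]
  simp only [pm, PEquiv.toMatrix_apply, Equiv.toPEquiv_apply, Option.mem_def, Option.some.injEq, Equiv.apply_symm_apply,
    id, Matrix.one_apply]

theorem pm_dg (σ : Equiv.Perm ι) (c c' : ι → κ) (h : ∀ x, c' (σ x) = c x) (i : κ) :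
    pm E σ.symm * dg (fun x => c x = i) * star (pm E σ.symm) = dg (fun x => c' x = i) := by
  rw [star_pm, pm_mul, mul_pm]
  ext x y
  simp only [dg, Matrix.submatrix_apply, Matrix.diagonal_apply, id, Equiv.symm_symm]
  have h1 : c' x = c (σ.symm x) := by rw [← h, Equiv.apply_symm_apply]
  simp only [EmbeddingLike.apply_eq_iff_eq, h1]

theorem fam_of (hON : ONSt E) (hrk : ∀ (u : SU ι E) (p : ι → Prop) [DecidablePred p],
    rk (star (mt u) * dg p * mt u) = Fintype.card {x // p x}) (e f : κ → Matrix ι ι E)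
    (he : ∀ i, IsP (e i)) (heo : ∀ i j, i ≠ j → e i * e j = 0) (hes : ∑ i, e i = 1)
    (hf : ∀ i, IsP (f i)) (hfo : ∀ i j, i ≠ j → f i * f j = 0) (hfs : ∑ i, f i = 1) (hr : ∀ i, rk (e i) = rk (f i)) :
    ∃ g : SU ι E, ∀ i, mt g * e i * star (mt g) = f i := by
  obtain ⟨u, c, hc⟩ := hON ι κ e he heo hes
  obtain ⟨v, c', hc'⟩ := hON ι κ f hf hfo hfs
  obtain ⟨σ, hσ⟩ := exists_perm c c' fun i => by
    have := hr i
    rwa [hc i, hc' i, hrk, hrk] at this
  set Q : Matrix ι ι E := pm E σ.symm with hQ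
  have hQQ : star Q * Q = 1 := star_pm_mul _
  have hdQ : star Q.det * Q.det = 1 := by
    rw [← Matrix.det_conjTranspose, ← Matrix.det_mul, ← Matrix.star_eq_conjTranspose, hQQ, Matrix.det_one]
  rcases isEmpty_or_nonempty ι with hι | ⟨⟨x0⟩⟩
  · exact ⟨1, fun i => Matrix.ext fun x => hι.elim x⟩
  set a : ι → E := Function.update (fun _ => 1) x0 (star Q.det) with ha
  have haa : ∀ x, star (a x) * a x = 1 := by
    intro x
    by_cases hx : x = x0
    · rw [ha, hx, Function.update_self, star_star, mul_comm, hdQ]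
    · rw [ha, Function.update_of_ne hx, star_one, one_mul]
  have hDD : star (Matrix.diagonal a) * Matrix.diagonal a = 1 := by
    rw [Matrix.star_eq_conjTranspose, Matrix.diagonal_conjTranspose, Matrix.diagonal_mul_diagonal, ← Matrix.diagonal_one]
    congr 1
    funext x
    exact haa x
  have hdD : (Matrix.diagonal a).det = star Q.det := by
    rw [Matrix.det_diagonal, ha, Finset.prod_update_of_mem (Finset.mem_univ _), Finset.prod_const_one, mul_one]
  have hDg : ∀ i, Matrix.diagonal a * dg (fun x => c' x = i) * star (Matrix.diagonal a) = dg (fun x => c' x = i) := by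
    intro i
    rw [Matrix.star_eq_conjTranspose, Matrix.diagonal_conjTranspose, dg, Matrix.diagonal_mul_diagonal,
      Matrix.diagonal_mul_diagonal]
    congr 1
    funext x
    rw [Pi.star_apply, mul_right_comm, mul_comm (a x), haa, one_mul]
  set w : Matrix ι ι E := star (mt v) * Matrix.diagonal a * Q * mt u with hw
  have hsw : star w = star (mt u) * star Q * star (Matrix.diagonal a) * mt v := by
    rw [hw, star_mul, star_mul, star_mul, star_star]
    simp only [mul_assoc]
  have hww : star w * w = 1 := by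
    rw [hsw, hw]
    calc star (mt u) * star Q * star (Matrix.diagonal a) * mt v * (star (mt v) * Matrix.diagonal a * Q * mt u) =
          star (mt u) * (star Q * (star (Matrix.diagonal a) * (mt v * star (mt v)) * Matrix.diagonal a) * Q) * mt u := by
          simp only [mul_assoc]
      _ = 1 := by rw [mt_mul_star, mul_one, hDD, mul_one, hQQ, mul_one, star_mt_mul]
  have hwd : w.det = 1 := by
    rw [hw, Matrix.det_mul, Matrix.det_mul, Matrix.det_mul, hdD, mt_det, mul_one, Matrix.star_eq_conjTranspose,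
      Matrix.det_conjTranspose, mt_det, star_one, one_mul, hdQ]
  refine ⟨mkSU w hww hwd, fun i => ?_⟩
  rw [mt_mkSU, hsw, hc i, hc' i, hw]
  calc star (mt v) * Matrix.diagonal a * Q * mt u * (star (mt u) * dg (fun x => c x = i) * mt u) *
        (star (mt u) * star Q * star (Matrix.diagonal a) * mt v) =
        star (mt v) * (Matrix.diagonal a * (Q * ((mt u * star (mt u)) * dg (fun x => c x = i) * (mt u * star (mt u))) *
          star Q) * star (Matrix.diagonal a)) * mt v := by simp only [mul_assoc]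
    _ = _ := by rw [mt_mul_star, one_mul, mul_one, pm_dg σ c c' hσ i, hDg]

end

theorem fam_st {E : Type} [CommRing E] [StarRing E] (h : Gd E) : FamSt E :=
  fun _ _ _ _ _ _ e f he heo hes hf hfo hfs hr =>
    fam_of (Cfsg.Agent.H248.CA.onSt h) (fun u p _ => Cfsg.Agent.H248.CA.rk_conj h u p) e f he heo hes hf hfo hfs hr

end Cfsg.Agent.H308.CA
end

-- part: H308/CA/Grp
section
/-!
# Group theory for the type A block: Lemma X and central elements modulo a normal subgroup
-/

set_option autoImplicit false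
set_option linter.unusedSectionVars false
set_option linter.unusedVariables false

namespace Cfsg.Agent.H308.CA

open Subgroup Pointwise
open Cfsg.Agent.Solvable.Carter Cfsg.Agent.H18.Carter Cfsg.Agent.H381.Car

universe u

/-- all smaller groups have conjugate Carter subgroups -/
def Sml (G : Type u) [Group G] : Prop := ∀ (B : Type u) [Group B] [Finite B], Nat.card B < Nat.card G → CC B

variable {G : Type u} [Group G]

theorem Sml.sub [Finite G] (h : Sml G) {M : Subgroup G} (hM : M ≠ ⊤) : CC M :=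
  h M (Cfsg.Agent.Lib.SolvableNormalP.card_lt_of_ne_top hM)

theorem Sml.of_le [Finite G] (h : Sml G) {B : Type u} [Group B] [Finite B] (hB : Nat.card B ≤ Nat.card G) : Sml B :=
  fun _ _ _ hC => h _ (lt_of_lt_of_le hC hB)

theorem Sml.subgroup [Finite G] (h : Sml G) (M : Subgroup G) : Sml M := h.of_le (card_le_card_group M)

theorem Sml.quot [Finite G] (h : Sml G) (N : Subgroup G) [N.Normal] : Sml (G ⧸ N) :=
  h.of_le (Nat.card_le_card_of_surjective _ (QuotientGroup.mk'_surjective N))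

theorem carter_map [Finite G] (h : Sml G) {H : Type u} [Group H] {f : G →* H} (hf : Function.Surjective f)
    {K : Subgroup G} (hK : IsCarter K) : IsCarter (K.map f) :=
  hK.map hf fun M hM => h.sub hM

/-- `CC` of `K X` for proper or improper `K X`: the `w`-principle with `Sml` -/
theorem w_of_sml [Finite G] (h : Sml G) {K X : Subgroup G} (hK : IsCarter K) {s : G}
    (hs : s ∈ normalizer (X : Set G)) (hc : ∀ k ∈ K, s * k * s⁻¹ * k⁻¹ ∈ X) : s ∈ K ⊔ X := by
  by_cases htop : K ⊔ X = ⊤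
  · rw [htop]; trivial
  · exact w_principle_of (h.sub htop) hK hs hc

/-- the analogue of (A1): `K, K^s ≤ C` implies `s ∈ C` -/
theorem mem_of_conj_le [Finite G] (h : Sml G) {K C : Subgroup G} (hK : IsCarter K) (hKC : K ≤ C) {s : G}
    (hs : MulAut.conj s • K ≤ C) : s ∈ C := by
  by_cases htop : C = ⊤
  · rw [htop]; trivial
  obtain ⟨y, hy, hh⟩ := exists_conj_of_le (h.sub htop) (hK.conj s) hK hs hKC
  rw [cj_cj, cj_eq_self_iff, hK.2] at hh
  have h2 := mul_mem (inv_mem hy) (hKC hh)
  rwa [inv_mul_cancel_left] at h2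

/-- **Lemma X modulo a normal subgroup central in `N`.** -/
theorem lemma_x_mod [Finite G] (hF : Fpf.{u}) (h : Sml G) (N Z : Subgroup G) [N.Normal] [Z.Normal] (hZN : Z ≤ N)
    (hZc : ∀ z ∈ Z, ∀ n ∈ N, z * n = n * z) {K : Subgroup G} (hK : IsCarter K) {l : ℕ} [hl : Fact l.Prime]
    (hKN : ∀ k ∈ K, k ∈ N → ∃ n : ℕ, k ^ l ^ n ∈ Z) :
    ∃ P : Subgroup G, P ≤ N ∧ IsPGroup l P ∧ ¬ l ∣ P.relIndex N ∧ K ≤ normalizer (P : Set G) := by
  let π := QuotientGroup.mk' Z
  have hπ : Function.Surjective π := QuotientGroup.mk'_surjective Z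
  have hNn : (N.map π).Normal := Subgroup.Normal.map inferInstance π hπ
  have hl1 : IsPGroup l (K.map π ⊓ N.map π : Subgroup (G ⧸ Z)) := by
    rintro ⟨x, ⟨k, hk, hkx⟩, ⟨n, hn, hnx⟩⟩
    have h1 : k⁻¹ * n ∈ Z := QuotientGroup.eq.1 (hkx.trans hnx.symm)
    have hkN : k ∈ N := by
      have := mul_mem hn (inv_mem (hZN h1))
      have e : n * (k⁻¹ * n)⁻¹ = k := by group
      rwa [e] at this
    obtain ⟨m, hm⟩ := hKN k hk hkN
    refine ⟨m, Subtype.ext ?_⟩
    change x ^ l ^ m = 1
    rw [← hkx, ← map_pow]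
    exact (QuotientGroup.eq_one_iff _).2 hm
  obtain ⟨P, hPN, hPp, hPi, hPK⟩ := lemma_x' hF (h.quot Z) (N.map π) (carter_map h hπ hK)
    (by rw [normalizer_eq_top]; exact le_top) hl1
  -- the preimage
  set P0 := P.comap π with hP0
  have hZP0 : Z ≤ P0 := by
    intro z hz
    rw [hP0, mem_comap]
    have : π z = 1 := (QuotientGroup.eq_one_iff _).2 hz
    rw [this]; exact one_mem _
  have hP0N : P0 ≤ N := by
    intro x hx
    obtain ⟨n, hn, hnx⟩ := hPN hx
    have h1 : n⁻¹ * x ∈ Z := QuotientGroup.eq.1 hnx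
    have := mul_mem hn (hZN h1)
    rwa [mul_inv_cancel_left] at this
  have hKP0 : K ≤ normalizer (P0 : Set G) := by
    intro k hk
    rw [mem_normalizer_iff]
    intro x
    have h1 := hPK (mem_map_of_mem π hk)
    rw [mem_normalizer_iff] at h1
    have h2 := h1 (π x)
    rw [hP0, mem_comap, mem_comap, map_mul, map_mul, map_inv]
    exact h2
  -- the elements of `l`-power order of `P0`
  have hmap : P0.map π = P := map_comap_eq_self_of_surjective hπ P
  obtain ⟨Q⟩ : Nonempty (Sylow l P0) := inferInstance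
  have hQn : (Q : Subgroup P0).Normal := by
    -- `P0 = Q Z`
    have hZ0 : ∀ z ∈ Z.subgroupOf P0, ∀ x : P0, z * x = x * z := by
      intro z hz x
      exact Subtype.ext (hZc z hz x (hP0N x.2))
    have hZn0 : (Z.subgroupOf P0).Normal := inferInstance
    have hq : IsPGroup l (P0 ⧸ Z.subgroupOf P0) := by
      intro x
      obtain ⟨x, rfl⟩ := QuotientGroup.mk_surjective x
      obtain ⟨m, hm⟩ := hPp ⟨π x, x.2⟩
      refine ⟨m, ?_⟩
      rw [← QuotientGroup.mk_pow, QuotientGroup.eq_one_iff, mem_subgroupOf]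
      have h3 := congrArg Subtype.val hm
      change (π x) ^ l ^ m = 1 at h3
      rw [← map_pow] at h3
      exact (QuotientGroup.eq_one_iff _).1 h3
    have hsup : (Q : Subgroup P0) ⊔ Z.subgroupOf P0 = ⊤ := by
      have h4 : (Q : Subgroup P0).index.Coprime l := (Nat.Prime.coprime_iff_not_dvd hl.out).2 Q.not_dvd_index |>.symm
      have h5 : ((Q : Subgroup P0) ⊔ Z.subgroupOf P0).index ∣ (Q : Subgroup P0).index := index_dvd_of_le le_sup_left
      have h6 : ((Q : Subgroup P0) ⊔ Z.subgroupOf P0).index ∣ (Z.subgroupOf P0).index := index_dvd_of_le le_sup_right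
      obtain ⟨m, hm⟩ := IsPGroup.iff_card.1 hq
      rw [← index_eq_card] at hm
      rw [hm] at h6
      have h7 : Nat.gcd (Q : Subgroup P0).index (l ^ m) = 1 := Nat.Coprime.pow_right m h4
      have h8 := Nat.dvd_gcd h5 h6
      rw [h7, Nat.dvd_one] at h8
      exact index_eq_one.1 h8
    rw [← normalizer_eq_top_iff, eq_top_iff, ← hsup]
    refine sup_le le_normalizer ?_
    intro z hz
    rw [mem_normalizer_iff]
    intro x
    rw [hZ0 z hz x, mul_inv_cancel_right]
  refine ⟨(Q : Subgroup P0).map P0.subtype, ?_, ?_, ?_, ?_⟩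
  · rintro _ ⟨x, -, rfl⟩
    exact hP0N x.2
  · exact Q.2.map _
  · have hle : (Q : Subgroup P0).map P0.subtype ≤ P0 := map_subtype_le _
    rw [← relIndex_mul_relIndex _ _ _ hle hP0N]
    refine Nat.Prime.not_dvd_mul hl.out ?_ ?_
    · rw [relIndex, subgroupOf, comap_map_eq_self_of_injective P0.subtype_injective]
      exact Q.not_dvd_index
    · have h8 : P0.relIndex N = P.relIndex (N.map π) := by
        rw [hP0, relIndex_comap]
      rw [h8]; exact hPi
  · -- characteristic
    have hch : (Q : Subgroup P0).Characteristic := Sylow.characteristic_of_normal Q hQn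
    intro k hk
    have hk0 := hKP0 hk
    let f : MulAut P0 := (MulAut.conjNormal (H := P0.subgroupOf (normalizer (P0 : Set G))) (⟨k, hk0⟩ : normalizer (P0 : Set G)) |> fun g =>
      ((subgroupOfEquivOfLe (le_normalizer (H := P0))).symm.trans g).trans (subgroupOfEquivOfLe (le_normalizer (H := P0))))
    have hf : ∀ x : P0, ((f x : P0) : G) = k * x * k⁻¹ := fun x => rfl
    rw [mem_normalizer_iff_map_conj_eq, map_map]
    have h9 : (Q : Subgroup P0).map f.toMonoidHom = Q := by
      rw [characteristic_iff_map_eq] at hch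
      exact hch f
    have h10 : ((MulAut.conj k : G ≃* G) : G →* G).comp P0.subtype = P0.subtype.comp f.toMonoidHom := by
      ext x
      exact (hf x).symm
    rw [h10, ← map_map, h9]

end Cfsg.Agent.H308.CA
end

-- part: H308/CA/TGrp
section
/-!
# Carter subgroups of groups with a `TA` structure
-/

set_option autoImplicit false
set_option linter.unusedSectionVars false
set_option linter.unusedVariables false

namespace Cfsg.Agent.H308.CA

open Subgroup Pointwise
open Cfsg.Agent.Solvable.Carter Cfsg.Agent.H18.Carter Cfsg.Agent.H381.Car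

universe u

/-- a subgroup contains `x` if it contains `x ^ r` and `x ^ a x⁻¹`, `r` prime, `a ≢ 1` -/
theorem mem_of_pow_mem {G : Type*} [Group G] {H : Subgroup G} {x : G} {r a : ℕ} (hr : r.Prime) (h1 : x ^ r ∈ H)
    (h2 : x ^ a * x⁻¹ ∈ H) (ha : ¬ a ≡ 1 [MOD r]) : x ∈ H := by
  have h3 : x ^ ((a : ℤ) - 1) ∈ H := by
    rw [zpow_sub, zpow_natCast, zpow_one]
    exact h2
  have h4 : IsCoprime (r : ℤ) ((a : ℤ) - 1) := by
    have hp : Prime (r : ℤ) := Nat.prime_iff_prime_int.1 hr
    refine (Prime.coprime_iff_not_dvd hp).2 fun hd => ha ?_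
    have h5 : (1 : ℤ) ≡ a [ZMOD r] := (Int.modEq_iff_dvd.2 hd)
    have h6 := (Int.natCast_modEq_iff (a := 1) (b := a) (n := r)).1 (by exact_mod_cast h5)
    exact h6.symm
  obtain ⟨u, v, huv⟩ := h4
  have h7 : x = (x ^ r) ^ u * (x ^ ((a : ℤ) - 1)) ^ v := by
    rw [← zpow_natCast x r, ← zpow_mul, ← zpow_mul, ← zpow_add]
    have e : (r : ℤ) * u + ((a : ℤ) - 1) * v = 1 := by linarith [huv]
    rw [e, zpow_one]
  rw [h7]
  exact mul_mem (zpow_mem h1 _) (zpow_mem h3 _)

namespace TA

variable {Γ : Type u} [Group Γ] {ι : Type} [Fintype ι] [DecidableEq ι] {E : Type} [CommRing E] [StarRing E]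
variable (T : TA Γ ι E)

/-- `x ^ r` scalar and `x ^ a ~ x` force `x` scalar -/
theorem sc_of_pow {x : SU ι E} {r a : ℕ} (hr : r.Prime) (h1 : Sc (mt x ^ r) 1) (h2 : Sc (mt x ^ a) (mt x))
    (ha : ¬ a ≡ 1 [MOD r]) : Sc (mt x) 1 := by
  refine mem_of_pow_mem (H := scal ι E) hr ?_ ?_ ha
  · rw [mem_scal, map_pow]; exact h1
  · rw [mem_scal, map_mul, map_pow, mt_inv]
    have := h2.mul (Sc.refl (star (mt x)))
    rwa [mt_mul_star] at this

/-- **(A1)** for `TA` -/
theorem a1 [Finite Γ] (hS : Sml Γ) {K : Subgroup Γ} (hK : IsCarter K) {x : SU ι E}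
    (hx : ∀ k ∈ K, Sc (T.ρ k (mt x)) (mt x)) {g : SU ι E} {a : ℕ} (h : Sc (mt (g * x * g⁻¹)) (mt x ^ a)) :
    Sc (mt x ^ a) (mt x) := by
  have hC : K ≤ T.stab (mt x) := fun k hk => hx k hk
  have hg : T.ρ (T.j g) (mt x) = mt (g * x * g⁻¹) := by rw [T.ρ_j, map_mul, map_mul, mt_inv]
  have h1 : (T.j g)⁻¹ ∈ T.stab (mt x) := by
    refine mem_of_conj_le hS hK hC ?_
    intro y hy
    rw [mem_cj, inv_inv] at hy
    have hk := hx _ hy
    -- `y = g⁻¹ k g`
    set k := T.j g * y * (T.j g)⁻¹ with hkdef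
    have hy' : y = (T.j g)⁻¹ * (k * T.j g) := by rw [hkdef]; group
    rw [mem_stab, hy', T.ρ_mul, T.ρ_mul, hg]
    have h2 : Sc (T.ρ k (mt (g * x * g⁻¹))) (mt (g * x * g⁻¹)) := by
      refine (T.ρ_sc k h).trans ?_
      rw [map_pow]
      exact (hk.pow a).trans h.symm
    have h3 := T.ρ_sc (T.j g)⁻¹ h2
    have h4 : T.ρ (T.j g)⁻¹ (mt (g * x * g⁻¹)) = mt x := by rw [← hg, T.ρ_inv]
    rwa [h4] at h3
  have h5 := inv_mem h1
  rw [inv_inv, j_stab] at h5
  exact h.symm.trans h5

theorem not_conj_pow [Finite Γ] (hS : Sml Γ) {K : Subgroup Γ} (hK : IsCarter K) {x : SU ι E}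
    (hx : ∀ k ∈ K, Sc (T.ρ k (mt x)) (mt x)) {r : ℕ} (hr : r.Prime) (hxr : Sc (mt x ^ r) 1) (hx1 : ¬ Sc (mt x) 1)
    {g : SU ι E} {a : ℕ} (h : Sc (mt (g * x * g⁻¹)) (mt x ^ a)) : a ≡ 1 [MOD r] := by
  by_contra ha
  exact hx1 (sc_of_pow hr hxr (T.a1 hS hK hx h) ha)

variable (hD : DetSt E)
include hD

/-- central elements modulo the scalars -/
theorem central_mod [Finite Γ] (hS : Sml Γ) {K : Subgroup Γ} (hK : IsCarter K) {r : ℕ} [hr : Fact r.Prime]
    (h : ∃ k ∈ K, k ∈ T.j.range ∧ k ∉ T.Z ∧ k ^ r ∈ T.Z) :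
    ∃ x : SU ι E, T.j x ∈ K ∧ ¬ Sc (mt x) 1 ∧ Sc (mt x ^ r) 1 ∧ ∀ k ∈ K, Sc (T.ρ k (mt x)) (mt x) := by
  have hZn := T.Z_normal hD
  have hNn := T.range_normal hD
  let π := QuotientGroup.mk' T.Z
  have hπ : Function.Surjective π := QuotientGroup.mk'_surjective _
  have hNn' : (T.j.range.map π).Normal := Subgroup.Normal.map inferInstance π hπ
  have hK' := carter_map hS hπ hK
  obtain ⟨k, hk, hkN, hkZ, hkr⟩ := h
  have ho : orderOf (π k) = r := by
    refine orderOf_eq_prime ?_ ?_
    · rw [← map_pow]; exact (QuotientGroup.eq_one_iff _).2 hkr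
    · intro h1; exact hkZ ((QuotientGroup.eq_one_iff _).1 h1)
  have hd : r ∣ Nat.card (K.map π ⊓ T.j.range.map π : Subgroup (Γ ⧸ T.Z)) := by
    have h1 := orderOf_dvd_natCard (⟨π k, ⟨mem_map_of_mem π hk, mem_map_of_mem π hkN⟩⟩ :
      (K.map π ⊓ T.j.range.map π : Subgroup (Γ ⧸ T.Z)))
    rw [← Subgroup.orderOf_coe] at h1
    rwa [show orderOf (π k) = r from ho] at h1
  obtain ⟨z, hzN, hzK, hzo, hzc⟩ := exists_central hK'.1 hd
  obtain ⟨k', hk', rfl⟩ := hzK
  obtain ⟨_, ⟨n, rfl⟩, hn⟩ := hzN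
  have h2 : k'⁻¹ * T.j n ∈ T.Z := QuotientGroup.eq.1 hn.symm
  have hk'N : k' ∈ T.j.range := by
    have h3 := mul_mem (⟨n, rfl⟩ : T.j n ∈ T.j.range) (inv_mem (T.Z_le h2))
    have e : T.j n * (k'⁻¹ * T.j n)⁻¹ = k' := by group
    rwa [e] at h3
  obtain ⟨x, rfl⟩ := hk'N
  refine ⟨x, hk', ?_, ?_, ?_⟩
  · intro hs
    have h4 : π (T.j x) = 1 := (QuotientGroup.eq_one_iff _).2 (T.j_mem_Z.2 hs)
    rw [h4, orderOf_one] at hzo
    exact hr.out.one_lt.ne hzo
  · have h5 : π (T.j x) ^ r = 1 := by rw [← hzo]; exact pow_orderOf_eq_one _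
    rw [← map_pow, ← map_pow] at h5
    have h6 : T.j (x ^ r) ∈ T.Z := (QuotientGroup.eq_one_iff _).1 h5
    have h7 := T.j_mem_Z.1 h6
    rwa [map_pow] at h7
  · intro k hk
    have h8 := mem_centralizer_singleton_iff.1 (hzc (mem_map_of_mem π hk))
    -- `k (j x) k⁻¹ (j x)⁻¹ ∈ Z`
    have h9 : T.j (T.act hD k x * x⁻¹) ∈ T.Z := by
      rw [map_mul, ← T.conj_eq hD, map_inv]
      refine (QuotientGroup.eq_one_iff _).1 ?_
      change π (k * T.j x * k⁻¹ * (T.j x)⁻¹) = 1
      rw [map_mul, map_mul, map_mul, map_inv, map_inv, h8]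
      group
    have h10 := T.j_mem_Z.1 h9
    rw [map_mul, T.mt_act, mt_inv] at h10
    have h11 := h10.mul (Sc.refl (mt x))
    rwa [mul_assoc, star_mt_mul, mul_one, one_mul] at h11

/-- **Lemma X** for `TA` -/
theorem lemma_x_ta [Finite Γ] (hF : Fpf.{u}) (hS : Sml Γ) {K : Subgroup Γ} (hK : IsCarter K) {l : ℕ}
    [hl : Fact l.Prime] (h : ∀ r : ℕ, r.Prime → r ≠ l → ¬ ∃ k ∈ K, k ∈ T.j.range ∧ k ∉ T.Z ∧ k ^ r ∈ T.Z) :
    ∃ P : Subgroup Γ, P ≤ T.j.range ∧ IsPGroup l P ∧ ¬ l ∣ P.relIndex T.j.range ∧ K ≤ normalizer (P : Set Γ) := by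
  have hZn := T.Z_normal hD
  have hNn := T.range_normal hD
  refine lemma_x_mod hF hS T.j.range T.Z T.Z_le (fun z hz n hn => T.Z_comm hz hn) hK ?_
  intro k hk hkN
  -- the order modulo `Z`
  set o := orderOf (QuotientGroup.mk' T.Z k) with ho
  have hopos : 0 < o := orderOf_pos _
  have ho1 : k ^ o ∈ T.Z := by
    have : (QuotientGroup.mk' T.Z k) ^ o = 1 := pow_orderOf_eq_one _
    rw [← map_pow] at this
    exact (QuotientGroup.eq_one_iff _).1 this
  obtain ⟨n, hn⟩ : ∃ n, o = l ^ n := by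
    refine ⟨_, Nat.eq_prime_pow_of_unique_prime_dvd hopos.ne' ?_⟩
    intro r hr hd
    by_contra hne
    obtain ⟨m, hm⟩ := hd
    refine h r hr hne ⟨k ^ m, pow_mem hk m, pow_mem hkN m, ?_, ?_⟩
    · intro h1
      have h2 : (QuotientGroup.mk' T.Z k) ^ m = 1 := by
        rw [← map_pow]; exact (QuotientGroup.eq_one_iff _).2 h1
      have h3 := Nat.le_of_dvd (by
        rcases Nat.eq_zero_or_pos m with h0 | h0
        · rw [h0, mul_zero] at hm; omega
        · exact h0) (orderOf_dvd_of_pow_eq_one h2)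
      rw [← ho, hm] at h3
      have := hr.two_le
      have hm0 : 0 < m := by
        rcases Nat.eq_zero_or_pos m with h0 | h0
        · rw [h0, mul_zero] at hm; omega
        · exact h0
      nlinarith
    · rw [← pow_mul, mul_comm m r, ← hm]; exact ho1
  exact ⟨n, by rw [← hn]; exact ho1⟩

/-- **swap**: two orthogonal fixed idempotents of the same rank -/
theorem rk_ne [Finite Γ] (hfam : FamSt E) (hS : Sml Γ) {K : Subgroup Γ} (hK : IsCarter K) {e f : Matrix ι ι E}
    (he : IsP e) (hf : IsP f) (hef : e * f = 0) (hKe : ∀ k ∈ K, T.ρ k e = e) (hKf : ∀ k ∈ K, T.ρ k f = f)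
    (hr : rk e = rk f) : e = f := by
  have hNn := T.range_normal hD
  have hfe : f * e = 0 := by
    have := congrArg star hef
    rwa [star_mul, he.sym, hf.sym, star_zero] at this
  -- the two families
  obtain ⟨g, hg⟩ := hfam ι (Fin 3) ![e, f, 1 - e - f] ![f, e, 1 - e - f] (by
      intro i
      fin_cases i
      · exact he
      · exact hf
      · refine ⟨?_, ?_⟩
        · change (1 - e - f) * (1 - e - f) = 1 - e - f
          simp only [sub_mul, mul_sub, one_mul, mul_one, he.idem, hf.idem, hef, hfe]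
          abel
        · change star (1 - e - f) = 1 - e - f
          rw [star_sub, star_sub, star_one, he.sym, hf.sym]) (by
      intro i j hij
      fin_cases i <;> fin_cases j <;> first | exact absurd rfl hij | skip
      · exact hef
      · change e * (1 - e - f) = 0
        rw [mul_sub, mul_sub, mul_one, he.idem, hef]; abel
      · exact hfe
      · change f * (1 - e - f) = 0
        rw [mul_sub, mul_sub, mul_one, hf.idem, hfe]; abel
      · change (1 - e - f) * e = 0
        rw [sub_mul, sub_mul, one_mul, he.idem, hfe]; abel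
      · change (1 - e - f) * f = 0
        rw [sub_mul, sub_mul, one_mul, hf.idem, hef]; abel) (by
      rw [Fin.sum_univ_three]
      change e + f + (1 - e - f) = 1
      abel) (by
      intro i
      fin_cases i
      · exact hf
      · exact he
      · refine ⟨?_, ?_⟩
        · change (1 - e - f) * (1 - e - f) = 1 - e - f
          simp only [sub_mul, mul_sub, one_mul, mul_one, he.idem, hf.idem, hef, hfe]
          abel
        · change star (1 - e - f) = 1 - e - f
          rw [star_sub, star_sub, star_one, he.sym, hf.sym]) (by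
      intro i j hij
      fin_cases i <;> fin_cases j <;> first | exact absurd rfl hij | skip
      · exact hfe
      · change f * (1 - e - f) = 0
        rw [mul_sub, mul_sub, mul_one, hf.idem, hfe]; abel
      · exact hef
      · change e * (1 - e - f) = 0
        rw [mul_sub, mul_sub, mul_one, he.idem, hef]; abel
      · change (1 - e - f) * f = 0
        rw [sub_mul, sub_mul, one_mul, hf.idem, hef]; abel
      · change (1 - e - f) * e = 0
        rw [sub_mul, sub_mul, one_mul, he.idem, hfe]; abel) (by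
      rw [Fin.sum_univ_three]
      change f + e + (1 - e - f) = 1
      abel) (by
      intro i
      fin_cases i
      · exact hr
      · exact hr.symm
      · rfl)
  have hge : T.ρ (T.j g) e = f := by rw [T.ρ_j]; exact hg 0
  have hgf : T.ρ (T.j g) f = e := by rw [T.ρ_j]; exact hg 1
  have hge' : T.ρ (T.j g)⁻¹ e = f := by rw [← hgf, T.ρ_inv]
  have hgf' : T.ρ (T.j g)⁻¹ f = e := by rw [← hge, T.ρ_inv]
  set X : Subgroup Γ := T.j.range ⊓ T.fixer e ⊓ T.fixer f with hX
  have hmem : ∀ {y : Γ}, y ∈ X ↔ (y ∈ T.j.range ∧ T.ρ y e = e) ∧ T.ρ y f = f := fun {y} => Iff.rfl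
  have key : ∀ y ∈ X, T.j g * y * (T.j g)⁻¹ ∈ X := by
    intro y hy
    rw [hmem] at hy ⊢
    refine ⟨⟨hNn.conj_mem _ hy.1.1 _, ?_⟩, ?_⟩
    · rw [T.ρ_mul, T.ρ_mul, hge', hy.2, hgf]
    · rw [T.ρ_mul, T.ρ_mul, hgf', hy.1.2, hge]
  have key' : ∀ y ∈ X, (T.j g)⁻¹ * y * T.j g ∈ X := by
    intro y hy
    rw [hmem] at hy ⊢
    refine ⟨⟨?_, ?_⟩, ?_⟩
    · have := hNn.conj_mem _ hy.1.1 (T.j g)⁻¹
      rwa [inv_inv] at this
    · rw [T.ρ_mul, T.ρ_mul, hge, hy.2, hgf']
    · rw [T.ρ_mul, T.ρ_mul, hgf, hy.1.2, hge']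
  have hs : T.j g ∈ K ⊔ X := by
    refine w_of_sml hS hK ?_ ?_
    · rw [mem_normalizer_iff]
      intro y
      refine ⟨key y, fun hy => ?_⟩
      have := key' _ hy
      have e1 : (T.j g)⁻¹ * (T.j g * y * (T.j g)⁻¹) * T.j g = y := by group
      rwa [e1] at this
    · intro k hk
      rw [hmem]
      have hk' := inv_mem hk
      refine ⟨⟨?_, ?_⟩, ?_⟩
      · have h1 : k * (T.j g)⁻¹ * k⁻¹ ∈ T.j.range := hNn.conj_mem _ (inv_mem ⟨g, rfl⟩) _
        have h2 := mul_mem (⟨g, rfl⟩ : T.j g ∈ T.j.range) h1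
        have e1 : T.j g * (k * (T.j g)⁻¹ * k⁻¹) = T.j g * k * (T.j g)⁻¹ * k⁻¹ := by group
        rwa [e1] at h2
      · rw [T.ρ_mul, T.ρ_mul, T.ρ_mul, hKe _ hk', hge', hKf _ hk, hgf]
      · rw [T.ρ_mul, T.ρ_mul, T.ρ_mul, hKf _ hk', hgf', hKe _ hk, hge]
  have hle : K ⊔ X ≤ T.fixer e := sup_le (fun k hk => hKe k hk) (fun y hy => (hmem.1 hy).1.2)
  have h1 := hle hs
  rw [mem_fixer, hge] at h1
  exact h1.symm

end TA

end Cfsg.Agent.H308.CA
end

private theorem dce_9e3f2cc0cbfd : _root_.True := by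
  try have : _root_.True := by simp only [_root_.Cfsg.Agent.H308.CA.pm.eq_1]
  try have : _root_.True := by simp only [_root_.Cfsg.Agent.H308.CA.dg.congr_simp]
  try have : _root_.True := by simp only [_root_.Cfsg.Agent.H308.CA.dg.eq_1]
  try have : _root_.True := by simp only [_root_.Cfsg.Agent.H308.CA.rk.eq_1]
  exact _root_.True.intro
end

-- part: H308/CA/Step_mg
section
prune_inst 0x1500000452210002000000090201c42b20004b0000b00000021004005880c0000828660a00004164220000500350028134c00000200000000000400011d01800080000000000000820086001180000000000000000000000000000000010000000000000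
set_option linter.all false
open scoped Cfsg.Agent.FastGrp

-- part: H35/CA/Red
section
/-!
# Reduction to corners and to centralisers (S3852, [CA13]; helper35)

`exists_red`: an injective star homomorphism `φ` (not necessarily unital) of matrix rings whose image is invariant under
`K` gives a `TA` of the smaller ring, for a group containing `K`.  `exists_corner`: the corner of a symmetric idempotent.
-/

set_option autoImplicit false
set_option linter.unusedSectionVars false

namespace Cfsg.Agent.H35.CA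

open Matrix Cfsg.Agent.H308.CA

universe u

local notation "μ" => Cfsg.Agent.H308.CA.mt

section emb

variable {ι ι' : Type} [Fintype ι] [DecidableEq ι] [Fintype ι'] [DecidableEq ι'] {E E' : Type} [CommRing E]
  [StarRing E] [CommRing E'] [StarRing E']

theorem emb_unit (φ : Matrix ι' ι' E' →ₙ+* Matrix ι ι E) (hst : ∀ a, φ (star a) = star (φ a)) (u : SU ι' E') :
    star (φ (μ u) + (1 - φ 1)) * (φ (μ u) + (1 - φ 1)) = 1 := by
  have h1 : star (φ 1) = φ 1 := by rw [← hst, star_one]
  have e1 : φ (star (μ u)) * φ (μ u) = φ 1 := by rw [← map_mul, star_mt_mul]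
  have e2 : φ (star (μ u)) * (1 - φ 1) = 0 := by rw [mul_sub, mul_one, ← map_mul, mul_one, sub_self]
  have e3 : (1 - φ 1) * φ (μ u) = 0 := by rw [sub_mul, one_mul, ← map_mul, one_mul, sub_self]
  have e4 : (1 - φ 1) * (1 - φ 1) = 1 - φ 1 := by
    rw [mul_sub, mul_one, sub_mul, one_mul, ← map_mul, one_mul, sub_self, sub_zero]
  rw [star_add, star_sub, star_one, h1, ← hst, add_mul, mul_add, mul_add, e1, e2, e3, e4]
  abel

/-- the embedding of the smaller unitary group -/
def emb (φ : Matrix ι' ι' E' →ₙ+* Matrix ι ι E) (hst : ∀ a, φ (star a) = star (φ a))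
    (hdet : ∀ u : SU ι' E', (φ (μ u) + (1 - φ 1)).det = 1) : SU ι' E' →* SU ι E where
  toFun u := mkSU (φ (μ u) + (1 - φ 1)) (emb_unit φ hst u) (hdet u)
  map_one' := mt_injective (by rw [mt_mkSU, map_one μ, map_one μ, add_sub_cancel])
  map_mul' u v := mt_injective (by
    have e2 : φ (μ u) * (1 - φ 1) = 0 := by rw [mul_sub, mul_one, ← map_mul, mul_one, sub_self]
    have e3 : (1 - φ 1) * φ (μ v) = 0 := by rw [sub_mul, one_mul, ← map_mul, one_mul, sub_self]
    have e4 : (1 - φ 1) * (1 - φ 1) = 1 - φ 1 := by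
      rw [mul_sub, mul_one, sub_mul, one_mul, ← map_mul, one_mul, sub_self, sub_zero]
    rw [map_mul μ (mkSU _ _ _), mt_mkSU, mt_mkSU, mt_mkSU, map_mul μ u v, add_mul, mul_add, mul_add, e2, e3, e4,
      map_mul]
    abel)

theorem mt_emb (φ : Matrix ι' ι' E' →ₙ+* Matrix ι ι E) (hst : ∀ a, φ (star a) = star (φ a))
    (hdet : ∀ u : SU ι' E', (φ (μ u) + (1 - φ 1)).det = 1) (u : SU ι' E') :
    μ (emb φ hst hdet u) = φ (μ u) + (1 - φ 1) := rfl

end emb

/-- the elements leaving the image of `φ` invariant -/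
def inv {Γ : Type u} [Group Γ] {ι ι' : Type} [Fintype ι] [DecidableEq ι] [Fintype ι'] [DecidableEq ι'] {E E' : Type}
    [CommRing E] [StarRing E] [CommRing E'] [StarRing E'] (T : TA Γ ι E) (φ : Matrix ι' ι' E' →ₙ+* Matrix ι ι E) :
    Subgroup Γ where
  carrier := {g | (∀ a, ∃ b, T.ρ g (φ a) = φ b) ∧ ∀ a, ∃ b, T.ρ g⁻¹ (φ a) = φ b}
  one_mem' := ⟨fun a => ⟨a, T.ρ_one _⟩, fun a => ⟨a, by rw [inv_one]; exact T.ρ_one _⟩⟩
  mul_mem' := by
    rintro g h ⟨g1, g2⟩ ⟨h1, h2⟩
    refine ⟨fun a => ?_, fun a => ?_⟩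
    · obtain ⟨b, hb⟩ := h1 a
      obtain ⟨c, hc⟩ := g1 b
      exact ⟨c, by rw [T.ρ_mul, hb, hc]⟩
    · obtain ⟨b, hb⟩ := g2 a
      obtain ⟨c, hc⟩ := h2 b
      exact ⟨c, by rw [_root_.mul_inv_rev, T.ρ_mul, hb, hc]⟩
  inv_mem' := by
    rintro g ⟨g1, g2⟩
    exact ⟨g2, by rw [inv_inv]; exact g1⟩

section red

variable {Γ : Type u} [Group Γ] {ι ι' : Type} [Fintype ι] [DecidableEq ι] [Fintype ι'] [DecidableEq ι'] {E E' : Type}
    [CommRing E] [StarRing E] [CommRing E'] [StarRing E']

/-- **[CA13] (a)** -/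
theorem exists_red (T : TA Γ ι E) {K : Subgroup Γ} (φ : Matrix ι' ι' E' →ₙ+* Matrix ι ι E)
    (hinj : Function.Injective φ) (hst : ∀ a, φ (star a) = star (φ a))
    (hdet : ∀ u : SU ι' E', (φ (μ u) + (1 - φ 1)).det = 1) (hK : ∀ k ∈ K, ∀ a, ∃ b, T.ρ k (φ a) = φ b) :
    ∃ (M : Subgroup Γ) (T' : TA ↥M ι' E'), K ≤ M ∧ (∀ (m : M) a, φ (T'.ρ m a) = T.ρ m (φ a)) ∧
      ∀ u : SU ι' E', ∃ v : SU ι E, μ v = φ (μ u) + (1 - φ 1) ∧ (T'.j u : Γ) = T.j v := by
  classical
  have hKi : K ≤ inv T φ := fun k hk => ⟨hK k hk, hK k⁻¹ (K.inv_mem hk)⟩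
  -- the inner elements
  have hin : ∀ (u : SU ι' E') (a : Matrix ι' ι' E'),
      T.ρ (T.j (emb φ hst hdet u)) (φ a) = φ (μ u * a * star (μ u)) := by
    intro u a
    have h1 : star (φ 1) = φ 1 := by rw [← hst, star_one]
    have e3 : (1 - φ 1) * φ a = 0 := by rw [sub_mul, one_mul, ← map_mul, one_mul, sub_self]
    have e4 : φ (μ u * a) * (1 - φ 1) = 0 := by rw [mul_sub, mul_one, ← map_mul, mul_one, sub_self]
    rw [T.ρ_j, mt_emb, star_add, star_sub, star_one, h1, ← hst, add_mul, e3, add_zero, ← map_mul, mul_add, e4,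
      add_zero, ← map_mul]
  have hji : (T.j.comp (emb φ hst hdet)).range ≤ inv T φ := by
    rintro _ ⟨u, rfl⟩
    refine ⟨fun a => ⟨_, hin u a⟩, fun a => ⟨μ u⁻¹ * a * star (μ u⁻¹), ?_⟩⟩
    rw [← map_inv]
    exact hin u⁻¹ a
  have hM : K ⊔ (T.j.comp (emb φ hst hdet)).range ≤ inv T φ := sup_le hKi hji
  choose f hf using fun (m : ↥(K ⊔ (T.j.comp (emb φ hst hdet)).range)) => (hM m.2).1
  have hf1 : ∀ (m : ↥(K ⊔ (T.j.comp (emb φ hst hdet)).range)) a b, φ b = T.ρ (m : Γ) (φ a) → f m a = b := fun m a b h => hinj (by rw [h, hf])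
  have hf2 : ∀ m a, f m⁻¹ (f m a) = a := fun m a => hf1 _ _ _ (by
    rw [← hf, Subgroup.coe_inv, T.ρ_inv])
  let r : ↥(K ⊔ (T.j.comp (emb φ hst hdet)).range) → RingAut (Matrix ι' ι' E') := fun m =>
    { toFun := f m
      invFun := f m⁻¹
      left_inv := hf2 m
      right_inv := fun a => by
        have := hf2 m⁻¹ a
        rwa [inv_inv] at this
      map_mul' := fun a b => hf1 _ _ _ (by rw [map_mul, map_mul, map_mul, hf, hf])
      map_add' := fun a b => hf1 _ _ _ (by rw [map_add, map_add, map_add, hf, hf]) }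
  have hr : ∀ m a, φ (r m a) = T.ρ (m : Γ) (φ a) := fun m a => (hf m a).symm
  have hr1 : ∀ m : ↥(K ⊔ (T.j.comp (emb φ hst hdet)).range), T.ρ (m : Γ) (φ 1) = φ 1 := by
    intro m
    rw [← hr, map_one]
  refine ⟨K ⊔ (T.j.comp (emb φ hst hdet)).range,
    { ρ := MonoidHom.mk' r (fun m n => RingEquiv.ext fun a => hinj (by
        rw [hr, Subgroup.coe_mul, T.ρ_mul, RingAut.mul_apply, hr, hr]))
      st := fun m a => hinj (by
        rw [MonoidHom.mk'_apply, hr, hst, T.st, hst, hr])
      j := (T.j.comp (emb φ hst hdet)).codRestrict _ (fun u => le_sup_right (a := K) ⟨u, rfl⟩)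
      ρ_j := fun u a => hinj (by
        rw [MonoidHom.mk'_apply, hr]
        exact hin u a)
      conj_j := fun m u v h => Subtype.ext (by
        refine T.conj_j m (emb φ hst hdet u) (emb φ hst hdet v) ?_
        rw [mt_emb, mt_emb, map_add, map_sub, map_one (T.ρ (m : Γ)), hr1, h, MonoidHom.mk'_apply, hr]) }, le_sup_left, hr, ?_⟩
  intro u
  exact ⟨emb φ hst hdet u, rfl, rfl⟩

end red

section corner

variable {ι : Type} [Fintype ι] [DecidableEq ι] {E : Type} [CommRing E] [StarRing E]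

variable (p : ι → Prop) [DecidablePred p]

/-- the block of a set of coordinates -/
def blk (a : Matrix {x // p x} {x // p x} E) : Matrix ι ι E :=
  (fromBlocks a 0 0 (0 : Matrix {x // ¬ p x} {x // ¬ p x} E)).submatrix (Equiv.sumCompl p).symm
    (Equiv.sumCompl p).symm

variable {p}

theorem blk_mul (a b : Matrix {x // p x} {x // p x} E) : blk p (a * b) = blk p a * blk p b := by
  rw [blk, blk, blk, submatrix_mul_equiv, fromBlocks_multiply]
  simp only [_root_.Matrix.mul_zero, _root_.add_zero, _root_.Matrix.zero_mul, _root_.MulZeroClass.mul_zero]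

theorem blk_add (a b : Matrix {x // p x} {x // p x} E) : blk p (a + b) = blk p a + blk p b := by
  change _ = (fromBlocks a 0 0 (0 : Matrix {x // ¬ p x} {x // ¬ p x} E) + fromBlocks b 0 0 0).submatrix
    (Equiv.sumCompl p).symm (Equiv.sumCompl p).symm
  rw [blk, fromBlocks_add]
  simp

theorem blk_zero : blk p (0 : Matrix {x // p x} {x // p x} E) = 0 := by
  rw [blk, fromBlocks_zero, submatrix_zero]; rfl

theorem blk_star (a : Matrix {x // p x} {x // p x} E) : blk p (star a) = star (blk p a) := by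
  rw [blk, blk, star_eq_conjTranspose, star_eq_conjTranspose, conjTranspose_submatrix, fromBlocks_conjTranspose,
    conjTranspose_zero, conjTranspose_zero, conjTranspose_zero]

theorem blk_sub_eq (b : Matrix ι ι E) (h : dg p * b * dg p = b) : ∃ a, blk p a = b := by
  refine ⟨b.submatrix Subtype.val Subtype.val, ?_⟩
  have h1 : ∀ i j, b i j = (if p i then 1 else 0) * b i j * (if p j then 1 else 0) := by
    intro i j
    conv_lhs => rw [← h]
    rw [dg, mul_diagonal, diagonal_mul]
  ext i j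
  rw [blk, submatrix_apply]
  by_cases hi : p i
  · rw [Equiv.sumCompl_symm_apply_of_pos hi]
    by_cases hj : p j
    · rw [Equiv.sumCompl_symm_apply_of_pos hj, fromBlocks_apply₁₁, submatrix_apply]
    · rw [Equiv.sumCompl_symm_apply_of_neg hj, fromBlocks_apply₁₂, h1, if_neg hj, mul_zero, Matrix.zero_apply]
  · rw [Equiv.sumCompl_symm_apply_of_neg hi]
    by_cases hj : p j
    · rw [Equiv.sumCompl_symm_apply_of_pos hj, fromBlocks_apply₂₁, h1, if_neg hi, zero_mul, zero_mul, Matrix.zero_apply]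
    · rw [Equiv.sumCompl_symm_apply_of_neg hj, fromBlocks_apply₂₂, h1, if_neg hj, mul_zero, Matrix.zero_apply]

theorem blk_one : blk p (1 : Matrix {x // p x} {x // p x} E) = dg p := by
  ext i j
  rw [blk, submatrix_apply, dg]
  by_cases hi : p i
  · rw [Equiv.sumCompl_symm_apply_of_pos hi]
    by_cases hj : p j
    · rw [Equiv.sumCompl_symm_apply_of_pos hj, fromBlocks_apply₁₁, one_apply, diagonal_apply, if_pos hi]
      simp only [Subtype.mk.injEq]
    · rw [Equiv.sumCompl_symm_apply_of_neg hj, fromBlocks_apply₁₂, Matrix.zero_apply, diagonal_apply_ne]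
      rintro rfl
      exact hj hi
  · rw [Equiv.sumCompl_symm_apply_of_neg hi, diagonal_apply, if_neg hi, ite_self]
    by_cases hj : p j
    · rw [Equiv.sumCompl_symm_apply_of_pos hj, fromBlocks_apply₂₁, Matrix.zero_apply]
    · rw [Equiv.sumCompl_symm_apply_of_neg hj, fromBlocks_apply₂₂, Matrix.zero_apply]

theorem blk_det (a : Matrix {x // p x} {x // p x} E) : (blk p a + (1 - blk p 1)).det = a.det := by
  have h1 : (1 : Matrix ι ι E) = (fromBlocks 1 0 0 (1 : Matrix {x // ¬ p x} {x // ¬ p x} E)).submatrix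
      (Equiv.sumCompl p).symm (Equiv.sumCompl p).symm := by
    rw [fromBlocks_one, submatrix_one_equiv]
  rw [h1]
  change ((fromBlocks a 0 0 (0 : Matrix {x // ¬ p x} {x // ¬ p x} E) + (fromBlocks 1 0 0 1 -
    fromBlocks 1 0 0 0)).submatrix (Equiv.sumCompl p).symm (Equiv.sumCompl p).symm).det = _
  rw [det_submatrix_equiv_self, sub_eq_add_neg, fromBlocks_neg, fromBlocks_add, fromBlocks_add]
  simp only [_root_.add_neg_cancel, _root_.add_zero, _root_.neg_zero, _root_.zero_add, _root_.Matrix.det_fromBlocks_one₂₂, _root_.Matrix.mul_zero, _root_.sub_zero]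

theorem blk_mulVec (a : Matrix {x // p x} {x // p x} E) (v : ι → E) :
    blk p a *ᵥ v = v ↔ (a *ᵥ (fun x => v x.1) = fun x => v x.1) ∧ ∀ x, ¬ p x → v x = 0 := by
  have h1 : ∀ x (hx : p x), (blk p a *ᵥ v) x = (a *ᵥ (fun x => v x.1)) ⟨x, hx⟩ := by
    intro x hx
    rw [mulVec, mulVec, dotProduct, dotProduct, ← (Equiv.sumCompl p).sum_comp, Fintype.sum_sum_type]
    simp only [blk, submatrix_apply, Equiv.symm_apply_apply, Equiv.sumCompl_symm_apply_of_pos hx, fromBlocks_apply₁₁,
      fromBlocks_apply₁₂, Matrix.zero_apply, zero_mul, Finset.sum_const_zero, add_zero]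
    simp only [Equiv.sumCompl_apply_inl]
  have h2 : ∀ x (hx : ¬ p x), (blk p a *ᵥ v) x = 0 := by
    intro x hx
    rw [mulVec, dotProduct, ← (Equiv.sumCompl p).sum_comp, Fintype.sum_sum_type]
    simp only [blk, submatrix_apply, Equiv.symm_apply_apply, Equiv.sumCompl_symm_apply_of_neg hx, fromBlocks_apply₂₁,
      fromBlocks_apply₂₂, Matrix.zero_apply, zero_mul, Finset.sum_const_zero, add_zero]
  constructor
  · intro h
    refine ⟨funext fun x => ?_, fun x hx => ?_⟩
    · rw [← h1 x.1 x.2, h]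
    · rw [← h, h2 x hx]
  · rintro ⟨h3, h4⟩
    funext x
    by_cases hx : p x
    · rw [h1 x hx, h3]
    · rw [h2 x hx, h4 x hx]

/-- the corner embedding -/
def cor (u : SU ι E) : Matrix {x // p x} {x // p x} E →ₙ+* Matrix ι ι E where
  toFun a := star (μ u) * blk p a * μ u
  map_mul' a b := by
    rw [blk_mul]
    calc star (μ u) * (blk p a * blk p b) * μ u = star (μ u) * (blk p a * (1 * blk p b)) * μ u := by rw [one_mul]
      _ = _ := by rw [← mt_mul_star u]; simp only [mul_assoc]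
  map_zero' := by rw [blk_zero, mul_zero, zero_mul]
  map_add' a b := by rw [blk_add, mul_add, add_mul]

theorem cor_apply (u : SU ι E) (a : Matrix {x // p x} {x // p x} E) :
    cor u a = star (μ u) * blk p a * μ u := rfl

theorem cor_card (u : SU ι E) (a : Matrix {x // p x} {x // p x} E) :
    Nat.card {v : ι → E // cor u a *ᵥ v = v} = Nat.card {v : {x // p x} → E // a *ᵥ v = v} := by
  have e1 : ∀ v : ι → E, cor u a *ᵥ v = v ↔ blk p a *ᵥ (μ u *ᵥ v) = μ u *ᵥ v := by
    intro v
    constructor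
    · intro h
      have h1 := congrArg (fun w => μ u *ᵥ w) h
      simp only [cor_apply, mulVec_mulVec] at h1
      rw [← mul_assoc, ← mul_assoc, mt_mul_star, one_mul, ← mulVec_mulVec] at h1
      exact h1
    · intro h
      rw [cor_apply, ← mulVec_mulVec, ← mulVec_mulVec, h, mulVec_mulVec, star_mt_mul, one_mulVec]
  refine Nat.card_congr ⟨fun v => ⟨fun x => (μ u *ᵥ v.1) x.1, ((blk_mulVec a _).1 ((e1 _).1 v.2)).1⟩,
    fun w => ⟨star (μ u) *ᵥ (fun x => if h : p x then w.1 ⟨x, h⟩ else 0), ?_⟩, ?_, ?_⟩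
  · have e2 : ∀ f : ι → E, μ u *ᵥ (star (μ u) *ᵥ f) = f := fun f => by
      rw [mulVec_mulVec, mt_mul_star, one_mulVec]
    rw [e1, e2, blk_mulVec]
    have h1 : (fun x : {x // p x} => (fun x => if h : p x then w.1 ⟨x, h⟩ else 0) x.1) = w.1 := by
      funext x
      exact dif_pos x.2
    rw [h1]
    exact ⟨w.2, fun x hx => dif_neg hx⟩
  · intro v
    apply Subtype.ext
    have h1 := ((blk_mulVec a _).1 ((e1 _).1 v.2)).2
    have h2 : (fun x => if h : p x then (μ u *ᵥ v.1) x else 0) = μ u *ᵥ v.1 := by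
      funext x
      by_cases hx : p x
      · rw [dif_pos hx]
      · rw [dif_neg hx, h1 x hx]
    change star (μ u) *ᵥ (fun x => if h : p x then (μ u *ᵥ v.1) x else 0) = v.1
    rw [h2, mulVec_mulVec, star_mt_mul, one_mulVec]
  · intro w
    apply Subtype.ext
    funext x
    change (μ u *ᵥ (star (μ u) *ᵥ (fun x => if h : p x then w.1 ⟨x, h⟩ else 0))) x.1 = w.1 x
    rw [mulVec_mulVec, mt_mul_star, one_mulVec]
    exact dif_pos x.2

theorem blk_injective : Function.Injective (blk p : Matrix {x // p x} {x // p x} E → Matrix ι ι E) := by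
  intro a b h
  ext i j
  have h3 := congrFun (congrFun h i.1) j.1
  rwa [blk, blk, submatrix_apply, submatrix_apply, Equiv.sumCompl_symm_apply_of_pos i.2,
      Equiv.sumCompl_symm_apply_of_pos j.2, fromBlocks_apply₁₁, fromBlocks_apply₁₁] at h3

theorem conj_cancel (u : SU ι E) (a : Matrix ι ι E) : μ u * (star (μ u) * a * μ u) * star (μ u) = a := by
  rw [mul_assoc (star (μ u)), ← mul_assoc (μ u), mt_mul_star, one_mul, mul_assoc, mt_mul_star, mul_one]

theorem conj_cancel' (u : SU ι E) (a : Matrix ι ι E) : star (μ u) * (μ u * a * star (μ u)) * μ u = a := by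
  rw [mul_assoc (μ u), ← mul_assoc (star (μ u)), star_mt_mul, one_mul, mul_assoc, star_mt_mul, mul_one]

theorem cor_injective (u : SU ι E) : Function.Injective (cor (p := p) u) := by
  intro a b hab
  apply blk_injective
  rw [cor_apply, cor_apply] at hab
  rw [← conj_cancel u (blk p a), hab, conj_cancel]

theorem cor_star (u : SU ι E) (a : Matrix {x // p x} {x // p x} E) : cor u (star a) = star (cor u a) := by
  rw [cor_apply, cor_apply, blk_star, star_mul, star_mul, star_star, mul_assoc]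

theorem cor_one (u : SU ι E) : cor (p := p) u 1 = star (μ u) * dg p * μ u := by
  rw [cor_apply, blk_one]

theorem cor_range (u : SU ι E) (b : Matrix ι ι E)
    (hb : (star (μ u) * dg p * μ u) * b * (star (μ u) * dg p * μ u) = b) :
    ∃ a : Matrix {x // p x} {x // p x} E, b = cor u a := by
  obtain ⟨a, ha⟩ := blk_sub_eq (p := p) (μ u * b * star (μ u)) (by
    conv_rhs => rw [← hb]
    simp only [mul_assoc]
    rw [mt_mul_star, mul_one, ← mul_assoc (μ u) (star (μ u)), mt_mul_star, one_mul])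
  refine ⟨a, ?_⟩
  rw [cor_apply, ha, conj_cancel']

theorem cor_det (u : SU ι E) (w : SU {x // p x} E) : (cor u (μ w) + (1 - cor (p := p) u 1)).det = 1 := by
  have e1 : cor u (μ w) + (1 - cor (p := p) u 1) = star (μ u) * (blk p (μ w) + (1 - blk p 1)) * μ u := by
    rw [cor_apply, cor_apply, mul_add, mul_sub, add_mul, sub_mul, mul_one, star_mt_mul]
  have e2 : (star (μ u)).det = 1 := by rw [← mt_inv, mt_det]
  rw [e1, det_mul, det_mul, e2, mt_det, blk_det, mt_det, one_mul, one_mul]

theorem cor_rk (u : SU ι E) (a : Matrix {x // p x} {x // p x} E) : rk (cor u a) = rk a := by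
  rw [rk, rk, cor_card]

theorem rk_one (h : Gd E) : rk (1 : Matrix ι ι E) = Fintype.card ι := by
  have h1 := h.finite
  have h2 := h.nontrivial
  have h3 : Nat.card {v : ι → E // (1 : Matrix ι ι E) *ᵥ v = v} = Nat.card E ^ Fintype.card ι := by
    rw [Nat.card_congr (Equiv.subtypeUnivEquiv fun v => one_mulVec v), Nat.card_fun, Nat.card_eq_fintype_card (α := ι)]
  rw [rk, h3, Nat.log_pow Finite.one_lt_card]

theorem exists_corner_of {Γ : Type u} [Group Γ] (h : Gd E) (T : TA Γ ι E) {K : Subgroup Γ} {e : Matrix ι ι E}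
    (hK : ∀ k ∈ K, T.ρ k e = e) (w : SU ι E) (p : ι → Prop) [DecidablePred p] (hp : star (μ w) * dg p * μ w = e) :
    ∃ (ι' : Type) (_ : Fintype ι') (_ : DecidableEq ι') (φ : Matrix ι' ι' E →ₙ+* Matrix ι ι E) (M : Subgroup Γ)
      (T' : TA ↥M ι' E), Function.Injective φ ∧ (∀ a, φ (star a) = star (φ a)) ∧ φ 1 = e ∧
        Fintype.card ι' = rk e ∧ (∀ a, IsP a → rk (φ a) = rk a) ∧ K ≤ M ∧
        (∀ (m : M) a, φ (T'.ρ m a) = T.ρ m (φ a)) ∧
        ∀ u : SU ι' E, ∃ v : SU ι E, μ v = φ (μ u) + (1 - φ 1) ∧ (T'.j u : Γ) = T.j v := by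
  have h1 : cor (p := p) w 1 = e := by rw [cor_one, hp]
  obtain ⟨M, T', h4, h5, h6⟩ := exists_red T (K := K) (cor (p := p) w) (cor_injective w) (cor_star w) (cor_det w) (by
    intro k hk a
    apply cor_range
    have e1 : e * cor w a * e = cor w a := by
      rw [← h1, ← map_mul, ← map_mul, one_mul, mul_one]
    rw [hp]
    calc e * T.ρ k (cor w a) * e = T.ρ k e * T.ρ k (cor w a) * T.ρ k e := by rw [hK k hk]
      _ = _ := by rw [← map_mul, ← map_mul, e1])
  refine ⟨{x // p x}, inferInstance, inferInstance, cor (p := p) w, M, T', cor_injective w, cor_star w, h1, ?_,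
    fun a _ => cor_rk w a, h4, h5, h6⟩
  rw [← h1, cor_rk, rk_one h]

/-- **[CA13] (b)** -/
theorem exists_corner {Γ : Type u} [Group Γ] (h : Gd E) (hON : ONSt E) (T : TA Γ ι E) {K : Subgroup Γ}
    {e : Matrix ι ι E} (he : IsP e) (hK : ∀ k ∈ K, T.ρ k e = e) :
    ∃ (ι' : Type) (_ : Fintype ι') (_ : DecidableEq ι') (φ : Matrix ι' ι' E →ₙ+* Matrix ι ι E) (M : Subgroup Γ)
      (T' : TA ↥M ι' E), Function.Injective φ ∧ (∀ a, φ (star a) = star (φ a)) ∧ φ 1 = e ∧
        Fintype.card ι' = rk e ∧ (∀ a, IsP a → rk (φ a) = rk a) ∧ K ≤ M ∧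
        (∀ (m : M) a, φ (T'.ρ m a) = T.ρ m (φ a)) ∧
        ∀ u : SU ι' E, ∃ v : SU ι E, μ v = φ (μ u) + (1 - φ 1) ∧ (T'.j u : Γ) = T.j v := by
  have he1 : IsP (1 - e) := ⟨by
    rw [mul_sub, mul_one, sub_mul, one_mul, he.idem, sub_self, sub_zero], by rw [star_sub, star_one, he.sym]⟩
  have he2 : e * (1 - e) = 0 := by rw [mul_sub, mul_one, he.idem, sub_self]
  have he3 : (1 - e) * e = 0 := by rw [sub_mul, one_mul, he.idem, sub_self]
  obtain ⟨u, c, hc⟩ := hON ι Bool (fun b => if b then e else 1 - e) (by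
    intro b
    cases b
    · exact he1
    · exact he) (by
    intro b b' hb
    cases b <;> cases b'
    · exact absurd rfl hb
    · exact he3
    · exact he2
    · exact absurd rfl hb) (by
    rw [Fintype.sum_bool]
    change e + (1 - e) = 1
    rw [add_sub_cancel])
  have hc1 := (hc true).symm
  rw [if_pos rfl] at hc1
  exact exists_corner_of h T hK u _ hc1

end corner

end Cfsg.Agent.H35.CA
end

-- part: H308/CA/Step
section
/-!
# Reductions: corners and centralisers; the step for odd primes different from the characteristic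
-/

set_option autoImplicit false
set_option linter.unusedSectionVars false
set_option linter.unusedVariables false

namespace Cfsg.Agent.H308.CA

open Subgroup Pointwise
open Cfsg.Agent.Solvable.Carter Cfsg.Agent.H18.Carter Cfsg.Agent.H381.Car

universe u

/-- a reduction of `T` to a smaller star ring, on a subgroup `M ≥ K` -/
structure RedS {Γ : Type u} [Group Γ] {ι : Type} [Fintype ι] [DecidableEq ι] {E : Type} [CommRing E] [StarRing E]
    (T : TA Γ ι E) (K : Subgroup Γ) (ι' : Type) [Fintype ι'] [DecidableEq ι'] (E' : Type) [CommRing E'] [StarRing E'] where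
  φ : Matrix ι' ι' E' →ₙ+* Matrix ι ι E
  M : Subgroup Γ
  T' : TA ↥M ι' E'
  inj : Function.Injective φ
  st : ∀ a, φ (star a) = star (φ a)
  le : K ≤ M
  eqv : ∀ (m : M) a, φ (T'.ρ m a) = T.ρ m (φ a)
  jr : ∀ u : SU ι' E', ∃ v : SU ι E, mt v = φ (mt u) + (1 - φ 1) ∧ (T'.j u : Γ) = T.j v

/-- `K` fixes a proper symmetric idempotent -/
def PropFix {Γ : Type u} [Group Γ] {ι : Type} [Fintype ι] [DecidableEq ι] {E : Type} [CommRing E] [StarRing E]
    (T : TA Γ ι E) (K : Subgroup Γ) : Prop := ∃ e : Matrix ι ι E, IsP e ∧ e ≠ 0 ∧ e ≠ 1 ∧ ∀ k ∈ K, T.ρ k e = e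

/-- `K ∩ SU` has an element of order `r` modulo scalars -/
def Hex {Γ : Type u} [Group Γ] {ι : Type} [Fintype ι] [DecidableEq ι] {E : Type} [CommRing E] [StarRing E]
    (T : TA Γ ι E) (K : Subgroup Γ) (r : ℕ) : Prop := ∃ k ∈ K, k ∈ T.j.range ∧ k ∉ T.Z ∧ k ^ r ∈ T.Z

section

variable {Γ : Type u} [Group Γ] {ι : Type} [Fintype ι] [DecidableEq ι] {E : Type} [CommRing E] [StarRing E]
  {T : TA Γ ι E} {K : Subgroup Γ} {ι' : Type} [Fintype ι'] [DecidableEq ι'] {E' : Type} [CommRing E'] [StarRing E']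

namespace RedS

variable (R : RedS T K ι' E')

theorem isP {a : Matrix ι' ι' E'} (ha : IsP a) : IsP (R.φ a) :=
  ⟨by rw [← map_mul, ha.idem], by rw [← R.st, ha.sym]⟩

theorem fix {a : Matrix ι' ι' E'} (h : ∀ m ∈ K.subgroupOf R.M, R.T'.ρ m a = a) : ∀ k ∈ K, T.ρ k (R.φ a) = R.φ a := by
  intro k hk
  have h1 := R.eqv ⟨k, R.le hk⟩ a
  rw [h ⟨k, R.le hk⟩ hk] at h1
  exact h1.symm

theorem carter (hK : IsCarter K) : IsCarter (K.subgroupOf R.M) := hK.subgroupOf R.le

theorem ne_zero {a : Matrix ι' ι' E'} (ha : a ≠ 0) : R.φ a ≠ 0 := fun h => ha (R.inj (by rw [h, map_zero]))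

/-- proper idempotents of the small ring are proper in the big one -/
theorem propFix (h1 : R.φ 1 = 1) (h : PropFix R.T' (K.subgroupOf R.M)) : PropFix T K := by
  obtain ⟨e, he, h0, h1', hf⟩ := h
  exact ⟨R.φ e, R.isP he, R.ne_zero h0, fun hc => h1' (R.inj (by rw [hc, h1])), R.fix hf⟩

theorem range_le : R.T'.j.range.map R.M.subtype ≤ T.j.range := by
  rintro _ ⟨_, ⟨u, rfl⟩, rfl⟩
  obtain ⟨v, -, hv⟩ := R.jr u
  exact ⟨v, hv.symm⟩

/-- invariant subgroups of the small group -/
theorem map_inv {Q : Subgroup R.M} (hQ : K.subgroupOf R.M ≤ normalizer (Q : Set R.M)) :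
    K ≤ normalizer ((Q.map R.M.subtype : Subgroup Γ) : Set Γ) := by
  have key : ∀ k ∈ K, ∀ x ∈ Q.map R.M.subtype, k * x * k⁻¹ ∈ Q.map R.M.subtype := by
    rintro k hk _ ⟨x, hx, rfl⟩
    exact ⟨⟨k, R.le hk⟩ * x * ⟨k, R.le hk⟩⁻¹, (mem_normalizer_iff.1 (hQ (x := ⟨k, R.le hk⟩) hk) x).1 hx, rfl⟩
  intro k hk
  rw [mem_normalizer_iff]
  intro x
  refine ⟨key k hk x, fun h => ?_⟩
  have h1 := key k⁻¹ (inv_mem hk) _ h
  have e : k⁻¹ * (k * x * k⁻¹) * k⁻¹⁻¹ = x := by group
  rwa [e] at h1

end RedS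


theorem corner (h : Gd E) (T : TA Γ ι E) {K : Subgroup Γ} {e : Matrix ι ι E} (he : IsP e)
    (hK : ∀ k ∈ K, T.ρ k e = e) :
    ∃ (ι' : Type) (_ : Fintype ι') (_ : DecidableEq ι') (R : RedS T K ι' E), R.φ 1 = e ∧ Fintype.card ι' = rk e ∧
      ∀ a, IsP a → rk (R.φ a) = rk a := by
  obtain ⟨ι', i1, i2, φ, M, T', h1, h2, h3, h4, h5, h6, h7, h8⟩ :=
    Cfsg.Agent.H35.CA.exists_corner h (Cfsg.Agent.H248.CA.onSt h) T he hK
  exact ⟨ι', i1, i2, ⟨φ, M, T', h1, h2, h6, h7, h8⟩, h3, h4, h5⟩

/-- **The step** for an odd prime different from the characteristic. -/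
theorem step (h : Gd E) (hD : DetSt E) (hPC : PCSt E) (hEig : EigSt E) (hEX : EXSt E) [Finite Γ] (hS : Sml Γ)
    (hK : IsCarter K) {r : ℕ} (hr : r.Prime) (hr2 : r ≠ 2) (hru : IsUnit (r : E)) (hex : Hex T K r) :
    PropFix T K ∨ ∃ (m : ℕ) (E' : Type) (i : CommRing E') (s : StarRing E'), Good E' i s ∧ Fintype.card ι = r * m ∧
      r ∣ m ∧ (∀ p : ℕ, CharP E p → CharP E' p) ∧ ∃ R : RedS T K (Fin m) E', R.φ 1 = 1 := by
  haveI : Fact r.Prime := ⟨hr⟩
  obtain ⟨x, hxK, hx1, hxr, hxK'⟩ := T.central_mod hD hS hK hex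
  by_cases hrd : r ∣ Nat.card (unitary E)
  · obtain ⟨l, hl, hxl⟩ := id hxr
    by_cases hm : ∃ m : E, star m * m = 1 ∧ m ^ r = l
    · obtain ⟨m, hm1, hm2⟩ := hm
      rcases hEig ι r hr hr2 hru hrd x m hm1 (by rw [hm2]; exact hxl) hx1 with ⟨g, a, ha, hg⟩ | ⟨e, he, h0, h1, hf⟩
      · exact absurd (T.not_conj_pow hS hK hxK' hr hxr hx1 hg) ha
      · exact Or.inl ⟨e, he, h0, h1, fun k hk => hf (T.ρ k) (T.st k) (hxK' k hk)⟩
    · push Not at hm
      obtain ⟨m, E', i, s, φ, hG, hc, hrm, hinj, hst, hrange, hdet, hchar⟩ := hEX ι r hr hr2 hru x l hl hxl hm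
      refine Or.inr ⟨m, E', i, s, hG, hc, hrm, hchar, ?_⟩
      letI := i
      letI := s
      obtain ⟨M, T', h1, h2, h3⟩ := Cfsg.Agent.H35.CA.exists_red T (K := K) (φ : Matrix (Fin m) (Fin m) E' →ₙ+* Matrix ι ι E)
        hinj hst (by
          intro u
          change (φ (mt u) + (1 - φ 1)).det = 1
          rw [map_one, sub_self, add_zero]
          exact hdet u) (by
          intro k hk a
          change ∃ b, T.ρ k (φ a) = φ b
          have h4 : T.ρ k (φ a) ∈ Set.range φ := by
            rw [hrange]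
            obtain ⟨c, hc1, hc2⟩ := hxK' k hk
            have h5 : φ a * mt x = mt x * φ a := (hrange _).1 ⟨a, rfl⟩
            have h6 := congrArg (T.ρ k) h5
            rw [map_mul, map_mul, hc2, mul_smul_comm, smul_mul_assoc] at h6
            have h7 := congrArg (fun z => star c • z) h6
            simp only [smul_smul, hc1, one_smul] at h7
            exact h7
          obtain ⟨b, hb⟩ := h4
          exact ⟨b, hb.symm⟩)
      exact ⟨⟨φ, M, T', hinj, hst, h1, h2, h3⟩, map_one φ⟩
  · obtain ⟨g, a, ha, hg⟩ := hPC ι r hr hr2 hru hrd x hxr hx1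
    exact absurd (T.not_conj_pow hS hK hxK' hr hxr hx1 hg) ha

end

end Cfsg.Agent.H308.CA
end

-- part: H689/CA/Form
section
/-!
# S3852, type A block, (BOR): the hermitian form, Siegel transformations (helper689)

* `br x y = star x ⬝ᵥ y` on `ι → E`;
* `sg x w c` : `z ↦ z + <x, z> w - (<w, z> + c <x, z>) x`, unitary if `<x, x> = <x, w> = 0`, `c + c* = <w, w>`; `det = 1`;
* `hh x y` : `-1` on the hyperbolic plane `x, y`, and `1` on its orthogonal complement.
-/

set_option autoImplicit false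

namespace Cfsg.Agent.H689.CA

open Matrix Cfsg.Agent.H308.CA

variable {ι : Type} [Fintype ι] {E : Type} [CommRing E] [StarRing E]

/-- the hermitian form -/
def br (x y : ι → E) : E := star x ⬝ᵥ y

theorem br_add_right (x y z : ι → E) : br x (y + z) = br x y + br x z := dotProduct_add _ _ _

theorem br_sub_right (x y z : ι → E) : br x (y - z) = br x y - br x z := dotProduct_sub _ _ _

theorem br_smul_right (c : E) (x y : ι → E) : br x (c • y) = c * br x y := by
  unfold br
  rw [dotProduct_smul, smul_eq_mul]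

theorem br_zero_right (x : ι → E) : br x 0 = 0 := dotProduct_zero _

theorem star_br (x y : ι → E) : star (br x y) = br y x := (star_dotProduct y x).symm

theorem br_add_left (x y z : ι → E) : br (x + y) z = br x z + br y z := by
  rw [← star_br, br_add_right, star_add, star_br, star_br]

theorem br_sub_left (x y z : ι → E) : br (x - y) z = br x z - br y z := by
  rw [← star_br, br_sub_right, star_sub, star_br, star_br]

theorem br_smul_left (c : E) (x y : ι → E) : br (c • x) y = star c * br x y := by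
  rw [← star_br, br_smul_right, star_mul, star_br, mul_comm]

theorem br_single [DecidableEq ι] (i : ι) (c : E) (y : ι → E) : br (Pi.single i c) y = star c * y i := by
  unfold br
  rw [show star (Pi.single i c : ι → E) = Pi.single i (star c) from ?_, single_dotProduct]
  ext j
  by_cases h : j = i
  · subst h; simp only [_root_.Pi.star_apply, _root_.Pi.single_eq_same]
  · simp [Pi.single_apply, h]

theorem eq_zero_of_br [DecidableEq ι] {v : ι → E} (h : ∀ z, br z v = 0) : v = 0 := by
  funext i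
  have h1 := h (Pi.single i 1)
  rw [br_single, star_one, one_mul] at h1
  exact h1

theorem br_mulVec_right (A : Matrix ι ι E) (x y : ι → E) : br x (A *ᵥ y) = br (star A *ᵥ x) y := by
  unfold br
  rw [star_mulVec, ← star_eq_conjTranspose, star_star, dotProduct_mulVec]

theorem unitary_of_br [DecidableEq ι] {A : Matrix ι ι E} (h : ∀ x y, br (A *ᵥ x) (A *ᵥ y) = br x y) :
    star A * A = 1 := by
  apply Matrix.mulVec_injective
  funext y
  rw [one_mulVec, ← sub_eq_zero]
  refine eq_zero_of_br fun z => ?_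
  rw [br_sub_right, sub_eq_zero, ← h z y, ← mulVec_mulVec]
  rw [br_mulVec_right, star_star]

/-- the determinant of a matrix `1 + a bᵗ + a' b'ᵗ` -/
theorem det_two [DecidableEq ι] (a b a' b' : ι → E) :
    (1 + vecMulVec a b + vecMulVec a' b' : Matrix ι ι E).det =
      (1 + b ⬝ᵥ a) * (1 + b' ⬝ᵥ a') - (b ⬝ᵥ a') * (b' ⬝ᵥ a) := by
  have h1 : (1 + vecMulVec a b + vecMulVec a' b' : Matrix ι ι E) =
      1 + (Matrix.of fun (i : ι) (k : Fin 2) => ![a i, a' i] k) * (Matrix.of fun (k : Fin 2) (i : ι) => ![b i, b' i] k) := by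
    ext i j
    simp only [Matrix.mul_apply, Fin.sum_univ_two, vecMulVec_apply, add_assoc, _root_.Matrix.add_apply, _root_.Nat.succ_eq_add_one, _root_.Nat.reduceAdd, _root_.Matrix.of_apply, _root_.Fin.isValue, _root_.Matrix.cons_val_zero, _root_.Matrix.cons_val_one, _root_.Matrix.cons_val_fin_one]
  rw [h1, det_one_add_mul_comm, det_fin_two]
  simp only [Matrix.mul_apply, dotProduct, _root_.Nat.succ_eq_add_one, _root_.Nat.reduceAdd, _root_.Fin.isValue, _root_.Matrix.add_apply, _root_.Matrix.one_apply_eq, _root_.Matrix.of_apply, _root_.Matrix.cons_val_zero, _root_.Matrix.cons_val_one, _root_.Matrix.cons_val_fin_one, _root_.ne_eq, _root_.zero_ne_one, _root_.not_false_eq_true, _root_.Matrix.one_apply_ne, _root_.zero_add, _root_.one_ne_zero]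

/-- Siegel transformations -/
def sg [DecidableEq ι] (x w : ι → E) (c : E) : Matrix ι ι E :=
  1 + vecMulVec w (star x) + vecMulVec x (-star w - c • star x)

theorem sg_mulVec [DecidableEq ι] (x w : ι → E) (c : E) (z : ι → E) :
    sg x w c *ᵥ z = z + br x z • w - (br w z + c * br x z) • x := by
  unfold sg
  rw [add_mulVec, add_mulVec, one_mulVec, vecMulVec_mulVec, vecMulVec_mulVec]
  have h1 : (-star w - c • star x) ⬝ᵥ z = -(br w z + c * br x z) := by
    rw [sub_dotProduct, neg_dotProduct, smul_dotProduct, smul_eq_mul]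
    unfold br
    ring
  rw [h1]
  ext i
  simp only [br, _root_.IsCentralScalar.op_smul_eq_smul, _root_.neg_add_rev, _root_.MulOpposite.op_add, _root_.MulOpposite.op_neg, _root_.MulOpposite.op_mul, _root_.Pi.add_apply, _root_.Pi.smul_apply, _root_.smul_eq_mul, _root_.MulOpposite.smul_eq_mul_unop, _root_.MulOpposite.unop_add, _root_.MulOpposite.unop_neg, _root_.MulOpposite.unop_mul, _root_.MulOpposite.unop_op, _root_.Pi.sub_apply]
  ring

theorem sg_unitary [DecidableEq ι] {x w : ι → E} {c : E} (hx : br x x = 0) (hw : br x w = 0) (hc : c + star c = br w w) :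
    star (sg x w c) * sg x w c = 1 := by
  refine unitary_of_br fun z z' => ?_
  have hw' : br w x = 0 := by rw [← star_br, hw, star_zero]
  rw [sg_mulVec, sg_mulVec]
  simp only [br_add_left, br_sub_left, br_smul_left, br_add_right, br_sub_right, br_smul_right, hx, hw, hw', star_add,
    star_mul, star_br, ← hc]
  ring

theorem sg_det [DecidableEq ι] {x w : ι → E} {c : E} (hx : br x x = 0) (hw : br x w = 0) : (sg x w c).det = 1 := by
  unfold sg
  rw [det_two]
  have hw' : star w ⬝ᵥ x = 0 := by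
    change br w x = 0
    rw [← star_br, hw, star_zero]
  have hx' : star x ⬝ᵥ x = 0 := hx
  have hw'' : star x ⬝ᵥ w = 0 := hw
  rw [hw'', hx', sub_dotProduct, neg_dotProduct, smul_dotProduct, hw', hx']
  simp only [_root_.add_zero, _root_.neg_zero, _root_.smul_eq_mul, _root_.MulZeroClass.mul_zero, _root_.sub_self, _root_.mul_one, _root_.sub_dotProduct, _root_.neg_dotProduct, _root_.smul_dotProduct, _root_.MulZeroClass.zero_mul, _root_.sub_zero]

theorem sg_cube [DecidableEq ι] {x w : ι → E} {c : E} (hx : br x x = 0) (hw : br x w = 0) : (sg x w c - 1) ^ 3 = 0 := by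
  have hw' : br w x = 0 := by rw [← star_br, hw, star_zero]
  have h1 : ∀ z, (sg x w c - 1) *ᵥ z = br x z • w - (br w z + c * br x z) • x := by
    intro z
    rw [sub_mulVec, one_mulVec, sg_mulVec]
    abel
  apply Matrix.mulVec_injective
  funext z
  rw [zero_mulVec, pow_succ, pow_succ, pow_one, ← mulVec_mulVec, ← mulVec_mulVec, h1, h1, h1]
  simp only [br_sub_right, br_smul_right, hx, hw, hw']
  simp

/-- `-1` on the hyperbolic plane `x, y` -/
def hh [DecidableEq ι] (x y : ι → E) : Matrix ι ι E :=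
  1 + vecMulVec x (-(2 : E) • star y) + vecMulVec y (-(2 : E) • star x)

theorem hh_mulVec [DecidableEq ι] (x y z : ι → E) :
    hh x y *ᵥ z = z - (2 * br y z) • x - (2 * br x z) • y := by
  unfold hh
  rw [add_mulVec, add_mulVec, one_mulVec, vecMulVec_mulVec, vecMulVec_mulVec, smul_dotProduct, smul_dotProduct]
  ext i
  simp only [br, _root_.smul_eq_mul, _root_.neg_mul, _root_.MulOpposite.op_neg, _root_.MulOpposite.op_mul, _root_.MulOpposite.op_ofNat, _root_.neg_smul, _root_.Pi.add_apply, _root_.Pi.neg_apply, _root_.Pi.smul_apply, _root_.MulOpposite.smul_eq_mul_unop, _root_.MulOpposite.unop_mul, _root_.MulOpposite.unop_ofNat, _root_.MulOpposite.unop_op, _root_.Pi.sub_apply]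
  ring

theorem hh_unitary [DecidableEq ι] {x y : ι → E} (hx : br x x = 0) (hy : br y y = 0) (hxy : br y x = 1) :
    star (hh x y) * hh x y = 1 := by
  refine unitary_of_br fun z z' => ?_
  have hyx : br x y = 1 := by rw [← star_br, hxy, star_one]
  rw [hh_mulVec, hh_mulVec]
  simp only [br_sub_left, br_smul_left, br_sub_right, br_smul_right, hx, hy, hxy, hyx, star_mul, star_br, star_ofNat]
  ring

theorem hh_det [DecidableEq ι] {x y : ι → E} (hx : br x x = 0) (hy : br y y = 0) (hxy : br y x = 1) :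
    (hh x y).det = 1 := by
  unfold hh
  rw [det_two]
  have h1 : star y ⬝ᵥ x = 1 := hxy
  have h2 : star x ⬝ᵥ y = 1 := by
    change br x y = 1
    rw [← star_br, hxy, star_one]
  have h3 : star x ⬝ᵥ x = 0 := hx
  have h4 : star y ⬝ᵥ y = 0 := hy
  rw [smul_dotProduct, smul_dotProduct, smul_dotProduct, smul_dotProduct, h1, h2, h3, h4]
  simp only [smul_eq_mul]
  ring

end Cfsg.Agent.H689.CA
end

-- part: H689/CA/Bor
section
/-!
# S3852, type A block, (BOR) (helper689)

`T` a Sylow `p`-subgroup of `SU`: `C_V(T) = E x` with `x` isotropic unimodular; `Q = O_p` of the stabiliser of `x`,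
`Y = Q.2` with an involution acting as `-1` on a hyperbolic plane `x, y`.
-/

set_option autoImplicit false

namespace Cfsg.Agent.H689.CA

open Matrix Cfsg.Agent.H308.CA

variable {ι : Type} [Fintype ι] [DecidableEq ι] {E : Type} [CommRing E] [StarRing E]

/-- the fixed vectors of `T` -/
def Cv (T : Subgroup (SU ι E)) : Submodule E (ι → E) where
  carrier := {v | ∀ t ∈ T, _root_.Cfsg.Agent.H308.CA.mt t *ᵥ v = v}
  zero_mem' t _ := mulVec_zero _
  add_mem' := by
    intro a b ha hb t ht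
    rw [mulVec_add, ha t ht, hb t ht]
  smul_mem' := by
    intro c a ha t ht
    rw [mulVec_smul, ha t ht]

/-- the orthogonal complement of the fixed vectors -/
def Cp (T : Subgroup (SU ι E)) : Submodule E (ι → E) where
  carrier := {m | ∀ c ∈ Cv T, br c m = 0}
  zero_mem' c _ := br_zero_right c
  add_mem' := by
    intro a b ha hb c hc
    rw [br_add_right, ha c hc, hb c hc, add_zero]
  smul_mem' := by
    intro r a ha c hc
    rw [br_smul_right, ha c hc, mul_zero]

theorem mt_inv_mulVec {u : SU ι E} {v : ι → E} (h : _root_.Cfsg.Agent.H308.CA.mt u *ᵥ v = v) : star (_root_.Cfsg.Agent.H308.CA.mt u) *ᵥ v = v := by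
  conv_lhs => rw [← h]
  rw [mulVec_mulVec, star_mt_mul, one_mulVec]

theorem Cp_inv {T : Subgroup (SU ι E)} {t : SU ι E} (ht : t ∈ T) {m : ι → E} (hm : m ∈ Cp T) : _root_.Cfsg.Agent.H308.CA.mt t *ᵥ m ∈ Cp T := by
  intro c hc
  rw [br_mulVec_right, mt_inv_mulVec (hc t ht)]
  exact hm c hc

theorem sub_mem_Cp {T : Subgroup (SU ι E)} {t : SU ι E} (ht : t ∈ T) (z : ι → E) : _root_.Cfsg.Agent.H308.CA.mt t *ᵥ z - z ∈ Cp T := by
  intro c hc
  rw [br_sub_right, br_mulVec_right, mt_inv_mulVec (hc t ht), sub_self]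

/-- `p`-groups have nonzero fixed vectors -/
theorem exists_fixed [Finite E] {p : ℕ} [Fact p.Prime] [CharP E p] {T : Subgroup (SU ι E)} (hT : IsPGroup p T)
    (M : AddSubgroup (ι → E)) (hM : ∀ t ∈ T, ∀ m ∈ M, _root_.Cfsg.Agent.H308.CA.mt t *ᵥ m ∈ M) {m₀ : ι → E} (h0 : m₀ ∈ M) (h1 : m₀ ≠ 0) :
    ∃ m ∈ M, m ≠ 0 ∧ m ∈ Cv T := by
  let act : MulAction T M :=
    { smul := fun t m => ⟨_root_.Cfsg.Agent.H308.CA.mt (t : SU ι E) *ᵥ (m : ι → E), hM t t.2 m m.2⟩
      one_smul := fun m => Subtype.ext (by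
        change _root_.Cfsg.Agent.H308.CA.mt ((1 : T) : SU ι E) *ᵥ (m : ι → E) = m
        rw [Subgroup.coe_one, map_one, one_mulVec])
      mul_smul := fun s t m => Subtype.ext (by
        change _root_.Cfsg.Agent.H308.CA.mt ((s * t : T) : SU ι E) *ᵥ (m : ι → E) = _root_.Cfsg.Agent.H308.CA.mt (s : SU ι E) *ᵥ (_root_.Cfsg.Agent.H308.CA.mt (t : SU ι E) *ᵥ (m : ι → E))
        rw [Subgroup.coe_mul, map_mul, mulVec_mulVec]) }
  have hsm : ∀ (t : T) (m : M), ((t • m : M) : ι → E) = _root_.Cfsg.Agent.H308.CA.mt (t : SU ι E) *ᵥ (m : ι → E) := fun _ _ => rfl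
  have hcard : p ∣ Nat.card M := by
    have h2 : addOrderOf (⟨m₀, h0⟩ : M) = p := by
      refine addOrderOf_eq_prime ?_ ?_
      · apply Subtype.ext
        funext i
        change ((p • m₀ : ι → E)) i = 0
        rw [Pi.smul_apply, nsmul_eq_mul, CharP.cast_eq_zero, zero_mul]
      · intro h3
        exact h1 (congrArg Subtype.val h3)
    rw [← h2]
    exact addOrderOf_dvd_natCard _
  obtain ⟨b, hb, hb0⟩ := hT.exists_fixed_point_of_prime_dvd_card_of_fixed_point M hcard (a := (0 : M)) (fun t =>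
    Subtype.ext (by rw [hsm]; exact mulVec_zero _))
  refine ⟨b, b.2, fun h2 => hb0 (Subtype.ext h2.symm), fun t ht => ?_⟩
  have h2 := congrArg Subtype.val (hb ⟨t, ht⟩)
  exact h2

theorem two_unit (h : Gd E) {p : ℕ} (hp : p.Prime) (hp2 : p ≠ 2) [CharP E p] : IsUnit (2 : E) := by
  have hn := h.nontrivial
  refine h.isUnit_of_sym (by rw [star_ofNat]) fun h0 => ?_
  have h1 : ((2 : ℕ) : E) = 0 := by exact_mod_cast h0
  rw [CharP.cast_eq_zero_iff E p] at h1
  exact hp2 ((Nat.prime_dvd_prime_iff_eq hp Nat.prime_two).1 h1)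

theorem pow_p_of_cube {p : ℕ} (hp : p.Prime) (hp2 : p ≠ 2) [CharP E p] [Nontrivial E] [Nonempty ι]
    {A : Matrix ι ι E} (hA : (A - 1) ^ 3 = 0) : A ^ p = 1 := by
  have : Fact p.Prime := ⟨hp⟩
  have h1 : (A - 1) ^ p = 0 := by
    have h2 : 3 ≤ p := by
      have := hp.two_le
      omega
    rw [← Nat.sub_add_cancel h2, pow_add, hA, mul_zero]
  have h3 : (A - 1) ^ p = A ^ p - 1 := by
    rw [sub_pow_char_of_commute p (Commute.one_right A), one_pow]
  rw [h3, sub_eq_zero] at h1
  exact h1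

/-- isotropic unimodular vectors exist -/
theorem exists_iso (h : Gd E) (hι : 3 ≤ Fintype.card ι) : ∃ x y w : ι → E, br x x = 0 ∧ br y x = 1 ∧ br x w = 0 ∧
    br w w = 1 ∧ br w x = 0 := by
  obtain ⟨i, j, k, hij, hik, hjk⟩ := Fintype.two_lt_card_iff.1 (show 2 < Fintype.card ι by omega)
  have hn := h.nontrivial
  obtain ⟨b, hb⟩ := h.norm (a := -1) (by rw [star_neg, star_one]) (neg_ne_zero.2 one_ne_zero)
  refine ⟨Pi.single i 1 + Pi.single j b, Pi.single i 1, Pi.single k 1, ?_, ?_, ?_, ?_, ?_⟩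
  · rw [br_add_left, br_single, br_single]
    simp only [hij, hij.symm, hb, _root_.star_one, _root_.Pi.add_apply, _root_.Pi.single_eq_same, _root_.ne_eq, _root_.not_false_eq_true, _root_.Pi.single_eq_of_ne, _root_.add_zero, _root_.mul_one, _root_.zero_add, _root_.add_neg_cancel]
  · rw [br_single]
    simp [hij]
  · rw [br_add_left, br_single, br_single]
    simp only [hik, hjk, _root_.star_one, _root_.ne_eq, _root_.not_false_eq_true, _root_.Pi.single_eq_of_ne, _root_.MulZeroClass.mul_zero, _root_.add_zero]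
  · rw [br_single]
    simp
  · rw [br_single]
    simp [hik.symm, hjk.symm]

/-- an element of `SU` of order `p` -/
theorem exists_p (h : Gd E) {p : ℕ} (hp : p.Prime) (hp2 : p ≠ 2) [CharP E p] (hι : 3 ≤ Fintype.card ι) :
    ∃ g : SU ι E, orderOf g = p := by
  have hn := h.nontrivial
  have : Fact p.Prime := ⟨hp⟩
  have : Nonempty ι := Fintype.card_pos_iff.1 (by omega)
  obtain ⟨x, y, w, hx, hy, hw, hww, hwx⟩ := exists_iso (ι := ι) h hι
  obtain ⟨c2, hc2⟩ := (two_unit h hp hp2).exists_left_inv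
  have hcs : star c2 = c2 := by
    have h1 : star c2 * 2 = 1 := by
      have := congrArg star hc2
      rw [star_mul, star_ofNat, star_one, mul_comm] at this
      exact this
    calc star c2 = star c2 * (c2 * 2) := by rw [hc2, mul_one]
      _ = (star c2 * 2) * c2 := by ring
      _ = c2 := by rw [h1, one_mul]
  have hc : c2 + star c2 = br w w := by rw [hcs, hww, ← hc2]; ring
  refine ⟨mkSU (sg x w c2) (sg_unitary hx hw hc) (sg_det hx hw), orderOf_eq_prime ?_ ?_⟩
  · apply mt_injective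
    rw [map_pow, mt_mkSU, map_one]
    exact pow_p_of_cube hp hp2 (sg_cube hx hw)
  · intro h1
    have h2 := congrArg H308.CA.mt h1
    rw [mt_mkSU, map_one] at h2
    have h3 := congrArg (fun A : Matrix ι ι E => br y (A *ᵥ w)) h2
    simp only [sg_mulVec, one_mulVec, br_sub_right, br_add_right, br_smul_right, hw, hww, hy] at h3
    simp at h3

/-- `T` is nontrivial -/
theorem ne_bot (h : Gd E) {p : ℕ} (hp : p.Prime) (hp2 : p ≠ 2) [CharP E p] (hι : 3 ≤ Fintype.card ι)
    {T : Subgroup (SU ι E)} (hT : ¬ p ∣ T.index) : T ≠ ⊥ := by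
  rintro rfl
  obtain ⟨g, hg⟩ := exists_p (ι := ι) h hp hp2 hι
  apply hT
  rw [Subgroup.index_bot, ← hg]
  exact orderOf_dvd_natCard g

/-- **step 1** -/
theorem exists_smul_ne (h : Gd E) {p : ℕ} (hp : p.Prime) (hp2 : p ≠ 2) [CharP E p] (hι : 3 ≤ Fintype.card ι)
    {T : Subgroup (SU ι E)} (hTp : IsPGroup p T) (hT : ¬ p ∣ T.index) {e : E} (he : e * e = e) (he0 : e ≠ 0) :
    ∃ x ∈ Cv T, x ∈ Cp T ∧ e • x ≠ 0 := by
  have hfin := h.finite
  have : Fact p.Prime := ⟨hp⟩
  by_contra hcon
  push Not at hcon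
  let M : AddSubgroup (ι → E) :=
    { carrier := {m | m ∈ Cp T ∧ e • m = m}
      zero_mem' := ⟨zero_mem _, smul_zero _⟩
      add_mem' := fun {a b} ha hb => ⟨add_mem ha.1 hb.1, by rw [smul_add, ha.2, hb.2]⟩
      neg_mem' := fun {a} ha => ⟨neg_mem ha.1, by rw [smul_neg, ha.2]⟩ }
  have hM0 : ∀ m ∈ M, m = 0 := by
    intro m hm
    by_contra hm0
    obtain ⟨m', hm', h1, h2⟩ := exists_fixed hTp M (fun t ht m hm => ⟨Cp_inv ht hm.1, by rw [← mulVec_smul, hm.2]⟩) hm hm0
    exact h1 (by rw [← hm'.2]; exact hcon m' h2 hm'.1)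
  -- `e (t - 1) = 0`
  have h1 : ∀ t ∈ T, e • (_root_.Cfsg.Agent.H308.CA.mt t - 1) = 0 := by
    intro t ht
    apply Matrix.mulVec_injective
    funext z
    rw [zero_mulVec, smul_mulVec, sub_mulVec, one_mulVec]
    refine hM0 _ ⟨Submodule.smul_mem _ _ (sub_mem_Cp ht z), ?_⟩
    rw [smul_smul, he]
  have hsum : e + star e ≠ 0 := by
    intro h0
    have h2 : star e = -e := (neg_eq_of_add_eq_zero_right h0).symm
    have h3 : star e * star e = star e := by rw [← star_mul, he]
    rw [h2, neg_mul_neg, he] at h3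
    have h4 : (2 : E) * e = 0 := by
      have h5 : e + e = 0 := by
        nth_rewrite 1 [h3]
        exact neg_add_cancel e
      rw [two_mul, h5]
    exact he0 ((two_unit h hp hp2).mul_right_eq_zero.1 h4)
  have hu := h.isUnit_of_sym (a := e + star e) (by rw [star_add, star_star, add_comm]) hsum
  refine ne_bot h hp hp2 hι hT ((Subgroup.eq_bot_iff_forall T).2 fun t ht => mt_injective ?_)
  rw [map_one, ← sub_eq_zero]
  have h2 := h1 t ht
  have h3 : star e • (1 - _root_.Cfsg.Agent.H308.CA.mt t) = 0 := by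
    have h4 := congrArg star h2
    rw [star_smul, star_sub, star_one, star_zero] at h4
    have h5 := congrArg (fun A => A * _root_.Cfsg.Agent.H308.CA.mt t) h4
    simp only [smul_mul_assoc, sub_mul, star_mt_mul, one_mul, zero_mul] at h5
    exact h5
  have h4 : (e + star e) • (_root_.Cfsg.Agent.H308.CA.mt t - 1) = 0 := by
    rw [add_smul, h2, zero_add, ← neg_sub, smul_neg, h3, neg_zero]
  obtain ⟨c, hc⟩ := hu.exists_left_inv
  calc _root_.Cfsg.Agent.H308.CA.mt t - 1 = (c * (e + star e)) • (_root_.Cfsg.Agent.H308.CA.mt t - 1) := by rw [hc, one_smul]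
    _ = 0 := by rw [← smul_smul, h4, smul_zero]

/-- **step 2**: a unimodular isotropic fixed vector -/
theorem exists_x (h : Gd E) {X : Submodule E (ι → E)} (hX : ∀ e : E, e * e = e → e ≠ 0 → ∃ x ∈ X, e • x ≠ 0) :
    ∃ x ∈ X, ∃ y, br y x = 1 := by
  cases h with
  | uni F i s _ hs =>
    obtain ⟨x, hx, h1⟩ := hX 1 (one_mul _) one_ne_zero
    rw [one_smul] at h1
    obtain ⟨i, hi⟩ := Function.ne_iff.1 h1
    refine ⟨x, hx, Pi.single i (star (x i)⁻¹), ?_⟩
    rw [br_single, star_star, inv_mul_cancel₀ hi]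
  | lin F i _ =>
    obtain ⟨e₁, he₁⟩ : ∃ e : Ex F, e = ((1, 0) : F × F) := ⟨_, rfl⟩
    obtain ⟨e₂, he₂⟩ : ∃ e : Ex F, e = ((0, 1) : F × F) := ⟨_, rfl⟩
    obtain ⟨x₁, hx₁, h1⟩ := hX e₁ (by
      rw [he₁]
      change ((1 * 1, 0 * 0) : F × F) = (1, 0)
      rw [mul_one, mul_zero]) (fun h0 => one_ne_zero (congrArg Prod.fst (he₁.symm.trans h0)))
    obtain ⟨x₂, hx₂, h2⟩ := hX e₂ (by
      rw [he₂]
      change ((0 * 0, 1 * 1) : F × F) = (0, 1)
      rw [mul_one, mul_zero]) (fun h0 => one_ne_zero (congrArg Prod.snd (he₂.symm.trans h0)))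
    obtain ⟨i, hi⟩ := Function.ne_iff.1 h1
    obtain ⟨j, hj⟩ := Function.ne_iff.1 h2
    have hi' : (x₁ i).1 ≠ 0 := by
      intro h0
      apply hi
      rw [he₁]
      refine Prod.ext ?_ ?_
      · change (1 : F) * (x₁ i).1 = 0
        rw [h0, mul_zero]
      · change (0 : F) * (x₁ i).2 = 0
        rw [zero_mul]
    have hj' : (x₂ j).2 ≠ 0 := by
      intro h0
      apply hj
      rw [he₂]
      refine Prod.ext ?_ ?_
      · change (0 : F) * (x₂ j).1 = 0
        rw [zero_mul]
      · change (1 : F) * (x₂ j).2 = 0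
        rw [h0, mul_zero]
    obtain ⟨f₁, hf₁⟩ : ∃ e : Ex F, e = ((0, (x₁ i).1⁻¹) : F × F) := ⟨_, rfl⟩
    obtain ⟨f₂, hf₂⟩ : ∃ e : Ex F, e = (((x₂ j).2⁻¹, 0) : F × F) := ⟨_, rfl⟩
    refine ⟨e₁ • x₁ + e₂ • x₂, Submodule.add_mem _ (Submodule.smul_mem _ _ hx₁) (Submodule.smul_mem _ _ hx₂),
      Pi.single i f₁ + Pi.single j f₂, ?_⟩
    rw [br_add_left, br_single, br_single, he₁, he₂, hf₁, hf₂]
    refine Prod.ext ?_ ?_
    · change (x₁ i).1⁻¹ * (1 * (x₁ i).1 + 0 * (x₂ i).1) + 0 * _ = (1 : F)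
      rw [zero_mul, zero_mul, add_zero, add_zero, one_mul, inv_mul_cancel₀ hi']
    · change 0 * _ + (x₂ j).2⁻¹ * (0 * (x₁ j).2 + 1 * (x₂ j).2) = (1 : F)
      rw [zero_mul, zero_mul, zero_add, zero_add, one_mul, inv_mul_cancel₀ hj']

end Cfsg.Agent.H689.CA
end

-- part: H689/CA/BorSt
section
/-!
# S3852, type A block, (BOR), part 2 (helper689): `bor_st : Gd E → BorSt E`
-/

set_option autoImplicit false

namespace Cfsg.Agent.H689.CA

open Matrix Cfsg.Agent.H308.CA

variable {ι : Type} [Fintype ι] [DecidableEq ι] {E : Type} [CommRing E] [StarRing E]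

theorem exists_half (h : Gd E) {p : ℕ} (hp : p.Prime) (hp2 : p ≠ 2) [CharP E p] {a : E} (ha : star a = a) :
    ∃ c : E, c + star c = a ∧ star c = c := by
  obtain ⟨c2, hc2⟩ := (two_unit h hp hp2).exists_left_inv
  have hcs : star c2 = c2 := by
    have h1 : star c2 * 2 = 1 := by
      have := congrArg star hc2
      rw [star_mul, star_ofNat, star_one, mul_comm] at this
      exact this
    calc star c2 = star c2 * (c2 * 2) := by rw [hc2, mul_one]
      _ = (star c2 * 2) * c2 := by ring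
      _ = c2 := by rw [h1, one_mul]
  have hs : star (c2 * a) = c2 * a := by rw [star_mul, ha, hcs, mul_comm]
  refine ⟨c2 * a, ?_, hs⟩
  rw [hs]
  calc c2 * a + c2 * a = (c2 * 2) * a := by ring
    _ = a := by rw [hc2, one_mul]

/-- **step 3**: the fixed vectors are the multiples of `x` -/
theorem Cv_eq (h : Gd E) {p : ℕ} (hp : p.Prime) (hp2 : p ≠ 2) [CharP E p] (hι : 3 ≤ Fintype.card ι)
    {T : Subgroup (SU ι E)} (hT : ¬ p ∣ T.index)
    {x y : ι → E} (hx : x ∈ Cv T) (hx' : x ∈ Cp T) (hy : br y x = 1) {v : ι → E} (hv : v ∈ Cv T) :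
    v = br y v • x := by
  have hn := h.nontrivial
  have hfin := h.finite
  have : Fact p.Prime := ⟨hp⟩
  have : Nonempty ι := Fintype.card_pos_iff.1 (by omega)
  by_cases hex : ∃ w, br x w = 0 ∧ br w v ≠ 0
  · exfalso
    obtain ⟨w, hw, hwv⟩ := hex
    have hxx : br x x = 0 := hx' x hx
    obtain ⟨c, hc, -⟩ := exists_half h hp hp2 (a := br w w) (star_br w w)
    obtain ⟨g, hg⟩ : ∃ g : SU ι E, H308.CA.mt g = sg x w c := ⟨mkSU _ (sg_unitary hxx hw hc) (sg_det hxx hw), rfl⟩
    have hgp : g ^ p = 1 := by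
      apply mt_injective
      rw [map_pow, hg, map_one]
      exact pow_p_of_cube hp hp2 (sg_cube hxx hw)
    have hgc : ∀ d ∈ Cv T, _root_.Cfsg.Agent.H308.CA.mt g *ᵥ d = d - br w d • x := by
      intro d hd
      have h1 : br x d = 0 := by rw [← star_br, hx' d hd, star_zero]
      rw [hg, sg_mulVec, h1, zero_smul, mul_zero, add_zero, add_zero]
    have hgC : ∀ d ∈ Cv T, _root_.Cfsg.Agent.H308.CA.mt g *ᵥ d ∈ Cv T := by
      intro d hd
      rw [hgc d hd]
      exact Submodule.sub_mem _ hd (Submodule.smul_mem _ _ hx)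
    -- the pointwise and the setwise stabiliser of `Cv T`
    let K : Subgroup (SU ι E) :=
      { carrier := {u | ∀ d ∈ Cv T, _root_.Cfsg.Agent.H308.CA.mt u *ᵥ d = d}
        mul_mem' := fun {a b} ha hb d hd => by rw [map_mul, ← mulVec_mulVec, hb d hd, ha d hd]
        one_mem' := fun d _ => by rw [map_one, one_mulVec]
        inv_mem' := fun {a} ha d hd => by rw [mt_inv]; exact mt_inv_mulVec (ha d hd) }
    let P : Subgroup (SU ι E) :=
      { carrier := {u | ∀ d, _root_.Cfsg.Agent.H308.CA.mt u *ᵥ d ∈ Cv T ↔ d ∈ Cv T}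
        mul_mem' := fun {a b} ha hb d => by rw [map_mul, ← mulVec_mulVec, ha, hb]
        one_mem' := fun d => by rw [map_one, one_mulVec]
        inv_mem' := fun {a} ha d => by rw [← ha, mulVec_mulVec, ← map_mul, mul_inv_cancel, map_one, one_mulVec] }
    have hTK : T ≤ K := fun t ht d hd => hd t ht
    have hKP : K ≤ P := by
      intro u hu d
      refine ⟨fun hd => ?_, fun hd => by rw [hu d hd]; exact hd⟩
      have h1 := (K.inv_mem hu) _ hd
      rw [mulVec_mulVec, ← map_mul, inv_mul_cancel, map_one, one_mulVec] at h1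
      rw [h1]; exact hd
    have hgP : g ∈ P := by
      intro d
      refine ⟨fun hd => ?_, hgC d⟩
      have h1 : ∀ k : ℕ, _root_.Cfsg.Agent.H308.CA.mt (g ^ (k + 1)) *ᵥ d ∈ Cv T := by
        intro k
        induction k with
        | zero => rwa [zero_add, pow_one]
        | succ k ih => rw [pow_succ', map_mul, ← mulVec_mulVec]; exact hgC _ ih
      have h2 := h1 (p - 1)
      rw [Nat.sub_add_cancel hp.one_lt.le, hgp, map_one, one_mulVec] at h2
      exact h2
    have hgK : g ∉ K := by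
      intro h1
      have h2 := h1 v hv
      rw [hgc v hv, sub_eq_self] at h2
      have h3 := congrArg (br y) h2
      rw [br_smul_right, hy, mul_one, br_zero_right] at h3
      exact hwv h3
    have hN : (K.subgroupOf P).Normal := by
      refine ⟨fun a ha b => ?_⟩
      rw [Subgroup.mem_subgroupOf] at ha ⊢
      intro d hd
      have h1 : _root_.Cfsg.Agent.H308.CA.mt ((b⁻¹ : P) : SU ι E) *ᵥ d ∈ Cv T := ((b⁻¹).2 d).2 hd
      have h2 := ha _ h1
      rw [Subgroup.coe_mul, Subgroup.coe_mul, map_mul, map_mul, ← mulVec_mulVec, ← mulVec_mulVec, h2, mulVec_mulVec,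
        ← map_mul, ← Subgroup.coe_mul, mul_inv_cancel, Subgroup.coe_one, map_one, one_mulVec]
    have h1 : orderOf (QuotientGroup.mk ⟨g, hgP⟩ : P ⧸ K.subgroupOf P) = p := by
      refine orderOf_eq_prime ?_ ?_
      · rw [← QuotientGroup.mk_pow, QuotientGroup.eq_one_iff, Subgroup.mem_subgroupOf]
        rw [Subgroup.coe_pow, hgp]
        exact one_mem K
      · rw [Ne, QuotientGroup.eq_one_iff, Subgroup.mem_subgroupOf]
        exact hgK
    have h2 : p ∣ K.relIndex P := by
      rw [← h1]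
      exact orderOf_dvd_natCard _
    apply hT
    refine h2.trans ((Dvd.intro _ (Subgroup.relIndex_mul_index hKP)).trans ?_)
    exact Dvd.intro_left _ (Subgroup.relIndex_mul_index hTK)
  · push Not at hex
    rw [← sub_eq_zero]
    refine eq_zero_of_br fun z => ?_
    have hxy : br x y = 1 := by rw [← star_br, hy, star_one]
    have h1 := hex (z - br x z • y) (by rw [br_sub_right, br_smul_right, hxy, mul_one, sub_self])
    rw [br_sub_left, br_smul_left, star_br] at h1
    rw [br_sub_right, br_smul_right, ← h1]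
    ring

/-- the matrices with fixed columns -/
def II (T : Subgroup (SU ι E)) : AddSubgroup (Matrix ι ι E) where
  carrier := {a | ∀ t ∈ T, _root_.Cfsg.Agent.H308.CA.mt t * a = a}
  zero_mem' t _ := mul_zero _
  add_mem' := by
    intro a b ha hb t ht
    rw [mul_add, ha t ht, hb t ht]
  neg_mem' := by
    intro a ha t ht
    rw [mul_neg, ha t ht]

/-- the matrices with columns orthogonal to the fixed columns -/
def JJ (T : Subgroup (SU ι E)) : AddSubgroup (Matrix ι ι E) where
  carrier := {b | ∀ a ∈ II T, star a * b = 0}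
  zero_mem' a _ := mul_zero _
  add_mem' := by
    intro a b ha hb t ht
    rw [mul_add, ha t ht, hb t ht, add_zero]
  neg_mem' := by
    intro a ha t ht
    rw [mul_neg, ha t ht, neg_zero]

/-- the elements acting as `s = ± 1` on `II`, and trivially on `JJ / II` -/
def US (T : Subgroup (SU ι E)) (s : ℤˣ) (u : Matrix ι ι E) : Prop :=
  (∀ a ∈ II T, u * a = (s : ℤ) • a) ∧ ∀ b ∈ JJ T, u * b - b ∈ II T

theorem US.one (T : Subgroup (SU ι E)) : US T 1 (1 : Matrix ι ι E) :=
  ⟨fun a _ => by rw [one_mul, Units.val_one, one_smul], fun b _ => by rw [one_mul, sub_self]; exact zero_mem _⟩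

theorem US.mul {T : Subgroup (SU ι E)} {s s' : ℤˣ} {u v : Matrix ι ι E} (hu : US T s u) (hv : US T s' v) :
    US T (s * s') (u * v) := by
  refine ⟨fun a ha => ?_, fun b hb => ?_⟩
  · rw [mul_assoc, hv.1 a ha, mul_smul_comm, hu.1 a ha, smul_smul, Units.val_mul, mul_comm]
  · have e : u * v * b - b = u * (v * b - b) + (u * b - b) := by
      rw [mul_sub, mul_assoc]; abel
    rw [e]
    refine add_mem ?_ (hu.2 b hb)
    rw [hu.1 _ (hv.2 b hb)]
    exact zsmul_mem (hv.2 b hb) _

theorem US.str {T : Subgroup (SU ι E)} {s : ℤˣ} {u : Matrix ι ι E} (hu : US T s u) (h1 : star u * u = 1) :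
    US T s (star u) := by
  have hss : (s : ℤ) * s = 1 := by
    rw [← Units.val_mul, Int.units_mul_self, Units.val_one]
  have h2 : ∀ a ∈ II T, star u * a = (s : ℤ) • a := by
    intro a ha
    have h3 := hu.1 a ha
    calc star u * a = star u * (((s : ℤ) * s) • a) := by rw [hss, one_smul]
      _ = (s : ℤ) • (star u * (u * a)) := by rw [h3, mul_smul_comm, mul_smul_comm, smul_smul]
      _ = (s : ℤ) • a := by rw [← mul_assoc, h1, one_mul]
  refine ⟨h2, fun b hb => ?_⟩
  have e : star u * b - b = -(star u * (u * b - b)) := by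
    rw [mul_sub, ← mul_assoc, h1, one_mul, neg_sub]
  rw [e, h2 _ (hu.2 b hb)]
  exact neg_mem (zsmul_mem (hu.2 b hb) _)

/-- the elements of `US T 1` are unipotent -/
theorem US.cube {T : Subgroup (SU ι E)} {u : Matrix ι ι E} (hu : US T 1 u) (h1 : star u * u = 1) :
    (u - 1) ^ 3 = 0 := by
  have h2 : u - 1 ∈ JJ T := by
    intro a ha
    have h3 := (hu.str h1).1 a ha
    rw [Units.val_one, one_smul] at h3
    have h4 := congrArg star h3
    rw [star_mul, star_star] at h4
    rw [mul_sub, h4, mul_one, sub_self]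
  have h3 : (u - 1) * (u - 1) ∈ II T := by
    have := hu.2 _ h2
    rwa [sub_mul, one_mul]
  have h4 := hu.1 _ h3
  rw [Units.val_one, one_smul] at h4
  rw [pow_succ', sq, sub_mul, one_mul, h4, sub_self]

theorem red (h : Gd E) : IsReduced E := by
  cases h with
  | uni F i s _ hs => infer_instance
  | lin F i _ => exact inferInstanceAs (IsReduced (F × F))

theorem eq_one_of_pow (h : Gd E) {p : ℕ} (hp : p.Prime) [CharP E p] {c : E} (hc : c ^ p = 1) : c = 1 := by
  have : Fact p.Prime := ⟨hp⟩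
  have h1 := red h
  have h2 : (c - 1) ^ p = 0 := by rw [sub_pow_char, hc, one_pow, sub_self]
  exact sub_eq_zero.1 (pow_eq_zero_iff hp.ne_zero |>.1 h2)

theorem US.det {T : Subgroup (SU ι E)} {u : Matrix ι ι E} (hu : US T 1 u) (h1 : star u * u = 1) (h : Gd E)
    {p : ℕ} (hp : p.Prime) (hp2 : p ≠ 2) [CharP E p] [Nonempty ι] : u.det = 1 := by
  have hn := h.nontrivial
  have h2 := pow_p_of_cube hp hp2 (hu.cube h1)
  have h3 := congrArg Matrix.det h2
  rw [det_pow, det_one] at h3
  exact eq_one_of_pow h hp h3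

/-- the matrix with all columns equal to `v` -/
def cs (v : ι → E) : Matrix ι ι E := Matrix.of fun i _ => v i

theorem mul_cs (A : Matrix ι ι E) (v : ι → E) : A * cs v = cs (A *ᵥ v) := by
  ext i j
  rw [Matrix.mul_apply]
  rfl

theorem cs_inj [Nonempty ι] {v w : ι → E} (h : cs v = cs w) : v = w := by
  obtain ⟨j⟩ := ‹Nonempty ι›
  funext i
  exact congrFun (congrFun h i) j

theorem cs_mem [Nonempty ι] {T : Subgroup (SU ι E)} {v : ι → E} : cs v ∈ II T ↔ v ∈ Cv T := by
  refine forall₂_congr fun t ht => ?_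
  rw [mul_cs]
  exact ⟨cs_inj, fun h => by rw [h]⟩

theorem mem_II_col {T : Subgroup (SU ι E)} {a : Matrix ι ι E} : a ∈ II T ↔ ∀ j, (fun i => a i j) ∈ Cv T := by
  constructor
  · intro h j t ht
    have h1 := h t ht
    funext i
    exact congrFun (congrFun h1 i) j
  · intro h t ht
    ext i j
    exact congrFun (h j t ht) i

section

variable {T : Subgroup (SU ι E)} {x y : ι → E}

theorem mem_JJ_col [Nonempty ι] (hx : x ∈ Cv T) (hC : ∀ v ∈ Cv T, v = br y v • x) {b : Matrix ι ι E} :
    b ∈ JJ T ↔ ∀ j, br x (fun i => b i j) = 0 := by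
  constructor
  · intro h j
    have h1 := h (cs x) (cs_mem.2 hx)
    obtain ⟨i⟩ := ‹Nonempty ι›
    exact congrFun (congrFun h1 i) j
  · intro h a ha
    ext i j
    have h1 : (star a * b) i j = br (fun k => a k i) (fun k => b k j) := rfl
    rw [h1, hC _ (mem_II_col.1 ha i), br_smul_left, h j, mul_zero]
    rfl

theorem hh_US [Nonempty ι] (hx : x ∈ Cv T) (hxx : br x x = 0) (hC : ∀ v ∈ Cv T, v = br y v • x) {z : ι → E}
    (hz : br z x = 1) : US T (-1) (hh x z) := by
  refine ⟨fun a ha => ?_, fun b hb => ?_⟩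
  · rw [Units.val_neg, Units.val_one, neg_smul, one_smul]
    ext i j
    have h1 : (hh x z * a) i j = (hh x z *ᵥ fun k => a k j) i := rfl
    have h2 := hC _ (mem_II_col.1 ha j)
    have h3 : (-a) i j = (-(fun k => a k j)) i := rfl
    rw [h1, h3, h2, mulVec_smul, hh_mulVec, hz, hxx]
    simp
    ring
  · rw [mem_II_col]
    intro j
    have h1 := (mem_JJ_col hx hC).1 hb j
    have h2 : (fun i => (hh x z * b - b) i j) = (hh x z *ᵥ fun k => b k j) - fun k => b k j := rfl
    rw [h2, hh_mulVec, h1]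
    have h3 : (fun k => b k j) - (2 * br z fun k => b k j) • x - (2 * (0 : E)) • z - (fun k => b k j) =
        -((2 * br z fun k => b k j) • x) := by
      rw [mul_zero, zero_smul]; abel
    rw [h3]
    exact Submodule.neg_mem _ (Submodule.smul_mem _ _ hx)

theorem US.unique (h : Gd E) {p : ℕ} (hp : p.Prime) (hp2 : p ≠ 2) [CharP E p] [Nonempty ι] (hx : x ∈ Cv T)
    (hx0 : x ≠ 0) {u : Matrix ι ι E} {s s' : ℤˣ} (hu : US T s u) (hu' : US T s' u) : s = s' := by
  have h1 : (2 : E) • x ≠ 0 := fun h0 => hx0 ((two_unit h hp hp2).smul_eq_zero.1 h0)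
  have h2 := (hu.1 _ (cs_mem.2 hx)).symm.trans (hu'.1 _ (cs_mem.2 hx))
  have h3 : ∀ a : ι → E, cs (-a) = -cs a := fun a => rfl
  rcases Int.units_eq_one_or s with rfl | rfl <;> rcases Int.units_eq_one_or s' with rfl | rfl
  · rfl
  · exfalso
    rw [Units.val_neg, Units.val_one, neg_smul, one_smul, ← h3] at h2
    have h4 := cs_inj h2
    apply h1
    rw [two_smul]
    nth_rewrite 1 [h4]
    exact neg_add_cancel x
  · exfalso
    rw [Units.val_neg, Units.val_one, neg_smul, one_smul, ← h3] at h2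
    have h4 := cs_inj h2
    apply h1
    rw [two_smul]
    nth_rewrite 1 [← h4]
    exact neg_add_cancel x
  · rfl

end

/-! ### star ring automorphisms -/

section

variable {T : Subgroup (SU ι E)} [Finite E] {θ : RingAut (Matrix ι ι E)} (hs : ∀ a, θ (star a) = star (θ a))
  (hθ : ∀ t ∈ T, ∃ t' ∈ T, _root_.Cfsg.Agent.H308.CA.mt t' = θ (_root_.Cfsg.Agent.H308.CA.mt t))

include hθ in
theorem II_symm {a : Matrix ι ι E} (ha : a ∈ II T) : θ.symm a ∈ II T := by
  intro t ht
  obtain ⟨t', ht', e⟩ := hθ t ht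
  apply θ.injective
  rw [map_mul, ← e, RingEquiv.apply_symm_apply]
  exact ha t' ht'

include hθ in
theorem II_map {a : Matrix ι ι E} (ha : a ∈ II T) : θ a ∈ II T := by
  have h1 : Function.Injective (fun a : II T => (⟨θ.symm a, II_symm hθ a.2⟩ : II T)) := by
    intro a b hab
    exact Subtype.ext (θ.symm.injective (congrArg Subtype.val hab))
  have hf : Finite (Matrix ι ι E) := inferInstanceAs (Finite (ι → ι → E))
  obtain ⟨b, hb⟩ := (Finite.injective_iff_surjective.1 h1) ⟨a, ha⟩
  have h2 : θ.symm b = a := congrArg Subtype.val hb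
  have h3 : θ a = b := by rw [← h2, RingEquiv.apply_symm_apply]
  rw [h3]
  exact b.2

include hs hθ in
theorem JJ_symm {b : Matrix ι ι E} (hb : b ∈ JJ T) : θ.symm b ∈ JJ T := by
  intro a ha
  apply θ.injective
  rw [map_mul, map_zero, RingEquiv.apply_symm_apply, hs]
  exact hb _ (II_map hθ ha)

include hs hθ in
theorem US.map {s : ℤˣ} {u : Matrix ι ι E} (hu : US T s u) : US T s (θ u) := by
  refine ⟨fun a ha => ?_, fun b hb => ?_⟩
  · have h1 := congrArg θ (hu.1 _ (II_symm hθ ha))
    rw [map_mul, RingEquiv.apply_symm_apply, map_zsmul, RingEquiv.apply_symm_apply] at h1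
    exact h1
  · have h1 := II_map hθ (hu.2 _ (JJ_symm hs hθ hb))
    rw [map_sub, map_mul, RingEquiv.apply_symm_apply] at h1
    exact h1

end

theorem unit_of_norm (h : Gd E) {c : E} (hc : star c * c = 1) (h1 : c ≠ 1) : IsUnit (c - 1) := by
  cases h with
  | uni F i s _ hs => exact isUnit_iff_ne_zero.2 (sub_ne_zero.2 h1)
  | lin F i _ =>
    obtain ⟨a, b⟩ := c
    have h2 : b * a = 1 := congrArg Prod.fst hc
    have ha : a ≠ 1 := by
      rintro rfl
      rw [mul_one] at h2
      subst h2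
      exact h1 rfl
    have hb : b ≠ 1 := by
      rintro rfl
      rw [one_mul] at h2
      exact ha h2
    exact Prod.isUnit_iff.2 ⟨isUnit_iff_ne_zero.2 (sub_ne_zero.2 ha), isUnit_iff_ne_zero.2 (sub_ne_zero.2 hb)⟩

/-- **(BOR)** -/
theorem bor_st (h : Gd E) : BorSt E := by
  intro p hp hp2 hch ι _ _ hι T hTp hTi
  have hn := h.nontrivial
  have hfin := h.finite
  have hfp : Fact p.Prime := ⟨hp⟩
  have hne : Nonempty ι := Fintype.card_pos_iff.1 (by omega)
  obtain ⟨x, ⟨hx, hx'⟩, y, hy⟩ := exists_x h (X := Cv T ⊓ Cp T) (fun e he he0 => by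
    obtain ⟨x, h1, h2, h3⟩ := exists_smul_ne h hp hp2 hι hTp hTi he he0
    exact ⟨x, ⟨h1, h2⟩, h3⟩)
  have hxx : br x x = 0 := hx' x hx
  have hC : ∀ v ∈ Cv T, v = br y v • x := fun v hv => Cv_eq h hp hp2 hι hTi hx hx' hy hv
  have hx0 : x ≠ 0 := by
    rintro rfl
    rw [br_zero_right] at hy
    exact zero_ne_one hy
  -- the involution
  obtain ⟨c, hc, hcs⟩ := exists_half h hp hp2 (a := br y y) (star_br y y)
  have hxy : br x y = 1 := by rw [← star_br, hy, star_one]
  have hz : br (y - c • x) x = 1 := by rw [br_sub_left, br_smul_left, hxx, mul_zero, sub_zero, hy]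
  have hzz : br (y - c • x) (y - c • x) = 0 := by
    simp only [br_sub_left, br_sub_right, br_smul_left, br_smul_right, hxx, hy, hxy, ← hc, hcs]
    ring
  obtain ⟨k, hk⟩ : ∃ k : SU ι E, H308.CA.mt k = hh x (y - c • x) := ⟨mkSU _ (hh_unitary hxx hzz hz) (hh_det hxx hzz hz), rfl⟩
  have hkU : US T (-1) (_root_.Cfsg.Agent.H308.CA.mt k) := by
    rw [hk]
    exact hh_US hx hxx hC hz
  -- determinants
  have hdet : ∀ (s : ℤˣ) (u : Matrix ι ι E), star u * u = 1 → US T s u → u.det = 1 := by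
    intro s u h1 h2
    rcases Int.units_eq_one_or s with rfl | rfl
    · exact h2.det h1 h hp hp2
    · have h3 := h2.mul hkU
      rw [neg_mul_neg, one_mul] at h3
      have h4 : star (u * _root_.Cfsg.Agent.H308.CA.mt k) * (u * _root_.Cfsg.Agent.H308.CA.mt k) = 1 := by
        rw [star_mul, mul_assoc, ← mul_assoc (star u), h1, one_mul, star_mt_mul]
      have h5 := h3.det h4 h hp hp2
      rw [det_mul, mt_det, mul_one] at h5
      exact h5
  let Y : Subgroup (SU ι E) :=
    { carrier := {u | ∃ s, US T s (_root_.Cfsg.Agent.H308.CA.mt u)}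
      mul_mem' := by
        rintro a b ⟨s, hs⟩ ⟨s', hs'⟩
        exact ⟨s * s', by rw [map_mul]; exact hs.mul hs'⟩
      one_mem' := ⟨1, by rw [map_one]; exact US.one T⟩
      inv_mem' := by
        rintro a ⟨s, hs⟩
        exact ⟨s, by rw [mt_inv]; exact hs.str (star_mt_mul a)⟩ }
  let Q : Subgroup (SU ι E) :=
    { carrier := {u | US T 1 (_root_.Cfsg.Agent.H308.CA.mt u)}
      mul_mem' := by
        intro a b ha hb
        have h1 := US.mul ha hb
        rw [one_mul] at h1
        change US T 1 (_root_.Cfsg.Agent.H308.CA.mt (a * b))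
        rw [map_mul]
        exact h1
      one_mem' := by
        change US T 1 (mt 1)
        rw [map_one]; exact US.one T
      inv_mem' := by
        intro a ha
        change US T 1 (_root_.Cfsg.Agent.H308.CA.mt a⁻¹)
        rw [mt_inv]; exact US.str ha (star_mt_mul a) }
  have hQY : Q ≤ Y := fun u hu => ⟨1, hu⟩
  refine ⟨Q, Y, hQY, ?_, ?_, ?_, ?_⟩
  · -- `Q` is a `p`-group
    intro u
    refine ⟨1, Subtype.ext (mt_injective ?_)⟩
    rw [pow_one, Subgroup.coe_pow, map_pow, Subgroup.coe_one, map_one]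
    exact pow_p_of_cube hp hp2 (US.cube u.2 (star_mt_mul _))
  · -- the index
    rw [Subgroup.relIndex, Subgroup.index_eq_two_iff]
    refine ⟨⟨k, ⟨-1, hkU⟩⟩, fun u => ?_⟩
    rw [Subgroup.mem_subgroupOf, Subgroup.mem_subgroupOf]
    obtain ⟨s, hu⟩ := u.2
    rcases Int.units_eq_one_or s with rfl | rfl
    · refine Or.inr ⟨hu, fun h1 => ?_⟩
      have h2 : US T 1 (_root_.Cfsg.Agent.H308.CA.mt ((u : SU ι E) * k)) := h1
      have h3 := hu.mul hkU
      rw [map_mul] at h2
      rw [one_mul] at h3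
      exact absurd (h2.unique h hp hp2 hx hx0 h3) (by decide)
    · refine Or.inl ⟨?_, fun h1 => ?_⟩
      · have h3 := hu.mul hkU
        rw [neg_mul_neg, one_mul, ← map_mul] at h3
        exact h3
      · have h2 : US T 1 (_root_.Cfsg.Agent.H308.CA.mt (u : SU ι E)) := h1
        exact absurd (h2.unique h hp hp2 hx hx0 hu) (by decide)
  · -- scalars
    rintro u ⟨s, hu⟩ ⟨e, he, heq⟩
    by_cases he1 : e = 1
    · have h1 : u = 1 := mt_injective (by rw [heq, he1, one_smul, map_one])
      rw [h1]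
      exact one_mem Q
    · exfalso
      obtain ⟨d, hd⟩ := (unit_of_norm h he he1).exists_left_inv
      -- all vectors orthogonal to `x` are multiples of `x`
      have h1 : ∀ v, br x v = 0 → v ∈ Cv T := by
        intro v hv
        have h2 : cs v ∈ JJ T := (mem_JJ_col hx hC).2 fun _ => hv
        have h3 := hu.2 _ h2
        rw [heq, smul_mul_assoc, one_mul] at h3
        have h4 : e • cs v - cs v = cs ((e - 1) • v) := by
          ext i j
          simp only [cs, sub_mul, _root_.Matrix.smul_of, _root_.Matrix.sub_apply, _root_.Matrix.of_apply, _root_.Pi.smul_apply, _root_.smul_eq_mul, _root_.one_mul]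
        rw [h4, cs_mem] at h3
        have h5 := Submodule.smul_mem _ d h3
        rwa [smul_smul, hd, one_smul] at h5
      have hinj : Function.Injective (fun v : ι → E => ((br x v, br y v) : E × E)) := by
        intro v w hvw
        have h2 : br x v = br x w := congrArg Prod.fst hvw
        have h3 : br y v = br y w := congrArg Prod.snd hvw
        have h4 := hC _ (h1 (v - w) (by rw [br_sub_right, h2, sub_self]))
        rw [br_sub_right, h3, sub_self, zero_smul] at h4
        exact sub_eq_zero.1 h4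
      have h2 := Nat.card_le_card_of_injective _ hinj
      rw [Nat.card_fun, Nat.card_prod, Nat.card_eq_fintype_card (α := ι)] at h2
      have h3 : 1 < Nat.card E := Finite.one_lt_card
      have h4 : Nat.card E ^ 3 ≤ Nat.card E ^ Fintype.card ι := Nat.pow_le_pow_right (by omega) hι
      have h5 : Nat.card E * Nat.card E < Nat.card E ^ 3 := by
        rw [pow_succ, sq]
        exact lt_mul_of_one_lt_right (by (clear * - h3; positivity)) h3
      omega
  · -- automorphisms
    intro θ hs hθ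
    have key : ∀ (s : ℤˣ) (u : SU ι E), US T s (_root_.Cfsg.Agent.H308.CA.mt u) → ∃ u' : SU ι E, US T s (_root_.Cfsg.Agent.H308.CA.mt u') ∧ _root_.Cfsg.Agent.H308.CA.mt u' = θ (_root_.Cfsg.Agent.H308.CA.mt u) := by
      intro s u hu
      have h1 : US T s (θ (_root_.Cfsg.Agent.H308.CA.mt u)) := US.map hs hθ hu
      have h2 : star (θ (_root_.Cfsg.Agent.H308.CA.mt u)) * θ (_root_.Cfsg.Agent.H308.CA.mt u) = 1 := by rw [← hs, ← map_mul, star_mt_mul, map_one]
      exact ⟨mkSU _ h2 (hdet s _ h2 h1), h1, rfl⟩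
    refine ⟨fun q hq => ?_, fun u hu => ?_⟩
    · obtain ⟨u', h1, h2⟩ := key 1 q hq
      exact ⟨u', h1, h2⟩
    · obtain ⟨s, hu⟩ := hu
      obtain ⟨u', h1, h2⟩ := key s u hu
      exact ⟨u', ⟨s, h1⟩, h2⟩

end Cfsg.Agent.H689.CA
end

-- part: H901/CA/Form
section
/-!
# Skew nilpotent elements: orthogonal cyclic decomposition (helper901, for S3852)
-/

set_option autoImplicit false
set_option linter.unusedSectionVars false

namespace Cfsg.Agent.H901.CA

open Finset Matrix Cfsg.Agent.H308.CA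

section form

variable {ι : Type} [Fintype ι] {E : Type} [CommRing E] [StarRing E]

/-- the hermitian form -/
def hf (v w : ι → E) : E := star v ⬝ᵥ w

theorem hf_add_left (u v w : ι → E) : hf (u + v) w = hf u w + hf v w := by
  rw [hf, star_add, add_dotProduct]; rfl

theorem hf_add_right (u v w : ι → E) : hf u (v + w) = hf u v + hf u w := by
  rw [hf, dotProduct_add]; rfl

theorem hf_sub_left (u v w : ι → E) : hf (u - v) w = hf u w - hf v w := by
  rw [hf, star_sub, sub_dotProduct]; rfl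

theorem hf_sub_right (u v w : ι → E) : hf u (v - w) = hf u v - hf u w := by
  rw [hf, dotProduct_sub]; rfl

theorem hf_smul_left (a : E) (v w : ι → E) : hf (a • v) w = star a * hf v w := by
  rw [hf, star_smul, smul_dotProduct, smul_eq_mul]; rfl

theorem hf_smul_right (a : E) (v w : ι → E) : hf v (a • w) = a * hf v w := by
  rw [hf, dotProduct_smul, smul_eq_mul]; rfl

theorem hf_zero_right (v : ι → E) : hf v (0 : ι → E) = 0 := dotProduct_zero _

theorem hf_zero_left (v : ι → E) : hf (0 : ι → E) v = 0 := by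
  rw [hf, star_zero, zero_dotProduct]

theorem hf_sum_right {J : Type*} (s : Finset J) (v : ι → E) (f : J → ι → E) :
    hf v (∑ t ∈ s, f t) = ∑ t ∈ s, hf v (f t) := by
  classical
  induction s using Finset.induction_on with
  | empty => rw [sum_empty, sum_empty, hf_zero_right]
  | insert a s ha ih => rw [sum_insert ha, sum_insert ha, hf_add_right, ih]

theorem hf_sum_left {J : Type*} (s : Finset J) (v : ι → E) (f : J → ι → E) :
    hf (∑ t ∈ s, f t) v = ∑ t ∈ s, hf (f t) v := by
  classical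
  induction s using Finset.induction_on with
  | empty => rw [sum_empty, sum_empty, hf_zero_left]
  | insert a s ha ih => rw [sum_insert ha, sum_insert ha, hf_add_left, ih]

theorem star_hf (v w : ι → E) : star (hf v w) = hf w v := by
  rw [hf, hf, dotProduct, dotProduct, star_sum]
  refine sum_congr rfl fun i _ => ?_
  rw [star_mul, Pi.star_apply, star_star, Pi.star_apply]

variable [DecidableEq ι]

theorem hf_mulVec_left (A : Matrix ι ι E) (v w : ι → E) : hf (A *ᵥ v) w = hf v (star A *ᵥ w) := by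
  rw [hf, hf, star_mulVec, ← dotProduct_mulVec]; rfl

theorem eq_zero_of_hf {w : ι → E} (h : ∀ v, hf v w = 0) : w = 0 := by
  funext i
  have h1 := h (Pi.single i 1)
  rw [hf, dotProduct] at h1
  rw [Finset.sum_eq_single i] at h1
  · simpa using h1
  · intro j _ hj
    rw [Pi.star_apply, Pi.single_eq_of_ne hj, star_zero, zero_mul]
  · intro h2
    exact absurd (mem_univ i) h2

variable {n : Matrix ι ι E}

theorem star_pow_skew (hn : star n = -n) (j : ℕ) : star (n ^ j) = (-1 : E) ^ j • n ^ j := by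
  rw [star_pow, hn, ← neg_one_smul E n, smul_pow]

theorem hf_pow_left (hn : star n = -n) (j : ℕ) (v w : ι → E) : hf ((n ^ j) *ᵥ v) w = (-1) ^ j * hf v ((n ^ j) *ᵥ w) := by
  rw [hf_mulVec_left, star_pow_skew hn, smul_mulVec, hf_smul_right]

theorem star_hf_pow (hn : star n = -n) (j : ℕ) (v w : ι → E) :
    star (hf v ((n ^ j) *ᵥ w)) = (-1) ^ j * hf w ((n ^ j) *ᵥ v) := by
  rw [star_hf, hf_pow_left hn]

theorem pow_mulVec_add (j k : ℕ) (v : ι → E) : (n ^ (j + k)) *ᵥ v = (n ^ j) *ᵥ ((n ^ k) *ᵥ v) := by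
  rw [mulVec_mulVec, ← pow_add]

theorem pow_mulVec_zero {s j : ℕ} (hj : s ≤ j) {v : ι → E} (hs : (n ^ s) *ᵥ v = 0) : (n ^ j) *ᵥ v = 0 := by
  obtain ⟨k, rfl⟩ := Nat.exists_eq_add_of_le hj
  rw [add_comm, pow_mulVec_add, hs, mulVec_zero]

theorem neg_one_pow_mul_self (j : ℕ) : ((-1 : E) ^ j) * (-1) ^ j = 1 := by
  rw [← mul_pow]; simp

/-- one step of the canonicalization -/
theorem can_step (hn : star n = -n) (h2 : IsUnit (2 : E)) {v : ι → E} {s j : ℕ} (hj : j < s)
    (hs : (n ^ (s + 1)) *ᵥ v = 0) (hu : IsUnit (hf v ((n ^ s) *ᵥ v)))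
    (hz : ∀ l, j < l → l < s → hf v ((n ^ l) *ᵥ v) = 0) :
    ∃ a : E, hf (v + a • ((n ^ (s - j)) *ᵥ v)) ((n ^ s) *ᵥ (v + a • ((n ^ (s - j)) *ᵥ v))) = hf v ((n ^ s) *ᵥ v) ∧
      ∀ l, j ≤ l → l < s → hf (v + a • ((n ^ (s - j)) *ᵥ v)) ((n ^ l) *ᵥ (v + a • ((n ^ (s - j)) *ᵥ v))) = 0 := by
  obtain ⟨w, hw⟩ := hu.exists_right_inv
  obtain ⟨t, ht⟩ := h2.exists_right_inv
  set i := s - j with hi
  set c := fun l => hf v ((n ^ l) *ᵥ v) with hc
  have hexp : ∀ (a : E) (l : ℕ), hf (v + a • ((n ^ i) *ᵥ v)) ((n ^ l) *ᵥ (v + a • ((n ^ i) *ᵥ v))) =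
      c l + a * c (l + i) + star a * ((-1) ^ i * c (l + i)) + star a * a * ((-1) ^ i * c (l + i + i)) := by
    intro a l
    rw [mulVec_add, mulVec_smul, mulVec_mulVec, ← pow_add, hf_add_left, hf_add_right, hf_add_right, hf_smul_left,
      hf_smul_left, hf_smul_right, hf_smul_right, hf_pow_left hn, hf_pow_left hn, mulVec_mulVec, mulVec_mulVec,
      ← pow_add, ← pow_add]
    rw [show i + l = l + i by omega, show i + (l + i) = l + i + i by omega]
    simp only [hc]
    ring
  have hc0 : ∀ l, s < l → c l = 0 := by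
    intro l hl
    simp only [hc]
    rw [pow_mulVec_zero (by omega : s + 1 ≤ l) hs, hf_zero_right]
  have hstar : ∀ l, star (c l) = (-1) ^ l * c l := fun l => star_hf_pow hn l v v
  have hstw : star w = (-1) ^ s * w := by
    have h3 : star (c s) * star w = 1 := by
      rw [← star_mul', hw, star_one]
    rw [hstar] at h3
    calc star w = ((-1) ^ s * (-1) ^ s) * star w * (c s * w) := by rw [neg_one_pow_mul_self, hw]; ring
      _ = (((-1) ^ s * c s) * star w) * ((-1) ^ s * w) := by ring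
      _ = (-1) ^ s * w := by rw [h3, one_mul]
  have hstt : star t = t := by
    have h3 : (2 : E) * star t = 1 := by
      have h4 := congrArg star ht
      rwa [star_mul', star_one, star_ofNat] at h4
    calc star t = (2 * t) * star t := by rw [ht, one_mul]
      _ = (2 * star t) * t := by ring
      _ = t := by rw [h3, one_mul]
  have hsta : star (-(c j * w * t)) = (-1) ^ i * -(c j * w * t) := by
    rw [star_neg, star_mul', star_mul', hstar, hstw, hstt]
    have h3 : ((-1 : E)) ^ i = (-1) ^ j * (-1) ^ s := by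
      rw [← pow_add, hi]
      have h4 : j + s = (s - j) + 2 * j := by omega
      rw [h4, pow_add, pow_mul]
      simp only [_root_.even_two, _root_.Even.neg_pow, _root_.one_pow, _root_.mul_one]
    rw [h3]
    ring
  refine ⟨-(c j * w * t), ?_, ?_⟩
  · rw [hexp, hc0 (s + i) (by omega), hc0 (s + i + i) (by omega)]
    simp only [hc]
    ring
  · intro l hl hl'
    rw [hexp, hc0 (l + i + i) (by omega), hsta]
    rcases eq_or_lt_of_le hl with h | h
    · subst h
      rw [show j + i = s by omega]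
      have h3 := neg_one_pow_mul_self (E := E) i
      calc c j + -(c j * w * t) * c s + (-1) ^ i * -(c j * w * t) * ((-1) ^ i * c s) +
            (-1) ^ i * -(c j * w * t) * -(c j * w * t) * ((-1) ^ i * 0) =
            c j + -(c j * w * t) * c s + ((-1) ^ i * (-1) ^ i) * (-(c j * w * t) * c s) := by ring
        _ = c j - c j * (c s * w) * (2 * t) := by rw [h3]; ring
        _ = 0 := by rw [hw, ht]; ring
    · rw [hc0 (l + i) (by omega)]
      simp only [hc]
      rw [hz l h hl']
      ring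

/-- **canonical generators** -/
theorem can (hn : star n = -n) (h2 : IsUnit (2 : E)) {W : Submodule E (ι → E)} (hW : ∀ x ∈ W, n *ᵥ x ∈ W) {v : ι → E}
    (hv : v ∈ W) {s : ℕ} (hs : (n ^ (s + 1)) *ᵥ v = 0) (hu : IsUnit (hf v ((n ^ s) *ᵥ v))) :
    ∃ v' ∈ W, (n ^ (s + 1)) *ᵥ v' = 0 ∧ IsUnit (hf v' ((n ^ s) *ᵥ v')) ∧
      ∀ l, l ≠ s → hf v' ((n ^ l) *ᵥ v') = 0 := by
  have hWp : ∀ j, ∀ x ∈ W, (n ^ j) *ᵥ x ∈ W := by
    intro j
    induction j with
    | zero => intro x hx; rwa [pow_zero, one_mulVec]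
    | succ j ih =>
      intro x hx
      rw [pow_succ', ← mulVec_mulVec]
      exact hW _ (ih x hx)
  have key : ∀ k, k ≤ s → ∃ v' ∈ W, (n ^ (s + 1)) *ᵥ v' = 0 ∧ IsUnit (hf v' ((n ^ s) *ᵥ v')) ∧
      ∀ l, s ≤ l + k → l < s → hf v' ((n ^ l) *ᵥ v') = 0 := by
    intro k
    induction k with
    | zero => intro _; exact ⟨v, hv, hs, hu, fun l h1 h2 => absurd h2 (by omega)⟩
    | succ k ih =>
      intro hk
      obtain ⟨v', hv', hs', hu', hz'⟩ := ih (by omega)
      obtain ⟨a, ha1, ha2⟩ := can_step hn h2 (j := s - (k + 1)) (by omega) hs' hu'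
        (fun l h3 h4 => hz' l (by omega) h4)
      refine ⟨_, W.add_mem hv' (W.smul_mem a (hWp _ _ hv')), ?_, ha1.symm ▸ hu', fun l h3 h4 => ha2 l (by omega) h4⟩
      rw [mulVec_add, mulVec_smul, hs', mulVec_mulVec, ← pow_add, pow_mulVec_zero (by omega : s + 1 ≤ _) hs', smul_zero,
        add_zero]
  obtain ⟨v', hv', hs', hu', hz'⟩ := key s le_rfl
  refine ⟨v', hv', hs', hu', fun l hl => ?_⟩
  rcases lt_or_gt_of_ne hl with h | h
  · exact hz' l (by omega) h
  · rw [pow_mulVec_zero (by omega : s + 1 ≤ l) hs', hf_zero_right]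

end form

end Cfsg.Agent.H901.CA
end

-- part: H901/CA/Fam
section
/-!
# Orthogonal families of cyclic generators (helper901, for S3852)
-/

set_option autoImplicit false
set_option linter.unusedSectionVars false

namespace Cfsg.Agent.H901.CA

open Finset Matrix Cfsg.Agent.H308.CA

variable {ι : Type} [Fintype ι] [DecidableEq ι] {E : Type} [CommRing E] [StarRing E]

/-- orthogonal cyclic generators with canonical forms; the piece `i` has rank `s i + 1` -/
structure Fam (n : Matrix ι ι E) (κ : Type) where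
  v : κ → ι → E
  s : κ → ℕ
  orth : ∀ i i' j, i ≠ i' → hf (v i) ((n ^ j) *ᵥ v i') = 0
  zero : ∀ i j, j ≠ s i → hf (v i) ((n ^ j) *ᵥ v i) = 0
  kill : ∀ i, (n ^ (s i + 1)) *ᵥ v i = 0
  unit : ∀ i, IsUnit (hf (v i) ((n ^ (s i)) *ᵥ v i))

namespace Fam

variable {n : Matrix ι ι E} {κ : Type} (D : Fam n κ)

/-- the index set -/
abbrev J : Type := Σ i : κ, Fin (D.s i + 1)

/-- the basis vectors -/
def b (t : D.J) : ι → E := (n ^ (t.2 : ℕ)) *ᵥ D.v t.1

/-- the opposite index -/
def σ (t : D.J) : D.J := ⟨t.1, Fin.rev t.2⟩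

theorem σ_val (t : D.J) : ((D.σ t).2 : ℕ) = D.s t.1 - t.2 := by
  show ((Fin.rev t.2 : Fin _) : ℕ) = _
  rw [Fin.val_rev]
  omega

theorem σ_σ (t : D.J) : D.σ (D.σ t) = t := by
  rcases t with ⟨i, j⟩
  show (⟨i, Fin.rev (Fin.rev j)⟩ : D.J) = ⟨i, j⟩
  rw [Fin.rev_rev]

theorem gram (hn : star n = -n) (t t' : D.J) (h : t' ≠ t) : hf (D.b (D.σ t)) (D.b t') = 0 := by
  rw [b, b, hf_pow_left hn, mulVec_mulVec, ← pow_add]
  by_cases h1 : t.1 = t'.1
  · rcases t with ⟨i, j⟩
    rcases t' with ⟨i', j'⟩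
    have h1' : i = i' := h1
    subst h1'
    have h2 : (j : ℕ) ≠ j' := fun h2 => h (by rw [Fin.ext h2])
    have h3 := D.σ_val ⟨i, j⟩
    have h4 : (j : ℕ) < D.s i + 1 := j.2
    have h5 : hf (D.v i) ((n ^ (((D.σ ⟨i, j⟩).2 : ℕ) + j')) *ᵥ D.v i) = 0 := by
      refine D.zero i _ ?_
      rw [h3]
      simp only
      omega
    show (-1) ^ _ * hf (D.v i) ((n ^ (((D.σ ⟨i, j⟩).2 : ℕ) + j')) *ᵥ D.v i) = 0
    rw [h5, mul_zero]
  · show (-1) ^ _ * hf (D.v t.1) ((n ^ (((D.σ t).2 : ℕ) + t'.2)) *ᵥ D.v t'.1) = 0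
    rw [D.orth t.1 t'.1 _ h1, mul_zero]

theorem gram_unit (hn : star n = -n) (t : D.J) : IsUnit (hf (D.b (D.σ t)) (D.b t)) := by
  rw [b, b, hf_pow_left hn, mulVec_mulVec, ← pow_add]
  have h4 : (t.2 : ℕ) < D.s t.1 + 1 := t.2.2
  have h3 : ((D.σ t).2 : ℕ) + t.2 = D.s t.1 := by
    rw [D.σ_val]
    omega
  rw [h3]
  refine IsUnit.mul ?_ (D.unit t.1)
  exact (isUnit_one.neg).pow _

theorem exists_w (hn : star n = -n) : ∃ w : D.J → E, ∀ t, w t * hf (D.b (D.σ t)) (D.b t) = 1 := by
  choose w hw using fun t => (D.gram_unit hn t).exists_left_inv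
  exact ⟨w, hw⟩

/-- the orthogonal complement -/
def perp (n : Matrix ι ι E) (D : Fam n κ) : Submodule E (ι → E) where
  carrier := {x | ∀ i j, hf (D.v i) ((n ^ j) *ᵥ x) = 0}
  add_mem' := by
    intro x y hx hy i j
    rw [mulVec_add, hf_add_right, hx i j, hy i j, add_zero]
  zero_mem' := by
    intro i j
    rw [mulVec_zero, hf_zero_right]
  smul_mem' := by
    intro a x hx i j
    rw [mulVec_smul, hf_smul_right, hx i j, mul_zero]

theorem perp_stable : ∀ x ∈ D.perp, n *ᵥ x ∈ D.perp := by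
  intro x hx i j
  rw [mulVec_mulVec, ← pow_succ]
  exact hx i _

theorem hf_b_perp (hn : star n = -n) (t : D.J) {x : ι → E} (hx : x ∈ D.perp) : hf (D.b t) x = 0 := by
  rw [b, hf_pow_left hn, hx, mul_zero]

theorem mem_perp_of (hn : star n = -n) {x : ι → E} (h : ∀ t, hf (D.b t) x = 0) : x ∈ D.perp := by
  intro i j
  rcases lt_or_ge j (D.s i + 1) with hj | hj
  · have h1 := h ⟨i, ⟨j, hj⟩⟩
    rw [b, hf_pow_left hn] at h1
    have h2 : ((-1 : E) ^ j) * ((-1) ^ j * hf (D.v i) ((n ^ j) *ᵥ x)) = 0 := by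
      have h3 : (-1 : E) ^ j * hf (D.v i) ((n ^ j) *ᵥ x) = 0 := h1
      rw [h3, mul_zero]
    rwa [← mul_assoc, neg_one_pow_mul_self, one_mul] at h2
  · have h1 : hf ((n ^ j) *ᵥ D.v i) x = 0 := by
      rw [pow_mulVec_zero hj (D.kill i), hf_zero_left]
    rw [hf_pow_left hn] at h1
    have h2 : ((-1 : E) ^ j) * ((-1) ^ j * hf (D.v i) ((n ^ j) *ᵥ x)) = 0 := by rw [h1, mul_zero]
    rwa [← mul_assoc, neg_one_pow_mul_self, one_mul] at h2

section fin

variable [Fintype κ]

/-- the projection -/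
theorem sub_proj_mem (hn : star n = -n) {w : D.J → E} (hw : ∀ t, w t * hf (D.b (D.σ t)) (D.b t) = 1) (x : ι → E) :
    x - ∑ t, (hf (D.b (D.σ t)) x * w t) • D.b t ∈ D.perp := by
  refine D.mem_perp_of hn fun t' => ?_
  obtain ⟨t, rfl⟩ : ∃ t, t' = D.σ t := ⟨D.σ t', (D.σ_σ t').symm⟩
  rw [hf_sub_right, hf_sum_right, Finset.sum_eq_single t]
  · rw [hf_smul_right, mul_assoc, hw, mul_one, sub_self]
  · intro t' _ ht'
    rw [hf_smul_right, D.gram hn t t' ht', mul_zero]
  · intro h
    exact absurd (mem_univ t) h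

theorem linInd (hn : star n = -n) : LinearIndependent E D.b := by
  obtain ⟨w, hw⟩ := D.exists_w hn
  rw [Fintype.linearIndependent_iff]
  intro g hg t
  have h1 : hf (D.b (D.σ t)) (∑ t', g t' • D.b t') = g t * hf (D.b (D.σ t)) (D.b t) := by
    rw [hf_sum_right, Finset.sum_eq_single t]
    · rw [hf_smul_right]
    · intro t' _ ht'
      rw [hf_smul_right, D.gram hn t t' ht', mul_zero]
    · intro h
      exact absurd (mem_univ t) h
  rw [hg, hf_zero_right] at h1
  calc g t = g t * (w t * hf (D.b (D.σ t)) (D.b t)) := by rw [hw, mul_one]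
    _ = w t * (g t * hf (D.b (D.σ t)) (D.b t)) := by ring
    _ = 0 := by rw [← h1, mul_zero]

theorem card_le [Nontrivial E] (hn : star n = -n) : Fintype.card D.J ≤ Fintype.card ι := by
  have h1 := (D.linInd hn).fintype_card_le_finrank
  rwa [Module.finrank_fintype_fun_eq_card] at h1

/-- the orthogonal complement contains a generator of a further piece -/
theorem exists_gen (hG : Gd E) (hn : star n = -n) {p : ℕ} (hp : n ^ p = 0) (hne : ∃ x ∈ D.perp, x ≠ 0) :
    ∃ s : ℕ, ∃ v ∈ D.perp, (n ^ (s + 1)) *ᵥ v = 0 ∧ IsUnit (hf v ((n ^ s) *ᵥ v)) := by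
  classical
  -- the nilpotency index of `n` on the complement
  have hex : ∃ s : ℕ, ∀ x ∈ D.perp, (n ^ s) *ᵥ x = 0 := ⟨p, fun x _ => by rw [hp, zero_mulVec]⟩
  have h0 : Nat.find hex ≠ 0 := by
    intro h0
    obtain ⟨x, hx, hx0⟩ := hne
    have := Nat.find_spec hex x hx
    rw [h0, pow_zero, one_mulVec] at this
    exact hx0 this
  obtain ⟨s, hs⟩ := Nat.exists_eq_succ_of_ne_zero h0
  have hkill : ∀ x ∈ D.perp, (n ^ (s + 1)) *ᵥ x = 0 := by
    have := Nat.find_spec hex
    rwa [hs] at this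
  obtain ⟨w, hw, hw0⟩ : ∃ w ∈ D.perp, (n ^ s) *ᵥ w ≠ 0 := by
    have := Nat.find_min hex (m := s) (by omega)
    push Not at this
    exact this
  have hstab : ∀ j, ∀ x ∈ D.perp, (n ^ j) *ᵥ x ∈ D.perp := by
    intro j
    induction j with
    | zero => intro x hx; rwa [pow_zero, one_mulVec]
    | succ j ih =>
      intro x hx
      rw [pow_succ', ← mulVec_mulVec]
      exact D.perp_stable _ (ih x hx)
  -- a vector of the complement
  obtain ⟨u, hu, hu0⟩ : ∃ u ∈ D.perp, hf u ((n ^ s) *ᵥ w) ≠ 0 := by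
    by_contra hno
    push Not at hno
    apply hw0
    apply eq_zero_of_hf
    intro x
    obtain ⟨c, hc⟩ := D.exists_w hn
    have h1 := hno _ (D.sub_proj_mem hn hc x)
    rw [hf_sub_left, hf_sum_left, Finset.sum_eq_zero, sub_zero] at h1
    · exact h1
    · intro t _
      rw [hf_smul_left, D.hf_b_perp hn t (hstab s w hw), mul_zero]
  refine ⟨s, ?_⟩
  by_contra hno
  push Not at hno
  have hzero : ∀ v ∈ D.perp, hf v ((n ^ s) *ᵥ v) = 0 := by
    intro v hv
    by_contra h3
    refine hno v hv (hkill v hv) ?_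
    have h4 := star_hf_pow hn s v v
    rcases Nat.even_or_odd s with h5 | h5
    · rw [h5.neg_one_pow, one_mul] at h4
      exact hG.isUnit_of_sym h4 h3
    · rw [h5.neg_one_pow, neg_one_mul] at h4
      exact hG.isUnit_of_skew h4 h3
  have hpol : ∀ γ : E, γ * hf u ((n ^ s) *ᵥ w) + (-1) ^ s * star (γ * hf u ((n ^ s) *ᵥ w)) = 0 := by
    intro γ
    have h3 := hzero (u + γ • w) (D.perp.add_mem hu (D.perp.smul_mem γ hw))
    rw [mulVec_add, mulVec_smul, hf_add_left, hf_add_right, hf_add_right, hf_smul_left, hf_smul_left, hf_smul_right,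
      hf_smul_right, hzero u hu, hzero w hw, mul_zero, mul_zero, add_zero, zero_add] at h3
    have h4 := star_hf_pow hn s u w
    have h5 : hf w ((n ^ s) *ᵥ u) = (-1) ^ s * star (hf u ((n ^ s) *ᵥ w)) := by
      rw [h4, ← mul_assoc, neg_one_pow_mul_self, one_mul]
    rw [h5] at h3
    rw [star_mul', ← h3]
    ring
  rcases Nat.even_or_odd s with h5 | h5
  · obtain ⟨γ, hγ⟩ := hG.trace hu0
    have := hpol γ
    rw [h5.neg_one_pow, one_mul] at this
    exact hγ this
  · obtain ⟨k, hk, hks⟩ := hG.skew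
    obtain ⟨γ, hγ⟩ := hG.trace hu0
    have h6 := hpol (k * γ)
    rw [h5.neg_one_pow, neg_one_mul, mul_assoc, star_mul', hks] at h6
    apply hγ
    have h7 : k * (γ * hf u ((n ^ s) *ᵥ w) + star (γ * hf u ((n ^ s) *ᵥ w))) = 0 := by
      rw [← h6]; ring
    exact (hk.mul_right_eq_zero).1 h7

/-- extension of a family -/
theorem extend (hG : Gd E) (hn : star n = -n) (h2 : IsUnit (2 : E)) {p : ℕ} (hp : n ^ p = 0)
    (hne : ∃ x ∈ D.perp, x ≠ 0) : ∃ D' : Fam n (Option κ), ∀ i, D'.s (some i) = D.s i := by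
  obtain ⟨s, v, hv, hs, hu⟩ := D.exists_gen hG hn hp hne
  obtain ⟨v', hv', hs', hu', hz'⟩ := can hn h2 D.perp_stable hv hs hu
  refine ⟨⟨fun o => o.elim v' D.v, fun o => o.elim s D.s, ?_, ?_, ?_, ?_⟩, fun i => rfl⟩
  · rintro (_ | i) (_ | i') j hij
    · exact absurd rfl hij
    · show hf v' ((n ^ j) *ᵥ D.v i') = 0
      have h3 := hv' i' j
      rw [← star_hf, hf_pow_left hn, h3, mul_zero, star_zero]
    · exact hv' i j
    · exact D.orth i i' j (fun h => hij (by rw [h]))
  · rintro (_ | i) j hj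
    · exact hz' j hj
    · exact D.zero i j hj
  · rintro (_ | i)
    · exact hs'
    · exact D.kill i
  · rintro (_ | i)
    · exact hu'
    · exact D.unit i

theorem card_J : Fintype.card D.J = ∑ i, (D.s i + 1) := by
  rw [Fintype.card_sigma]
  simp only [_root_.Fintype.card_fin]

end fin

/-- **The orthogonal cyclic decomposition.** -/
theorem exists_full (hG : Gd E) (hn : star n = -n) (h2 : IsUnit (2 : E)) {p : ℕ} (hp : n ^ p = 0) :
    ∃ (κ : Type) (_ : Fintype κ) (_ : DecidableEq κ) (D : Fam n κ), ∀ x ∈ D.perp, x = 0 := by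
  classical
  have : Nontrivial E := hG.nontrivial
  have key : ∀ (m : ℕ) (κ : Type) (_ : Fintype κ) (D : Fam n κ), Fintype.card ι ≤ Fintype.card D.J + m →
      ∃ (κ : Type) (_ : Fintype κ) (_ : DecidableEq κ) (D : Fam n κ), ∀ x ∈ D.perp, x = 0 := by
    intro m
    induction m with
    | zero =>
      intro κ _ D hm
      by_cases h : ∃ x ∈ D.perp, x ≠ 0
      · obtain ⟨D', hD'⟩ := D.extend hG hn h2 hp h
        have h3 := D'.card_le hn
        rw [card_J, Fintype.sum_option] at h3
        rw [card_J] at hm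
        have h4 : ∑ i, (D'.s (some i) + 1) = ∑ i, (D.s i + 1) := sum_congr rfl fun i _ => by rw [hD' i]
        omega
      · push Not at h
        exact ⟨κ, inferInstance, inferInstance, D, h⟩
    | succ m ih =>
      intro κ _ D hm
      by_cases h : ∃ x ∈ D.perp, x ≠ 0
      · obtain ⟨D', hD'⟩ := D.extend hG hn h2 hp h
        refine ih (Option κ) inferInstance D' ?_
        rw [card_J, Fintype.sum_option]
        rw [card_J] at hm
        have h4 : ∑ i, (D'.s (some i) + 1) = ∑ i, (D.s i + 1) := sum_congr rfl fun i _ => by rw [hD' i]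
        omega
      · push Not at h
        exact ⟨κ, inferInstance, inferInstance, D, h⟩
  let D0 : Fam n Empty := ⟨fun i => i.elim, fun i => i.elim, fun i => i.elim, fun i => i.elim, fun i => i.elim,
    fun i => i.elim⟩
  exact key (Fintype.card ι) Empty inferInstance D0 (by omega)

end Fam

end Cfsg.Agent.H901.CA
end

-- part: H901/CA/Exp
section
/-!
# Truncated exponentials in characteristic `p` (helper901, for S3852)
-/

set_option autoImplicit false

namespace Cfsg.Agent.H901.CA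

open Finset

/-- a natural number inverse to `i!` modulo `p` -/
noncomputable def ef (p i : ℕ) : ℕ := ((i.factorial : ZMod p)⁻¹).val

theorem ef_cast {p : ℕ} (hp : p.Prime) (i : ℕ) : (ef p i : ZMod p) = (i.factorial : ZMod p)⁻¹ := by
  have : NeZero p := ⟨hp.ne_zero⟩
  rw [ef, ZMod.natCast_val, ZMod.cast_id', id]

theorem fact_ne {p : ℕ} (hp : p.Prime) {i : ℕ} (hi : i < p) : (i.factorial : ZMod p) ≠ 0 := by
  intro h
  rw [ZMod.natCast_eq_zero_iff] at h
  exact absurd ((hp.dvd_factorial).1 h) (by omega)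

theorem ef_mul_ef {p : ℕ} (hp : p.Prime) {i j : ℕ} (h : i + j < p) :
    ef p i * ef p j ≡ ef p (i + j) * (i + j).choose i [MOD p] := by
  have hf : Fact p.Prime := ⟨hp⟩
  rw [← ZMod.natCast_eq_natCast_iff]
  push_cast
  rw [ef_cast hp, ef_cast hp, ef_cast hp]
  have h1 := fact_ne hp (i := i) (by omega)
  have h2 := fact_ne hp (i := j) (by omega)
  have h3 := fact_ne hp h
  have h4 : ((i + j).choose i : ZMod p) * (i.factorial : ZMod p) * (j.factorial : ZMod p) = ((i + j).factorial : ZMod p) := by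
    have := Nat.choose_mul_factorial_mul_factorial (Nat.le_add_right i j)
    rw [Nat.add_sub_cancel_left] at this
    exact_mod_cast congrArg (Nat.cast (R := ZMod p)) this
  rw [← h4]
  rw [← h4] at h3
  have h5 : ((i + j).choose i : ZMod p) ≠ 0 := by
    intro h6
    rw [h6, zero_mul, zero_mul] at h3
    exact h3 rfl
  field_simp

theorem ef_zero {p : ℕ} (hp : p.Prime) : ef p 0 ≡ 1 [MOD p] := by
  have hf : Fact p.Prime := ⟨hp⟩
  rw [← ZMod.natCast_eq_natCast_iff, ef_cast hp]
  simp

theorem ef_one {p : ℕ} (hp : p.Prime) : ef p 1 ≡ 1 [MOD p] := by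
  have hf : Fact p.Prime := ⟨hp⟩
  rw [← ZMod.natCast_eq_natCast_iff, ef_cast hp]
  simp

section ring

variable {R : Type*} [Ring R] {p : ℕ}

theorem cast_congr (hp0 : (p : R) = 0) {a b : ℕ} (h : a ≡ b [MOD p]) : (a : R) = b := by
  have h1 : ∀ c : ℕ, (c : R) = ((c % p : ℕ) : R) := by
    intro c
    conv_lhs => rw [← Nat.mod_add_div c p]
    rw [Nat.cast_add, Nat.cast_mul, hp0, zero_mul, add_zero]
  rw [h1 a, h1 b, h]

/-- the truncated exponential -/
noncomputable def ex (p : ℕ) (x : R) : R := ∑ i ∈ range p, (ef p i : R) * x ^ i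

theorem ex_add (hp : p.Prime) (hp0 : (p : R) = 0) {x y : R} (hc : Commute x y)
    (h : ∀ i j, p ≤ i + j → x ^ i * y ^ j = 0) : ex p (x + y) = ex p x * ex p y := by
  have h1 : ex p x * ex p y = ∑ m ∈ range p, ∑ k ∈ range (p - m), ((ef p m : R) * x ^ m) * ((ef p k : R) * y ^ k) := by
    rw [ex, ex, sum_mul_sum]
    refine sum_congr rfl fun m _ => ?_
    symm
    refine sum_subset (fun k hk => by rw [mem_range] at hk ⊢; omega) fun k hk hk' => ?_
    rw [mem_range] at hk hk'
    rw [mul_assoc, ← mul_assoc (x ^ m), (Nat.cast_commute (ef p k) (x ^ m)).eq.symm, mul_assoc, h m k (by omega)]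
    simp only [_root_.MulZeroClass.mul_zero]
  rw [h1, ← sum_range_diag_flip, ex]
  refine sum_congr rfl fun k hk => ?_
  rw [hc.add_pow, mul_sum]
  refine sum_congr rfl fun i hi => ?_
  rw [mem_range] at hk hi
  have h2 : ((ef p i : ℕ) : R) * (ef p (k - i) : ℕ) = (ef p k : ℕ) * (k.choose i : ℕ) := by
    rw [← Nat.cast_mul, ← Nat.cast_mul]
    refine cast_congr hp0 ?_
    have := ef_mul_ef hp (i := i) (j := k - i) (by omega)
    rwa [Nat.add_sub_cancel' (by omega : i ≤ k)] at this
  calc ((ef p k : ℕ) : R) * (x ^ i * y ^ (k - i) * (k.choose i : ℕ)) =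
        ((ef p k : ℕ) : R) * (k.choose i : ℕ) * (x ^ i * y ^ (k - i)) := by
        rw [← (Nat.cast_commute (k.choose i) (x ^ i * y ^ (k - i))).eq, ← mul_assoc]
    _ = ((ef p i : ℕ) : R) * (ef p (k - i) : ℕ) * (x ^ i * y ^ (k - i)) := by rw [h2]
    _ = _ := by
        rw [mul_assoc, mul_assoc, ← mul_assoc ((ef p (k - i) : ℕ) : R) (x ^ i), (Nat.cast_commute (ef p (k - i)) (x ^ i)).eq,
          mul_assoc (x ^ i)]

theorem ex_zero (hp : p.Prime) (hp0 : (p : R) = 0) : ex p (0 : R) = 1 := by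
  rw [ex, sum_eq_single 0]
  · rw [pow_zero, mul_one, cast_congr hp0 (ef_zero hp), Nat.cast_one]
  · intro i _ hi
    rw [zero_pow hi, mul_zero]
  · intro h
    exact absurd (mem_range.2 hp.pos) h

theorem ex_nat (hp : p.Prime) (hp0 : (p : R) = 0) {x : R} (hx : x ^ p = 0) (a : ℕ) :
    ex p ((a : R) * x) = ex p x ^ a := by
  induction a with
  | zero => rw [Nat.cast_zero, zero_mul, ex_zero hp hp0, pow_zero]
  | succ a ih =>
    rw [Nat.cast_succ, add_mul, one_mul, ex_add hp hp0 ((Nat.cast_commute a x).mul_left (Commute.refl x)), ih, pow_succ]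
    intro i j hij
    rw [(Nat.cast_commute a x).mul_pow, mul_assoc, ← pow_add, pow_eq_zero_of_le hij hx, mul_zero]

theorem ex_neg (hp : p.Prime) (hp0 : (p : R) = 0) {x : R} (hx : x ^ p = 0) : ex p x * ex p (-x) = 1 := by
  rw [← ex_add hp hp0 ((Commute.refl x).neg_right), add_neg_cancel, ex_zero hp hp0]
  intro i j hij
  rw [neg_pow, ← mul_assoc, ← ((Commute.neg_one_left (x ^ i)).pow_left j).eq, mul_assoc, ← pow_add,
    pow_eq_zero_of_le hij hx, mul_zero]

/-- conjugation -/
theorem ex_conj {x g : R} {a : ℕ} (h : g * x = (a : R) * x * g) : g * ex p x = ex p ((a : R) * x) * g := by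
  have h1 : ∀ i, g * x ^ i = ((a : R) * x) ^ i * g := by
    intro i
    induction i with
    | zero => simp
    | succ i ih => rw [pow_succ, ← mul_assoc, ih, mul_assoc, h, ← mul_assoc, ← pow_succ]
  rw [ex, ex, mul_sum, sum_mul]
  refine sum_congr rfl fun i _ => ?_
  rw [← mul_assoc, (Nat.cast_commute (ef p i) g).eq.symm, mul_assoc, h1, ← mul_assoc]

theorem map_ex {S : Type*} [Ring S] (f : R →+* S) (x : R) : f (ex p x) = ex p (f x) := by
  rw [ex, ex, map_sum]
  refine sum_congr rfl fun i _ => ?_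
  rw [map_mul, map_natCast, map_pow]

theorem star_ex [StarRing R] (x : R) : star (ex p x) = ex p (star x) := by
  rw [ex, ex, star_sum]
  refine sum_congr rfl fun i _ => ?_
  rw [star_mul, star_natCast, star_pow, (Nat.cast_commute (ef p i) _).eq]

end ring

section comm

variable {A : Type*} [CommRing A] {p : ℕ}

theorem prod_zero {z x y : A} (hz : z ^ p = 0) (hx : z ∣ x) (hy : z ∣ y) {i j : ℕ} (h : p ≤ i + j) :
    x ^ i * y ^ j = 0 := by
  obtain ⟨c, rfl⟩ := hx
  obtain ⟨d, rfl⟩ := hy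
  rw [mul_pow, mul_pow, mul_mul_mul_comm, ← pow_add, pow_eq_zero_of_le h hz, zero_mul]

/-- `exp` is injective on the multiples of a nilpotent element -/
theorem ex_inj (hp : p.Prime) (hp0 : (p : A) = 0) {z x y : A} (hz : z ^ p = 0) (hx : z ∣ x) (hy : z ∣ y)
    (h : ex p x = ex p y) : x = y := by
  have hny : z ∣ -y := (dvd_neg).2 hy
  have hyp : y ^ p = 0 := by
    have := prod_zero (p := p) hz hy hy (i := p) (j := 0) (by omega)
    rwa [pow_zero, mul_one] at this
  obtain ⟨d, hd⟩ : ∃ d, d = x - y := ⟨_, rfl⟩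
  have hdz : z ∣ d := hd ▸ dvd_sub hx hy
  have hdp : d ^ p = 0 := by
    have := prod_zero (p := p) hz hdz hdz (i := p) (j := 0) (by omega)
    rwa [pow_zero, mul_one] at this
  have h1 : ex p d = 1 := by
    rw [hd, sub_eq_add_neg, ex_add hp hp0 (Commute.all _ _) (fun i j hij => prod_zero hz hx hny hij), h,
      ex_neg hp hp0 hyp]
  -- `ex d = 1 + d (1 + d q)`
  have h2 : ex p d = 1 + d * (1 + d * ∑ i ∈ range (p - 2), (ef p (i + 2) : A) * d ^ i) := by
    have hp2 := hp.two_le
    obtain ⟨k, hk⟩ : ∃ k, p = k + 2 := ⟨p - 2, by omega⟩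
    have e0 := cast_congr hp0 (ef_zero hp)
    have e1 := cast_congr hp0 (ef_one hp)
    rw [Nat.cast_one] at e0 e1
    have e2 : ex p d = (∑ i ∈ range k, (ef p (i + 2) : A) * d ^ (i + 2)) + (ef p 1 : A) * d ^ 1 + (ef p 0 : A) * d ^ 0 := by
      have e3 : ex p d = ∑ i ∈ range (k + 2), (ef p i : A) * d ^ i := by
        rw [ex, ← hk]
      rw [e3, sum_range_succ', sum_range_succ']
    rw [e2, e0, e1, show p - 2 = k by omega, mul_add d, mul_sum, mul_sum]
    have e4 : ∀ i, (ef p (i + 2) : A) * d ^ (i + 2) = d * (d * ((ef p (i + 2) : A) * d ^ i)) := fun i => by ring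
    simp only [e4]
    ring
  rw [h1] at h2
  have h3 : d * (1 + d * ∑ i ∈ range (p - 2), (ef p (i + 2) : A) * d ^ i) = 0 := by
    have := add_left_cancel (a := (1 : A)) (b := 0) (c := d * (1 + d * ∑ i ∈ range (p - 2), (ef p (i + 2) : A) * d ^ i))
      (by rw [add_zero]; exact h2)
    exact this.symm
  have h4 : IsUnit (1 + d * ∑ i ∈ range (p - 2), (ef p (i + 2) : A) * d ^ i) := by
    refine IsNilpotent.isUnit_one_add ⟨p, ?_⟩
    rw [mul_pow, hdp, zero_mul]
  have h5 : d = 0 := by
    rwa [IsUnit.mul_left_eq_zero h4] at h3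
  exact sub_eq_zero.1 (hd ▸ h5)

/-- logarithms exist -/
theorem exists_log [Finite A] (hp : p.Prime) (hp0 : (p : A) = 0) {z : A} (hz : z ^ p = 0) :
    ∃ x : A, z ∣ x ∧ ex p x = 1 + z := by
  have hm : ∀ x : {x : A // z ∣ x}, z ∣ ex p x.1 - 1 := by
    rintro ⟨x, hx⟩
    have hp1 := hp.pos
    obtain ⟨k, hk⟩ : ∃ k, p = k + 1 := ⟨p - 1, by omega⟩
    have e0 := cast_congr hp0 (ef_zero hp)
    rw [Nat.cast_one] at e0
    have e3 : ex p x = ∑ i ∈ range (k + 1), (ef p i : A) * x ^ i := by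
      rw [ex, ← hk]
    rw [e3, sum_range_succ', e0, pow_zero, mul_one, add_sub_cancel_right]
    refine dvd_sum fun i _ => ?_
    exact (hx.trans (dvd_pow_self x (Nat.succ_ne_zero i))).mul_left _
  let f : {x : A // z ∣ x} → {x : A // z ∣ x} := fun x => ⟨ex p x.1 - 1, hm x⟩
  have hf : Function.Injective f := by
    intro x y hxy
    have h1 : ex p x.1 - 1 = ex p y.1 - 1 := congrArg Subtype.val hxy
    exact Subtype.ext (ex_inj hp hp0 hz x.2 y.2 (sub_left_injective h1))
  obtain ⟨x, hx⟩ := (Finite.injective_iff_surjective.1 hf) ⟨z, dvd_rfl⟩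
  have h1 : ex p x.1 - 1 = z := congrArg Subtype.val hx
  exact ⟨x.1, x.2, (eq_add_of_sub_eq h1).trans (add_comm _ _)⟩

end comm

end Cfsg.Agent.H901.CA
end

-- part: H901/CA/Log
section
/-!
# Logarithms of unipotent unitary elements (helper901, for S3852)
-/

set_option autoImplicit false

namespace Cfsg.Agent.H901.CA

open Finset

variable {R : Type*} [Ring R]

/-- the double centralizer -/
def dc (y : R) : Subring R := Subring.centralizer (Subring.centralizer {y} : Set R)

theorem mem_dc {y x : R} : x ∈ dc y ↔ ∀ c, c * y = y * c → c * x = x * c := by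
  rw [dc, Subring.mem_centralizer_iff]
  constructor
  · intro h c hc
    exact h c (Subring.mem_centralizer_iff.2 (by rintro _ rfl; exact hc.symm))
  · intro h c hc
    exact h c (Subring.mem_centralizer_iff.1 hc y rfl).symm

theorem self_mem (y : R) : y ∈ dc y := mem_dc.2 fun _ h => h

theorem dc_comm {y a b : R} (ha : a ∈ dc y) (hb : b ∈ dc y) : a * b = b * a :=
  mem_dc.1 hb a (mem_dc.1 ha y rfl).symm

/-- the commutative ring -/
@[instance_reducible] def dcRing (y : R) : CommRing (dc y) :=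
  { (inferInstance : Ring (dc y)) with mul_comm := fun a b => Subtype.ext (dc_comm a.2 b.2) }

theorem star_mem [StarRing R] {y : R} (h1 : star y * y = 1) (h2 : y * star y = 1) {x : R} (hx : x ∈ dc y) :
    star x ∈ dc y := by
  rw [mem_dc] at hx ⊢
  intro c hc
  have h3 : star c * y = y * star c := by
    have h4 : star (c * y) = star (y * c) := congrArg star hc
    rw [star_mul, star_mul] at h4
    calc star c * y = (y * star y) * (star c * y) := by rw [h2, one_mul]
      _ = y * (star y * star c) * y := by noncomm_ring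
      _ = y * (star c * star y) * y := by rw [h4]
      _ = y * star c * (star y * y) := by noncomm_ring
      _ = y * star c := by rw [h1, mul_one]
  have h4 := hx (star c) h3
  have h5 := congrArg star h4
  rw [star_mul, star_mul, star_star] at h5
  exact h5.symm

theorem sub_pow_eq_zero {p : ℕ} (hp : p.Prime) (hp0 : (p : R) = 0) {y : R} (hy : y ^ p = 1) : (y - 1) ^ p = 0 := by
  rcases subsingleton_or_nontrivial R with h | h
  · exact Subsingleton.elim _ _
  · have hf : Fact p.Prime := ⟨hp⟩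
    obtain ⟨q, hq⟩ := CharP.exists R
    have h1 : q ∣ p := (CharP.cast_eq_zero_iff R q p).1 hp0
    have h2 : q = p := by
      rcases (Nat.dvd_prime hp).1 h1 with h3 | h3
      · exact absurd h3 (CharP.char_ne_one R q)
      · exact h3
    subst h2
    rw [sub_pow_char_of_commute _ (Commute.one_right y), hy, one_pow, sub_self]

/-- **the logarithm of a unitary element of order `p`**. -/
theorem exists_skew [StarRing R] [Finite R] {p : ℕ} (hp : p.Prime) (hp0 : (p : R) = 0) {y : R} (h1 : star y * y = 1)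
    (h2 : y * star y = 1) (hy : y ^ p = 1) : ∃ n : R, ex p n = y ∧ star n = -n ∧ n ^ p = 0 := by
  let _ := dcRing y
  have hpA : (p : dc y) = 0 := Subtype.ext (by push_cast; exact hp0)
  let z : dc y := ⟨y, self_mem y⟩ - 1
  have hz : z ^ p = 0 := Subtype.ext (sub_pow_eq_zero hp hp0 hy)
  obtain ⟨n, hn, hex⟩ := exists_log hp hpA hz
  have hmap : ∀ x : dc y, ((ex p x : dc y) : R) = ex p (x : R) := fun x => map_ex (dc y).subtype x
  have hexR : ex p (n : R) = y := by
    rw [← hmap, hex]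
    show (1 : R) + (y - 1) = y
    abel
  have hnp : n ^ p = 0 := by
    have := prod_zero (p := p) hz hn hn (i := p) (j := 0) (by omega)
    rwa [pow_zero, mul_one] at this
  have hnpR : (n : R) ^ p = 0 := congrArg Subtype.val hnp
  -- the star of `n`
  let s : dc y := ⟨star (n : R), star_mem h1 h2 n.2⟩
  have hs : z ∣ s := by
    obtain ⟨c, hc⟩ := hn
    have hcR : (n : R) = (y - 1) * (c : R) := congrArg Subtype.val hc
    refine ⟨⟨-star y, neg_mem (star_mem h1 h2 (self_mem y))⟩ * ⟨star (c : R), star_mem h1 h2 c.2⟩, Subtype.ext ?_⟩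
    show star (n : R) = (y - 1) * (-star y * star (c : R))
    have h3 : star (n : R) = star ((c : R) * (y - 1)) := by
      rw [hcR, mem_dc.1 c.2 (y - 1) (by noncomm_ring)]
    rw [h3, star_mul, star_sub, star_one, ← mul_assoc]
    congr 1
    rw [sub_mul, one_mul, mul_neg, h2]
    abel
  have h3 : s = -n := by
    refine ex_inj hp hpA hz hs ((dvd_neg).2 hn) ?_
    apply Subtype.ext
    rw [hmap, hmap]
    show ex p (star (n : R)) = ex p (-(n : R))
    rw [← star_ex, hexR]
    have h4 := ex_neg hp hp0 hnpR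
    rw [hexR] at h4
    calc star y = star y * (y * ex p (-(n : R))) := by rw [h4, mul_one]
      _ = ex p (-(n : R)) := by rw [← mul_assoc, h1, one_mul]
  exact ⟨n, hexR, congrArg Subtype.val h3, hnpR⟩

end Cfsg.Agent.H901.CA
end

-- part: H901/CA/Uni
section
/-!
# Unipotent elements of order `p` in `SU` (helper901, for S3852, task CA8)
-/

set_option autoImplicit false
set_option linter.unusedSectionVars false

namespace Cfsg.Agent.H901.CA

open Finset Matrix Cfsg.Agent.H308.CA Module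

variable {ι : Type} [Fintype ι] [DecidableEq ι] {E : Type} [CommRing E] [StarRing E]

namespace Fam

variable {n : Matrix ι ι E} {κ : Type} (D : Fam n κ) [Fintype κ]

section basis

variable (hn : star n = -n) (hD : ∀ x ∈ D.perp, x = 0)

include hn hD

theorem span_top : ⊤ ≤ Submodule.span E (Set.range D.b) := by
  obtain ⟨w, hw⟩ := D.exists_w hn
  intro x _
  have h1 := hD _ (D.sub_proj_mem hn hw x)
  rw [sub_eq_zero] at h1
  rw [h1]
  exact Submodule.sum_mem _ fun t _ => Submodule.smul_mem _ _ (Submodule.subset_span ⟨t, rfl⟩)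

/-- the basis -/
noncomputable def bas : Basis D.J E (ι → E) := Basis.mk (D.linInd hn) (D.span_top hn hD)

theorem bas_apply (t : D.J) : D.bas hn hD t = D.b t := Basis.mk_apply _ _ _

theorem ext_b {A B : Matrix ι ι E} (h : ∀ t, A *ᵥ D.b t = B *ᵥ D.b t) : A = B := by
  apply Matrix.toLin'.injective
  refine (D.bas hn hD).ext fun t => ?_
  rw [bas_apply, Matrix.toLin'_apply, Matrix.toLin'_apply, h]

theorem card_eq [Nontrivial E] : Fintype.card D.J = Fintype.card ι := by
  rw [← Module.finrank_fintype_fun_eq_card (R := E) (η := ι), Module.finrank_eq_card_basis (D.bas hn hD)]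

/-- the diagonal matrices -/
theorem exists_diag (θ : D.J → E) : ∃ g : Matrix ι ι E, (∀ t, g *ᵥ D.b t = θ t • D.b t) ∧ g.det = ∏ t, θ t := by
  classical
  let f : (ι → E) →ₗ[E] (ι → E) := (D.bas hn hD).constr E fun t => θ t • D.b t
  have hf' : ∀ t, f (D.b t) = θ t • D.b t := by
    intro t
    rw [← D.bas_apply hn hD, Basis.constr_basis, D.bas_apply hn hD]
  refine ⟨LinearMap.toMatrix' f, fun t => ?_, ?_⟩
  · rw [LinearMap.toMatrix'_mulVec, hf']
  · rw [LinearMap.det_toMatrix', ← LinearMap.det_toMatrix (D.bas hn hD) f]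
    have h1 : LinearMap.toMatrix (D.bas hn hD) (D.bas hn hD) f = diagonal θ := by
      ext i j
      rw [LinearMap.toMatrix_apply, D.bas_apply hn hD, hf', ← D.bas_apply hn hD, map_smul, Basis.repr_self,
        Finsupp.smul_apply, Finsupp.single_apply, diagonal_apply]
      by_cases h : j = i
      · rw [if_pos h, if_pos h.symm, h, smul_eq_mul, mul_one]
      · rw [if_neg h, if_neg (Ne.symm h), smul_zero]
    rw [h1, det_diagonal]

/-- **the conjugating element** -/
theorem exists_conj {a : ℕ} {μ : κ → E} (h1 : ∀ i, star (μ i) * μ i * (a : E) ^ (D.s i) = 1)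
    (h2 : ∏ i, ∏ j ∈ range (D.s i + 1), (μ i * (a : E) ^ j) = 1) :
    ∃ g : SU ι E, _root_.Cfsg.Agent.H308.CA.mt g * n = (a : Matrix ι ι E) * n * _root_.Cfsg.Agent.H308.CA.mt g := by
  obtain ⟨g, hg, hdet⟩ := D.exists_diag hn hD fun t => μ t.1 * (a : E) ^ (t.2 : ℕ)
  have hdet1 : g.det = 1 := by
    rw [hdet, Fintype.prod_sigma, ← h2]
    refine prod_congr rfl fun i _ => ?_
    exact (Fin.prod_univ_eq_prod_range (fun j => μ i * (a : E) ^ j) (D.s i + 1))
  have hu : star g * g = 1 := by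
    refine D.ext_b hn hD fun t => ?_
    rw [← mulVec_mulVec, one_mulVec, hg, mulVec_smul]
    rw [← sub_eq_zero]
    refine hD _ (D.mem_perp_of hn fun t' => ?_)
    rw [hf_sub_right, hf_smul_right]
    have h3 : hf (D.b t') (star g *ᵥ D.b t) = star (μ t'.1 * (a : E) ^ (t'.2 : ℕ)) * hf (D.b t') (D.b t) := by
      rw [← hf_mulVec_left, hg, hf_smul_left]
    rw [h3]
    obtain ⟨t'', rfl⟩ : ∃ t'', t' = D.σ t'' := ⟨D.σ t', (D.σ_σ t').symm⟩
    by_cases h4 : t = t''
    · subst h4
      have h5 : (t.2 : ℕ) < D.s t.1 + 1 := t.2.2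
      have h6 : (μ t.1 * (a : E) ^ (t.2 : ℕ)) * star (μ (D.σ t).1 * (a : E) ^ ((D.σ t).2 : ℕ)) = 1 := by
        rw [star_mul', star_pow, star_natCast, D.σ_val]
        show (μ t.1 * (a : E) ^ (t.2 : ℕ)) * (star (μ t.1) * (a : E) ^ (D.s t.1 - t.2)) = 1
        rw [← h1 t.1]
        have h7 : (a : E) ^ (D.s t.1) = (a : E) ^ (t.2 : ℕ) * (a : E) ^ (D.s t.1 - t.2) := by
          rw [← pow_add]
          congr 1
          omega
        rw [h7]
        ring
      rw [← mul_assoc, h6, one_mul, sub_self]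
    · rw [D.gram hn t'' t h4, mul_zero, mul_zero, sub_zero]
  refine ⟨mkSU g hu hdet1, ?_⟩
  rw [mt_mkSU]
  refine D.ext_b hn hD fun t => ?_
  have h3 : ((a : Matrix ι ι E)) * n = (a : E) • n := by
    rw [← nsmul_eq_mul, ← Nat.cast_smul_eq_nsmul E]
  rw [h3, ← mulVec_mulVec, ← mulVec_mulVec, hg, mulVec_smul]
  rcases t with ⟨i, j⟩
  have h4 : n *ᵥ D.b ⟨i, j⟩ = (n ^ ((j : ℕ) + 1)) *ᵥ D.v i := by
    rw [b, mulVec_mulVec, ← pow_succ']
  rw [smul_mulVec, h4]
  rcases Nat.lt_or_ge ((j : ℕ) + 1) (D.s i + 1) with h5 | h5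
  · have h6 := hg ⟨i, ⟨(j : ℕ) + 1, h5⟩⟩
    have h7 : D.b ⟨i, ⟨(j : ℕ) + 1, h5⟩⟩ = (n ^ ((j : ℕ) + 1)) *ᵥ D.v i := rfl
    rw [h7] at h6
    rw [h6, smul_smul]
    congr 1
    show μ i * (a : E) ^ ((j : ℕ) + 1) = μ i * (a : E) ^ (j : ℕ) * a
    ring
  · rw [pow_mulVec_zero h5 (D.kill i), mulVec_zero, smul_zero, smul_zero]

end basis

end Fam

theorem conj_of {p : ℕ} (hp : p.Prime) (hp0 : (p : Matrix ι ι E) = 0) {n : Matrix ι ι E} {y g : SU ι E} {a : ℕ}
    (hy : ex p n = _root_.Cfsg.Agent.H308.CA.mt y) (hn : n ^ p = 0) (h : _root_.Cfsg.Agent.H308.CA.mt g * n = (a : Matrix ι ι E) * n * _root_.Cfsg.Agent.H308.CA.mt g) : g * y * g⁻¹ = y ^ a := by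
  rw [mul_inv_eq_iff_eq_mul]
  apply mt_injective
  rw [map_mul, map_mul, map_pow, ← hy, ex_conj h, ex_nat hp hp0 hn]

theorem sum_two (s : ℕ) : 2 * ∑ j ∈ range (s + 1), j = s * (s + 1) := by
  have := Finset.sum_range_id_mul_two (s + 1)
  rw [mul_comm, this, Nat.add_sub_cancel, mul_comm]

theorem prod_piece (m a : E) (s : ℕ) : ∏ j ∈ range (s + 1), (m * a ^ j) = m ^ (s + 1) * a ^ (∑ j ∈ range (s + 1), j) := by
  rw [prod_mul_distrib, prod_const, card_range, prod_pow_eq_pow_sum]

/-- the determinant of a piece has norm one -/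
theorem star_piece {m : E} {a s : ℕ} (h : star m * m * (a : E) ^ s = 1) :
    star (∏ j ∈ range (s + 1), (m * (a : E) ^ j)) * ∏ j ∈ range (s + 1), (m * (a : E) ^ j) = 1 := by
  rw [prod_piece, star_mul', star_pow, star_pow, star_natCast]
  calc star m ^ (s + 1) * (a : E) ^ (∑ j ∈ range (s + 1), j) * (m ^ (s + 1) * (a : E) ^ (∑ j ∈ range (s + 1), j))
      = (star m * m) ^ (s + 1) * (a : E) ^ (2 * ∑ j ∈ range (s + 1), j) := by
        rw [mul_pow, two_mul, pow_add]; ring
    _ = (star m * m * (a : E) ^ s) ^ (s + 1) := by rw [sum_two, mul_pow (star m * m), pow_mul]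
    _ = 1 := by rw [h, one_pow]

theorem Gd.cube_zero {E : Type} [CommRing E] [StarRing E] (h : Gd E) {a : E} (ha : a ^ 3 = 0) : a = 0 := by
  cases h with
  | lin F i _ =>
    obtain ⟨x, y⟩ := a
    have h1 : x ^ 3 = 0 := congrArg Prod.fst ha
    have h2 : y ^ 3 = 0 := congrArg Prod.snd ha
    have hx : x = 0 := by simpa using h1
    have hy : y = 0 := by simpa using h2
    rw [hx, hy]; rfl
  | uni F i s _ hs => simpa using ha

theorem cube_inj (hG : Gd E) (h3 : (3 : E) = 0) {x y : E} (h : x ^ 3 = y ^ 3) : x = y := by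
  have h1 : (x - y) ^ 3 = 0 := by
    calc (x - y) ^ 3 = (x ^ 3 - y ^ 3) + 3 * (x * y * (y - x)) := by ring
      _ = 0 := by rw [h, h3]; ring
  exact sub_eq_zero.1 (Gd.cube_zero hG h1)

/-- norm one elements are cubes of norm one elements in characteristic three -/
theorem exists_cube (hG : Gd E) (h3 : (3 : E) = 0) {z : E} (hz : star z * z = 1) : ∃ x : E, star x * x = 1 ∧ x ^ 3 = z := by
  have hfin : Finite E := hG.finite
  have hinj : Function.Injective (fun x : E => x ^ 3) := fun x y h => cube_inj hG h3 h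
  obtain ⟨x, hx⟩ := (Finite.injective_iff_surjective.1 hinj) z
  have hx' : x ^ 3 = z := hx
  refine ⟨x, ?_, hx'⟩
  apply cube_inj hG h3
  rw [mul_pow, ← star_pow, hx', hz, one_pow]

theorem big (hG : Gd E) {p : ℕ} (hp : p.Prime) (hp3 : p ≠ 3) (h2 : IsUnit (2 : E)) {n : Matrix ι ι E}
    {y : SU ι E} (hp0 : (p : Matrix ι ι E) = 0) (hy : ex p n = _root_.Cfsg.Agent.H308.CA.mt y) (hn : star n = -n) (hnp : n ^ p = 0) :
    ∃ (g : SU ι E) (a : ℕ), ¬ a ≡ 1 [MOD p] ∧ g * y * g⁻¹ = y ^ a := by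
  obtain ⟨κ, _, _, D, hD⟩ := Fam.exists_full hG hn h2 hnp
  obtain ⟨t, ht⟩ := h2.exists_right_inv
  have hstt : star t = t := by
    have h3 : (2 : E) * star t = 1 := by
      have h4 := congrArg star ht
      rwa [star_mul', star_one, star_ofNat] at h4
    calc star t = (2 * t) * star t := by rw [ht, one_mul]
      _ = (2 * star t) * t := by ring
      _ = t := by rw [h3, one_mul]
  have h4 : ((4 : ℕ) : E) = 2 ^ 2 := by norm_num
  obtain ⟨g, hg⟩ := D.exists_conj hn hD (a := 4) (μ := fun i => t ^ (D.s i))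
    (by
      intro i
      rw [star_pow, hstt, h4, ← mul_pow, ← mul_pow, show t * t * 2 ^ 2 = (2 * t) * (2 * t) by ring, ht, one_mul, one_pow])
    (by
      refine prod_eq_one fun i _ => ?_
      rw [prod_piece, h4, ← pow_mul 2, sum_two, ← pow_mul, ← mul_pow, mul_comm t, ht, one_pow])
  refine ⟨g, 4, ?_, conj_of hp hp0 hy hnp hg⟩
  intro h
  have h5 := (Nat.modEq_iff_dvd' (by norm_num : 1 ≤ 4)).1 h.symm
  have h6 : p ∣ 3 := h5
  exact hp3 ((Nat.prime_dvd_prime_iff_eq hp Nat.prime_three).1 h6)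

/-- characteristic three -/
theorem three (hG : Gd E) (h3 : (3 : E) = 0) {n : Matrix ι ι E}
    {y : SU ι E} (hp0 : ((3 : ℕ) : Matrix ι ι E) = 0) (hy : ex 3 n = _root_.Cfsg.Agent.H308.CA.mt y) (hn : star n = -n) (hnp : n ^ 3 = 0) :
    (∃ (g : SU ι E) (a : ℕ), ¬ a ≡ 1 [MOD 3] ∧ g * y * g⁻¹ = y ^ a) ∨ BadU E 3 y := by
  classical
  have hE := hG.nontrivial
  have hfin := hG.finite
  have h22 : (2 : E) * 2 = 1 := by
    calc (2 : E) * 2 = 3 + 1 := by norm_num
      _ = 1 := by rw [h3, zero_add]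
  have h2 : IsUnit (2 : E) := IsUnit.of_mul_eq_one 2 h22
  have h20 : (2 : E) ≠ 0 := h2.ne_zero
  obtain ⟨κ, _, _, D, hD⟩ := Fam.exists_full hG hn h2 hnp
  -- the sizes are at most three
  have hs : ∀ i, D.s i ≤ 2 := by
    intro i
    by_contra h
    have h4 : (n ^ (D.s i)) *ᵥ D.v i = 0 := by
      rw [pow_eq_zero_of_le (by omega : 3 ≤ D.s i) hnp, zero_mulVec]
    have h5 := D.unit i
    rw [h4, hf_zero_right] at h5
    exact not_isUnit_zero h5
  obtain ⟨c, hc⟩ : ∃ c : E, star c * c = 2 := hG.norm (by rw [star_ofNat]) h20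
  have h2n : ((2 : ℕ) : E) = 2 := Nat.cast_ofNat
  have hval : ∀ i, ∀ m : E, (D.s i = 1 → star m * m = 2) → (D.s i ≠ 1 → star m * m = 1) →
      star m * m * ((2 : ℕ) : E) ^ (D.s i) = 1 := by
    intro i m hm1 hm2
    rw [h2n]
    by_cases h : D.s i = 1
    · rw [hm1 h, h, pow_one, h22]
    · rw [hm2 h, one_mul]
      have := hs i
      have h4 : D.s i = 0 ∨ D.s i = 2 := by omega
      rcases h4 with h4 | h4
      · rw [h4, pow_zero]
      · rw [h4, sq, h22]
  have h21 : ¬ 2 ≡ 1 [MOD 3] := by decide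
  by_cases hex : ∃ i0, D.s i0 ≠ 1
  · left
    obtain ⟨i0, hi0⟩ := hex
    -- the product of the other determinants
    obtain ⟨μ, hμ⟩ : ∃ μ : κ → E, μ = fun i => if D.s i = 1 then c else 1 := ⟨_, rfl⟩
    have hμv : ∀ i, star (μ i) * μ i * ((2 : ℕ) : E) ^ (D.s i) = 1 := by
      intro i
      refine hval i _ (fun h => ?_) (fun h => ?_)
      · rw [hμ]; simp only; rw [if_pos h, hc]
      · rw [hμ]; simp only; rw [if_neg h, star_one, one_mul]
    obtain ⟨P, hP⟩ : ∃ P : κ → E → E, P = fun i m => ∏ j ∈ range (D.s i + 1), (m * ((2 : ℕ) : E) ^ j) := ⟨_, rfl⟩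
    obtain ⟨d, hd⟩ : ∃ d : E, d = ∏ i ∈ univ.erase i0, P i (μ i) := ⟨_, rfl⟩
    have hd1 : star d * d = 1 := by
      rw [hd, star_prod, ← prod_mul_distrib]
      refine prod_eq_one fun i _ => ?_
      rw [hP]
      exact star_piece (hμv i)
    have hdd : star (star d) * star d = 1 := by rw [star_star, mul_comm, hd1]
    -- the last piece
    obtain ⟨m0, hm0, hPm0⟩ : ∃ m0 : E, star m0 * m0 = 1 ∧ P i0 m0 = star d := by
      have := hs i0
      have h4 : D.s i0 = 0 ∨ D.s i0 = 2 := by omega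
      rcases h4 with h4 | h4
      · refine ⟨star d, hdd, ?_⟩
        rw [hP]
        simp only
        rw [h4]
        simp only [_root_.zero_add, _root_.Finset.range_one, _root_.Nat.cast_ofNat, _root_.Finset.prod_singleton, _root_.pow_zero, _root_.mul_one]
      · obtain ⟨x, hx, hx3⟩ := exists_cube hG h3 (z := -star d) (by rw [star_neg, neg_mul_neg, hdd])
        refine ⟨x, hx, ?_⟩
        rw [hP]
        simp only
        rw [h4, prod_piece, hx3, h2n]
        have h5 : ∑ j ∈ range (2 + 1), j = 3 := by decide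
        rw [h5]
        calc -star d * 2 ^ 3 = star d - 3 * (3 * star d) := by ring
          _ = star d := by rw [h3]; ring
    obtain ⟨g, hg⟩ := D.exists_conj hn hD (a := 2) (μ := Function.update μ i0 m0)
      (by
        intro i
        by_cases h : i = i0
        · subst h
          rw [Function.update_self]
          exact hval i m0 (fun h => absurd h hi0) (fun _ => hm0)
        · rw [Function.update_of_ne h]
          exact hμv i)
      (by
        rw [← mul_prod_erase univ _ (mem_univ i0), Function.update_self]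
        have h5 : ∏ j ∈ range (D.s i0 + 1), (m0 * ((2 : ℕ) : E) ^ j) = star d := by
          rw [← hPm0, hP]
        have h6 : ∏ i ∈ univ.erase i0, ∏ j ∈ range (D.s i + 1), (Function.update μ i0 m0 i * ((2 : ℕ) : E) ^ j) = d := by
          rw [hd]
          refine prod_congr rfl fun i hi => ?_
          rw [Function.update_of_ne (ne_of_mem_erase hi), hP]
        rw [h5, h6, hd1])
    exact ⟨g, 2, h21, conj_of Nat.prime_three hp0 hy hnp hg⟩
  · push Not at hex
    rcases Nat.even_or_odd (Fintype.card κ) with hk | hk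
    · left
      obtain ⟨m, hm⟩ := hk
      obtain ⟨S, hS1, hS2⟩ := Finset.exists_subset_card_eq (s := (univ : Finset κ)) (n := m) (by rw [card_univ]; omega)
      -- the two choices
      obtain ⟨c', hc'⟩ : ∃ c' : E, c' = 2 * star c := ⟨_, rfl⟩
      have hcc : c * c' = 1 := by
        rw [hc']
        calc c * (2 * star c) = 2 * (star c * c) := by ring
          _ = 1 := by rw [hc, h22]
      have hc's : star c' * c' = 2 := by
        rw [hc', star_mul', star_star, star_ofNat]
        calc (2 : E) * c * (2 * star c) = (2 * 2) * (star c * c) := by ring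
          _ = 2 := by rw [hc, h22, one_mul]
      obtain ⟨g, hg⟩ := D.exists_conj hn hD (a := 2) (μ := fun i => if i ∈ S then c else c')
        (by
          intro i
          refine hval i _ (fun _ => ?_) (fun h => absurd (hex i) h)
          by_cases h : i ∈ S
          · rw [if_pos h, hc]
          · rw [if_neg h, hc's])
        (by
          have h5 : ∀ i, ∏ j ∈ range (D.s i + 1), ((if i ∈ S then c else c') * ((2 : ℕ) : E) ^ j) =
              if i ∈ S then c ^ 2 * 2 else c' ^ 2 * 2 := by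
            intro i
            rw [hex i, prod_piece, h2n]
            have h6 : ∑ j ∈ range (1 + 1), j = 1 := by decide
            rw [h6, pow_one]
            split_ifs <;> rfl
          simp only [h5]
          rw [prod_ite, prod_const, prod_const]
          have h7 : (univ.filter fun i => i ∈ S).card = m := by
            rw [filter_mem_eq_inter, univ_inter, hS2]
          have h8 : (univ.filter fun i => i ∉ S).card = m := by
            have := Finset.card_filter_add_card_filter_not (s := (univ : Finset κ)) (fun i => i ∈ S)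
            rw [h7, card_univ] at this
            omega
          rw [h7, h8, ← mul_pow]
          rw [show c ^ 2 * 2 * (c' ^ 2 * 2) = (c * c') ^ 2 * (2 * 2) by ring, hcc, h22, one_pow, one_mul, one_pow])
      exact ⟨g, 2, h21, conj_of Nat.prime_three hp0 hy hnp hg⟩
    · right
      have hn2 : n ^ 2 = 0 := by
        refine D.ext_b hn hD fun t => ?_
        rw [Fam.b, zero_mulVec, mulVec_mulVec, ← pow_add]
        refine pow_mulVec_zero ?_ (D.kill t.1)
        have := hex t.1
        omega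
      have hyn : _root_.Cfsg.Agent.H308.CA.mt y - 1 = n := by
        rw [← hy, ex, sum_range_succ, sum_range_succ, sum_range_one, hn2, mul_zero, add_zero, pow_zero, mul_one, pow_one,
          cast_congr hp0 (ef_zero Nat.prime_three), cast_congr hp0 (ef_one Nat.prime_three), Nat.cast_one, one_mul,
          add_sub_cancel_left]
      refine ⟨rfl, by rw [hyn, hn2], Fintype.card κ, hk, ?_, ?_⟩
      · rw [← D.card_eq hn hD, Fam.card_J]
        simp only [hex]
        rw [sum_const, card_univ, smul_eq_mul, mul_comm]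
      · rw [hyn]
        -- the kernel
        have hun : ∀ i, IsUnit (hf (D.v i) (n *ᵥ D.v i)) := by
          intro i
          have := D.unit i
          rwa [hex i, pow_one] at this
        have hor : ∀ i i', i ≠ i' → hf (D.v i) (n *ᵥ D.v i') = 0 := by
          intro i i' h
          have := D.orth i i' 1 h
          rwa [pow_one] at this
        choose u hu using fun i => (hun i).exists_right_inv
        have hnn : ∀ x : ι → E, n *ᵥ (n *ᵥ x) = 0 := by
          intro x
          rw [mulVec_mulVec, ← sq, hn2, zero_mulVec]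
        have hsum : ∀ (a : κ → E) (i : κ), hf (D.v i) (∑ i', a i' • (n *ᵥ D.v i')) = a i * hf (D.v i) (n *ᵥ D.v i) := by
          intro a i
          rw [hf_sum_right, Finset.sum_eq_single i]
          · rw [hf_smul_right]
          · intro i' _ hi'
            rw [hf_smul_right, hor i i' (Ne.symm hi'), mul_zero]
          · intro h
            exact absurd (mem_univ i) h
        have hker : ∀ a : κ → E, n *ᵥ (∑ i', a i' • (n *ᵥ D.v i')) = 0 := by
          intro a
          rw [mulVec_sum]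
          refine sum_eq_zero fun i _ => ?_
          rw [mulVec_smul, hnn, smul_zero]
        let f : (κ → E) → {v : ι → E // n *ᵥ v = 0} := fun a => ⟨∑ i', a i' • (n *ᵥ D.v i'), hker a⟩
        have hinj : Function.Injective f := by
          intro a a' haa
          have h5 : ∑ i', a i' • (n *ᵥ D.v i') = ∑ i', a' i' • (n *ᵥ D.v i') := congrArg Subtype.val haa
          funext i
          have h6 := hsum a i
          rw [h5, hsum a' i] at h6
          exact ((hun i).mul_left_injective h6).symm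
        have hsurj : Function.Surjective f := by
          rintro ⟨x, hx⟩
          refine ⟨fun i => hf (D.v i) x * u i, Subtype.ext ?_⟩
          show ∑ i', (hf (D.v i') x * u i') • (n *ᵥ D.v i') = x
          rw [← sub_eq_zero]
          refine hD _ fun i j => ?_
          rcases Nat.eq_zero_or_pos j with h | h
          · subst h
            rw [pow_zero, one_mulVec, hf_sub_right, hsum (fun i => hf (D.v i) x * u i) i, mul_assoc, mul_comm (u i), hu,
              mul_one, sub_self]
          · obtain ⟨j', rfl⟩ := Nat.exists_eq_succ_of_ne_zero h.ne'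
            rw [pow_succ, ← mulVec_mulVec, mulVec_sub, hker, hx, sub_zero, mulVec_zero, hf_zero_right]
        rw [← Nat.card_congr (Equiv.ofBijective f ⟨hinj, hsurj⟩), Nat.card_fun, Nat.card_eq_fintype_card (α := κ)]

/-- **(UNI)** unipotent elements of order `p` are conjugate to proper powers, except the bad ones. -/
theorem uni_st {E : Type} [CommRing E] [StarRing E] (h : Gd E) : UniSt E := by
  intro p hp hp2 hch ι _ _ y hy hy1
  have hfin := h.finite
  have hnt := h.nontrivial
  have hpE : (p : E) = 0 := CharP.cast_eq_zero E p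
  have hp0 : (p : Matrix ι ι E) = 0 := by
    rw [← nsmul_one, ← Nat.cast_smul_eq_nsmul E, hpE, zero_smul]
  have h2 : IsUnit (2 : E) := by
    have h3 : Nat.Coprime 2 p := (Nat.coprime_primes Nat.prime_two hp).2 (Ne.symm hp2)
    have h4 : IsUnit ((2 : ℕ) : E) := (CharP.isUnit_natCast_iff hp).2 (fun h5 => hp2 (by
      rw [← (Nat.prime_dvd_prime_iff_eq hp Nat.prime_two).1 h5]))
    simpa using h4
  obtain ⟨n, hn1, hn2, hn3⟩ := exists_skew hp hp0 (star_mt_mul y) (mt_mul_star y) (by rw [← map_pow, hy, map_one])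
  by_cases hp3 : p = 3
  · subst hp3
    have h3 : (3 : E) = 0 := by simpa using hpE
    exact three h h3 hp0 hn1 hn2 hn3
  · exact Or.inl (big h hp hp3 h2 hp0 hn1 hn2 hn3)

end Cfsg.Agent.H901.CA
end

-- part: H901/CA/Full
section
/-!
# Unipotent elements of order `p` in the full unitary group (helper901, for S3852)
-/

set_option autoImplicit false
set_option linter.unusedSectionVars false

namespace Cfsg.Agent.H901.CA

open Finset Matrix Cfsg.Agent.H308.CA Module

variable {ι : Type} [Fintype ι] [DecidableEq ι] {E : Type} [CommRing E] [StarRing E]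

/-- **the conjugating element** in the full unitary group -/
theorem Fam.exists_conjU {n : Matrix ι ι E} {κ : Type} (D : Fam n κ) [Fintype κ] (hn : star n = -n)
    (hD : ∀ x ∈ D.perp, x = 0) {a : ℕ} {μ : κ → E} (h1 : ∀ i, star (μ i) * μ i * (a : E) ^ (D.s i) = 1) :
    ∃ g : Matrix ι ι E, star g * g = 1 ∧ g * n = (a : Matrix ι ι E) * n * g := by
  obtain ⟨g, hg, -⟩ := D.exists_diag hn hD fun t => μ t.1 * (a : E) ^ (t.2 : ℕ)
  have hu : star g * g = 1 := by
    refine D.ext_b hn hD fun t => ?_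
    rw [← mulVec_mulVec, one_mulVec, hg, mulVec_smul]
    rw [← sub_eq_zero]
    refine hD _ (D.mem_perp_of hn fun t' => ?_)
    rw [hf_sub_right, hf_smul_right]
    have h3 : hf (D.b t') (star g *ᵥ D.b t) = star (μ t'.1 * (a : E) ^ (t'.2 : ℕ)) * hf (D.b t') (D.b t) := by
      rw [← hf_mulVec_left, hg, hf_smul_left]
    rw [h3]
    obtain ⟨t'', rfl⟩ : ∃ t'', t' = D.σ t'' := ⟨D.σ t', (D.σ_σ t').symm⟩
    by_cases h4 : t = t''
    · subst h4
      have h5 : (t.2 : ℕ) < D.s t.1 + 1 := t.2.2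
      have h6 : (μ t.1 * (a : E) ^ (t.2 : ℕ)) * star (μ (D.σ t).1 * (a : E) ^ ((D.σ t).2 : ℕ)) = 1 := by
        rw [star_mul', star_pow, star_natCast, D.σ_val]
        show (μ t.1 * (a : E) ^ (t.2 : ℕ)) * (star (μ t.1) * (a : E) ^ (D.s t.1 - t.2)) = 1
        rw [← h1 t.1]
        have h7 : (a : E) ^ (D.s t.1) = (a : E) ^ (t.2 : ℕ) * (a : E) ^ (D.s t.1 - t.2) := by
          rw [← pow_add]
          congr 1
          omega
        rw [h7]
        ring
      rw [← mul_assoc, h6, one_mul, sub_self]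
    · rw [D.gram hn t'' t h4, mul_zero, mul_zero, sub_zero]
  refine ⟨g, hu, ?_⟩
  refine D.ext_b hn hD fun t => ?_
  have h3 : ((a : Matrix ι ι E)) * n = (a : E) • n := by
    rw [← nsmul_eq_mul, ← Nat.cast_smul_eq_nsmul E]
  rw [h3, ← mulVec_mulVec, ← mulVec_mulVec, hg, mulVec_smul]
  rcases t with ⟨i, j⟩
  have h4 : n *ᵥ D.b ⟨i, j⟩ = (n ^ ((j : ℕ) + 1)) *ᵥ D.v i := by
    rw [Fam.b, mulVec_mulVec, ← pow_succ']
  rw [smul_mulVec, h4]
  rcases Nat.lt_or_ge ((j : ℕ) + 1) (D.s i + 1) with h5 | h5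
  · have h6 := hg ⟨i, ⟨(j : ℕ) + 1, h5⟩⟩
    have h7 : D.b ⟨i, ⟨(j : ℕ) + 1, h5⟩⟩ = (n ^ ((j : ℕ) + 1)) *ᵥ D.v i := rfl
    rw [h7] at h6
    rw [h6, smul_smul]
    congr 1
    show μ i * (a : E) ^ ((j : ℕ) + 1) = μ i * (a : E) ^ (j : ℕ) * a
    ring
  · rw [pow_mulVec_zero h5 (D.kill i), mulVec_zero, smul_zero, smul_zero]

/-- **unipotent elements of order `p` are conjugate to their squares in the full unitary group** -/
theorem uni_two (h : Gd E) {p : ℕ} (hp : p.Prime) (hp2 : p ≠ 2) (hch : CharP E p) (y : Matrix ι ι E)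
    (hy : star y * y = 1) (hyp : y ^ p = 1) : ∃ g : Matrix ι ι E, star g * g = 1 ∧ g * y * star g = y ^ 2 := by
  have hfin := h.finite
  have hnt := h.nontrivial
  have hpE : (p : E) = 0 := CharP.cast_eq_zero E p
  have hp0 : (p : Matrix ι ι E) = 0 := by
    rw [← nsmul_one, ← Nat.cast_smul_eq_nsmul E, hpE, zero_smul]
  have h2 : IsUnit (2 : E) := by
    have h4 : IsUnit ((2 : ℕ) : E) := (CharP.isUnit_natCast_iff hp).2 (fun h5 => hp2 (by
      rw [← (Nat.prime_dvd_prime_iff_eq hp Nat.prime_two).1 h5]))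
    simpa using h4
  obtain ⟨n, hn1, hn2, hn3⟩ := exists_skew hp hp0 hy (mul_eq_one_comm.1 hy) hyp
  obtain ⟨κ, _, _, D, hD⟩ := Fam.exists_full h hn2 h2 hn3
  obtain ⟨t, ht⟩ := h2.exists_right_inv
  have hstt : star t = t := by
    have h3 : (2 : E) * star t = 1 := by
      have h4 := congrArg star ht
      rwa [star_mul', star_one, star_ofNat] at h4
    calc star t = (2 * t) * star t := by rw [ht, one_mul]
      _ = (2 * star t) * t := by ring
      _ = t := by rw [h3, one_mul]
  have htu : IsUnit t := IsUnit.of_mul_eq_one 2 (by rw [mul_comm, ht])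
  choose μ hμ using fun i => h.norm (a := t ^ (D.s i)) (by rw [star_pow, hstt]) (htu.pow _).ne_zero
  obtain ⟨g, hg1, hg2⟩ := D.exists_conjU hn2 hD (a := 2) (μ := μ) (by
    intro i
    rw [hμ, Nat.cast_ofNat, ← mul_pow, mul_comm t, ht, one_pow])
  refine ⟨g, hg1, ?_⟩
  have hg3 : g * star g = 1 := mul_eq_one_comm.1 hg1
  rw [← hn1, ex_conj hg2, ex_nat hp hp0 hn3, mul_assoc, hg3, mul_one]

/-- version for the full unitary group -/
theorem uni_full (h : Gd E) {p : ℕ} (hp : p.Prime) (hp2 : p ≠ 2) (hch : CharP E p) (y : Matrix ι ι E)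
    (hy : star y * y = 1) (hyp : y ^ p = 1) (_ : y ≠ 1) :
    ∃ (g : Matrix ι ι E) (a : ℕ), star g * g = 1 ∧ ¬ a ≡ 1 [MOD p] ∧ g * y * star g = y ^ a := by
  obtain ⟨g, hg1, hg2⟩ := uni_two h hp hp2 hch y hy hyp
  refine ⟨g, 2, hg1, fun h5 => ?_, hg2⟩
  have h6 := (Nat.modEq_iff_dvd' (by norm_num : 1 ≤ 2)).1 h5.symm
  exact hp.one_lt.ne' (Nat.dvd_one.1 h6)

end Cfsg.Agent.H901.CA
end

private theorem dce_bead7b5f8c9b : _root_.True := by
  try have : _root_.True := by simp only [_root_.Cfsg.Agent.H689.CA.br.eq_1]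
  try have : _root_.True := by simp only [_root_.Cfsg.Agent.H901.CA.ef.eq_1]
  try have : _root_.True := by simp only [_root_.Cfsg.Agent.H689.CA.sg.congr_simp]
  try have : _root_.True := by simp only [_root_.Cfsg.Agent.H901.CA.Fam.b.eq_1]
  try have : _root_.True := by simp only [_root_.Cfsg.Agent.H35.CA.blk.eq_1]
  try have : _root_.True := by simp only [_root_.Cfsg.Agent.H901.CA.dc.eq_1]
  try have : _root_.True := by simp only [_root_.Cfsg.Agent.H901.CA.ex.eq_1]
  try have : _root_.True := by simp only [_root_.Cfsg.Agent.H901.CA.hf.eq_1]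
  try have : _root_.True := by simp only [_root_.Cfsg.Agent.H35.CA.blk.congr_simp]
  try have : _root_.True := by simp only [_root_.Cfsg.Agent.H689.CA.cs.eq_1]
  exact _root_.True.intro
end

-- part: H957/CarLab
section
prune_inst 0x215044406162120028188082b3203c62de0005b20008440054210b42078f3c4008878061ffb01d15c2980845403d0068135c0140420000000a000c00011c0180008010082001000080009e000180000000000000000000000000000000051004000000000
set_option linter.all false
open scoped Cfsg.Agent.FastGrp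

/-!
# S3852, type A: the elements with `x ^ r = m ^ r`, `r` dividing `q - ε` (task CA14)
-/

set_option autoImplicit false
set_option linter.unusedSectionVars false

namespace Cfsg.Agent.H957.CarLab

open Matrix Cfsg.Agent.H308.CA

/-! ### powers indexed by `ZMod r` -/

section pw

variable {M : Type*} [Monoid M] {r : ℕ} [NeZero r]

/-- `z ^ i` for `i` modulo `r` -/
def pw (z : M) (i : ZMod r) : M := z ^ i.val

theorem pw_zero (z : M) : pw z (0 : ZMod r) = 1 := by rw [pw, ZMod.val_zero, pow_zero]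

theorem pw_add {z : M} (hz : z ^ r = 1) (i j : ZMod r) : pw z (i + j) = pw z i * pw z j := by
  rw [pw, pw, pw, ← pow_add, ZMod.val_add, ← pow_eq_pow_mod _ hz]

theorem pw_nat {z : M} (hz : z ^ r = 1) (k : ℕ) : pw z (k : ZMod r) = z ^ k := by
  rw [pw, ZMod.val_natCast, ← pow_eq_pow_mod _ hz]

theorem pw_one {z : M} (hz : z ^ r = 1) : pw z (1 : ZMod r) = z := by
  have h := pw_nat hz 1
  rwa [Nat.cast_one, pow_one] at h

theorem pw_mul {z : M} (hz : z ^ r = 1) (i j : ZMod r) : pw z (i * j) = pw z i ^ j.val := by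
  rw [pw, pw, ← pow_mul, ZMod.val_mul, ← pow_eq_pow_mod _ hz]

theorem map_pw {N F : Type*} [Monoid N] [FunLike F M N] [MonoidHomClass F M N] (f : F) (z : M) (i : ZMod r) :
    f (pw z i) = pw (f z) i := map_pow f z _

end pw

/-- the elements of order dividing `r` in a cyclic group -/
theorem exists_pw {G : Type*} [Group G] [Finite G] [IsCyclic G] {r : ℕ} [NeZero r] {w z : G} (hw : orderOf w = r)
    (hz : z ^ r = 1) : ∃ s : ZMod r, z = pw w s := by
  classical
  have : Fintype G := Fintype.ofFinite G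
  have h1 := IsCyclic.card_pow_eq_one_le (α := G) (NeZero.pos r)
  have hwr : w ^ r = 1 := by rw [← hw]; exact pow_orderOf_eq_one w
  have hinj : Function.Injective fun s : ZMod r => pw w s := by
    intro a b hab
    have h2 : w ^ a.val = w ^ b.val := hab
    rw [pow_inj_mod, hw, Nat.mod_eq_of_lt (ZMod.val_lt a), Nat.mod_eq_of_lt (ZMod.val_lt b)] at h2
    exact ZMod.val_injective r h2
  have h2 : Finset.univ.image (fun s : ZMod r => pw w s) = Finset.univ.filter (fun a : G => a ^ r = 1) := by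
    apply Finset.eq_of_subset_of_card_le
    · intro a ha
      obtain ⟨s, -, rfl⟩ := Finset.mem_image.1 ha
      refine Finset.mem_filter.2 ⟨Finset.mem_univ _, ?_⟩
      rw [pw, ← pow_mul, mul_comm, pow_mul, hwr, one_pow]
    · rw [Finset.card_image_of_injective _ hinj, Finset.card_univ, ZMod.card]
      exact h1
  have h3 : z ∈ Finset.univ.image (fun s : ZMod r => pw w s) := by
    rw [h2]
    exact Finset.mem_filter.2 ⟨Finset.mem_univ _, hz⟩
  obtain ⟨s, -, hs⟩ := Finset.mem_image.1 h3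
  exact ⟨s, hs.symm⟩

/-- `1 - z` is a unit for `z ≠ 1` of norm one -/
theorem isUnit_one_sub {E : Type} [CommRing E] [StarRing E] (h : Gd E) {z : E} (hz : star z * z = 1) (h1 : z ≠ 1) :
    IsUnit (1 - z) := by
  cases h with
  | lin F i _ =>
    obtain ⟨a, b⟩ := z
    have hab : b * a = 1 := congrArg Prod.fst hz
    have ha : a ≠ 1 := by
      rintro rfl
      rw [mul_one] at hab
      subst hab
      exact h1 rfl
    have hb : b ≠ 1 := by
      rintro rfl
      rw [one_mul] at hab
      exact ha hab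
    exact Prod.isUnit_iff.2 ⟨isUnit_iff_ne_zero.2 (sub_ne_zero.2 ha.symm), isUnit_iff_ne_zero.2 (sub_ne_zero.2 hb.symm)⟩
  | uni F i s _ hs => exact isUnit_iff_ne_zero.2 (sub_ne_zero.2 h1.symm)

/-! ### eigenprojections -/

section ep

variable {E : Type} [CommRing E] {ι : Type} [Fintype ι] [DecidableEq ι] {r : ℕ} [Fact r.Prime]

/-- the projection on the eigenspace of `y` for the eigenvalue `w ^ i` -/
def ep (v w : E) (y : Matrix ι ι E) (i : ZMod r) : Matrix ι ι E := v • ∑ j : ZMod r, pw w (-(i * j)) • pw y j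

/-- the data: `v = 1 / r`, `w` an element of order `r` -/
structure Dat (r : ℕ) [Fact r.Prime] (v w : E) (y : Matrix ι ι E) : Prop where
  hv : v * r = 1
  hw : w ^ r = 1
  hwu : ∀ i : ZMod r, i ≠ 0 → IsUnit (1 - pw w i)
  hy : y ^ r = 1

variable {v w : E} {y : Matrix ι ι E}

theorem Dat.sum_pw (D : Dat r v w y) (i : ZMod r) : ∑ j : ZMod r, pw w (i * j) = if i = 0 then (r : E) else 0 := by
  split_ifs with hi
  · subst hi
    simp only [zero_mul, pw_zero, Finset.sum_const, Finset.card_univ, ZMod.card, nsmul_eq_mul, mul_one]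
  · have h1 : ∑ j : ZMod r, pw w (i * (j + 1)) = ∑ j : ZMod r, pw w (i * j) :=
      Fintype.sum_equiv (Equiv.addRight (1 : ZMod r)) _ _ fun j => rfl
    have h2 : pw w i * ∑ j : ZMod r, pw w (i * j) = ∑ j : ZMod r, pw w (i * j) := by
      rw [Finset.mul_sum, ← h1]
      refine Finset.sum_congr rfl fun j _ => ?_
      rw [mul_add, mul_one, pw_add D.hw _ i, mul_comm]
    have h3 : (1 - pw w i) * ∑ j : ZMod r, pw w (i * j) = 0 := by rw [sub_mul, one_mul, h2, sub_self]
    exact (D.hwu i hi).mul_right_eq_zero.1 h3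

theorem Dat.pw_mul_ep (D : Dat r v w y) (k i : ZMod r) : pw y k * ep v w y i = pw w (i * k) • ep v w y i := by
  unfold ep
  rw [mul_smul_comm, smul_comm (pw w (i * k)) v]
  congr 1
  rw [Finset.mul_sum, Finset.smul_sum]
  refine Fintype.sum_equiv (Equiv.addLeft k) (fun j => pw y k * pw w (-(i * j)) • pw y j)
    (fun j => pw w (i * k) • pw w (-(i * j)) • pw y j) fun j => ?_
  change pw y k * pw w (-(i * j)) • pw y j = pw w (i * k) • pw w (-(i * (k + j))) • pw y (k + j)
  rw [mul_smul_comm, pw_add D.hy, smul_smul, ← pw_add D.hw]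
  congr 2
  ring

theorem Dat.ep_mul_ep (D : Dat r v w y) (i j : ZMod r) :
    ep v w y i * ep v w y j = if i = j then ep v w y j else 0 := by
  have h1 : ep v w y i * ep v w y j = (v * ∑ k : ZMod r, pw w ((j - i) * k)) • ep v w y j := by
    conv_lhs => rw [ep]
    rw [smul_mul_assoc, Finset.sum_mul, mul_smul, Finset.sum_smul]
    congr 1
    refine Finset.sum_congr rfl fun k _ => ?_
    rw [smul_mul_assoc, D.pw_mul_ep, smul_smul, ← pw_add D.hw]
    congr 2
    ring
  rw [h1, D.sum_pw]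
  by_cases h : j = i
  · rw [if_pos (sub_eq_zero.2 h), if_pos h.symm, D.hv, one_smul]
  · rw [if_neg fun hc => h (sub_eq_zero.1 hc), if_neg (Ne.symm h), mul_zero, zero_smul]

theorem Dat.sum_ep (D : Dat r v w y) : ∑ i : ZMod r, ep v w y i = 1 := by
  unfold ep
  rw [← Finset.smul_sum, Finset.sum_comm]
  have h1 : ∀ j : ZMod r, ∑ i : ZMod r, pw w (-(i * j)) • pw y j = (if j = 0 then (r : E) else 0) • pw y j := by
    intro j
    rw [← Finset.sum_smul]
    have h2 := D.sum_pw (-j)
    simp only [neg_eq_zero] at h2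
    rw [← h2]
    congr 1
    refine Finset.sum_congr rfl fun i _ => ?_
    congr 1
    ring
  rw [Finset.sum_congr rfl fun j _ => h1 j]
  rw [Finset.sum_eq_single (0 : ZMod r)]
  · rw [if_pos rfl, pw_zero, smul_smul, D.hv, one_smul]
  · intro j _ hj
    rw [if_neg hj, zero_smul]
  · intro h
    exact absurd (Finset.mem_univ _) h

theorem Dat.pw_eq (D : Dat r v w y) (k : ZMod r) : pw y k = ∑ i : ZMod r, pw w (i * k) • ep v w y i := by
  rw [← Finset.sum_congr rfl fun i _ => D.pw_mul_ep k i, ← Finset.mul_sum, D.sum_ep, mul_one]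

end ep

section star

variable {E : Type} [CommRing E] [StarRing E] {ι : Type} [Fintype ι] [DecidableEq ι] {r : ℕ} [Fact r.Prime]
variable {v w : E} {y : Matrix ι ι E}

theorem star_pw {z : E} (hz : star z * z = 1) (hr : z ^ r = 1) (i : ZMod r) : star (pw z i) = pw z (-i) := by
  have h1 : star (pw z i) * pw z i = 1 := by
    rw [pw, star_pow, ← mul_pow, hz, one_pow]
  have h2 : pw z i * pw z (-i) = 1 := by rw [← pw_add hr, add_neg_cancel, pw_zero]
  calc star (pw z i) = star (pw z i) * (pw z i * pw z (-i)) := by rw [h2, mul_one]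
    _ = pw z (-i) := by rw [← mul_assoc, h1, one_mul]

theorem star_pw' {z : Matrix ι ι E} (hz : star z * z = 1) (hr : z ^ r = 1) (i : ZMod r) :
    star (pw z i) = pw z (-i) := by
  have hc : ∀ n : ℕ, star z ^ n * z ^ n = 1 := by
    intro n
    induction n with
    | zero => rw [pow_zero, pow_zero, one_mul]
    | succ n ih => rw [pow_succ, pow_succ', mul_assoc, ← mul_assoc (star z), hz, one_mul, ih]
  have h1 : star (pw z i) * pw z i = 1 := by
    rw [pw, star_pow, hc]
  have h2 : pw z i * pw z (-i) = 1 := by rw [← pw_add hr, add_neg_cancel, pw_zero]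
  calc star (pw z i) = star (pw z i) * (pw z i * pw z (-i)) := by rw [h2, mul_one]
    _ = pw z (-i) := by rw [← mul_assoc, h1, one_mul]

theorem Dat.isP (D : Dat r v w y) (hw : star w * w = 1) (hy : star y * y = 1) (i : ZMod r) : IsP (ep v w y i) := by
  have hv : star v = v := by
    have h1 := congrArg star D.hv
    rw [star_mul, star_natCast, star_one] at h1
    calc star v = (v * r) * star v := by rw [D.hv, one_mul]
      _ = v * (r * star v) := by ring
      _ = v := by rw [h1, mul_one]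
  refine ⟨by rw [D.ep_mul_ep, if_pos rfl], ?_⟩
  unfold ep
  rw [star_smul, hv, star_sum]
  congr 1
  refine Fintype.sum_equiv (Equiv.neg (ZMod r)) _ _ fun j => ?_
  rw [star_smul, star_pw hw D.hw, star_pw' hy D.hy, Equiv.neg_apply]
  congr 2
  ring

end star

/-! ### ranks -/

section rk

variable {E : Type} [CommRing E] {ι : Type} [Fintype ι] [DecidableEq ι]

/-- columns -/
def colEquiv (e : Matrix ι ι E) : {a : Matrix ι ι E // e * a = a} ≃ (ι → {v : ι → E // e *ᵥ v = v}) where
  toFun a j := ⟨fun i => a.1 i j, funext fun i => congrFun (congrFun a.2 i) j⟩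
  invFun f := ⟨fun i j => (f j).1 i, by
    funext i j
    exact congrFun (f j).2 i⟩
  left_inv _ := rfl
  right_inv _ := rfl

theorem card_eq (e : Matrix ι ι E) : Nat.card {a : Matrix ι ι E // e * a = a} =
    Nat.card {v : ι → E // e *ᵥ v = v} ^ Fintype.card ι := by
  rw [Nat.card_congr (colEquiv e), Nat.card_fun, Nat.card_eq_fintype_card (α := ι)]

theorem rk_map [Nonempty ι] (θ : RingAut (Matrix ι ι E)) (e : Matrix ι ι E) : rk (θ e) = rk e := by
  have h1 : Nat.card {a : Matrix ι ι E // θ e * a = a} = Nat.card {a : Matrix ι ι E // e * a = a} := by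
    symm
    refine Nat.card_congr (θ.toEquiv.subtypeEquiv fun a => ?_)
    change e * a = a ↔ θ e * θ a = θ a
    rw [← map_mul]
    exact (EmbeddingLike.apply_eq_iff_eq θ).symm
  rw [card_eq, card_eq] at h1
  have h2 := Nat.pow_left_injective (Fintype.card_ne_zero (α := ι)) h1
  rw [rk, rk, h2]

end rk

/-! ### the action of star automorphisms -/

section act

variable {E : Type} [CommRing E] [StarRing E] {ι : Type} [Fintype ι] [DecidableEq ι]

theorem smul_one_inj [Nonempty ι] {a b : E} (h : a • (1 : Matrix ι ι E) = b • (1 : Matrix ι ι E)) : a = b := by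
  obtain ⟨i⟩ := ‹Nonempty ι›
  have h2 := congrFun (congrFun h i) i
  rwa [Matrix.smul_apply, Matrix.smul_apply, Matrix.one_apply_eq, smul_eq_mul, smul_eq_mul, mul_one, mul_one] at h2

theorem map_scal [Nonempty ι] (θ : RingAut (Matrix ι ι E)) (hθ : ∀ a, θ (star a) = star (θ a)) {c : E}
    (hc : star c * c = 1) : ∃ d : E, star d * d = 1 ∧ θ (c • (1 : Matrix ι ι E)) = d • (1 : Matrix ι ι E) := by
  have h1 : ∀ a, θ (c • (1 : Matrix ι ι E)) * a = a * θ (c • (1 : Matrix ι ι E)) := by
    intro a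
    obtain ⟨b, rfl⟩ := θ.surjective a
    rw [← map_mul, ← map_mul, smul_mul_assoc, one_mul, mul_smul_comm, mul_one]
  obtain ⟨d, hd⟩ := exists_scalar h1
  refine ⟨d, ?_, hd⟩
  have h4 : star (θ (c • (1 : Matrix ι ι E))) * θ (c • (1 : Matrix ι ι E)) = 1 := by
    rw [← hθ, ← map_mul, star_smul, star_one, smul_mul_smul_comm, hc, one_mul, one_smul, map_one]
  rw [hd, star_smul, star_one, smul_mul_smul_comm, one_mul] at h4
  apply smul_one_inj (ι := ι)
  rw [h4, one_smul]

variable {r : ℕ} [Fact r.Prime] {v w : E} {y : Matrix ι ι E}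

theorem norm_pw {z : E} (hz : star z * z = 1) (i : ZMod r) : star (pw z i) * pw z i = 1 := by
  rw [pw, star_pow, ← mul_pow, hz, one_pow]

/-- a norm one scalar with `r`-th power `1` is a power of `w` -/
theorem exists_pw_norm (h : Gd E) (hw : star w * w = 1) (hwr : w ^ r = 1) (hw1 : w ≠ 1) {z : E}
    (hz : star z * z = 1) (hzr : z ^ r = 1) : ∃ s : ZMod r, z = pw w s := by
  have := h.finite
  have := h.cyclic
  let W : unitary E := ⟨w, Unitary.mem_iff.2 ⟨hw, by rw [mul_comm]; exact hw⟩⟩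
  let Z : unitary E := ⟨z, Unitary.mem_iff.2 ⟨hz, by rw [mul_comm]; exact hz⟩⟩
  have hW : orderOf W = r := by
    apply orderOf_eq_prime
    · exact Subtype.ext hwr
    · intro hc
      exact hw1 (congrArg Subtype.val hc)
  obtain ⟨s, hs⟩ := exists_pw hW (z := Z) (Subtype.ext hzr)
  exact ⟨s, congrArg Subtype.val hs⟩

/-- the action of a star automorphism fixing `y` up to scalars on the eigenprojections -/
theorem Dat.map_ep [Nonempty ι] (D : Dat r v w y) (h : Gd E) (hw : star w * w = 1) (hw1 : w ≠ 1)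
    (θ : RingAut (Matrix ι ι E)) (hθ : ∀ a, θ (star a) = star (θ a)) (hy : Sc (θ y) y) :
    ∃ s b : ZMod r, s ≠ 0 ∧ ∀ i : ZMod r, θ (ep v w y i) = ep v w y (s * i - b) := by
  obtain ⟨w', hw', hθw⟩ := map_scal θ hθ hw
  have hw'r : w' ^ r = 1 := by
    apply smul_one_inj (ι := ι)
    have h1 : (w' • (1 : Matrix ι ι E)) ^ r = 1 := by
      rw [← hθw, ← map_pow, smul_pow, one_pow, D.hw, one_smul, map_one]
    rwa [smul_pow, one_pow, ← one_smul E (1 : Matrix ι ι E), smul_smul, mul_one] at h1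
  obtain ⟨s, hs⟩ := exists_pw_norm h hw D.hw hw1 hw' hw'r
  obtain ⟨b', hb', hθy⟩ := hy
  have hb'r : b' ^ r = 1 := by
    apply smul_one_inj (ι := ι)
    have h1 : (b' • y) ^ r = 1 := by rw [← hθy, ← map_pow, D.hy, map_one]
    rw [smul_pow, D.hy] at h1
    rw [h1, one_smul]
  obtain ⟨b, hb⟩ := exists_pw_norm h hw D.hw hw1 hb' hb'r
  refine ⟨s, b, ?_, ?_⟩
  · rintro rfl
    rw [pw_zero] at hs
    subst hs
    have h1 : θ (w • (1 : Matrix ι ι E)) = θ 1 := by rw [hθw, one_smul, map_one]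
    have h2 := θ.injective h1
    exact hw1 (smul_one_inj (ι := ι) (by rw [h2, one_smul]))
  · intro i
    -- scalars
    have hv : θ (v • (1 : Matrix ι ι E)) = v • (1 : Matrix ι ι E) := by
      have h1 : v • (1 : Matrix ι ι E) * (r : Matrix ι ι E) = 1 := by
        rw [smul_mul_assoc, one_mul]
        have h2 : (r : Matrix ι ι E) = (r : E) • (1 : Matrix ι ι E) := by
          rw [← nsmul_one, ← Nat.cast_smul_eq_nsmul E]
        rw [h2, smul_smul, D.hv, one_smul]
      have h3 : θ (v • (1 : Matrix ι ι E)) * (r : Matrix ι ι E) = 1 := by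
        rw [← map_natCast θ, ← map_mul, h1, map_one]
      have h4 : (r : Matrix ι ι E) * v • (1 : Matrix ι ι E) = 1 := by
        rw [(Nat.cast_commute r _).eq, h1]
      calc θ (v • (1 : Matrix ι ι E)) = θ (v • (1 : Matrix ι ι E)) * ((r : Matrix ι ι E) * v • (1 : Matrix ι ι E)) := by
            rw [h4, mul_one]
        _ = v • (1 : Matrix ι ι E) := by rw [← mul_assoc, h3, one_mul]
    have hpw : ∀ j : ZMod r, θ (pw w j • (1 : Matrix ι ι E)) = pw w (s * j) • (1 : Matrix ι ι E) := by
      intro j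
      have h1 : ∀ c : E, pw c j • (1 : Matrix ι ι E) = pw (c • (1 : Matrix ι ι E)) j := by
        intro c
        rw [pw, pw, smul_pow, one_pow]
      rw [h1, map_pw, hθw, hs, ← h1, pw_mul D.hw]
      rfl
    have hpy : ∀ j : ZMod r, θ (pw y j) = pw w (b * j) • pw y j := by
      intro j
      rw [map_pw, hθy, hb, pw_mul D.hw, pw, pw, smul_pow]
      rfl
    unfold ep
    have h5 : ∀ (c : E) (a : Matrix ι ι E), θ (c • a) = θ (c • (1 : Matrix ι ι E)) * θ a := by
      intro c a
      rw [← map_mul, smul_mul_assoc, one_mul]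
    rw [h5, hv, smul_mul_assoc, one_mul, map_sum]
    congr 1
    refine Finset.sum_congr rfl fun j _ => ?_
    rw [h5, hpw, hpy, smul_mul_assoc, one_mul, smul_smul, ← pw_add D.hw]
    congr 2
    ring

/-- the eigenprojections permuted by `j ↦ t j + i0` have the same ranks: `x` is conjugate to `x ^ t` -/
theorem Dat.alt (D : Dat r v w y) (hfam : FamSt E) (hw : star w * w = 1) (hy : star y * y = 1) {t i0 : ZMod r}
    (ht0 : t ≠ 0) (hrk : ∀ j : ZMod r, rk (ep v w y (t * j + i0)) = rk (ep v w y (j + i0))) :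
    ∃ g : SU ι E, ∃ c : E, star c * c = 1 ∧ mt g * y * star (mt g) = c • pw y t := by
  have hP := D.isP hw hy
  have horth : ∀ f : ZMod r → ZMod r, Function.Injective f → ∀ i j, i ≠ j →
      ep v w y (f i) * ep v w y (f j) = 0 := by
    intro f hf i j hij
    rw [D.ep_mul_ep, if_neg fun hc => hij (hf hc)]
  have hinj1 : Function.Injective fun j : ZMod r => j + i0 := add_left_injective i0
  have hinj2 : Function.Injective fun j : ZMod r => t⁻¹ * j + i0 := by
    intro a b hab
    have h1 : t⁻¹ * a = t⁻¹ * b := add_right_cancel hab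
    exact mul_left_cancel₀ (inv_ne_zero ht0) h1
  have hsum : ∀ f : ZMod r → ZMod r, Function.Injective f → ∑ i, ep v w y (f i) = 1 := by
    intro f hf
    rw [← D.sum_ep]
    exact Fintype.sum_bijective f (Finite.injective_iff_bijective.1 hf) _ _ fun _ => rfl
  obtain ⟨g, hg⟩ := hfam ι (ZMod r) (fun j => ep v w y (j + i0)) (fun j => ep v w y (t⁻¹ * j + i0))
    (fun _ => hP _) (horth _ hinj1) (hsum _ hinj1) (fun _ => hP _) (horth _ hinj2) (hsum _ hinj2) (by
      intro j
      have h1 := hrk (t⁻¹ * j)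
      rw [mul_inv_cancel_left₀ ht0] at h1
      exact h1)
  refine ⟨g, pw w (i0 - t * i0), norm_pw hw _, ?_⟩
  have h1 : y = ∑ j : ZMod r, pw w (j + i0) • ep v w y (j + i0) := by
    conv_lhs => rw [← pw_one D.hy, D.pw_eq 1]
    symm
    refine Fintype.sum_equiv (Equiv.addRight i0) _ _ fun j => ?_
    rw [mul_one]
    rfl
  have h2 : mt g * y * star (mt g) = ∑ j : ZMod r, pw w (j + i0) • ep v w y (t⁻¹ * j + i0) := by
    conv_lhs => rw [h1]
    rw [Finset.mul_sum, Finset.sum_mul]
    refine Finset.sum_congr rfl fun j _ => ?_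
    rw [mul_smul_comm, smul_mul_assoc, hg j]
  rw [h2, D.pw_eq t, Finset.smul_sum]
  refine Fintype.sum_bijective (fun j : ZMod r => t⁻¹ * j + i0) (Finite.injective_iff_bijective.1 hinj2) _ _ ?_
  intro j
  rw [smul_smul, ← pw_add D.hw]
  congr 2
  have h3 : t⁻¹ * t = 1 := inv_mul_cancel₀ ht0
  linear_combination (-j) * h3

end act

/-- **LAB** (CA14) -/
theorem lab_st {E : Type} [CommRing E] [StarRing E] (h : Gd E) (hfam : FamSt E) : EigSt E := by
  intro ι _ _ r hr hr2 hrE hrd x m hm hx hns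
  have : Fact r.Prime := ⟨hr⟩
  have hfin := h.finite
  have hnt := h.nontrivial
  have hne : Nonempty ι := by
    by_contra hc
    rw [not_nonempty_iff] at hc
    exact hns ⟨1, by rw [star_one, one_mul], Matrix.ext fun i => hc.elim i⟩
  -- `w`
  obtain ⟨W, hW⟩ := exists_prime_orderOf_dvd_card' (G := unitary E) r hrd
  set w : E := (W : E) with hwdef
  have hw : star w * w = 1 := (Unitary.mem_iff.1 W.2).1
  have hwr : w ^ r = 1 := by
    have h1 : W ^ r = 1 := by rw [← hW]; exact pow_orderOf_eq_one W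
    exact congrArg Subtype.val h1
  have hwu : ∀ i : ZMod r, i ≠ 0 → IsUnit (1 - pw w i) := by
    intro i hi
    refine isUnit_one_sub h (norm_pw hw i) ?_
    intro hc
    have h1 : W ^ i.val = 1 := Subtype.ext hc
    have h2 := orderOf_dvd_of_pow_eq_one h1
    rw [hW] at h2
    have h3 := Nat.eq_zero_of_dvd_of_lt h2 (ZMod.val_lt i)
    exact hi ((ZMod.val_eq_zero i).1 h3)
  have hw1 : w ≠ 1 := by
    intro hc
    have h1 : W = 1 := Subtype.ext hc
    rw [h1, orderOf_one] at hW
    exact hr.one_lt.ne hW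
  -- `v`
  obtain ⟨v, hv⟩ := hrE.exists_left_inv
  -- `y`
  set y : Matrix ι ι E := star m • mt x with hydef
  have hmm : m * star m = 1 := by rw [mul_comm]; exact hm
  have hyr : y ^ r = 1 := by
    rw [hydef, smul_pow, hx, smul_smul, ← mul_pow, hm, one_pow, one_smul]
  have hys : star y * y = 1 := by
    rw [hydef, star_smul, star_star, smul_mul_smul_comm, hmm, one_smul, star_mt_mul]
  have hxy : mt x = m • y := by rw [hydef, smul_smul, hmm, one_smul]
  have D : Dat r v w y := ⟨hv, hwr, hwu, hyr⟩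
  have key : ∀ t i0 : ZMod r, t ≠ 0 → t ≠ 1 →
      (∀ j : ZMod r, rk (ep v w y (t * j + i0)) = rk (ep v w y (j + i0))) →
      ∃ (g : SU ι E) (a : ℕ), ¬ a ≡ 1 [MOD r] ∧ Sc (mt (g * x * g⁻¹)) (mt x ^ a) := by
    intro t i0 ht0 ht1 hrk
    obtain ⟨g, c, hc, hg⟩ := D.alt hfam hw hys ht0 hrk
    refine ⟨g, t.val, ?_, ?_⟩
    · intro hmod
      have h1 : ((t.val : ℕ) : ZMod r) = ((1 : ℕ) : ZMod r) := (ZMod.natCast_eq_natCast_iff _ _ _).2 hmod
      rw [ZMod.natCast_zmod_val, Nat.cast_one] at h1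
      exact ht1 h1
    · have h1 : Sc (mt x) y := ⟨m, hm, hxy⟩
      have h2 : mt (g * x * g⁻¹) = m • (mt g * y * star (mt g)) := by
        rw [map_mul, map_mul, mt_inv, hxy, mul_smul_comm, smul_mul_assoc]
      rw [h2, hg, hydef]
      refine ⟨m * (c * star m ^ t.val), ?_, ?_⟩
      · have h3 : star (star m ^ t.val) * star m ^ t.val = 1 := by
          rw [star_pow, star_star, ← mul_pow, hmm, one_pow]
        rw [star_mul, star_mul]
        calc star (star m ^ t.val) * star c * star m * (m * (c * star m ^ t.val)) =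
            (star m * m) * (star c * c) * (star (star m ^ t.val) * star m ^ t.val) := by ring
          _ = 1 := by rw [hm, hc, h3, one_mul, one_mul]
      · rw [pw, smul_pow, smul_smul, smul_smul, mul_assoc]
  by_cases hall : ∀ θ : RingAut (Matrix ι ι E), (∀ a, θ (star a) = star (θ a)) → Sc (θ (mt x)) (mt x) →
      ∀ i : ZMod r, θ (ep v w y i) = ep v w y i
  · -- all projections are fixed
    right
    have hex : ∃ i : ZMod r, ep v w y i ≠ 0 ∧ ep v w y i ≠ 1 := by
      by_contra hcon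
      push Not at hcon
      have h1 : ∃ i : ZMod r, ep v w y i ≠ 0 := by
        by_contra hc
        push Not at hc
        have h2 := D.sum_ep
        rw [Finset.sum_eq_zero fun i _ => hc i] at h2
        exact zero_ne_one h2
      obtain ⟨i, hi⟩ := h1
      have h2 := hcon i hi
      have h3 := D.pw_mul_ep 1 i
      rw [h2, pw_one D.hy, mul_one, mul_one] at h3
      apply hns
      refine ⟨m * pw w i, ?_, ?_⟩
      · rw [star_mul]
        calc star (pw w i) * star m * (m * pw w i) = (star m * m) * (star (pw w i) * pw w i) := by ring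
          _ = 1 := by rw [hm, norm_pw hw, one_mul]
      · rw [hxy, h3, smul_smul]
    obtain ⟨i, hi0, hi1⟩ := hex
    exact ⟨ep v w y i, D.isP hw hys i, hi0, hi1, fun θ hθ hθx => hall θ hθ hθx i⟩
  · left
    push Not at hall
    obtain ⟨θ, hθ, hθx, i, hi⟩ := hall
    have hθy : Sc (θ y) y := by
      obtain ⟨c, hc, hθx⟩ := hθx
      have hsm : star (star m) * star m = 1 := by rw [star_star, hmm]
      obtain ⟨d, hd, hθm⟩ := map_scal θ hθ hsm
      refine ⟨d * c * m, ?_, ?_⟩
      · rw [star_mul, star_mul]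
        calc star m * (star c * star d) * (d * c * m) = (star m * m) * (star c * c) * (star d * d) := by ring
          _ = 1 := by rw [hm, hc, hd, one_mul, one_mul]
      · have h1 : y = (star m • (1 : Matrix ι ι E)) * mt x := by rw [hydef, smul_mul_assoc, one_mul]
        conv_lhs => rw [h1]
        rw [map_mul, hθm, hθx, hxy, smul_mul_assoc, one_mul, smul_smul, smul_smul]
    obtain ⟨s, b, hs0, hsb⟩ := D.map_ep h hw hw1 θ hθ hθy
    have hrk : ∀ i : ZMod r, rk (ep v w y (s * i - b)) = rk (ep v w y i) := by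
      intro i
      rw [← hsb, rk_map]
    by_cases hs1 : s = 1
    · subst hs1
      have hb : b ≠ 0 := by
        rintro rfl
        apply hi
        rw [hsb, one_mul, sub_zero]
      have hall : ∀ (n : ℕ) (i : ZMod r), rk (ep v w y (i - (n : ZMod r) * b)) = rk (ep v w y i) := by
        intro n
        induction n with
        | zero => intro i; rw [Nat.cast_zero, zero_mul, sub_zero]
        | succ n ih =>
          intro i
          have h1 := hrk (i - n * b)
          rw [one_mul, ih] at h1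
          rw [← h1]
          congr 2
          push_cast
          ring
      have hconst : ∀ i j : ZMod r, rk (ep v w y i) = rk (ep v w y j) := by
        intro i j
        have h1 := hall ((j - i) / b).val j
        rw [ZMod.natCast_zmod_val, div_mul_cancel₀ _ hb, sub_sub_cancel] at h1
        exact h1
      refine key 2 0 ?_ ?_ fun j => hconst _ _
      · intro h2
        have h3 : ((2 : ℕ) : ZMod r) = 0 := by exact_mod_cast h2
        rw [ZMod.natCast_eq_zero_iff] at h3
        exact hr2 ((Nat.prime_dvd_prime_iff_eq hr Nat.prime_two).1 h3)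
      · intro h2
        have h3 : (1 : ZMod r) = 0 := by linear_combination h2
        exact one_ne_zero h3
    · have hs1' : s - 1 ≠ 0 := sub_ne_zero.2 hs1
      refine key s (b / (s - 1)) hs0 hs1 fun j => ?_
      rw [← hrk (j + b / (s - 1))]
      congr 2
      have h1 : b / (s - 1) * (s - 1) = b := div_mul_cancel₀ _ hs1'
      linear_combination (-1) * h1

end Cfsg.Agent.H957.CarLab

private theorem dce_bd249e368ef2 : _root_.True := by
  try have : _root_.True := by simp only [_root_.Cfsg.Agent.H957.CarLab.pw.eq_1]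
  try have : _root_.True := by simp only [_root_.Cfsg.Agent.H957.CarLab.ep.congr_simp]
  try have : _root_.True := by simp only [_root_.Cfsg.Agent.H957.CarLab.ep.eq_1]
  exact _root_.True.intro
end

-- part: H55/CA/OddIndex
section
prune_inst 0x10000000000000
set_option linter.all false
open scoped Cfsg.Agent.FastGrp

/-!
# S3852, CA18: the stabiliser of the `2`-adic decomposition has odd index (helper55)

* `sum_rk`, `rk_one`, `rk_add`, `rk_zero`, `rk_eq_zero` : ranks of symmetric idempotents;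
* `card_eq_sum` : `|ι| = ∑ 2 ^ a`;
* `rkNe` : [CA15](b); `index_odd` : the index of `Y` is odd.
-/

set_option autoImplicit false
set_option linter.unusedSectionVars false
set_option linter.unusedVariables false

namespace Cfsg.Agent.H55.CA

open Matrix Cfsg.Agent.H308.CA

section

variable {ι κ : Type} [Fintype ι] [DecidableEq ι] [Fintype κ] [DecidableEq κ] {E : Type} [CommRing E] [StarRing E]

/-- the ranks of a complete family add up to `|ι|` -/
theorem sum_rk (h : Gd E) {e : κ → Matrix ι ι E} (he : ∀ i, IsP (e i)) (ho : ∀ i j, i ≠ j → e i * e j = 0)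
    (hs : ∑ i, e i = 1) : ∑ i, rk (e i) = Fintype.card ι := by
  obtain ⟨u, c, hc⟩ := H248.CA.onSt h ι κ e he ho hs
  have h1 : ∀ i, rk (e i) = Fintype.card {x // c x = i} := fun i => by rw [hc i, H248.CA.rk_conj h]
  rw [Finset.sum_congr rfl fun i _ => h1 i, ← Fintype.card_sigma]
  exact Fintype.card_congr (Equiv.sigmaFiberEquiv c)

theorem isP_one_sub {e : Matrix ι ι E} (he : IsP e) : IsP (1 - e) :=
  ⟨by rw [sub_mul, mul_sub, mul_sub, mul_one, one_mul, mul_one, he.idem, sub_self, sub_zero],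
    by rw [star_sub, star_one, he.sym]⟩

theorem isP_add {e f : Matrix ι ι E} (he : IsP e) (hf : IsP f) (hef : e * f = 0) : IsP (e + f) := by
  have hfe : f * e = 0 := by
    have := congrArg star hef
    rwa [star_mul, he.sym, hf.sym, star_zero] at this
  exact ⟨by rw [add_mul, mul_add, mul_add, he.idem, hf.idem, hef, hfe, add_zero, zero_add],
    by rw [star_add, he.sym, hf.sym]⟩

theorem rk_one (h : Gd E) : rk (1 : Matrix ι ι E) = Fintype.card ι := by
  have h1 := sum_rk (κ := Unit) (ι := ι) h (e := fun _ => 1) (fun _ => ⟨one_mul 1, star_one _⟩)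
    (fun i j hij => absurd (Subsingleton.elim i j) hij) (by simp)
  simpa only [_root_.Finset.univ_unique, _root_.PUnit.default_eq_unit, _root_.Finset.sum_const, _root_.Finset.card_singleton, _root_.smul_eq_mul, _root_.one_mul] using h1

theorem rk_zero (h : Gd E) : rk (0 : Matrix ι ι E) = 0 := by
  have h1 := sum_rk (κ := Bool) (ι := ι) h (e := fun b => if b then 1 else 0) (fun b => by
      cases b
      · exact ⟨mul_zero _, star_zero _⟩
      · exact ⟨one_mul 1, star_one _⟩)
    (fun i j hij => by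
      cases i <;> cases j <;> simp at hij ⊢) (by simp)
  simp only [Fintype.sum_bool, if_true, Bool.false_eq_true, if_false, rk_one h] at h1
  omega

theorem rk_sub (h : Gd E) {e : Matrix ι ι E} (he : IsP e) : rk e + rk (1 - e) = Fintype.card ι := by
  have h1 := sum_rk (κ := Bool) (ι := ι) h (e := fun b => if b then e else 1 - e) (fun b => by
      cases b
      · exact isP_one_sub he
      · exact he)
    (fun i j hij => by
      cases i <;> cases j
      · exact absurd rfl hij
      · show (1 - e) * e = 0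
        rw [sub_mul, one_mul, he.idem, sub_self]
      · show e * (1 - e) = 0
        rw [mul_sub, mul_one, he.idem, sub_self]
      · exact absurd rfl hij) (by simp)
  simpa only [_root_.Fintype.univ_bool, _root_.Finset.mem_singleton, _root_.Bool.true_eq_false, _root_.not_false_eq_true, _root_.Finset.sum_insert, ↓ _root_.reduceIte, _root_.Finset.sum_singleton, _root_.Bool.false_eq_true] using h1

theorem rk_eq_zero (h : Gd E) {e : Matrix ι ι E} (he : IsP e) : rk e = 0 ↔ e = 0 := by
  constructor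
  · intro h0
    obtain ⟨u, c, hc⟩ := H248.CA.onSt h ι Bool (fun b => if b then e else 1 - e) (fun b => by
        cases b
        · exact isP_one_sub he
        · exact he)
      (fun i j hij => by
        cases i <;> cases j
        · exact absurd rfl hij
        · show (1 - e) * e = 0
          rw [sub_mul, one_mul, he.idem, sub_self]
        · show e * (1 - e) = 0
          rw [mul_sub, mul_one, he.idem, sub_self]
        · exact absurd rfl hij) (by simp)
    have h1 : e = star (H308.CA.mt u) * dg (fun x => c x = true) * H308.CA.mt u := hc true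
    have h2 : Fintype.card {x // c x = true} = 0 := by
      rw [← H248.CA.rk_conj h u, ← h1, h0]
    have h3 : (dg (fun x => c x = true) : Matrix ι ι E) = 0 := by
      have h4 := Fintype.card_eq_zero_iff.1 h2
      unfold dg
      rw [← Matrix.diagonal_zero]
      congr 1
      funext x
      rw [if_neg fun hx => h4.false ⟨x, hx⟩]
    rw [h1, h3, mul_zero, zero_mul]
  · rintro rfl
    exact rk_zero h

/-- `|ι|` is the sum of the ranks, for families indexed by a finite set -/
theorem card_eq_sum (h : Gd E) (s : Finset ℕ) (e : ℕ → Matrix ι ι E) (he : ∀ a ∈ s, IsP (e a))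
    (ho : ∀ a ∈ s, ∀ b ∈ s, a ≠ b → e a * e b = 0) (hs : ∑ a ∈ s, e a = 1) (hr : ∀ a ∈ s, rk (e a) = 2 ^ a) :
    Fintype.card ι = ∑ a ∈ s, 2 ^ a := by
  have h1 := sum_rk (κ := s) (ι := ι) h (e := fun a => e a) (fun a => he a a.2)
    (fun a b hab => ho a a.2 b b.2 fun hc => hab (Subtype.ext hc)) (by
      rw [← hs]
      exact Finset.sum_coe_sort s e)
  rw [← h1, ← Finset.sum_coe_sort s (fun a => 2 ^ a)]
  exact Finset.sum_congr rfl fun a _ => hr a a.2

/-- [CA15](b) as a statement -/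
def RkNe (ι : Type) [Fintype ι] [DecidableEq ι] (E : Type) [CommRing E] [StarRing E] : Prop :=
  ∀ (S : Subgroup (SU ι E)), ¬ 2 ∣ S.index → ∀ (e f : Matrix ι ι E), IsP e → IsP f → e * f = 0 →
    (∀ s ∈ S, _root_.Cfsg.Agent.H308.CA.mt s * e = e * _root_.Cfsg.Agent.H308.CA.mt s) → (∀ s ∈ S, _root_.Cfsg.Agent.H308.CA.mt s * f = f * _root_.Cfsg.Agent.H308.CA.mt s) → rk e = rk f → e = f

/-- **CA18** -/
theorem index_odd_of (h : Gd E) (h2 : IsUnit (2 : E)) (hTwo : TwoSt E) (hne : RkNe ι E) (s : Finset ℕ)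
    (e : ℕ → Matrix ι ι E) (he : ∀ a ∈ s, IsP (e a)) (ho : ∀ a ∈ s, ∀ b ∈ s, a ≠ b → e a * e b = 0)
    (hs : ∑ a ∈ s, e a = 1) (hr : ∀ a ∈ s, rk (e a) = 2 ^ a) (Y : Subgroup (SU ι E))
    (hY : ∀ u : SU ι E, (∀ a ∈ s, _root_.Cfsg.Agent.H308.CA.mt u * e a = e a * _root_.Cfsg.Agent.H308.CA.mt u) → u ∈ Y) : ¬ 2 ∣ Y.index := by
  classical
  have hfin := h.finite
  have : Finite (SU ι E) := Finite.of_injective mt mt_injective
  have fact2 : Fact (Nat.Prime 2) := ⟨Nat.prime_two⟩
  obtain ⟨S⟩ : Nonempty (Sylow 2 (SU ι E)) := inferInstance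
  obtain ⟨m, f, hf1, hf2, hf3, hf4, hf5⟩ := hTwo h2 ι S S.isPGroup'
  choose b hb using hf5
  have hinj : Function.Injective b := by
    intro i j hij
    by_contra hne'
    have h3 := hne S S.not_dvd_index (f i) (f j) (hf1 i) (hf1 j) (hf2 i j hne') (hf4 i) (hf4 j)
      (by rw [hb, hb, hij])
    have h4 : f i = 0 := by
      have h5 := hf2 i j hne'
      rwa [← h3, (hf1 i).idem] at h5
    have h5 := hb i
    rw [h4, rk_zero h] at h5
    exact (pow_pos (by norm_num : 0 < 2) (b i)).ne h5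
  have himg : Finset.univ.image b = s := by
    have h3 : ∑ a ∈ Finset.univ.image b, 2 ^ a = ∑ a ∈ s, 2 ^ a := by
      rw [← card_eq_sum h s e he ho hs hr, Finset.sum_image fun i _ j _ hij => hinj hij,
        ← sum_rk h hf1 hf2 hf3]
      exact Finset.sum_congr rfl fun i _ => (hb i).symm
    exact Finset.geomSum_injective (le_refl 2) h3
  have hmem : ∀ i, b i ∈ s := fun i => by
    rw [← himg]
    exact Finset.mem_image_of_mem b (Finset.mem_univ i)
  obtain ⟨g, hg⟩ := fam_st h ι (Fin m) f (fun i => e (b i)) hf1 hf2 hf3 (fun i => he _ (hmem i))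
    (fun i j hij => ho _ (hmem i) _ (hmem j) fun hc => hij (hinj hc)) (by
      rw [← hs, ← himg, Finset.sum_image fun i _ j _ hij => hinj hij])
    (fun i => by rw [hb, hr _ (hmem i)])
  have hle : ((g • S : Sylow 2 (SU ι E)) : Subgroup (SU ι E)) ≤ Y := by
    intro u hu
    rw [Sylow.smul_def, Sylow.pointwise_smul_def, Subgroup.mem_pointwise_smul_iff_inv_smul_mem, ← map_inv,
      MulAut.smul_def, MulAut.conj_apply, inv_inv] at hu
    apply hY
    intro a ha
    rw [← himg] at ha
    obtain ⟨i, -, rfl⟩ := Finset.mem_image.1 ha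
    have h3 := hf4 i _ hu
    rw [map_mul, map_mul, mt_inv] at h3
    rw [← hg i]
    have hg1 := star_mt_mul g
    have hg2 := mt_mul_star g
    calc _root_.Cfsg.Agent.H308.CA.mt u * (_root_.Cfsg.Agent.H308.CA.mt g * f i * star (_root_.Cfsg.Agent.H308.CA.mt g))
        = (_root_.Cfsg.Agent.H308.CA.mt g * star (_root_.Cfsg.Agent.H308.CA.mt g)) * _root_.Cfsg.Agent.H308.CA.mt u * (_root_.Cfsg.Agent.H308.CA.mt g * f i * star (_root_.Cfsg.Agent.H308.CA.mt g)) := by rw [hg2, one_mul]
      _ = _root_.Cfsg.Agent.H308.CA.mt g * ((star (_root_.Cfsg.Agent.H308.CA.mt g) * _root_.Cfsg.Agent.H308.CA.mt u * _root_.Cfsg.Agent.H308.CA.mt g) * f i) * star (_root_.Cfsg.Agent.H308.CA.mt g) := by simp only [mul_assoc]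
      _ = _root_.Cfsg.Agent.H308.CA.mt g * (f i * (star (_root_.Cfsg.Agent.H308.CA.mt g) * _root_.Cfsg.Agent.H308.CA.mt u * _root_.Cfsg.Agent.H308.CA.mt g)) * star (_root_.Cfsg.Agent.H308.CA.mt g) := by rw [h3]
      _ = _root_.Cfsg.Agent.H308.CA.mt g * f i * star (_root_.Cfsg.Agent.H308.CA.mt g) * _root_.Cfsg.Agent.H308.CA.mt u * (_root_.Cfsg.Agent.H308.CA.mt g * star (_root_.Cfsg.Agent.H308.CA.mt g)) := by simp only [mul_assoc]
      _ = _root_.Cfsg.Agent.H308.CA.mt g * f i * star (_root_.Cfsg.Agent.H308.CA.mt g) * _root_.Cfsg.Agent.H308.CA.mt u := by rw [hg2, mul_one]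
  intro hd
  exact (g • S : Sylow 2 (SU ι E)).not_dvd_index (hd.trans (Subgroup.index_dvd_of_le hle))

/-- conjugation by a unitary element -/
def cu (u : SU ι E) (a : Matrix ι ι E) : Matrix ι ι E := H308.CA.mt u * a * star (H308.CA.mt u)

theorem cu_mul (u v : SU ι E) (a : Matrix ι ι E) : cu (u * v) a = cu u (cu v a) := by
  unfold cu
  rw [map_mul, star_mul]
  simp only [mul_assoc]

theorem cu_one (a : Matrix ι ι E) : cu 1 a = a := by
  unfold cu
  rw [map_one, star_one, one_mul, mul_one]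

theorem cu_inv (u : SU ι E) (a : Matrix ι ι E) : cu u⁻¹ (cu u a) = a := by
  rw [← cu_mul, inv_mul_cancel, cu_one]

theorem cu_inv_eq {u : SU ι E} {a b : Matrix ι ι E} (h : cu u a = b) : cu u⁻¹ b = a := by
  rw [← h, cu_inv]

theorem cu_eq_of_comm {u : SU ι E} {a : Matrix ι ι E} (h : H308.CA.mt u * a = a * H308.CA.mt u) : cu u a = a := by
  unfold cu
  rw [h, mul_assoc, mt_mul_star, mul_one]

/-- the stabiliser of `(e, f)` -/
def stX (e f : Matrix ι ι E) : Subgroup (SU ι E) where
  carrier := {u | cu u e = e ∧ cu u f = f}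
  one_mem' := ⟨cu_one e, cu_one f⟩
  mul_mem' := fun {u v} hu hv => ⟨by rw [cu_mul, hv.1, hu.1], by rw [cu_mul, hv.2, hu.2]⟩
  inv_mem' := fun {u} hu => ⟨cu_inv_eq hu.1, cu_inv_eq hu.2⟩

/-- the stabiliser of `{e, f}` -/
def stY (e f : Matrix ι ι E) : Subgroup (SU ι E) where
  carrier := {u | (cu u e = e ∧ cu u f = f) ∨ (cu u e = f ∧ cu u f = e)}
  one_mem' := Or.inl ⟨cu_one e, cu_one f⟩
  mul_mem' := by
    rintro u v (hu | hu) (hv | hv)
    · exact Or.inl ⟨by rw [cu_mul, hv.1, hu.1], by rw [cu_mul, hv.2, hu.2]⟩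
    · exact Or.inr ⟨by rw [cu_mul, hv.1, hu.2], by rw [cu_mul, hv.2, hu.1]⟩
    · exact Or.inr ⟨by rw [cu_mul, hv.1, hu.1], by rw [cu_mul, hv.2, hu.2]⟩
    · exact Or.inl ⟨by rw [cu_mul, hv.1, hu.2], by rw [cu_mul, hv.2, hu.1]⟩
  inv_mem' := by
    rintro u (hu | hu)
    · exact Or.inl ⟨cu_inv_eq hu.1, cu_inv_eq hu.2⟩
    · exact Or.inr ⟨cu_inv_eq hu.2, cu_inv_eq hu.1⟩

/-- [CA15](b) -/
theorem rkNe (h : Gd E) : RkNe ι E := by
  intro S hS e f he hf hef hSe hSf hr
  by_contra hne
  have hfin := h.finite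
  have : Finite (SU ι E) := Finite.of_injective H308.CA.mt mt_injective
  have hfe : f * e = 0 := by
    have := congrArg star hef
    rwa [star_mul, he.sym, hf.sym, star_zero] at this
  have hP3 := isP_one_sub (isP_add he hf hef)
  obtain ⟨g, hg⟩ := fam_st h ι (Fin 3) ![e, f, 1 - (e + f)] ![f, e, 1 - (e + f)] (by
      intro i
      fin_cases i
      · exact he
      · exact hf
      · exact hP3) (by
      intro i j hij
      fin_cases i <;> fin_cases j <;> first | exact absurd rfl hij | skip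
      · exact hef
      · show e * (1 - (e + f)) = 0
        rw [mul_sub, mul_one, mul_add, he.idem, hef, add_zero, sub_self]
      · exact hfe
      · show f * (1 - (e + f)) = 0
        rw [mul_sub, mul_one, mul_add, hf.idem, hfe, zero_add, sub_self]
      · show (1 - (e + f)) * e = 0
        rw [sub_mul, one_mul, add_mul, he.idem, hfe, add_zero, sub_self]
      · show (1 - (e + f)) * f = 0
        rw [sub_mul, one_mul, add_mul, hf.idem, hef, zero_add, sub_self]) (by
      rw [Fin.sum_univ_three]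
      show e + f + (1 - (e + f)) = 1
      abel) (by
      intro i
      fin_cases i
      · exact hf
      · exact he
      · exact hP3) (by
      intro i j hij
      fin_cases i <;> fin_cases j <;> first | exact absurd rfl hij | skip
      · exact hfe
      · show f * (1 - (e + f)) = 0
        rw [mul_sub, mul_one, mul_add, hf.idem, hfe, zero_add, sub_self]
      · exact hef
      · show e * (1 - (e + f)) = 0
        rw [mul_sub, mul_one, mul_add, he.idem, hef, add_zero, sub_self]
      · show (1 - (e + f)) * f = 0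
        rw [sub_mul, one_mul, add_mul, hf.idem, hef, zero_add, sub_self]
      · show (1 - (e + f)) * e = 0
        rw [sub_mul, one_mul, add_mul, he.idem, hfe, add_zero, sub_self]) (by
      rw [Fin.sum_univ_three]
      show f + e + (1 - (e + f)) = 1
      abel) (by
      intro i
      fin_cases i
      · exact hr
      · exact hr.symm
      · rfl)
  have hge : cu g e = f := hg 0
  have hgf : cu g f = e := hg 1
  have hXY : stX e f ≤ stY e f := fun u hu => Or.inl hu
  have hrel : (stX e f).relIndex (stY e f) = 2 := by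
    rw [Subgroup.relIndex_eq_two_iff]
    refine ⟨g, Or.inr ⟨hge, hgf⟩, ?_⟩
    rintro b (hb | hb)
    · refine Or.inr ⟨hb, fun hbg => hne ?_⟩
      have h1 : cu (b * g) e = e := hbg.1
      rw [cu_mul, hge, hb.2] at h1
      exact h1.symm
    · refine Or.inl ⟨⟨?_, ?_⟩, fun hb' => hne ?_⟩
      · show cu (b * g) e = e
        rw [cu_mul, hge, hb.2]
      · show cu (b * g) f = f
        rw [cu_mul, hgf, hb.1]
      · exact hb'.1.symm.trans hb.1
  have hSX : S ≤ stX e f := fun u hu => ⟨cu_eq_of_comm (hSe u hu), cu_eq_of_comm (hSf u hu)⟩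
  apply hS
  have h1 := Subgroup.relIndex_mul_index hXY
  rw [hrel] at h1
  exact (Dvd.intro _ h1).trans (Subgroup.index_dvd_of_le hSX)

/-- **CA18** -/
theorem index_odd (h : Gd E) (h2 : IsUnit (2 : E)) (hTwo : TwoSt E) (s : Finset ℕ)
    (e : ℕ → Matrix ι ι E) (he : ∀ a ∈ s, IsP (e a)) (ho : ∀ a ∈ s, ∀ b ∈ s, a ≠ b → e a * e b = 0)
    (hs : ∑ a ∈ s, e a = 1) (hr : ∀ a ∈ s, rk (e a) = 2 ^ a) (Y : Subgroup (SU ι E))
    (hY : ∀ u : SU ι E, (∀ a ∈ s, H308.CA.mt u * e a = e a * H308.CA.mt u) → u ∈ Y) : ¬ 2 ∣ Y.index :=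
  index_odd_of h h2 hTwo (rkNe h) s e he ho hs hr Y hY

end

end Cfsg.Agent.H55.CA
end

-- part: H911/CA/Syl2
section
prune_inst 0x1504040454012002000858291201c46fe0005b2004b04001c210b42078ebe4008828660eda01d0552a8081540350068134c00000200000000000400011d01a080800008a0090004a6009f801183180c00000000000000000000000000051004000000000
set_option linter.all false
open scoped Cfsg.Agent.FastGrp

/-!
# Sylow subgroups of `SU` and `TA` structures (S3852, CA15; helper911)
-/

set_option autoImplicit false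
set_option linter.unusedSectionVars false
set_option linter.unusedVariables false

namespace Cfsg.Agent.H911.CA

open Subgroup Matrix Cfsg.Agent.H308.CA

universe u

section grp

/-- a Sylow subgroup of a group which is an `l`-group modulo a central subgroup is normal -/
theorem sylow_normal_of_central {H : Type*} [Group H] [Finite H] {l : ℕ} [hl : Fact l.Prime] (Z : Subgroup H)
    (hZ : ∀ z ∈ Z, ∀ x : H, z * x = x * z) (hq : ∀ x : H, ∃ n : ℕ, x ^ l ^ n ∈ Z) (Q : Sylow l H) :
    (Q : Subgroup H).Normal := by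
  have hZn : Z.Normal := ⟨fun z hz g => by rw [← hZ z hz g, mul_inv_cancel_right]; exact hz⟩
  have hq' : IsPGroup l (H ⧸ Z) := by
    intro x
    obtain ⟨x, rfl⟩ := QuotientGroup.mk_surjective x
    obtain ⟨m, hm⟩ := hq x
    exact ⟨m, by rw [← QuotientGroup.mk_pow, QuotientGroup.eq_one_iff]; exact hm⟩
  have hsup : (Q : Subgroup H) ⊔ Z = ⊤ := by
    have h4 : (Q : Subgroup H).index.Coprime l := (Nat.Prime.coprime_iff_not_dvd hl.out).2 Q.not_dvd_index |>.symm
    have h5 : ((Q : Subgroup H) ⊔ Z).index ∣ (Q : Subgroup H).index := index_dvd_of_le le_sup_left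
    have h6 : ((Q : Subgroup H) ⊔ Z).index ∣ Z.index := index_dvd_of_le le_sup_right
    obtain ⟨m, hm⟩ := IsPGroup.iff_card.1 hq'
    rw [← index_eq_card] at hm
    rw [hm] at h6
    have h7 : Nat.gcd (Q : Subgroup H).index (l ^ m) = 1 := Nat.Coprime.pow_right m h4
    have h8 := Nat.dvd_gcd h5 h6
    rw [h7, Nat.dvd_one] at h8
    exact index_eq_one.1 h8
  rw [← normalizer_eq_top_iff, eq_top_iff, ← hsup]
  refine sup_le le_normalizer ?_
  intro z hz
  rw [mem_normalizer_iff]
  intro x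
  rw [hZ z hz x, mul_inv_cancel_right]

/-- an element of `l`-power order lies in a normal Sylow subgroup -/
theorem mem_sylow_of_pow {H : Type*} [Group H] [Finite H] {l : ℕ} [hl : Fact l.Prime] (Q : Sylow l H)
    (hQ : (Q : Subgroup H).Normal) {x : H} {n : ℕ} (hx : x ^ l ^ n = 1) : x ∈ (Q : Subgroup H) := by
  have h1 : IsPGroup l (zpowers x) := by
    rintro ⟨y, hy⟩
    obtain ⟨k, rfl⟩ := mem_zpowers_iff.1 hy
    refine ⟨n, Subtype.ext ?_⟩
    change (x ^ k) ^ l ^ n = 1
    rw [← zpow_natCast, ← _root_.zpow_mul, mul_comm, _root_.zpow_mul, zpow_natCast, hx, _root_.one_zpow]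
  obtain ⟨R, hR⟩ := h1.exists_le_sylow
  have := Sylow.unique_of_normal Q hQ
  have h2 : R = Q := Subsingleton.elim _ _
  rw [← h2]
  exact hR (mem_zpowers x)

/-- an element of the normaliser outside, with square inside, gives an even index -/
theorem two_dvd_index {G : Type*} [Group G] [Finite G] {X : Subgroup G} {w : G} (h1 : ∀ x ∈ X, w * x * w⁻¹ ∈ X)
    (h2 : w * w ∈ X) (h3 : w ∉ X) : 2 ∣ X.index := by
  have h4 : w ∈ normalizer (X : Set G) := by
    rw [mem_normalizer_iff]
    intro x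
    refine ⟨h1 x, fun hx => ?_⟩
    have h5 := h1 _ hx
    have h6 := mul_mem (mul_mem (inv_mem h2) h5) h2
    have e : (w * w)⁻¹ * (w * (w * x * w⁻¹) * w⁻¹) * (w * w) = x := by group
    rwa [e] at h6
  have h5 : 2 ∣ X.relIndex (normalizer (X : Set G)) := by
    rw [relIndex, index_eq_card]
    have h6 : orderOf (QuotientGroup.mk' (X.subgroupOf (normalizer (X : Set G))) ⟨w, h4⟩) = 2 := by
      refine orderOf_eq_prime ?_ ?_
      · rw [← map_pow]
        refine (QuotientGroup.eq_one_iff _).2 ?_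
        rw [mem_subgroupOf]
        change w ^ 2 ∈ X
        rw [pow_two]; exact h2
      · intro h7
        have h8 := (QuotientGroup.eq_one_iff _).1 h7
        rw [mem_subgroupOf] at h8
        exact h3 h8
    rw [← h6]
    exact orderOf_dvd_natCard _
  rw [← relIndex_mul_index (le_normalizer (H := X))]
  exact Dvd.dvd.mul_right h5 _

end grp

section rank

variable {ι : Type} [Fintype ι] [DecidableEq ι] {E : Type} [CommRing E] [StarRing E]

theorem isP_orth {e f : Matrix ι ι E} (he : IsP e) (hf : IsP f) (hef : e * f = 0) : f * e = 0 := by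
  have := congrArg star hef
  rwa [star_mul, he.sym, hf.sym, star_zero] at this

theorem isP_add {e f : Matrix ι ι E} (he : IsP e) (hf : IsP f) (hef : e * f = 0) : IsP (e + f) := by
  have hfe := isP_orth he hf hef
  refine ⟨?_, by rw [star_add, he.sym, hf.sym]⟩
  rw [add_mul, mul_add, mul_add, he.idem, hf.idem, hef, hfe, add_zero, zero_add]

theorem isP_compl {e : Matrix ι ι E} (he : IsP e) : IsP (1 - e) := by
  refine ⟨?_, by rw [star_sub, star_one, he.sym]⟩
  rw [sub_mul, mul_sub, mul_sub, one_mul, one_mul, mul_one, he.idem]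
  abel

theorem isP_mul {e f : Matrix ι ι E} (he : IsP e) (hf : IsP f) (hc : e * f = f * e) : IsP (e * f) := by
  refine ⟨?_, by rw [star_mul, he.sym, hf.sym, hc]⟩
  calc e * f * (e * f) = e * (f * e) * f := by simp only [mul_assoc]
    _ = e * e * (f * f) := by rw [← hc]; simp only [mul_assoc]
    _ = e * f := by rw [he.idem, hf.idem]

/-- the three pieces `e, f, 1 - e - f` -/
theorem fam3 {e f : Matrix ι ι E} (he : IsP e) (hf : IsP f) (hef : e * f = 0) :
    (∀ i : Fin 3, IsP ((![e, f, 1 - e - f] : Fin 3 → Matrix ι ι E) i)) ∧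
    (∀ i j : Fin 3, i ≠ j → (![e, f, 1 - e - f] : Fin 3 → Matrix ι ι E) i * (![e, f, 1 - e - f] : Fin 3 → Matrix ι ι E) j = 0) ∧
    ∑ i : Fin 3, (![e, f, 1 - e - f] : Fin 3 → Matrix ι ι E) i = 1 := by
  have hfe := isP_orth he hf hef
  have hg : IsP (1 - e - f) := by
    have := isP_compl (isP_add he hf hef)
    rwa [← sub_sub] at this
  refine ⟨?_, ?_, ?_⟩
  · intro i
    fin_cases i
    · exact he
    · exact hf
    · exact hg
  · intro i j hij
    fin_cases i <;> fin_cases j <;> first | exact absurd rfl hij | skip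
    · exact hef
    · change e * (1 - e - f) = 0
      rw [mul_sub, mul_sub, mul_one, he.idem, hef]; abel
    · exact hfe
    · change f * (1 - e - f) = 0
      rw [mul_sub, mul_sub, mul_one, hf.idem, hfe]; abel
    · change (1 - e - f) * e = 0
      rw [sub_mul, sub_mul, one_mul, he.idem, hfe]; abel
    · change (1 - e - f) * f = 0
      rw [sub_mul, sub_mul, one_mul, hf.idem, hef]; abel
  · rw [Fin.sum_univ_three]
    change e + f + (1 - e - f) = 1
    abel

/-- ranks are additive -/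
theorem rk_add (h : Gd E) {e f : Matrix ι ι E} (he : IsP e) (hf : IsP f) (hef : e * f = 0) :
    rk (e + f) = rk e + rk f := by
  obtain ⟨h1, h2, h3⟩ := fam3 he hf hef
  obtain ⟨u, c, hc⟩ := H248.CA.onSt h ι (Fin 3) _ h1 h2 h3
  have hc0 : e = star (H308.CA.mt u) * dg (fun x => c x = 0) * H308.CA.mt u := hc 0
  have hc1 : f = star (H308.CA.mt u) * dg (fun x => c x = 1) * H308.CA.mt u := hc 1
  have hd : (dg (fun x => c x = 0 ∨ c x = 1) : Matrix ι ι E) = dg (fun x => c x = 0) + dg (fun x => c x = 1) := by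
    rw [dg, dg, dg, diagonal_add]
    congr 1
    funext x
    by_cases h0 : c x = 0
    · have h1 : ¬ c x = 1 := by rw [h0]; decide
      simp [h0]
    · by_cases h1 : c x = 1
      · simp [h1]
      · simp [h0, h1]
  have hs : e + f = star (H308.CA.mt u) * dg (fun x => c x = 0 ∨ c x = 1) * H308.CA.mt u := by
    rw [hd, mul_add, add_mul, ← hc0, ← hc1]
  rw [hs, H248.CA.rk_conj h]
  conv_rhs => rw [hc0, hc1]
  rw [H248.CA.rk_conj h, H248.CA.rk_conj h, Fintype.card_subtype_or_disjoint]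
  rw [Pi.disjoint_iff]
  intro x
  rw [Prop.disjoint_iff]
  rintro ⟨h4, h5⟩
  rw [h4] at h5
  exact absurd h5 (by decide)

theorem rk_one (h : Gd E) : rk (1 : Matrix ι ι E) = Fintype.card ι := by
  have h1 : (dg (fun _ => True) : Matrix ι ι E) = 1 := by
    rw [dg, ← diagonal_one]
    congr 1
  have h2 := H248.CA.rk_conj h (1 : SU ι E) (fun _ => True)
  rw [h1, mul_one, star_mt_mul] at h2
  rw [h2, Fintype.card_subtype_true]

theorem rk_zero (h : Gd E) : rk (0 : Matrix ι ι E) = 0 := by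
  have h1 := rk_add h (e := (0 : Matrix ι ι E)) (f := 0) ⟨mul_zero _, star_zero _⟩ ⟨mul_zero _, star_zero _⟩ (mul_zero _)
  rw [add_zero] at h1
  omega

/-- `1 - 2 e` has determinant `(-1) ^ rk e` -/
theorem det_refl (h : Gd E) {e : Matrix ι ι E} (he : IsP e) : (1 - e - e).det = (-1) ^ rk e := by
  obtain ⟨h1, h2, h3⟩ := fam3 (e := e) (f := 1 - e) he (isP_compl he) (by rw [mul_sub, mul_one, he.idem, sub_self])
  obtain ⟨u, c, hc⟩ := H248.CA.onSt h ι (Fin 3) _ h1 h2 h3
  have hc0 : e = star (H308.CA.mt u) * dg (fun x => c x = 0) * H308.CA.mt u := hc 0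
  have hd : 1 - e - e = star (H308.CA.mt u) * diagonal (fun x => if c x = 0 then (-1 : E) else 1) * H308.CA.mt u := by
    have h4 : diagonal (fun x => if c x = 0 then (-1 : E) else 1) = 1 - dg (fun x => c x = 0) - dg (fun x => c x = 0) := by
      rw [dg, ← diagonal_one, diagonal_sub, diagonal_sub]
      congr 1
      funext x
      by_cases h0 : c x = 0
      · simp [h0]
      · simp [h0]
    rw [h4, mul_sub, mul_sub, sub_mul, sub_mul, ← hc0, mul_one, star_mt_mul]
  rw [hd, det_mul, det_mul, mt_det, mul_one, star_eq_conjTranspose, det_conjTranspose, mt_det, star_one, one_mul,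
    det_diagonal, Finset.prod_ite, Finset.prod_const, Finset.prod_const_one, mul_one]
  conv_rhs => rw [hc0, H248.CA.rk_conj h]
  rw [Fintype.card_subtype]

end rank

section syl

variable {Γ : Type u} [Group Γ] [Finite Γ] {ι : Type} [Fintype ι] [DecidableEq ι] {E : Type} [CommRing E] [StarRing E]

/-- Sylow subgroups of the image lift to `SU` -/
theorem syl_lift (h : Gd E) (T : TA Γ ι E) (hD : DetSt E) {l : ℕ} [hl : Fact l.Prime] {P : Subgroup Γ}
    (hP : P ≤ T.j.range) (hp : IsPGroup l P) (hi : ¬ l ∣ P.relIndex T.j.range) :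
    ∃ S : Subgroup (SU ι E), IsPGroup l S ∧ ¬ l ∣ S.index ∧ S.map T.j ≤ P ∧
      ∀ g : Γ, g ∈ normalizer (P : Set Γ) → ∀ s ∈ S, T.act hD g s ∈ S := by
  have hfE := h.finite
  have hfin : Finite (SU ι E) := inferInstance
  set H : Subgroup (SU ι E) := P.comap T.j with hH
  have hHi : ¬ l ∣ H.index := by rw [hH, index_comap]; exact hi
  obtain ⟨Q⟩ : Nonempty (Sylow l H) := inferInstance
  have hQn : (Q : Subgroup H).Normal := by
    refine sylow_normal_of_central (T.j.ker.subgroupOf H) ?_ ?_ Q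
    · intro z hz x
      have h1 : (z : SU ι E) ∈ scal ι E := by
        rw [mem_scal, ← T.j_mem_Z, MonoidHom.mem_ker.1 (mem_subgroupOf.1 hz)]
        exact one_mem _
      exact Subtype.ext (scal_comm h1)
    · intro x
      obtain ⟨n, hn⟩ := hp ⟨T.j x, x.2⟩
      refine ⟨n, ?_⟩
      rw [mem_subgroupOf, MonoidHom.mem_ker, coe_pow, map_pow]
      exact congrArg Subtype.val hn
  refine ⟨(Q : Subgroup H).map H.subtype, Q.2.map _, ?_, ?_, ?_⟩
  · have hle : (Q : Subgroup H).map H.subtype ≤ H := map_subtype_le _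
    rw [← relIndex_mul_index hle]
    refine Nat.Prime.not_dvd_mul hl.out ?_ hHi
    rw [relIndex, subgroupOf, comap_map_eq_self_of_injective H.subtype_injective]
    exact Q.not_dvd_index
  · rintro _ ⟨_, ⟨x, -, rfl⟩, rfl⟩
    exact x.2
  · rintro g hg _ ⟨x, hx, rfl⟩
    have h1 : T.act hD g x ∈ H := by
      change T.j (T.act hD g x) ∈ P
      rw [← T.conj_eq hD]
      exact (mem_normalizer_iff.1 hg _).1 x.2
    obtain ⟨n, hn⟩ := Q.2 ⟨x, hx⟩
    have hn' : (x : SU ι E) ^ l ^ n = 1 := congrArg (fun y : (Q : Subgroup H) => ((y : H) : SU ι E)) hn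
    refine ⟨⟨T.act hD g x, h1⟩, mem_sylow_of_pow Q hQn (n := n) (Subtype.ext ?_), rfl⟩
    change (T.act hD g x) ^ l ^ n = 1
    apply mt_injective
    rw [map_pow, T.mt_act, ← map_pow, ← map_pow, hn', map_one, map_one]

/-- **(b)** -/
theorem rk_ne_of_sylow (h : Gd E) {S : Subgroup (SU ι E)} (hS : ¬ 2 ∣ S.index) {e f : Matrix ι ι E} (he : IsP e)
    (hf : IsP f) (hef : e * f = 0) (hse : ∀ s ∈ S, H308.CA.mt s * e = e * H308.CA.mt s) (hsf : ∀ s ∈ S, H308.CA.mt s * f = f * H308.CA.mt s)
    (hr : rk e = rk f) : e = f := by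
  have hfE := h.finite
  have hfin : Finite (SU ι E) := inferInstance
  by_contra hne
  have hfe := isP_orth he hf hef
  obtain ⟨h1, h2, h3⟩ := fam3 he hf hef
  obtain ⟨k1, k2, k3⟩ := fam3 hf he hfe
  obtain ⟨g, hg⟩ := fam_st h ι (Fin 3) _ _ h1 h2 h3 k1 k2 k3 (by
    intro i
    fin_cases i
    · exact hr
    · exact hr.symm
    · change rk (1 - e - f) = rk (1 - f - e)
      rw [sub_right_comm])
  have hge : H308.CA.mt g * e * star (H308.CA.mt g) = f := hg 0
  have hgf : H308.CA.mt g * f * star (H308.CA.mt g) = e := hg 1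
  -- `g e = f g`
  have a1 : H308.CA.mt g * e = f * H308.CA.mt g := by
    rw [← hge, mul_assoc, mul_assoc, star_mt_mul, mul_one]
  have a2 : H308.CA.mt g * f = e * H308.CA.mt g := by
    rw [← hgf, mul_assoc, mul_assoc, star_mt_mul, mul_one]
  have a3 : star (H308.CA.mt g) * f = e * star (H308.CA.mt g) := by
    rw [← hge, ← mul_assoc, ← mul_assoc, star_mt_mul, one_mul]
  have a4 : star (H308.CA.mt g) * e = f * star (H308.CA.mt g) := by
    rw [← hgf, ← mul_assoc, ← mul_assoc, star_mt_mul, one_mul]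
  let X : Subgroup (SU ι E) :=
    { carrier := {u | H308.CA.mt u * e = e * H308.CA.mt u ∧ H308.CA.mt u * f = f * H308.CA.mt u}
      one_mem' := by
        show mt 1 * e = e * mt 1 ∧ mt 1 * f = f * mt 1
        rw [map_one, one_mul, mul_one, one_mul, mul_one]
        exact ⟨rfl, rfl⟩
      mul_mem' := by
        rintro a b ⟨ha, ha'⟩ ⟨hb, hb'⟩
        show H308.CA.mt (a * b) * e = e * H308.CA.mt (a * b) ∧ H308.CA.mt (a * b) * f = f * H308.CA.mt (a * b)
        rw [map_mul, mul_assoc, hb, ← mul_assoc, ha, mul_assoc, mul_assoc (H308.CA.mt a), hb', ← mul_assoc (H308.CA.mt a), ha', mul_assoc]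
        exact ⟨rfl, rfl⟩
      inv_mem' := by
        rintro a ⟨ha, ha'⟩
        show H308.CA.mt a⁻¹ * e = e * H308.CA.mt a⁻¹ ∧ H308.CA.mt a⁻¹ * f = f * H308.CA.mt a⁻¹
        rw [mt_inv]
        constructor
        · have := congrArg star ha
          rw [star_mul, star_mul, he.sym] at this
          exact this.symm
        · have := congrArg star ha'
          rw [star_mul, star_mul, hf.sym] at this
          exact this.symm }
  have hX : ∀ {u : SU ι E}, u ∈ X ↔ H308.CA.mt u * e = e * H308.CA.mt u ∧ H308.CA.mt u * f = f * H308.CA.mt u := Iff.rfl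
  have hSX : S ≤ X := fun s hs => ⟨hse s hs, hsf s hs⟩
  apply hS
  refine (two_dvd_index (X := X) (w := g) ?_ ?_ ?_).trans (index_dvd_of_le hSX)
  · intro x hx
    rw [hX] at hx ⊢
    rw [map_mul, map_mul, mt_inv]
    constructor
    · rw [mul_assoc, a4, ← mul_assoc, mul_assoc (H308.CA.mt g), hx.2, ← mul_assoc, a2]
      simp only [mul_assoc]
    · rw [mul_assoc, a3, ← mul_assoc, mul_assoc (H308.CA.mt g), hx.1, ← mul_assoc, a1]
      simp only [mul_assoc]
  · rw [hX, map_mul]
    constructor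
    · rw [mul_assoc, a1, ← mul_assoc, a2, mul_assoc]
    · rw [mul_assoc, a2, ← mul_assoc, a1, mul_assoc]
  · intro hx
    apply hne
    have h5 : e * H308.CA.mt g = f * H308.CA.mt g := by rw [← hx.1, a1]
    have h6 := congrArg (fun x => x * star (H308.CA.mt g)) h5
    simpa only [mul_assoc, mt_mul_star, mul_one] using h6

/-- the rank is invariant under ring automorphisms -/
theorem rk_map (h : Gd E) (h0 : Nonempty ι) (θ : RingAut (Matrix ι ι E)) (e : Matrix ι ι E) : rk (θ e) = rk e := by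
  have hfE := h.finite
  have hn : Fintype.card ι ≠ 0 := Fintype.card_ne_zero
  have key : ∀ f : Matrix ι ι E, Nat.card {a : Matrix ι ι E // f * a = a} =
      Nat.card {v : ι → E // f *ᵥ v = v} ^ Fintype.card ι := by
    intro f
    rw [← Nat.card_eq_fintype_card (α := ι), ← Nat.card_fun]
    refine Nat.card_congr
      { toFun := fun a j => ⟨fun i => a.1 i j, ?_⟩
        invFun := fun c => ⟨Matrix.of fun i j => (c j).1 i, ?_⟩
        left_inv := fun a => rfl
        right_inv := fun c => rfl }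
    · funext i
      exact congrFun (congrFun a.2 i) j
    · ext i j
      exact congrFun (c j).2 i
  have h1 : Nat.card {a : Matrix ι ι E // θ e * a = a} = Nat.card {a : Matrix ι ι E // e * a = a} := by
    refine Nat.card_congr
      { toFun := fun a => ⟨θ.symm a.1, ?_⟩
        invFun := fun a => ⟨θ a.1, by rw [← map_mul, a.2]⟩
        left_inv := fun a => Subtype.ext (θ.apply_symm_apply a.1)
        right_inv := fun a => Subtype.ext (θ.symm_apply_apply a.1) }
    have h2 := congrArg θ.symm a.2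
    rwa [map_mul, θ.symm_apply_apply] at h2
  rw [key, key] at h1
  have h2 := Nat.pow_left_injective hn h1
  rw [rk, rk, h2]

/-- **(c)** -/
theorem exists_fix_of_sylow2 (h : Gd E) (T : TA Γ ι E) (hD : DetSt E) (h2 : IsUnit (2 : E)) (hTwo : TwoSt E)
    (hn : ¬ ∃ a : ℕ, Fintype.card ι = 2 ^ a) (h0 : Nonempty ι) {P : Subgroup Γ} (hP : P ≤ T.j.range)
    (hp : IsPGroup 2 P) (hi : ¬ 2 ∣ P.relIndex T.j.range) :
    ∃ e : Matrix ι ι E, IsP e ∧ e ≠ 0 ∧ e ≠ 1 ∧ ∀ g ∈ normalizer (P : Set Γ), T.ρ g e = e := by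
  have hfE := h.finite
  have hnt := h.nontrivial
  have hfin : Finite (SU ι E) := inferInstance
  obtain ⟨S, hS1, hS2, hS3, hS4⟩ := syl_lift h T hD hP hp hi
  obtain ⟨m, e, he, heo, hes, heS, her⟩ := hTwo h2 ι S hS1
  have hne1 : ∀ i, e i ≠ 1 := by
    intro i h1
    obtain ⟨a, ha⟩ := her i
    rw [h1, rk_one h] at ha
    exact hn ⟨a, ha⟩
  have hne0 : ∀ i, e i ≠ 0 := by
    intro i h1
    obtain ⟨a, ha⟩ := her i
    rw [h1, rk_zero h] at ha
    exact (pow_pos (by norm_num : 0 < 2) a).ne ha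
  obtain ⟨i, a, ha⟩ : ∃ i, ∃ a : ℕ, rk (e i) = 2 ^ (a + 1) := by
    by_contra hcon
    push Not at hcon
    have h1 : ∀ i, rk (e i) = 1 := by
      intro i
      obtain ⟨a, ha⟩ := her i
      rcases a with _ | a
      · rwa [pow_zero] at ha
      · exact absurd ha (hcon i a)
    rcases m with _ | _ | m
    · rw [Finset.univ_eq_empty, Finset.sum_empty] at hes
      exact zero_ne_one hes
    · rw [Fin.sum_univ_one] at hes
      exact hne1 0 hes
    · have h01 : (0 : Fin (m + 2)) ≠ 1 := by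
        intro h3
        have := congrArg Fin.val h3
        simp at this
      have h3 := rk_ne_of_sylow h hS2 (he 0) (he 1) (heo 0 1 h01) (heS 0) (heS 1) (by rw [h1, h1])
      apply hne0 0
      rw [← (he 0).idem]
      conv_lhs => rw [h3]
      have h4 := heo 0 1 h01
      rw [h3] at h4
      exact h4
  obtain ⟨f, hf⟩ : ∃ f, f = e i := ⟨_, rfl⟩
  have hfP : IsP f := hf ▸ he i
  have hfS : ∀ s ∈ S, H308.CA.mt s * f = f * H308.CA.mt s := hf ▸ heS i
  have hfr : rk f = 2 ^ (a + 1) := hf ▸ ha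
  have hsq : (1 - f - f) * (1 - f - f) = 1 := by
    have e1 : (1 - f - f) * (1 - f - f) = 1 - f - f - f - f + (f * f + f * f + f * f + f * f) := by noncomm_ring
    rw [e1, hfP.idem]
    abel
  have hstar : star (1 - f - f) = 1 - f - f := by
    rw [star_sub, star_sub, star_one, hfP.sym]
  have hdet : (1 - f - f).det = 1 := by
    rw [det_refl h hfP, hfr, pow_succ, pow_mul']
    norm_num
  obtain ⟨u, hu⟩ : ∃ u : SU ι E, H308.CA.mt u = 1 - f - f := ⟨mkSU (1 - f - f) (by rw [hstar, hsq]) hdet, rfl⟩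
  have hu2 : u * u = 1 := by
    apply mt_injective
    rw [map_mul, hu, hsq, map_one]
  have huc : ∀ s ∈ S, u * s = s * u := by
    intro s hs
    apply mt_injective
    rw [map_mul, map_mul, hu, sub_mul, sub_mul, mul_sub, mul_sub, one_mul, mul_one, hfS s hs]
  have huS : u ∈ S := by
    have h3 : IsPGroup 2 (zpowers u) := by
      rintro ⟨y, hy⟩
      obtain ⟨k, rfl⟩ := mem_zpowers_iff.1 hy
      refine ⟨1, Subtype.ext ?_⟩
      change (u ^ k) ^ 2 ^ 1 = 1
      rw [pow_one, pow_two, ← (Commute.refl u).mul_zpow, hu2, _root_.one_zpow]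
    have h4 : zpowers u ≤ normalizer (S : Set (SU ι E)) := by
      rw [zpowers_le]
      refine centralizer_le_normalizer _ (mem_centralizer_iff.2 fun s hs => (huc s hs).symm)
    have h5 : IsPGroup 2 (S ⊔ zpowers u : Subgroup (SU ι E)) := hS1.to_sup_of_normal_left' h3 h4
    have h6 := (hS1.toSylow hS2).is_maximal' h5 le_sup_left
    have h7 : u ∈ S ⊔ zpowers u := (le_sup_right : zpowers u ≤ _) (mem_zpowers u)
    rw [h6] at h7
    exact h7
  refine ⟨f, hfP, hf ▸ hne0 i, hf ▸ hne1 i, fun g hg => ?_⟩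
  obtain ⟨f', hf'⟩ : ∃ f', f' = T.ρ g f := ⟨_, rfl⟩
  rw [← hf']
  have hf'P : IsP f' := hf' ▸ T.ρ_isP g hfP
  have hf'S : ∀ s ∈ S, H308.CA.mt s * f' = f' * H308.CA.mt s := by
    intro s hs
    have h3 := hS4 g⁻¹ (inv_mem hg) s hs
    have h4 := congrArg (T.ρ g) (hfS _ h3)
    rwa [map_mul, map_mul, T.mt_act, T.ρ_inv', ← hf'] at h4
  have hcomm : f * f' = f' * f := by
    have h3 := hf'S u huS
    rw [hu, sub_mul, sub_mul, mul_sub, mul_sub, one_mul, mul_one] at h3
    have h4 : (2 : E) • (f * f') = (2 : E) • (f' * f) := by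
      rw [two_smul, two_smul]
      have h5 : f' - (f' - f * f' - f * f') = f' - (f' - f' * f - f' * f) := by rw [h3]
      have e1 : f' - (f' - f * f' - f * f') = f * f' + f * f' := by abel
      have e2 : f' - (f' - f' * f - f' * f) = f' * f + f' * f := by abel
      rwa [e1, e2] at h5
    exact h2.smul_left_cancel.1 h4
  have c1 : f * (1 - f') = (1 - f') * f := by rw [mul_sub, sub_mul, mul_one, one_mul, hcomm]
  have c2 : f' * (1 - f) = (1 - f) * f' := by rw [mul_sub, sub_mul, mul_one, one_mul, hcomm]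
  have p0 : IsP (f * f') := isP_mul hfP hf'P hcomm
  have p1 : IsP (f * (1 - f')) := isP_mul hfP (isP_compl hf'P) c1
  have p2 : IsP (f' * (1 - f)) := isP_mul hf'P (isP_compl hfP) c2
  have z1 : f' * (1 - f') = 0 := by rw [mul_sub, mul_one, hf'P.idem, sub_self]
  have z2 : f * (1 - f) = 0 := by rw [mul_sub, mul_one, hfP.idem, sub_self]
  have o1 : f * f' * (f * (1 - f')) = 0 := by
    rw [c1, mul_assoc, ← mul_assoc f', z1, zero_mul, mul_zero]
  have o2 : f * f' * (f' * (1 - f)) = 0 := by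
    rw [hcomm, c2, mul_assoc, ← mul_assoc f, z2, zero_mul, mul_zero]
  have o3 : f * (1 - f') * (f' * (1 - f)) = 0 := by
    have z3 : (1 - f') * f' = 0 := by rw [sub_mul, one_mul, hf'P.idem, sub_self]
    rw [mul_assoc, ← mul_assoc (1 - f'), z3, zero_mul, mul_zero]
  have r1 : rk f = rk (f * f') + rk (f * (1 - f')) := by
    rw [← rk_add h p0 p1 o1]
    congr 1
    rw [← mul_add, add_sub_cancel, mul_one]
  have r2 : rk f' = rk (f * f') + rk (f' * (1 - f)) := by
    rw [← rk_add h p0 p2 o2]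
    congr 1
    rw [hcomm, ← mul_add, add_sub_cancel, mul_one]
  have r3 : rk f' = rk f := by rw [hf', rk_map h h0]
  have hsub : ∀ s ∈ S, ∀ x : Matrix ι ι E, H308.CA.mt s * x = x * H308.CA.mt s →
      H308.CA.mt s * (1 - x) = (1 - x) * H308.CA.mt s := by
    intro s _ x hx
    rw [mul_sub, sub_mul, mul_one, one_mul, hx]
  have hmul : ∀ s ∈ S, ∀ x y : Matrix ι ι E, H308.CA.mt s * x = x * H308.CA.mt s → H308.CA.mt s * y = y * H308.CA.mt s →
      H308.CA.mt s * (x * y) = x * y * H308.CA.mt s := by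
    intro s _ x y hx hy
    rw [← mul_assoc, hx, mul_assoc, hy, mul_assoc]
  have h8 : f * (1 - f') = f' * (1 - f) := by
    refine rk_ne_of_sylow h hS2 p1 p2 o3 (fun s hs => hmul s hs _ _ (hfS s hs) (hsub s hs _ (hf'S s hs)))
      (fun s hs => hmul s hs _ _ (hf'S s hs) (hsub s hs _ (hfS s hs))) (by omega)
  have h9 : f * (1 - f') = 0 := by
    rw [← p1.idem]
    conv_lhs => rw [h8]
    rw [← h8] at o3 ⊢
    exact o3
  have h10 : f' * (1 - f) = 0 := by rw [← h8, h9]
  rw [mul_sub, mul_one, sub_eq_zero] at h9 h10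
  rw [h10, ← hcomm, ← h9]

end syl

end Cfsg.Agent.H911.CA
end

-- part: H689/CA/Bork
section
prune_inst 0x10000000000000
set_option linter.all false
open scoped Cfsg.Agent.FastGrp

/-!
# S3852, type A block, [CA16] (BORK) (helper689)

A Carter subgroup `K` of `Γ` normalising a Sylow `p`-subgroup of `SU` (`p` the characteristic) contains an involution of
`SU` modulo scalars.
-/

set_option autoImplicit false

namespace Cfsg.Agent.H689.CA

open Cfsg.Agent.H308.CA Subgroup
open Cfsg.Agent.Solvable.Carter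
open scoped Pointwise

universe u

section

variable {E : Type} [CommRing E] [StarRing E]

theorem eq_one_of_pow' (h : Gd E) {p : ℕ} (hp : p.Prime) [CharP E p] {c : E} : ∀ {n : ℕ}, c ^ p ^ n = 1 → c = 1 := by
  intro n
  induction n with
  | zero => intro hc; rwa [pow_zero, pow_one] at hc
  | succ n ih =>
    intro hc
    rw [pow_succ, pow_mul] at hc
    exact ih (eq_one_of_pow h hp hc)

/-- scalar `p`-elements are trivial -/
theorem scal_eq_one (h : Gd E) {ι : Type} [Fintype ι] [DecidableEq ι] {p : ℕ} (hp : p.Prime) [CharP E p]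
    {z : SU ι E} (hz : Sc (mt z) 1) {n : ℕ} (hn : z ^ p ^ n = 1) : z = 1 := by
  obtain ⟨c, -, hc⟩ := hz
  apply mt_injective
  rcases isEmpty_or_nonempty ι with hι | hι
  · exact Matrix.ext fun i => hι.elim i
  have h1 := congrArg H308.CA.mt hn
  rw [map_pow, hc, map_one, smul_pow, one_pow] at h1
  obtain ⟨i⟩ := hι
  have h2 := congrFun (congrFun h1 i) i
  rw [Matrix.smul_apply, Matrix.one_apply_eq, smul_eq_mul, mul_one] at h2
  rw [hc, eq_one_of_pow' h hp h2, one_smul, map_one]

end

variable {Γ : Type u} [Group Γ] {ι : Type} [Fintype ι] [DecidableEq ι] {E : Type} [CommRing E] [StarRing E]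

/-- the Sylow `p`-subgroup of `SU` over `P` -/
theorem exists_lift (h : Gd E) (T : TA Γ ι E) (hD : DetSt E) {p : ℕ} [hp : Fact p.Prime] [CharP E p]
    {P : Subgroup Γ} (hPp : IsPGroup p P) (hi : ¬ p ∣ P.relIndex T.j.range) :
    ∃ S : Subgroup (SU ι E), IsPGroup p S ∧ ¬ p ∣ S.index ∧ ∀ g ∈ normalizer (P : Set Γ), ∀ s ∈ S,
      T.act hD g s ∈ S := by
  have hfE := h.finite
  set P0 : Subgroup (SU ι E) := P.comap T.j with hP0
  obtain ⟨Q⟩ : Nonempty (Sylow p P0) := inferInstance
  -- the kernel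
  have hker : ∀ z : SU ι E, T.j z = 1 → Sc (mt z) 1 := fun z hz => T.j_mem_Z.1 (by rw [hz]; exact one_mem _)
  let N : Subgroup P0 := (T.j.comp P0.subtype).ker
  have hN : IsPGroup p (P0 ⧸ N) := by
    intro x
    obtain ⟨x, rfl⟩ := QuotientGroup.mk_surjective x
    obtain ⟨m, hm⟩ := hPp ⟨T.j x, x.2⟩
    refine ⟨m, ?_⟩
    rw [← QuotientGroup.mk_pow, QuotientGroup.eq_one_iff]
    have h3 := congrArg Subtype.val hm
    change T.j ((x ^ p ^ m : P0) : SU ι E) = 1
    rw [Subgroup.coe_pow, map_pow]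
    exact h3
  have hsup : (Q : Subgroup P0) ⊔ N = ⊤ := by
    have h4 : (Q : Subgroup P0).index.Coprime p := (Nat.Prime.coprime_iff_not_dvd hp.out).2 Q.not_dvd_index |>.symm
    have h5 : ((Q : Subgroup P0) ⊔ N).index ∣ (Q : Subgroup P0).index := index_dvd_of_le le_sup_left
    have h6 : ((Q : Subgroup P0) ⊔ N).index ∣ N.index := index_dvd_of_le le_sup_right
    obtain ⟨m, hm⟩ := IsPGroup.iff_card.1 hN
    rw [← index_eq_card] at hm
    rw [hm] at h6
    have h7 : Nat.gcd (Q : Subgroup P0).index (p ^ m) = 1 := Nat.Coprime.pow_right m h4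
    have h8 := Nat.dvd_gcd h5 h6
    rw [h7, Nat.dvd_one] at h8
    exact index_eq_one.1 h8
  -- all `p`-elements are in `Q`
  have hall : ∀ x : P0, (∃ n : ℕ, x ^ p ^ n = 1) → x ∈ (Q : Subgroup P0) := by
    rintro x ⟨n, hn⟩
    have h1 : x ∈ ((Q : Subgroup P0) ⊔ N : Subgroup P0) := by rw [hsup]; exact mem_top x
    rw [← SetLike.mem_coe, Subgroup.mul_normal] at h1
    obtain ⟨q, hq, z, hz, rfl⟩ := h1
    have hz' : Sc (mt (z : SU ι E)) 1 := hker _ hz
    have hcomm : Commute q z := by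
      refine Subtype.ext ?_
      exact (scal_comm (v := (q : SU ι E)) hz').symm
    obtain ⟨m, hm⟩ := Q.isPGroup' ⟨q, hq⟩
    have hm' : q ^ p ^ m = 1 := congrArg Subtype.val hm
    have h2 : z ^ p ^ (n + m) = 1 := by
      have h3 : (q * z) ^ p ^ (n + m) = 1 := by rw [pow_add, pow_mul, hn, one_pow]
      have h4 : q ^ p ^ (n + m) = 1 := by rw [add_comm, pow_add, pow_mul, hm', one_pow]
      rw [hcomm.mul_pow, h4, one_mul] at h3
      exact h3
    have h3 : (z : SU ι E) = 1 := scal_eq_one h hp.out hz' (n := n + m) (by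
      rw [← Subgroup.coe_pow, h2, Subgroup.coe_one])
    have h4 : z = 1 := Subtype.ext h3
    change q * z ∈ (Q : Subgroup P0)
    rw [h4, mul_one]
    exact hq
  refine ⟨(Q : Subgroup P0).map P0.subtype, Q.2.map _, ?_, ?_⟩
  · have hle : (Q : Subgroup P0).map P0.subtype ≤ P0 := map_subtype_le _
    rw [← relIndex_mul_index hle]
    refine Nat.Prime.not_dvd_mul hp.out ?_ ?_
    · rw [relIndex, subgroupOf, comap_map_eq_self_of_injective P0.subtype_injective]
      exact Q.not_dvd_index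
    · rw [hP0, index_comap]
      exact hi
  · rintro g hg _ ⟨s, hs, rfl⟩
    have hmem : T.act hD g s ∈ P0 := by
      change T.j (T.act hD g s) ∈ P
      rw [← T.conj_eq hD]
      exact (mem_normalizer_iff.1 hg _).1 s.2
    obtain ⟨m, hm⟩ := Q.isPGroup' ⟨s, hs⟩
    have hm' : s ^ p ^ m = 1 := congrArg Subtype.val hm
    refine ⟨⟨T.act hD g s, hmem⟩, hall _ ⟨m, ?_⟩, rfl⟩
    apply Subtype.ext
    apply mt_injective
    change mt ((T.act hD g s) ^ p ^ m) = mt 1
    rw [map_pow, T.mt_act, ← map_pow, ← map_pow, ← Subgroup.coe_pow, hm', Subgroup.coe_one, map_one, map_one]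

/-- **[CA16] (BORK)** -/
theorem exists_two_of_sylow_p [Finite Γ] (h : Gd E) (T : TA Γ ι E) (hD : DetSt E) (hBor : BorSt E) (hS : Sml Γ)
    {K : Subgroup Γ} (hK : IsCarter K) {p : ℕ} [Fact p.Prime] (hp2 : p ≠ 2) [CharP E p] (hn : 3 ≤ Fintype.card ι)
    {P : Subgroup Γ} (_hP : P ≤ T.j.range) (hp : IsPGroup p P) (hi : ¬ p ∣ P.relIndex T.j.range)
    (hKP : K ≤ normalizer (P : Set Γ)) : ∃ k ∈ K, k ∈ T.j.range ∧ k ∉ T.Z ∧ k ^ 2 ∈ T.Z := by
  obtain ⟨S, hSp, hSi, hSact⟩ := exists_lift h T hD hp hi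
  obtain ⟨Q, Y, hQY, hQp, hidx, hsc, hθ⟩ := hBor p Fact.out hp2 inferInstance ι hn S hSp hSi
  have hact : ∀ k ∈ K, (∀ q ∈ Q, T.act hD k q ∈ Q) ∧ ∀ y ∈ Y, T.act hD k y ∈ Y := by
    intro k hk
    obtain ⟨h1, h2⟩ := hθ (T.ρ k) (T.st k) (fun t ht => ⟨T.act hD k t, hSact k (hKP hk) t ht, rfl⟩)
    refine ⟨fun q hq => ?_, fun y hy => ?_⟩
    · obtain ⟨q', hq', e⟩ := h1 q hq
      have : T.act hD k q = q' := mt_injective (by rw [T.mt_act, e])
      rw [this]; exact hq'
    · obtain ⟨q', hq', e⟩ := h2 y hy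
      have : T.act hD k y = q' := mt_injective (by rw [T.mt_act, e])
      rw [this]; exact hq'
  -- the quotient of order two
  have hmul : ∀ a ∈ Y, ∀ b ∈ Y, (a * b ∈ Q ↔ (a ∈ Q ↔ b ∈ Q)) := by
    intro a ha b hb
    have h1 : (Q.subgroupOf Y).index = 2 := hidx
    have h2 := Subgroup.mul_mem_iff_of_index_two h1 (a := ⟨a, ha⟩) (b := ⟨b, hb⟩)
    exact h2
  obtain ⟨s, hsY, hsQ⟩ : ∃ s ∈ Y, s ∉ Q := by
    by_contra hcon
    push Not at hcon
    rw [relIndex_eq_one.2 hcon] at hidx
    omega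
  have hinvQ : ∀ a : SU ι E, a ∈ Q ↔ a⁻¹ ∈ Q := fun a => inv_mem_iff.symm
  -- `act k s ∉ Q`
  have hactQ : ∀ k ∈ K, T.act hD k s ∉ Q := by
    intro k hk h1
    apply hsQ
    have h2 := (hact k⁻¹ (inv_mem hk)).1 _ h1
    have h3 : T.act hD k⁻¹ (T.act hD k s) = s := mt_injective (by rw [T.mt_act, T.mt_act, T.ρ_inv])
    rwa [h3] at h2
  have hjact : ∀ (k : Γ) (a : SU ι E), k * T.j a * k⁻¹ = T.j (T.act hD k a) := fun k a => T.conj_eq hD k a
  have hnorm : T.j s ∈ normalizer ((Q.map T.j : Subgroup Γ) : Set Γ) := by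
    rw [mem_normalizer_iff]
    have key : ∀ t ∈ Y, ∀ x ∈ Q.map T.j, T.j t * x * (T.j t)⁻¹ ∈ Q.map T.j := by
      rintro t ht _ ⟨q, hq, rfl⟩
      refine ⟨t * q * t⁻¹, ?_, by rw [map_mul, map_mul, map_inv]⟩
      rw [SetLike.mem_coe, hmul _ (mul_mem ht (hQY hq)) _ (inv_mem ht), hmul _ ht _ (hQY hq), ← hinvQ]
      simp [show q ∈ Q from hq]
    intro x
    refine ⟨key s hsY x, fun hx => ?_⟩
    have h1 := key s⁻¹ (inv_mem hsY) _ hx
    rw [map_inv] at h1
    have e : (T.j s)⁻¹ * (T.j s * x * (T.j s)⁻¹) * (T.j s)⁻¹⁻¹ = x := by group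
    rwa [e] at h1
  have hc : ∀ k ∈ K, T.j s * k * (T.j s)⁻¹ * k⁻¹ ∈ Q.map T.j := by
    intro k hk
    refine ⟨s * (T.act hD k s)⁻¹, ?_, ?_⟩
    · rw [SetLike.mem_coe, hmul _ hsY _ (inv_mem ((hact k hk).2 s hsY)), ← hinvQ]
      simp [hsQ, hactQ k hk]
    · rw [map_mul, map_inv, ← hjact]
      group
  have hsup := w_of_sml hS hK hnorm hc
  -- `K` normalises `Q.map j`
  have hKn : K ≤ normalizer ((Q.map T.j : Subgroup Γ) : Set Γ) := by
    have key : ∀ k ∈ K, ∀ x ∈ Q.map T.j, k * x * k⁻¹ ∈ Q.map T.j := by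
      rintro k hk _ ⟨q, hq, rfl⟩
      exact ⟨T.act hD k q, (hact k hk).1 q hq, (hjact k q).symm⟩
    intro k hk
    rw [mem_normalizer_iff]
    intro x
    refine ⟨key k hk x, fun hx => ?_⟩
    have h1 := key k⁻¹ (inv_mem hk) _ hx
    have e : k⁻¹ * (k * x * k⁻¹) * k⁻¹⁻¹ = x := by group
    rwa [e] at h1
  have h1 : T.j s ∈ (K : Set Γ) * ((Q.map T.j : Subgroup Γ) : Set Γ) := by
    rw [← Subgroup.coe_mul_of_left_le_normalizer_right _ _ hKn]
    exact hsup
  obtain ⟨k, hk, _, ⟨q, hq, rfl⟩, hkq⟩ := h1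
  have hkq' : k * T.j q = T.j s := hkq
  have hk' : k = T.j (s * q⁻¹) := by
    rw [map_mul, map_inv, ← hkq']
    group
  -- `s' = s q⁻¹`
  have hsY' : s * q⁻¹ ∈ Y := mul_mem hsY (inv_mem (hQY hq))
  have hsQ' : s * q⁻¹ ∉ Q := by
    rw [hmul _ hsY _ (inv_mem (hQY hq)), ← hinvQ]
    simp [hsQ, show q ∈ Q from hq]
  obtain ⟨s', hs'⟩ : ∃ s', s' = s * q⁻¹ := ⟨_, rfl⟩
  rw [← hs'] at hk' hsY' hsQ'
  have hsq : s' * s' ∈ Q := (hmul _ hsY' _ hsY').2 Iff.rfl
  obtain ⟨m, hm⟩ := hQp ⟨s' * s', hsq⟩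
  have hm' : (s' * s') ^ p ^ m = 1 := congrArg Subtype.val hm
  have hodd : ∀ j : ℕ, Odd j → s' ^ j ∉ Q := by
    rintro j ⟨i, rfl⟩ h2
    rw [pow_succ, pow_mul, sq, hmul _ (pow_mem (mul_mem hsY' hsY') i) _ hsY'] at h2
    exact hsQ' (h2.1 (pow_mem hsq i))
  have hpodd : Odd (p ^ m) := ((Fact.out : p.Prime).odd_of_ne_two hp2).pow
  refine ⟨k ^ p ^ m, pow_mem hk _, ?_, ?_, ?_⟩
  · rw [hk', ← map_pow]; exact ⟨_, rfl⟩
  · rw [hk', ← map_pow, T.j_mem_Z]
    intro h2
    exact hodd _ hpodd (hsc _ (pow_mem hsY' _) h2)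
  · rw [hk', ← map_pow, ← map_pow, ← pow_mul, mul_comm, pow_mul, sq, hm', map_one]
    exact one_mem _

end Cfsg.Agent.H689.CA

private theorem dce_e557d68fbd5d : _root_.True := by
  try have : _root_.True := by simp only [_root_.Cfsg.Agent.H308.CA.TA.act.congr_simp]
  exact _root_.True.intro
end

-- part: H248/CA/Gl
section
prune_inst 0x5700040004012002000858211203846ce0005b0002b0401dd210f420686ff630d82af60eda01f075b2aaa2500310068134c00590010000000000600411d008080aa520c2341a104a6009f80b987180c00000000000000000000000000051004000000000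
set_option linter.all false
open scoped Cfsg.Agent.FastGrp

/-!
# (GL) extending an invariant Sylow 2-subgroup over a cyclic quotient (helper248, for S3852)

`sylow_two_ext` : `K` a Carter subgroup, `L ≤ Y` normalized by `K` and `Y`, `Y / L` cyclic, `T` a `K`-invariant Sylow
2-subgroup of `L`: there is a `K`-invariant Sylow 2-subgroup of `Y`.
-/

set_option autoImplicit false
set_option linter.unusedSectionVars false
set_option linter.unusedVariables false

namespace Cfsg.Agent.H248.CA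

open Subgroup Pointwise
open Cfsg.Agent.Solvable.Carter Cfsg.Agent.H18.Carter Cfsg.Agent.H381.Car Cfsg.Agent.H308.CA

universe u v

/-- a cyclic group has at most one involution -/
theorem inv_unique {C : Type v} [Group C] [IsCyclic C] [Finite C] {u v : C} (hu : u ^ 2 = 1) (hv : v ^ 2 = 1)
    (huv : u = 1 ↔ v = 1) : u = v := by
  classical
  have := Fintype.ofFinite C
  by_contra hne
  have hu1 : u ≠ 1 := fun h => hne (by rw [h, huv.1 h])
  have hv1 : v ≠ 1 := fun h => hu1 (huv.2 h)
  have h1 := IsCyclic.card_pow_eq_one_le (α := C) (n := 2) (by norm_num)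
  have h2 : ({1, u, v} : Finset C) ⊆ Finset.univ.filter fun a : C => a ^ 2 = 1 := by
    intro x hx
    simp only [Finset.mem_insert, Finset.mem_singleton] at hx
    rw [Finset.mem_filter]
    refine ⟨Finset.mem_univ _, ?_⟩
    rcases hx with rfl | rfl | rfl
    · exact one_pow 2
    · exact hu
    · exact hv
  have h3 := Finset.card_le_card h2
  rw [Finset.card_insert_of_notMem (by simp [hu1.symm, hv1.symm]), Finset.card_insert_of_notMem (by simpa using hne),
    Finset.card_singleton] at h3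
  omega

section chain

variable {G : Type u} [Group G] {C : Type v} [CommGroup C] {Y L : Subgroup G} (f : Y →* C)

/-- the subgroup of the elements whose order is `2 ^ i` times an odd number -/
def D (C : Type v) [CommGroup C] (i : ℕ) : Subgroup C where
  carrier := {c | ∃ m, Odd m ∧ c ^ (m * 2 ^ i) = 1}
  one_mem' := ⟨1, odd_one, one_pow _⟩
  mul_mem' := by
    rintro a b ⟨m, hm, ha⟩ ⟨n, hn, hb⟩
    refine ⟨m * n, hm.mul hn, ?_⟩
    rw [mul_pow]
    have h1 : a ^ (m * n * 2 ^ i) = 1 := by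
      rw [show m * n * 2 ^ i = (m * 2 ^ i) * n by ring, pow_mul, ha, one_pow]
    have h2 : b ^ (m * n * 2 ^ i) = 1 := by
      rw [show m * n * 2 ^ i = (n * 2 ^ i) * m by ring, pow_mul, hb, one_pow]
    rw [h1, h2, mul_one]
  inv_mem' := by
    rintro a ⟨m, hm, ha⟩
    exact ⟨m, hm, by rw [inv_pow, ha, inv_one]⟩

/-- the preimage in `Y` -/
def Yi (i : ℕ) : Subgroup G := ((D C i).comap f).map Y.subtype

theorem mem_Yi {i : ℕ} {y : G} : y ∈ Yi f i ↔ ∃ hy : y ∈ Y, ∃ m, Odd m ∧ f ⟨y, hy⟩ ^ (m * 2 ^ i) = 1 := by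
  constructor
  · rintro ⟨⟨y, hy⟩, h, rfl⟩
    exact ⟨hy, h⟩
  · rintro ⟨hy, h⟩
    exact ⟨⟨y, hy⟩, h, rfl⟩

theorem Yi_le (i : ℕ) : Yi f i ≤ Y := by
  rintro _ ⟨y, -, rfl⟩
  exact y.2

variable {f} (hker : f.ker = L.subgroupOf Y)
include hker

theorem pow_eq_one_iff {y : G} (hy : y ∈ Y) {n : ℕ} : f ⟨y, hy⟩ ^ n = 1 ↔ y ^ n ∈ L := by
  rw [← map_pow, ← MonoidHom.mem_ker, hker, mem_subgroupOf]
  rfl

theorem mem_Yi' {i : ℕ} {y : G} : y ∈ Yi f i ↔ y ∈ Y ∧ ∃ m, Odd m ∧ y ^ (m * 2 ^ i) ∈ L := by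
  rw [mem_Yi]
  constructor
  · rintro ⟨hy, m, hm, h⟩
    exact ⟨hy, m, hm, (pow_eq_one_iff hker hy).1 h⟩
  · rintro ⟨hy, m, hm, h⟩
    exact ⟨hy, m, hm, (pow_eq_one_iff hker hy).2 h⟩

theorem le_Yi (hLY : L ≤ Y) (i : ℕ) : L ≤ Yi f i := by
  intro x hx
  rw [mem_Yi' hker]
  exact ⟨hLY hx, 1, odd_one, pow_mem hx _⟩

theorem conj_mem_Yi {i : ℕ} {k : G} (hkY : k ∈ normalizer (Y : Set G)) (hkL : k ∈ normalizer (L : Set G)) {y : G}
    (hy : y ∈ Yi f i) : k * y * k⁻¹ ∈ Yi f i := by
  rw [mem_Yi' hker] at hy ⊢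
  obtain ⟨h1, m, hm, h2⟩ := hy
  refine ⟨(mem_normalizer_iff.1 hkY _).1 h1, m, hm, ?_⟩
  rw [conj_pow]
  exact (mem_normalizer_iff.1 hkL _).1 h2

theorem norm_Yi {i : ℕ} {k : G} (hkY : k ∈ normalizer (Y : Set G)) (hkL : k ∈ normalizer (L : Set G)) :
    k ∈ normalizer (Yi f i : Set G) := by
  rw [mem_normalizer_iff]
  intro y
  refine ⟨conj_mem_Yi hker hkY hkL, fun h => ?_⟩
  have h1 := conj_mem_Yi hker (inv_mem hkY) (inv_mem hkL) h
  have e : k⁻¹ * (k * y * k⁻¹) * k⁻¹⁻¹ = y := by group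
  rwa [e] at h1

/-- the commutators -/
theorem comm_mem_Yi [Finite C] [IsCyclic C] {i : ℕ} {k s : G} (hkY : k ∈ normalizer (Y : Set G))
    (hkL : k ∈ normalizer (L : Set G)) (hs : s ∈ Yi f (i + 1)) : s * k * s⁻¹ * k⁻¹ ∈ Yi f i := by
  have hs' := (mem_Yi' hker).1 hs
  obtain ⟨h1, m, hm, h2⟩ := hs'
  have h1' : k * s * k⁻¹ ∈ Y := (mem_normalizer_iff.1 hkY _).1 h1
  have e : s * k * s⁻¹ * k⁻¹ = s * (k * s * k⁻¹)⁻¹ := by group
  rw [e, mem_Yi]
  refine ⟨mul_mem h1 (inv_mem h1'), m, hm, ?_⟩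
  have e2 : f ⟨s * (k * s * k⁻¹)⁻¹, mul_mem h1 (inv_mem h1')⟩ = f ⟨s, h1⟩ * (f ⟨k * s * k⁻¹, h1'⟩)⁻¹ := by
    rw [← map_inv, ← map_mul]
    rfl
  rw [e2, mul_pow, inv_pow, mul_inv_eq_one]
  refine inv_unique ?_ ?_ ?_
  · rw [← pow_mul, mul_assoc, ← pow_succ, pow_eq_one_iff hker]
    exact h2
  · rw [← pow_mul, mul_assoc m, ← pow_succ, pow_eq_one_iff hker, conj_pow]
    exact (mem_normalizer_iff.1 hkL _).1 h2
  · rw [pow_eq_one_iff hker, pow_eq_one_iff hker, conj_pow]
    exact mem_normalizer_iff.1 hkL _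

theorem exists_Yi_eq [Finite G] : ∃ n, Yi f n = Y := by
  obtain ⟨n, m, hm, h⟩ := Nat.exists_eq_two_pow_mul_odd (n := Nat.card Y) Nat.card_pos.ne'
  refine ⟨n, le_antisymm (Yi_le f n) fun y hy => ?_⟩
  rw [mem_Yi]
  refine ⟨hy, m, hm, ?_⟩
  rw [← map_pow, mul_comm, ← h, pow_card_eq_one', map_one]

/-- `L` has odd index in `Y_0` -/
theorem odd_relIndex [Finite G] (hLY : L ≤ Y) (hYL : Y ≤ normalizer (L : Set G)) : ¬ 2 ∣ L.relIndex (Yi f 0) := by
  intro h
  have hn : (L.subgroupOf (Yi f 0)).Normal := by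
    constructor
    intro x hx y
    rw [mem_subgroupOf] at hx ⊢
    exact (mem_normalizer_iff.1 (hYL (Yi_le f 0 y.2)) _).1 hx
  rw [relIndex, index_eq_card] at h
  have : Fact (Nat.Prime 2) := ⟨Nat.prime_two⟩
  obtain ⟨x, hx⟩ := exists_prime_orderOf_dvd_card' (G := (Yi f 0) ⧸ L.subgroupOf (Yi f 0)) 2 h
  obtain ⟨y, rfl⟩ := QuotientGroup.mk_surjective x
  obtain ⟨-, m, hm, h1⟩ := (mem_Yi' hker).1 y.2
  rw [pow_zero, mul_one] at h1
  have h2 : (QuotientGroup.mk y : (Yi f 0) ⧸ L.subgroupOf (Yi f 0)) ^ m = 1 := by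
    rw [← QuotientGroup.mk_pow, QuotientGroup.eq_one_iff, mem_subgroupOf]
    exact h1
  have h3 := orderOf_dvd_of_pow_eq_one h2
  rw [hx] at h3
  obtain ⟨c, hc⟩ := hm
  omega

end chain

section main

variable {G : Type u} [Group G] [Finite G]

/-- Frattini -/
theorem frattini' {Y L T : Subgroup G} (hYL : Y ≤ normalizer (L : Set G)) (hTL : T ≤ L) (hT : IsPGroup 2 T)
    (hTi : ¬ 2 ∣ T.relIndex L) {y : G} (hy : y ∈ Y) : ∃ l ∈ L, l⁻¹ * y ∈ normalizer (T : Set G) := by
  have : Fact (Nat.Prime 2) := ⟨Nat.prime_two⟩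
  have hyL := hYL hy
  set T' := T.map (MulAut.conj y).toMonoidHom with hT'
  have hT'L : T' ≤ L := by
    rintro _ ⟨t, ht, rfl⟩
    exact (mem_normalizer_iff.1 hyL _).1 (hTL ht)
  have hLm : L.map (MulAut.conj y).toMonoidHom = L := (mem_normalizer_iff_map_conj_eq).1 hyL
  have hT'i : T'.relIndex L = T.relIndex L := by
    conv_lhs => rw [← hLm]
    exact relIndex_map_map_of_injective _ _ (MulAut.conj y).injective
  have hp1 : IsPGroup 2 (T.subgroupOf L) := hT.comap_subtype
  have hp2 : IsPGroup 2 (T'.subgroupOf L) := (hT.map _).comap_subtype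
  let P1 : Sylow 2 L := hp1.toSylow hTi
  let P2 : Sylow 2 L := hp2.toSylow (by
    change ¬ 2 ∣ T'.relIndex L
    rw [hT'i]; exact hTi)
  obtain ⟨l, hl⟩ := MulAction.exists_smul_eq L P1 P2
  have hl' : MulAut.conj l • (T.subgroupOf L) = T'.subgroupOf L := congrArg Sylow.toSubgroup hl
  refine ⟨l, l.2, ?_⟩
  have key : ∀ t : G, t ∈ T ↔ y * t * y⁻¹ ∈ T' := by
    intro t
    constructor
    · intro ht
      exact ⟨t, ht, rfl⟩
    · rintro ⟨x, hx, hxt⟩
      have : x = t := (MulAut.conj y).injective hxt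
      rwa [← this]
  have key2 : ∀ t : G, t ∈ T' ↔ (l : G)⁻¹ * t * l ∈ T := by
    intro t
    constructor
    · intro ht
      have h1 : (⟨t, hT'L ht⟩ : L) ∈ MulAut.conj l • (T.subgroupOf L) := by
        rw [hl']; exact mem_subgroupOf.2 ht
      rw [mem_pointwise_smul_iff_inv_smul_mem] at h1
      have h2 := mem_subgroupOf.1 h1
      have h3 : (((MulAut.conj l)⁻¹ • (⟨t, hT'L ht⟩ : L) : L) : G) = (l : G)⁻¹ * t * l := by
        rw [← map_inv, MulAut.smul_def, MulAut.conj_apply, inv_inv]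
        rfl
      rwa [h3] at h2
    · intro ht
      have htL : t ∈ L := by
        have h1 := mul_mem (mul_mem l.2 (hTL ht)) (inv_mem l.2)
        have e : (l : G) * ((l : G)⁻¹ * t * l) * (l : G)⁻¹ = t := by group
        rwa [e] at h1
      have h1 : (⟨t, htL⟩ : L) ∈ T'.subgroupOf L := by
        rw [← hl', mem_pointwise_smul_iff_inv_smul_mem, mem_subgroupOf]
        have h3 : (((MulAut.conj l)⁻¹ • (⟨t, htL⟩ : L) : L) : G) = (l : G)⁻¹ * t * l := by
          rw [← map_inv, MulAut.smul_def, MulAut.conj_apply, inv_inv]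
          rfl
        rwa [h3]
      exact mem_subgroupOf.1 h1
  rw [mem_normalizer_iff]
  intro t
  rw [key t, key2]
  have e : (l : G)⁻¹ * (y * t * y⁻¹) * l = (l : G)⁻¹ * y * t * ((l : G)⁻¹ * y)⁻¹ := by group
  rw [e]

/-- the 2-part of an element of a subgroup -/
theorem exists_two_part {H : Subgroup G} {x : G} (hx : x ∈ H) :
    ∃ a b : G, a ∈ zpowers x ∧ b ∈ zpowers x ∧ x = a * b ∧ (∃ n, a ^ 2 ^ n = 1) ∧ ∃ m, Odd m ∧ b ^ m = 1 := by
  obtain ⟨n, m, hm, h⟩ := Nat.exists_eq_two_pow_mul_odd (n := orderOf x) (orderOf_pos x).ne'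
  have hc : IsCoprime ((2 : ℤ) ^ n) (m : ℤ) := by
    have h1 : Nat.Coprime (2 ^ n) m := Nat.Coprime.pow_left _ (Nat.coprime_two_left.2 hm)
    exact_mod_cast Nat.isCoprime_iff_coprime.2 h1
  obtain ⟨u, v, huv⟩ := hc
  have h0 : x ^ ((2 : ℤ) ^ n * m) = 1 := by
    have h1 : ((2 : ℤ) ^ n * m) = ((2 ^ n * m : ℕ) : ℤ) := by push_cast; ring
    rw [h1, zpow_natCast, ← h, pow_orderOf_eq_one]
  refine ⟨x ^ (v * m), x ^ (u * 2 ^ n), zpow_mem (mem_zpowers x) _, zpow_mem (mem_zpowers x) _, ?_, ⟨n, ?_⟩, m, hm, ?_⟩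
  · rw [← zpow_add, add_comm, huv, zpow_one]
  · rw [← zpow_natCast, ← zpow_mul]
    have e : v * (m : ℤ) * ((2 ^ n : ℕ) : ℤ) = ((2 : ℤ) ^ n * m) * v := by push_cast; ring
    rw [e, zpow_mul, h0, one_zpow]
  · rw [← zpow_natCast, ← zpow_mul]
    have e : u * (2 : ℤ) ^ n * (m : ℤ) = ((2 : ℤ) ^ n * m) * u := by ring
    rw [e, zpow_mul, h0, one_zpow]

/-- **(GL)** -/
theorem sylow_two_ext_of_hom (hS : Sml G) {K : Subgroup G} (hK : IsCarter K) (Y L T : Subgroup G) (hLY : L ≤ Y)
    (hKY : K ≤ normalizer (Y : Set G)) (hKL : K ≤ normalizer (L : Set G)) (hYL : Y ≤ normalizer (L : Set G))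
    {C : Type v} [CommGroup C] [Finite C] [IsCyclic C] {f : Y →* C} (hker : f.ker = L.subgroupOf Y) (hTL : T ≤ L)
    (hT : IsPGroup 2 T) (hTi : ¬ 2 ∣ T.relIndex L) (hKT : K ≤ normalizer (T : Set G)) :
    ∃ P : Subgroup G, P ≤ Y ∧ IsPGroup 2 P ∧ ¬ 2 ∣ P.relIndex Y ∧ K ≤ normalizer (P : Set G) := by
  have hp2 : Fact (Nat.Prime 2) := ⟨Nat.prime_two⟩
  have hYi : ∀ i, Y ≤ normalizer (Yi f i : Set G) := fun i y hy => norm_Yi hker (le_normalizer hy) (hYL hy)
  have hKYi : ∀ i, K ≤ normalizer (Yi f i : Set G) := fun i k hk => norm_Yi hker (hKY hk) (hKL hk)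
  -- the chain
  have hchain : ∀ i, Yi f i ⊓ normalizer (T : Set G) ≤ K ⊔ (Yi f 0 ⊓ normalizer (T : Set G)) := by
    intro i
    induction i with
    | zero => exact le_sup_right
    | succ i ih =>
      intro s hs
      have h1 : s ∈ K ⊔ (Yi f i ⊓ normalizer (T : Set G)) := by
        refine w_of_sml hS hK ?_ ?_
        · have hsY : s ∈ normalizer (Yi f i : Set G) := hYi i (Yi_le f _ hs.1)
          have h2 : zpowers s ≤ normalizer ((Yi f i ⊓ normalizer (T : Set G) : Subgroup G) : Set G) :=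
            le_normalizer_inf (by rw [zpowers_le]; exact hsY) (by rw [zpowers_le]; exact le_normalizer hs.2)
          exact h2 (mem_zpowers s)
        · intro k hk
          have hs2 : s ∈ normalizer (T : Set G) := hs.2
          have h2 : s * k * s⁻¹ * k⁻¹ ∈ normalizer (T : Set G) :=
            mul_mem (mul_mem (mul_mem hs2 (hKT hk)) (inv_mem hs2)) (inv_mem (hKT hk))
          exact ⟨comm_mem_Yi hker (hKY hk) (hKL hk) hs.1, h2⟩
      exact (sup_le le_sup_left ih) h1
  obtain ⟨n, hn⟩ := exists_Yi_eq hker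
  have hW : Y ⊓ normalizer (T : Set G) ≤ K ⊔ (Yi f 0 ⊓ normalizer (T : Set G)) := by
    have := hchain n
    rwa [hn] at this
  -- the Sylow 2-subgroup of `K`
  have hKn := hK.1
  obtain ⟨S2⟩ : Nonempty (Sylow 2 K) := inferInstance
  have hS2 : (S2 : Subgroup K).Normal := by
    have h := (Group.isNilpotent_of_finite_tfae (G := K)).out 0 3
    exact h.1 hKn 2 hp2 S2
  set K2 : Subgroup G := (S2 : Subgroup K).map K.subtype with hK2
  have hK2p : IsPGroup 2 K2 := S2.2.map _
  have hK2K : K2 ≤ K := map_subtype_le _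
  have hK2n : K ≤ normalizer (K2 : Set G) := by
    intro k hk
    have h1 : ∀ k ∈ K, ∀ x ∈ K2, k * x * k⁻¹ ∈ K2 := by
      rintro k hk _ ⟨x, hx, rfl⟩
      exact ⟨⟨k, hk⟩ * x * ⟨k, hk⟩⁻¹, hS2.conj_mem x hx ⟨k, hk⟩, rfl⟩
    rw [mem_normalizer_iff]
    intro x
    refine ⟨h1 k hk x, fun h => ?_⟩
    have h2 := h1 k⁻¹ (inv_mem hk) _ h
    have e : k⁻¹ * (k * x * k⁻¹) * k⁻¹⁻¹ = x := by group
    rwa [e] at h2
  have hK2mem : ∀ x ∈ K, (∃ n, x ^ 2 ^ n = 1) → x ∈ K2 := by
    rintro x hx ⟨n, hn⟩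
    have h1 : IsPGroup 2 (zpowers (⟨x, hx⟩ : K)) := by
      rintro ⟨y, hy⟩
      obtain ⟨j, rfl⟩ := mem_zpowers_iff.1 hy
      refine ⟨n, Subtype.ext ?_⟩
      change ((⟨x, hx⟩ : K) ^ j) ^ 2 ^ n = 1
      have h3 : (⟨x, hx⟩ : K) ^ 2 ^ n = 1 := Subtype.ext hn
      rw [← zpow_natCast, ← zpow_mul, mul_comm, zpow_mul, zpow_natCast, h3, one_zpow]
    obtain ⟨Q, hQ⟩ := h1.exists_le_sylow
    have h2 : Q = S2 := by
      obtain ⟨g, hg⟩ := MulAction.exists_smul_eq K S2 Q
      rw [← hg]
      exact Sylow.smul_eq_of_normal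
    exact ⟨⟨x, hx⟩, h2 ▸ hQ (mem_zpowers _), rfl⟩
  set B : Subgroup G := K2 ⊓ (Y ⊓ normalizer (T : Set G)) with hB
  have hBp : IsPGroup 2 B := hK2p.to_le inf_le_left
  have hKB : K ≤ normalizer (B : Set G) :=
    le_normalizer_inf hK2n (le_normalizer_inf hKY (hKT.trans (by
      intro x hx
      rw [mem_normalizer_iff]
      intro y
      constructor
      · intro hy
        exact mul_mem (mul_mem hx hy) (inv_mem hx)
      · intro hy
        have h1 := mul_mem (mul_mem (inv_mem hx) hy) hx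
        have e : x⁻¹ * (x * y * x⁻¹) * x = y := by group
        rwa [e] at h1)))
  have hBT : B ≤ normalizer (T : Set G) := fun x hx => hx.2.2
  set P : Subgroup G := B ⊔ T with hP
  have hPp : IsPGroup 2 P := IsPGroup.to_sup_of_normal_right' hBp hT hBT
  have hPY : P ≤ Y := sup_le (fun x hx => hx.2.1) (hTL.trans hLY)
  refine ⟨P, hPY, hPp, ?_, le_normalizer_sup hKB hKT⟩
  -- `P` is a Sylow subgroup of `Y`
  have hPp' : IsPGroup 2 (P.subgroupOf Y) := hPp.comap_subtype
  obtain ⟨Q, hQ⟩ := hPp'.exists_le_sylow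
  have hR0 : ¬ 2 ∣ T.relIndex (Yi f 0) := by
    rw [← relIndex_mul_relIndex T L (Yi f 0) hTL (le_Yi hker hLY 0)]
    exact Nat.Prime.not_dvd_mul Nat.prime_two hTi (odd_relIndex hker hLY hYL)
  have hQT : ∀ x : Y, x ∈ Q → (x : G) ∈ Yi f 0 → (x : G) ∈ T := by
    intro x hx hx0
    set R := (Q : Subgroup Y).map Y.subtype ⊓ Yi f 0 with hR
    have hRp : IsPGroup 2 R := (Q.2.map _).to_le inf_le_left
    have hTR : T ≤ R := by
      intro t ht
      refine ⟨⟨⟨t, hLY (hTL ht)⟩, hQ (mem_subgroupOf.2 (le_sup_right (a := B) ht)), rfl⟩, le_Yi hker hLY 0 (hTL ht)⟩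
    have h1 : T.relIndex R ∣ T.relIndex (Yi f 0) := by
      rw [← relIndex_mul_relIndex T R (Yi f 0) hTR inf_le_right]
      exact dvd_mul_right _ _
    obtain ⟨a, ha⟩ := hRp.index (T.subgroupOf R)
    have h2 : T.relIndex R = 1 := by
      change T.relIndex R = 2 ^ a at ha
      rcases Nat.eq_zero_or_pos a with rfl | ha0
      · rw [ha, pow_zero]
      · exfalso
        apply hR0
        refine dvd_trans ?_ h1
        rw [ha]
        exact dvd_pow_self 2 (by omega)
    have h3 : R ≤ T := relIndex_eq_one.1 h2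
    exact h3 ⟨⟨x, hx, rfl⟩, hx0⟩
  have hQP : (Q : Subgroup Y) ≤ P.subgroupOf Y := by
    intro x hx
    rw [mem_subgroupOf]
    obtain ⟨l, hl, hlx⟩ := frattini' hYL hTL hT hTi x.2
    have hlY : l⁻¹ ∈ Y := inv_mem (hLY hl)
    have hw : l⁻¹ * x ∈ Y ⊓ normalizer (T : Set G) := ⟨Y.mul_mem hlY x.2, hlx⟩
    -- `w = k w₀`
    obtain ⟨k, hk, w₀, hw₀, hkw⟩ : ∃ k ∈ K, ∃ w₀ ∈ Yi f 0 ⊓ normalizer (T : Set G), k * w₀ = l⁻¹ * x := by
      have h1 := hW hw
      have h2 : K ≤ normalizer ((Yi f 0 ⊓ normalizer (T : Set G) : Subgroup G) : Set G) :=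
        le_normalizer_inf (hKYi 0) (hKT.trans le_normalizer)
      rw [← SetLike.mem_coe, coe_mul_of_left_le_normalizer_right _ _ h2] at h1
      obtain ⟨k, hk, w, hw, h⟩ := Set.mem_mul.1 h1
      exact ⟨k, hk, w, hw, h⟩
    have hkW : k ∈ Y ⊓ normalizer (T : Set G) := by
      have e : k = (l⁻¹ * x) * w₀⁻¹ := by rw [← hkw]; group
      have h1 : w₀ ∈ Y ⊓ normalizer (T : Set G) := ⟨Yi_le f 0 hw₀.1, hw₀.2⟩
      rw [e]
      exact mul_mem hw (inv_mem h1)
    obtain ⟨a, b, ha, hb, hab, ha2, m, hm, hbm⟩ := exists_two_part hk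
    have hzK : zpowers k ≤ K := by rw [zpowers_le]; exact hk
    have hzW : zpowers k ≤ Y ⊓ normalizer (T : Set G) := by rw [zpowers_le]; exact hkW
    have haB : a ∈ B := ⟨hK2mem a (hzK ha) ha2, hzW ha⟩
    have hb0 : b ∈ Yi f 0 := by
      rw [mem_Yi' hker]
      refine ⟨(hzW hb).1, m, hm, ?_⟩
      rw [pow_zero, mul_one, hbm]
      exact one_mem _
    -- `x = l a b w₀`
    have hx' : (x : G) = (l * (a * (b * w₀) * a⁻¹)) * a := by
      have e : (x : G) = l * (l⁻¹ * x) := by group
      rw [e, ← hkw, hab]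
      group
    have haP : a ∈ P := le_sup_left (b := T) haB
    have hr : l * (a * (b * w₀) * a⁻¹) ∈ Yi f 0 := by
      refine mul_mem (le_Yi hker hLY 0 hl) ?_
      exact (mem_normalizer_iff.1 (hYi 0 (hPY haP)) _).1 (mul_mem hb0 hw₀.1)
    have haQ : (⟨a, hPY haP⟩ : Y) ∈ Q := hQ (mem_subgroupOf.2 haP)
    have hrQ : (⟨l * (a * (b * w₀) * a⁻¹), Yi_le f 0 hr⟩ : Y) ∈ Q := by
      have e : (⟨l * (a * (b * w₀) * a⁻¹), Yi_le f 0 hr⟩ : Y) = x * (⟨a, hPY haP⟩ : Y)⁻¹ := by
        apply Subtype.ext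
        change l * (a * (b * w₀) * a⁻¹) = (x : G) * a⁻¹
        rw [hx', mul_inv_cancel_right]
      rw [e]
      exact mul_mem hx (inv_mem haQ)
    rw [hx']
    exact mul_mem (le_sup_right (a := B) (hQT _ hrQ hr)) haP
  have hQe : P.subgroupOf Y = Q := le_antisymm hQ hQP
  rw [relIndex, hQe]
  exact Q.not_dvd_index

/-- **(GL)**, with the quotient -/
theorem sylow_two_ext (hS : Sml G) {K : Subgroup G} (hK : IsCarter K) (Y L T : Subgroup G) (hLY : L ≤ Y)
    (hKY : K ≤ normalizer (Y : Set G)) (hKL : K ≤ normalizer (L : Set G)) (hYL : Y ≤ normalizer (L : Set G))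
    [hn : (L.subgroupOf Y).Normal] (hcyc : IsCyclic (Y ⧸ L.subgroupOf Y)) (hTL : T ≤ L)
    (hT : IsPGroup 2 T) (hTi : ¬ 2 ∣ T.relIndex L) (hKT : K ≤ normalizer (T : Set G)) :
    ∃ P : Subgroup G, P ≤ Y ∧ IsPGroup 2 P ∧ ¬ 2 ∣ P.relIndex Y ∧ K ≤ normalizer (P : Set G) := by
  let _ : CommGroup (Y ⧸ L.subgroupOf Y) := IsCyclic.commGroup
  exact sylow_two_ext_of_hom hS hK Y L T hLY hKY hKL hYL (f := QuotientGroup.mk' (L.subgroupOf Y))
    (QuotientGroup.ker_mk' _) hTL hT hTi hKT

end main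

end Cfsg.Agent.H248.CA
end

-- part: H261/CA/Core
section
prune_inst 0x10000000000000
set_option linter.all false
open scoped Cfsg.Agent.FastGrp

/-!
# S3852, CA5: hermitian forms over an extension field (helper261)

`E ⊆ K` finite fields with involution, `f : K → M_ι(E)` a star homomorphism: the centralizer of the image of `f` is
isomorphic to `M_m(K)`, as a star ring.
-/

set_option autoImplicit false
set_option linter.unusedSectionVars false

namespace Cfsg.Agent.H261.CA

open Matrix Cfsg.Agent.H308.CA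

section core

variable {ι : Type} [Fintype ι] [DecidableEq ι] {E K : Type} [Field E] [Field K] [Algebra E K]

/-- `ι → E` as a module over `K` -/
def VV (_ : K →ₐ[E] Matrix ι ι E) : Type := ι → E

variable (f : K →ₐ[E] Matrix ι ι E)

instance : AddCommGroup (VV f) := inferInstanceAs (AddCommGroup (ι → E))

instance : Module E (VV f) := inferInstanceAs (Module E (ι → E))

instance [Finite E] : Finite (VV f) := inferInstanceAs (Finite (ι → E))

instance : FiniteDimensional E (VV f) := inferInstanceAs (FiniteDimensional E (ι → E))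

theorem sm_one (v : ι → E) : f 1 *ᵥ v = v := by rw [map_one, one_mulVec]

theorem sm_mul (a b : K) (v : ι → E) : f (a * b) *ᵥ v = f a *ᵥ (f b *ᵥ v) := by rw [map_mul, mulVec_mulVec]

theorem sm_add (a b : K) (v : ι → E) : f (a + b) *ᵥ v = f a *ᵥ v + f b *ᵥ v := by rw [map_add, add_mulVec]

theorem sm_zero (v : ι → E) : f 0 *ᵥ v = 0 := by rw [map_zero, zero_mulVec]

theorem sm_smul (e : E) (a : K) (v : ι → E) : f (e • a) *ᵥ v = e • (f a *ᵥ v) := by rw [map_smul, smul_mulVec]

instance : Module K (VV f) where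
  smul k v := f k *ᵥ v
  one_smul := sm_one f
  mul_smul := sm_mul f
  smul_zero a := mulVec_zero (f a)
  smul_add a v w := mulVec_add (f a) v w
  add_smul := sm_add f
  zero_smul := sm_zero f

instance : IsScalarTower E K (VV f) := ⟨sm_smul f⟩

theorem mat_ext {R : Type} [CommRing R] {A B : Matrix ι ι R} (h : ∀ v, A *ᵥ v = B *ᵥ v) : A = B :=
  Matrix.toLin'.injective (LinearMap.ext h)

section Phi

variable {m : ℕ} (T : (Fin m → K) ≃ₗ[E] (ι → E))

/-- transport of matrices by a linear map -/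
noncomputable def phi (P : Matrix (Fin m) (Fin m) K) : Matrix ι ι E :=
  LinearMap.toMatrix' (T.toLinearMap ∘ₗ (P.mulVecLin.restrictScalars E) ∘ₗ T.symm.toLinearMap)

theorem phi_mulVec (P : Matrix (Fin m) (Fin m) K) (a : Fin m → K) : phi T P *ᵥ T a = T (P *ᵥ a) := by
  rw [phi, LinearMap.toMatrix'_mulVec]
  simp

theorem eq_of_T {A B : Matrix ι ι E} (h : ∀ a, A *ᵥ T a = B *ᵥ T a) : A = B :=
  mat_ext fun v => by
    have := h (T.symm v)
    rwa [T.apply_symm_apply] at this

/-- transport of matrices as a ring homomorphism -/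
noncomputable def Phi : Matrix (Fin m) (Fin m) K →+* Matrix ι ι E where
  toFun := phi T
  map_one' := eq_of_T T fun a => by rw [phi_mulVec, one_mulVec, one_mulVec]
  map_mul' P Q := eq_of_T T fun a => by rw [phi_mulVec, ← mulVec_mulVec, ← mulVec_mulVec, phi_mulVec, phi_mulVec]
  map_zero' := eq_of_T T fun a => by rw [phi_mulVec, zero_mulVec, zero_mulVec, map_zero]
  map_add' P Q := eq_of_T T fun a => by rw [phi_mulVec, add_mulVec, add_mulVec, phi_mulVec, phi_mulVec, map_add]

theorem Phi_mulVec (P : Matrix (Fin m) (Fin m) K) (a : Fin m → K) : Phi T P *ᵥ T a = T (P *ᵥ a) := phi_mulVec T P a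

theorem Phi_injective : Function.Injective (Phi T) := by
  intro P Q h
  refine mat_ext fun a => T.injective ?_
  rw [← Phi_mulVec, ← Phi_mulVec, h]

theorem Phi_det (P : Matrix (Fin m) (Fin m) K) : (Phi T P).det = Algebra.norm E P.det := by
  have h1 : (Phi T P).det = LinearMap.det (T.toLinearMap ∘ₗ (P.mulVecLin.restrictScalars E) ∘ₗ T.symm.toLinearMap) := by
    rw [← LinearMap.det_toMatrix']
    rfl
  rw [h1, LinearMap.det_conj, LinearMap.det_restrictScalars, ← Matrix.toLin'_apply', LinearMap.det_toLin']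

end Phi

end core

section form

variable {ι : Type} [Fintype ι] [DecidableEq ι] {E K : Type} [Field E] [Finite E] [StarRing E] [Field K] [Finite K]
  [StarRing K] [Algebra E K]

/-- the standard hermitian form -/
def hm {R : Type} [CommRing R] [StarRing R] {κ : Type} [Fintype κ] (v w : κ → R) : R := star v ⬝ᵥ w

theorem hm_mulVec {R : Type} [CommRing R] [StarRing R] {κ : Type} [Fintype κ] (M : Matrix κ κ R) (v w : κ → R) :
    hm (M *ᵥ v) w = hm v (star M *ᵥ w) := by
  rw [hm, hm, star_mulVec, ← dotProduct_mulVec]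
  rfl

theorem star_hm {R : Type} [CommRing R] [StarRing R] {κ : Type} [Fintype κ] (v w : κ → R) :
    star (hm v w) = hm w v := by
  rw [hm, hm, Matrix.star_dotProduct, star_star, dotProduct_comm]

theorem hm_add_left {R : Type} [CommRing R] [StarRing R] {κ : Type} [Fintype κ] (u v w : κ → R) :
    hm (u + v) w = hm u w + hm v w := by
  rw [hm, star_add, add_dotProduct]
  rfl

theorem hm_add_right {R : Type} [CommRing R] [StarRing R] {κ : Type} [Fintype κ] (u v w : κ → R) :
    hm u (v + w) = hm u v + hm u w := by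
  rw [hm, dotProduct_add]
  rfl

theorem hm_smul_right {R : Type} [CommRing R] [StarRing R] {κ : Type} [Fintype κ] (e : R) (v w : κ → R) :
    hm v (e • w) = e * hm v w := by
  rw [hm, dotProduct_smul]
  rfl

theorem eq_zero_of_hm {R : Type} [CommRing R] [StarRing R] {κ : Type} [Fintype κ] [DecidableEq κ] {v : κ → R}
    (h : ∀ w, hm v w = 0) : v = 0 := by
  have h1 : star v = 0 := by
    apply dotProduct_eq_zero
    intro w
    exact h w
  rw [← star_star v, h1, star_zero]

theorem trace_star (hs : ∀ e : E, star (algebraMap E K e) = algebraMap E K (star e)) (a : K) :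
    Algebra.trace E K (star a) = star (Algebra.trace E K a) := by
  have h1 := Algebra.trace_eq_of_equiv_equiv (starRingAut (R := E)) (starRingAut (R := K)) (by
    ext e
    exact (hs e).symm) a
  rw [h1]
  exact ((starRingAut (R := E)).apply_symm_apply _).symm

/-- the element representing a functional -/
noncomputable def rp (φ : Module.Dual E K) : K :=
  ((Algebra.traceForm E K).toDual (traceForm_nondegenerate E K)).symm φ

theorem trace_rp (φ : Module.Dual E K) (a : K) : Algebra.trace E K (rp φ * a) = φ a :=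
  LinearMap.BilinForm.apply_toDual_symm_apply (hB := traceForm_nondegenerate E K) φ a

theorem trace_ext {c d : K} (h : ∀ a, Algebra.trace E K (c * a) = Algebra.trace E K (d * a)) : c = d := by
  have h1 := (traceForm_nondegenerate E K).1 (c - d) (by
    intro a
    rw [Algebra.traceForm_apply, sub_mul, map_sub, h, sub_self])
  exact sub_eq_zero.1 h1

variable (f : K →ₐ[E] Matrix ι ι E)

/-- the functional `a ↦ h(v, a w)` -/
def fn (v w : ι → E) : Module.Dual E K where
  toFun a := hm v (f a *ᵥ w)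
  map_add' a b := by rw [sm_add, hm_add_right]
  map_smul' e a := by
    rw [sm_smul, hm_smul_right]
    rfl

/-- the hermitian form over `K` -/
noncomputable def kf (v w : ι → E) : K := rp (fn f v w)

theorem trace_kf (v w : ι → E) (a : K) : Algebra.trace E K (kf f v w * a) = hm v (f a *ᵥ w) := trace_rp _ a

theorem trace_kf_one (v w : ι → E) : Algebra.trace E K (kf f v w) = hm v w := by
  have := trace_kf f v w 1
  rwa [mul_one, sm_one] at this

theorem kf_add_left (u v w : ι → E) : kf f (u + v) w = kf f u w + kf f v w :=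
  trace_ext (E := E) fun a => by rw [add_mul, map_add, trace_kf, trace_kf, trace_kf, hm_add_left]

theorem kf_add_right (u v w : ι → E) : kf f u (v + w) = kf f u v + kf f u w :=
  trace_ext (E := E) fun a => by rw [add_mul, map_add, trace_kf, trace_kf, trace_kf, mulVec_add, hm_add_right]

theorem kf_smul_right (k : K) (v w : ι → E) : kf f v (f k *ᵥ w) = k * kf f v w :=
  trace_ext (E := E) fun a => by rw [trace_kf, mul_comm k, mul_assoc, trace_kf, ← sm_mul, mul_comm k]

theorem kf_smul_left (hf : ∀ k, f (star k) = star (f k)) (k : K) (v w : ι → E) :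
    kf f (f k *ᵥ v) w = star k * kf f v w :=
  trace_ext (E := E) fun a => by
    rw [trace_kf, mul_comm (star k), mul_assoc, trace_kf, hm_mulVec, ← hf, ← sm_mul]

theorem star_kf (hs : ∀ e : E, star (algebraMap E K e) = algebraMap E K (star e))
    (hf : ∀ k, f (star k) = star (f k)) (v w : ι → E) : star (kf f v w) = kf f w v :=
  trace_ext (E := E) fun a => by
    rw [trace_kf]
    have h1 : star (kf f v w) * a = star (kf f v w * star a) := by rw [star_mul', star_star]
    rw [h1, trace_star hs, trace_kf, star_hm, hm_mulVec, ← hf, star_star]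

/-- the sesquilinear form over `K` on `VV f` -/
noncomputable def kform (hf : ∀ k, f (star k) = star (f k)) : VV f →ₛₗ[starRingEnd K] VV f →ₗ[K] K :=
  LinearMap.mk₂'ₛₗ (starRingEnd K) (RingHom.id K) (fun v w => kf f v w) (fun u v w => kf_add_left f u v w)
    (fun k v w => kf_smul_left f hf k v w) (fun u v w => kf_add_right f u v w) (fun k v w => kf_smul_right f k v w)

/-- an isometry between `K ^ m` and `ι → E` with the trace form -/
theorem exists_isometry (hs : ∀ e : E, star (algebraMap E K e) = algebraMap E K (star e))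
    (hf : ∀ k, f (star k) = star (f k)) (hne : ∃ e : E, star e ≠ e) :
    ∃ (m : ℕ) (T : (Fin m → K) ≃ₗ[E] (ι → E)), Fintype.card ι = Module.finrank E K * m ∧
      (∀ (k : K) (a : Fin m → K), T (k • a) = f k *ᵥ T a) ∧
      ∀ a b : Fin m → K, hm (T a) (T b) = Algebra.trace E K (hm a b) := by
  have hσ : starRingEnd K ≠ RingHom.id K := by
    intro h
    obtain ⟨e, he⟩ := hne
    apply he
    have h1 : star (algebraMap E K e) = algebraMap E K e := congrArg (fun g : K →+* K => g (algebraMap E K e)) h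
    rw [hs] at h1
    exact (algebraMap E K).injective h1
  have : FiniteDimensional K (VV f) := Module.Finite.of_finite
  obtain ⟨b, hb⟩ := Cfsg.Agent.ClassicalGeometry.HermOrthonormal.exists_orthonormal_basis hσ
    (fun a => star_star a) (kform f hf) ⟨fun v w => star_kf f hs hf v w⟩ (by
      intro v hv
      have key : ∀ v : ι → E, (∀ w : ι → E, kf f v w = 0) → v = 0 := fun v h => eq_zero_of_hm fun w => by
        rw [← trace_kf_one f, h, map_zero]
      exact key v hv)
  refine ⟨Module.finrank K (VV f), (b.equivFun.symm.restrictScalars E : (Fin _ → K) ≃ₗ[E] VV f), ?_, ?_, ?_⟩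
  · rw [Module.finrank_mul_finrank E K (VV f)]
    exact (Module.finrank_fintype_fun_eq_card E).symm
  · intro k a
    exact map_smul b.equivFun.symm k a
  · intro a c
    rw [← trace_kf_one f]
    congr 1
    have h1 : kf f (b.equivFun.symm a) (b.equivFun.symm c) =
        kform f hf (b.equivFun.symm a) (b.equivFun.symm c) := rfl
    refine h1.trans ?_
    rw [Module.Basis.equivFun_symm_apply, Module.Basis.equivFun_symm_apply]
    simp only [map_sum, LinearMap.sum_apply, map_smulₛₗ, LinearMap.smul_apply, hb, smul_eq_mul, RingHom.id_apply,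
      mul_ite, mul_one, mul_zero, Finset.sum_ite_eq', Finset.mem_univ, if_true]
    exact Finset.sum_congr rfl fun i _ => mul_comm _ _

theorem hm_ext {κ : Type} [Fintype κ] [DecidableEq κ] {u v : κ → E} (h : ∀ w, hm u w = hm v w) : u = v := by
  have h1 : u - v = 0 := eq_zero_of_hm fun w => by
    have h2 := hm_add_left (u - v) v w
    rw [sub_add_cancel, h w] at h2
    exact left_eq_add.1 (by rw [add_comm]; exact h2)
  exact sub_eq_zero.1 h1

/-- the centralizer of the image of `f` is a matrix algebra over `K` -/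
theorem core (hs : ∀ e : E, star (algebraMap E K e) = algebraMap E K (star e))
    (hf : ∀ k, f (star k) = star (f k)) (hne : ∃ e : E, star e ≠ e) :
    ∃ (m : ℕ) (φ : Matrix (Fin m) (Fin m) K →+* Matrix ι ι E), Fintype.card ι = Module.finrank E K * m ∧
      Function.Injective φ ∧ (∀ a, φ (star a) = star (φ a)) ∧
      (∀ b, b ∈ Set.range φ ↔ ∀ k, b * f k = f k * b) ∧ (∀ P, (φ P).det = Algebra.norm E P.det) ∧
      ∀ k : K, φ (k • (1 : Matrix (Fin m) (Fin m) K)) = f k := by
  obtain ⟨m, T, hm1, hT, hT2⟩ := exists_isometry f hs hf hne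
  refine ⟨m, Phi T, hm1, Phi_injective T, ?_, ?_, Phi_det T, ?_⟩
  · intro P
    refine eq_of_T T fun b => hm_ext fun w => ?_
    obtain ⟨a, rfl⟩ := T.surjective w
    rw [Phi_mulVec, hT2, hm_mulVec, star_star, hm_mulVec, star_star, Phi_mulVec, hT2]
  · intro b
    constructor
    · rintro ⟨P, rfl⟩ k
      refine eq_of_T T fun a => ?_
      rw [← mulVec_mulVec, ← mulVec_mulVec, ← hT, Phi_mulVec, Phi_mulVec, mulVec_smul, hT]
    · intro hb
      let L : (Fin m → K) →ₗ[K] (Fin m → K) := 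
        { toFun := fun a => T.symm (b *ᵥ T a)
          map_add' := fun a c => by rw [map_add, mulVec_add, map_add]
          map_smul' := fun k a => by
            apply T.injective
            rw [T.apply_symm_apply, hT, mulVec_mulVec, hb, ← mulVec_mulVec, RingHom.id_apply, hT, T.apply_symm_apply] }
      refine ⟨LinearMap.toMatrix' L, eq_of_T T fun a => ?_⟩
      rw [Phi_mulVec, LinearMap.toMatrix'_mulVec]
      exact T.apply_symm_apply _
  · intro k
    refine eq_of_T T fun a => ?_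
    rw [Phi_mulVec, smul_mulVec, one_mulVec, hT]

end form

end Cfsg.Agent.H261.CA

private theorem dce_18c72600d20a : _root_.True := by
  try have : _root_.True := by simp only [_root_.Cfsg.Agent.H261.CA.kform.congr_simp]
  try have : _root_.True := by simp only [_root_.Cfsg.Agent.H261.CA.phi.eq_1]
  try have : _root_.True := by simp only [_root_.Cfsg.Agent.H261.CA.hm.eq_1]
  exact _root_.True.intro
end

-- part: H261/CA/ExUni
section
prune_inst 0x10000000000000
set_option linter.all false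
open scoped Cfsg.Agent.FastGrp

/-!
# S3852, CA5 (EX-uni): the centralizer of an exotic element of a unitary group (helper261)
-/

set_option autoImplicit false
set_option linter.unusedSectionVars false

namespace Cfsg.Agent.H261.CA

open Matrix Cfsg.Agent.H308.CA Polynomial

/-- `l` is not an `r`-th power of any element -/
theorem not_pow {E : Type} [Field E] [StarRing E] {r : ℕ} (hr : Odd r) {l : E} (hl : star l * l = 1)
    (h : ∀ m : E, star m * m = 1 → m ^ r ≠ l) (m : E) : m ^ r ≠ l := by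
  intro hm
  obtain ⟨k, rfl⟩ := hr
  have h1 : star m ^ (2 * k + 1) = star l := by rw [← star_pow, hm]
  refine h (m ^ (k + 1) * star m ^ k) ?_ ?_
  · rw [star_mul', star_pow, star_pow, star_star]
    calc star m ^ (k + 1) * m ^ k * (m ^ (k + 1) * star m ^ k) = star m ^ (2 * k + 1) * m ^ (2 * k + 1) := by ring
      _ = 1 := by rw [h1, hm, hl]
  · calc (m ^ (k + 1) * star m ^ k) ^ (2 * k + 1) = (m ^ (2 * k + 1)) ^ (k + 1) * (star m ^ (2 * k + 1)) ^ k := by ring
      _ = l * (star l * l) ^ k := by rw [h1, hm]; ring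
      _ = l := by rw [hl, one_pow, mul_one]

section abs

variable {ι : Type} [Fintype ι] [DecidableEq ι] {E K : Type} [Field E] [Finite E] [StarRing E] [Field K] [Finite K]
  [StarRing K] [Algebra E K]

theorem abs_uni (hs : ∀ e : E, star (algebraMap E K e) = algebraMap E K (star e)) (hne : ∃ e : E, star e ≠ e)
    {r : ℕ} (hr : r.Prime) {x : SU ι E} {l : E} (hl : star l * l = 1)
    (hlr : ∀ m : E, star m * m = 1 → m ^ r ≠ l) {ρ : K} (f : K →ₐ[E] Matrix ι ι E) (hfρ : f ρ = mt x)
    (hgen : Algebra.adjoin E {ρ} = ⊤) (hN : Algebra.norm E ρ = l) (hd : Module.finrank E K = r)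
    (hρ : star ρ * ρ = 1) :
      ∃ (m : ℕ) (E' : Type) (i : CommRing E') (s : StarRing E') (φ : Matrix (Fin m) (Fin m) E' →+* Matrix ι ι E),
        Good E' i s ∧ Fintype.card ι = r * m ∧ r ∣ m ∧ Function.Injective φ ∧ (∀ a, φ (star a) = star (φ a)) ∧
        (∀ b, b ∈ Set.range φ ↔ b * mt x = mt x * b) ∧ (∀ u : SU (Fin m) E', (φ (mt u)).det = 1) ∧
        (∀ p : ℕ, CharP E p → CharP E' p) := by
  have hfstar : ∀ k, f (star k) = star (f k) := by
    intro k
    have hk : k ∈ Algebra.adjoin E {ρ} := by rw [hgen]; trivial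
    induction hk using Algebra.adjoin_induction with
    | mem y hy =>
      rw [Set.mem_singleton_iff.1 hy, hfρ]
      have h1 : f (star ρ) * mt x = 1 := by rw [← hfρ, ← map_mul, hρ, map_one]
      calc f (star ρ) = f (star ρ) * (mt x * star (mt x)) := by rw [mt_mul_star, mul_one]
        _ = star (mt x) := by rw [← mul_assoc, h1, one_mul]
    | algebraMap e =>
      rw [hs, AlgHom.commutes, AlgHom.commutes, Matrix.algebraMap_eq_diagonal, Matrix.algebraMap_eq_diagonal,
        Matrix.star_eq_conjTranspose, Matrix.diagonal_conjTranspose]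
      rfl
    | add a b _ _ ha hb => rw [star_add, map_add, map_add, star_add, ha, hb]
    | mul a b _ _ ha hb => rw [star_mul, map_mul, map_mul, star_mul, ha, hb]
  obtain ⟨m, φ, h1, h2, h3, h4, h5, h6⟩ := core f hs hfstar hne
  refine ⟨m, K, inferInstance, inferInstance, φ, Good.uni K _ _ inferInstance ?_, ?_, ?_, h2, h3, ?_, ?_, ?_⟩
  · obtain ⟨e, he⟩ := hne
    refine ⟨algebraMap E K e, fun h => he ?_⟩
    rw [hs] at h
    exact (algebraMap E K).injective h
  · rw [h1, hd]
  · by_contra hrm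
    have hcop : Nat.Coprime r m := (Nat.Prime.coprime_iff_not_dvd hr).2 hrm
    have h7 : l ^ m = 1 := by
      have h8 := h5 (ρ • (1 : Matrix (Fin m) (Fin m) K))
      rw [h6, hfρ, mt_det, Matrix.det_smul, Matrix.det_one, mul_one, Fintype.card_fin, map_pow, hN] at h8
      exact h8.symm
    by_cases hm1 : m ≤ 1
    · have hm0 : m ≠ 0 := by
        rintro rfl
        exact hrm (dvd_zero r)
      have hm2 : m = 1 := by omega
      rw [hm2, pow_one] at h7
      exact hlr 1 (by rw [star_one, one_mul]) (by rw [one_pow, h7])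
    · obtain ⟨a, -, ha⟩ := Nat.exists_mul_mod_eq_one_of_coprime hcop (by omega)
      refine hlr (l ^ a) (by rw [star_pow, ← mul_pow, hl, one_pow]) ?_
      rw [← pow_mul, mul_comm a r]
      have h8 := Nat.div_add_mod (r * a) m
      rw [ha] at h8
      rw [← h8, pow_add, pow_mul, h7, one_pow, one_mul, pow_one]
  · intro b
    rw [h4]
    constructor
    · intro h
      have := h ρ
      rwa [hfρ] at this
    · intro h k
      have hk : k ∈ Algebra.adjoin E {ρ} := by rw [hgen]; trivial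
      induction hk using Algebra.adjoin_induction with
      | mem y hy => rw [Set.mem_singleton_iff.1 hy, hfρ, h]
      | algebraMap e => rw [AlgHom.commutes]; exact (Algebra.commutes e b).symm
      | add a b _ _ ha hb => rw [map_add, mul_add, add_mul, ha, hb]
      | mul a b _ _ ha hb => rw [map_mul, ← mul_assoc, ha, mul_assoc, hb, mul_assoc]
  · intro u
    rw [h5, mt_det, map_one]
  · intro p hp
    exact charP_of_injective_algebraMap (algebraMap E K).injective p

end abs

/-- **EX-uni** -/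
theorem ex_uni (E : Type) [Field E] [Finite E] [StarRing E] (hs : ∃ a : E, star a ≠ a) : EXSt E := by
  intro ι _ _ r hr hr2 _ x l hl hx hlr
  have hodd : Odd r := hr.odd_of_ne_two hr2
  set P : E[X] := X ^ r - C l with hP
  have hirr : Irreducible P := X_pow_sub_C_irreducible_of_prime hr (not_pow hodd hl hlr)
  have hmon : P.Monic := monic_X_pow_sub_C l hr.ne_zero
  have hfact : Fact (Irreducible P) := ⟨hirr⟩
  have hfin : Module.Finite E (AdjoinRoot P) := hmon.finite_adjoinRoot
  have hfinK : Finite (AdjoinRoot P) := Module.finite_of_finite E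
  have hev : ∀ {S : Type} [CommRing S] (i : E →+* S) (y : S), eval₂ i y P = y ^ r - i l := by
    intro S _ i y
    rw [hP, eval₂_sub, eval₂_X_pow, eval₂_C]
  have hroot : AdjoinRoot.root P ^ r = AdjoinRoot.of P l := by
    have h1 := AdjoinRoot.eval₂_root P
    rw [hev] at h1
    exact sub_eq_zero.1 h1
  have hroot0 : AdjoinRoot.root P ≠ 0 := by
    intro h0
    rw [h0, zero_pow hr.ne_zero] at hroot
    have h1 : l = 0 := (AdjoinRoot.of P).injective (by rw [← hroot, map_zero])
    rw [h1, mul_zero] at hl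
    exact zero_ne_one hl
  let σ : AdjoinRoot P →+* AdjoinRoot P := AdjoinRoot.lift ((AdjoinRoot.of P).comp (starRingEnd E))
    (AdjoinRoot.root P)⁻¹ (by
      rw [hev, inv_pow, hroot, sub_eq_zero]
      apply inv_eq_of_mul_eq_one_left
      rw [RingHom.comp_apply, ← map_mul]
      show AdjoinRoot.of P (star l * l) = 1
      rw [hl, map_one])
  have hσof : ∀ e : E, σ (AdjoinRoot.of P e) = AdjoinRoot.of P (star e) := fun e => AdjoinRoot.lift_of _
  have hσroot : σ (AdjoinRoot.root P) = (AdjoinRoot.root P)⁻¹ := AdjoinRoot.lift_root _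
  have hσσ : ∀ k, σ (σ k) = k := by
    have h1 : σ.comp σ = RingHom.id _ := AdjoinRoot.ringHom_ext (by
      ext e
      rw [RingHom.comp_apply, RingHom.comp_apply, hσof, hσof, star_star]
      rfl) (by
      rw [RingHom.comp_apply, hσroot, map_inv₀, hσroot, inv_inv]
      rfl)
    exact fun k => congrArg (fun g : AdjoinRoot P →+* AdjoinRoot P => g k) h1
  let _ : StarRing (AdjoinRoot P) := 
    { star := σ
      star_involutive := hσσ
      star_mul := fun a b => by
        show σ (a * b) = σ b * σ a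
        rw [map_mul, mul_comm]
      star_add := fun a b => map_add σ a b }
  have hstar : ∀ k : AdjoinRoot P, star k = σ k := fun _ => rfl
  let g : E[X] →ₐ[E] Matrix ι ι E := aeval (mt x)
  have hg : g P = 0 := by
    show aeval (mt x) P = 0
    rw [hP, map_sub, aeval_X_pow, aeval_C, hx, Algebra.algebraMap_eq_smul_one, sub_self]
  let f : AdjoinRoot P →ₐ[E] Matrix ι ι E := Ideal.Quotient.liftₐ (Ideal.span {P}) g (by
    intro a ha
    obtain ⟨b, rfl⟩ := Ideal.mem_span_singleton.1 ha
    rw [map_mul, hg, zero_mul])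
  have hf : f (AdjoinRoot.root P) = mt x := by
    show g X = mt x
    exact aeval_X _
  refine abs_uni (K := AdjoinRoot P) ?_ hs hr hl hlr f hf (AdjoinRoot.adjoinRoot_eq_top) ?_ ?_ ?_
  · intro e
    rw [hstar]
    exact hσof e
  · have h1 := Algebra.PowerBasis.norm_gen_eq_coeff_zero_minpoly (AdjoinRoot.powerBasis hirr.ne_zero)
    rw [AdjoinRoot.powerBasis_gen, AdjoinRoot.minpoly_root hirr.ne_zero, AdjoinRoot.powerBasis_dim, hmon.leadingCoeff,
      inv_one, C_1, mul_one] at h1
    rw [h1, hP, natDegree_X_pow_sub_C, coeff_sub, coeff_X_pow, if_neg hr.ne_zero.symm, coeff_C_zero, zero_sub,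
      hodd.neg_one_pow, neg_one_mul, neg_neg]
  · rw [(AdjoinRoot.powerBasis hirr.ne_zero).finrank, AdjoinRoot.powerBasis_dim, hP, natDegree_X_pow_sub_C]
  · rw [hstar, hσroot, inv_mul_cancel₀ hroot0]

end Cfsg.Agent.H261.CA
end

-- part: H35/CA/Det_mg
section
prune_inst 0x211000005520120020008500b0200000780004220040040044210b020b482040048288400d8004175222088100050008125c00000000000000000400000501000080000880090100820008000100000000000000000000000000000000010000000000000
set_option linter.all false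
open scoped Cfsg.Agent.FastGrp

-- part: H35/CA/Det
section
/-!
# S3852, type A block, (DET) (helper35)

Ring homomorphisms of matrix rings over finite fields and the determinant.
-/

set_option autoImplicit false

namespace Cfsg.Agent.H35.CA

open Matrix Cfsg.Agent.H308.CA

section

variable {F : Type} [Field F] [Finite F] {ι : Type} [Fintype ι] [DecidableEq ι] [Nonempty ι]

omit [Finite F] in
theorem scalar_of_central {a : Matrix ι ι F} (h : ∀ b, a * b = b * a) : ∃ c : F, a = Matrix.scalar ι c := by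
  have h1 : a ∈ Set.center (Matrix ι ι F) := by
    rw [Semigroup.mem_center_iff]
    intro b
    exact (h b).symm
  rw [Matrix.center_eq_range] at h1
  obtain ⟨c, hc⟩ := h1
  exact ⟨c, hc.symm⟩

/-- the determinant of the image under a ring endomorphism -/
theorem exists_det (ψ : Matrix ι ι F →+* Matrix ι ι F) : ∃ σ : F →+* F, ∀ a, (ψ a).det = σ a.det := by
  classical
  have hinj : Function.Injective ψ := RingHom.injective ψ
  have hbij : Function.Bijective ψ := Finite.injective_iff_bijective.1 hinj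
  obtain ⟨i0⟩ := ‹Nonempty ι›
  have hs : ∀ c : F, ψ (Matrix.scalar ι c) = Matrix.scalar ι (ψ (Matrix.scalar ι c) i0 i0) := by
    intro c
    obtain ⟨d, hd⟩ := scalar_of_central (a := ψ (Matrix.scalar ι c)) (fun b => by
      obtain ⟨b', rfl⟩ := hbij.2 b
      rw [← map_mul, ← map_mul, (Matrix.scalar_commute c (fun r => Commute.all c r) b').eq])
    rw [hd]
    congr 1
    simp
  let σ : F →+* F :=
    { toFun := fun c => ψ (Matrix.scalar ι c) i0 i0
      map_one' := by simp
      map_mul' := fun x y => by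
        rw [map_mul, map_mul, hs x, hs y]
        simp
      map_zero' := by simp
      map_add' := fun x y => by
        rw [map_add, map_add]
        simp }
  have hσ : ∀ c, ψ (Matrix.scalar ι c) = Matrix.scalar ι (σ c) := hs
  let τ : F ≃+* F := RingEquiv.ofBijective σ (Finite.injective_iff_bijective.1 σ.injective)
  have hτ : ∀ c, τ c = σ c := fun c => rfl
  let Ψ : Matrix ι ι F ≃+* Matrix ι ι F := (RingEquiv.ofBijective ψ hbij).trans τ.symm.mapMatrix
  have hΨ : ∀ a, Ψ a = (ψ a).map τ.symm := fun a => rfl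
  let f : Matrix ι ι F ≃ₐ[F] Matrix ι ι F := AlgEquiv.ofRingEquiv (f := Ψ) (by
    intro c
    have h1 : (algebraMap F (Matrix ι ι F)) c = Matrix.scalar ι c := rfl
    rw [h1, hΨ, hσ, ← hτ]
    ext i j
    by_cases hij : i = j
    · subst hij; simp
    · simp [hij])
  let g : Module.End F (ι → F) ≃ₐ[F] Module.End F (ι → F) :=
    Matrix.toLinAlgEquiv'.symm.trans (f.trans Matrix.toLinAlgEquiv')
  obtain ⟨T, hT⟩ := AlgEquiv.eq_linearEquivConjAlgEquiv g
  refine ⟨σ, fun a => ?_⟩
  have h1 : g (Matrix.toLin' a) = Matrix.toLin' (f a) := by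
    show Matrix.toLinAlgEquiv' (f (Matrix.toLinAlgEquiv'.symm (Matrix.toLin' a))) = _
    have : Matrix.toLinAlgEquiv'.symm (Matrix.toLin' a) = a := Matrix.toLinAlgEquiv'.symm_apply_apply a
    rw [this]
    rfl
  have h2 : Matrix.toLin' (f a) = (T : (ι → F) →ₗ[F] (ι → F)) ∘ₗ Matrix.toLin' a ∘ₗ (T.symm : (ι → F) →ₗ[F] (ι → F)) := by
    rw [← h1, hT]
    rfl
  have h3 : (f a).det = a.det := by
    rw [← LinearMap.det_toLin', h2, LinearMap.det_conj, LinearMap.det_toLin']
  have h4 : (f a).det = τ.symm (ψ a).det := by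
    show ((ψ a).map τ.symm).det = _
    exact (RingEquiv.map_det τ.symm (ψ a)).symm
  rw [← hτ, ← h3, h4, RingEquiv.apply_symm_apply]

/-- the first and the second component -/
def fstR (F : Type) [Field F] : Ex F →+* F := RingHom.fst F F

def sndR (F : Type) [Field F] : Ex F →+* F := RingHom.snd F F

/-- the diagonal embedding -/
def dia (F : Type) [Field F] : F →+* Ex F := (RingHom.id F).prod (RingHom.id F)

theorem det_of_surj (ψ : Matrix ι ι (Ex F) →+* Matrix ι ι F) (hψ : Function.Surjective ψ) (a : Matrix ι ι (Ex F))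
    (ha : a.det = 1) : (ψ a).det = 1 := by
  classical
  let e1 : Ex F := ((1, 0) : F × F)
  let e2 : Ex F := ((0, 1) : F × F)
  have he11 : e1 * e1 = e1 := by
    show ((1 * 1, 0 * 0) : F × F) = (1, 0)
    rw [mul_one, mul_zero]
  have he12 : e1 + e2 = 1 := by
    show ((1 + 0, 0 + 1) : F × F) = (1, 1)
    rw [add_zero, zero_add]
  have hsc : ∀ (c : Ex F) (b : Matrix ι ι (Ex F)), Matrix.scalar ι c * b = b * Matrix.scalar ι c := fun c b =>
    (Matrix.scalar_commute c (fun r => Commute.all c r) b).eq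
  -- the image of `e1`
  obtain ⟨d, hd⟩ := scalar_of_central (a := ψ (Matrix.scalar ι e1)) (fun b => by
    obtain ⟨b', rfl⟩ := hψ b
    rw [← map_mul, ← map_mul, hsc])
  have hdd : d * d = d := by
    have h1 : ψ (Matrix.scalar ι e1) * ψ (Matrix.scalar ι e1) = ψ (Matrix.scalar ι e1) := by
      rw [← map_mul, ← map_mul, he11]
    rw [hd, ← map_mul] at h1
    exact Matrix.scalar_inj.1 h1
  -- the two cases
  have key : ∀ (c : Ex F) (π : Ex F →+* F), (∀ x : Ex F, c * x = c * dia F (π x)) → ψ (Matrix.scalar ι c) = 1 →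
      (ψ a).det = 1 := by
    intro c π hc h1
    obtain ⟨σ, hσ⟩ := exists_det (ψ.comp (dia F).mapMatrix : Matrix ι ι F →+* Matrix ι ι F)
    have h2 : Matrix.scalar ι c * a = Matrix.scalar ι c * (dia F).mapMatrix (π.mapMatrix a) := by
      ext i j : 2
      rw [Matrix.scalar_apply, Matrix.diagonal_mul, Matrix.diagonal_mul]
      exact hc (a i j)
    have h3 : ψ a = (ψ.comp (dia F).mapMatrix) (π.mapMatrix a) := by
      calc ψ a = ψ (Matrix.scalar ι c) * ψ a := by rw [h1, one_mul]
        _ = ψ (Matrix.scalar ι c * (dia F).mapMatrix (π.mapMatrix a)) := by rw [← map_mul, h2]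
        _ = ψ ((dia F).mapMatrix (π.mapMatrix a)) := by rw [map_mul, h1, one_mul]
        _ = _ := rfl
    rw [h3, hσ, ← RingHom.map_det, ha, map_one, map_one]
  have h0 : d = 0 ∨ d = 1 := by
    have : d * (d - 1) = 0 := by rw [mul_sub, hdd, mul_one, sub_self]
    rcases mul_eq_zero.1 this with h | h
    · exact Or.inl h
    · exact Or.inr (sub_eq_zero.1 h)
  rcases h0 with h0 | h0
  · refine key e2 (sndR F) (fun x => ?_) ?_
    · show ((0 * x.1, 1 * x.2) : F × F) = (0 * x.2, 1 * x.2)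
      rw [zero_mul, zero_mul]
    · have h1 : ψ (Matrix.scalar ι (e1 + e2)) = 1 := by rw [he12, map_one, map_one]
      rw [map_add, map_add, hd, h0, map_zero, zero_add] at h1
      exact h1
  · refine key e1 (fstR F) (fun x => ?_) ?_
    · show ((1 * x.1, 0 * x.2) : F × F) = (1 * x.1, 0 * x.1)
      rw [zero_mul, zero_mul]
    · rw [hd, h0, map_one]

theorem map_surj {R S : Type} [CommRing R] [CommRing S] (f : R →+* S) (hf : Function.Surjective f) :
    Function.Surjective (f.mapMatrix : Matrix ι ι R →+* Matrix ι ι S) := by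
  intro a
  choose g hg using hf
  exact ⟨a.map g, by ext i j; exact hg _⟩

end

/-- **(DET)** -/
theorem det_st {E : Type} [CommRing E] [StarRing E] (h : Gd E) : DetSt E := by
  intro ι _ _ θ _ u
  rcases isEmpty_or_nonempty ι with hι | hι
  · exact Matrix.det_isEmpty
  cases h with
  | lin F i _ =>
    have hd : (_root_.Cfsg.Agent.H308.CA.mt u).det = 1 := mt_det u
    have h1 := det_of_surj ((fstR F).mapMatrix.comp (θ : Matrix ι ι (Ex F) →+* Matrix ι ι (Ex F)))
      ((map_surj (fstR F) Prod.fst_surjective).comp θ.surjective) (_root_.Cfsg.Agent.H308.CA.mt u) hd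
    have h2 := det_of_surj ((sndR F).mapMatrix.comp (θ : Matrix ι ι (Ex F) →+* Matrix ι ι (Ex F)))
      ((map_surj (sndR F) Prod.snd_surjective).comp θ.surjective) (_root_.Cfsg.Agent.H308.CA.mt u) hd
    have h3 : (fstR F) (θ (_root_.Cfsg.Agent.H308.CA.mt u)).det = 1 := by
      rw [RingHom.map_det]
      exact h1
    have h4 : (sndR F) (θ (_root_.Cfsg.Agent.H308.CA.mt u)).det = 1 := by
      rw [RingHom.map_det]
      exact h2
    exact Prod.ext h3 h4
  | uni F i s _ hs =>
    obtain ⟨σ, hσ⟩ := exists_det (θ : Matrix ι ι E →+* Matrix ι ι E)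
    have h1 := hσ (_root_.Cfsg.Agent.H308.CA.mt u)
    rw [mt_det, map_one] at h1
    exact h1

end Cfsg.Agent.H35.CA
end

-- part: H55/CA/TwoLin
section
/-!
# S3852, CA6: `two_lin` (helper55)

* `finrank_irr` : an irreducible module of a finite `2`-group has dimension a power of `2` (any field);
* `exists_decomp` : decomposition into orthogonal idempotents commuting with the group;
* `two_lin` : `TwoSt (Ex F)`.
-/

set_option autoImplicit false
set_option linter.unusedSectionVars false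

namespace Cfsg.Agent.H55.CA

open Module Cfsg.Agent.H308.CA

section rep

variable {F : Type*} [Field F] {V : Type*} [AddCommGroup V] [Module F V] {G : Type*} [Group G]
  (φ : G →* (V →ₗ[F] V))

/-- invariance under a subgroup -/
def InvS (H : Subgroup G) (W : Submodule F V) : Prop := ∀ a ∈ H, ∀ w ∈ W, φ a w ∈ W

/-- irreducible subspaces for a subgroup -/
def IrrS (H : Subgroup G) (W : Submodule F V) : Prop :=
  InvS φ H W ∧ W ≠ ⊥ ∧ ∀ U ≤ W, InvS φ H U → U = ⊥ ∨ U = W

variable {φ}

theorem exists_irr [FiniteDimensional F V] {H : Subgroup G} {W : Submodule F V} (hW : InvS φ H W) (h0 : W ≠ ⊥) :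
    ∃ U ≤ W, IrrS φ H U := by
  classical
  have hex : ∃ n, ∃ U ≤ W, InvS φ H U ∧ U ≠ ⊥ ∧ finrank F U = n := ⟨_, W, le_rfl, hW, h0, rfl⟩
  obtain ⟨U, hUW, hU, hU0, hUn⟩ := Nat.find_spec hex
  refine ⟨U, hUW, hU, hU0, fun U' hU' hI => ?_⟩
  by_cases h : U' = ⊥
  · exact Or.inl h
  · refine Or.inr (Submodule.eq_of_le_of_finrank_le hU' ?_)
    rw [hUn]
    exact Nat.find_min' hex ⟨U', hU'.trans hUW, hI, h, rfl⟩

theorem mul_ap (a b : G) (v : V) : φ (a * b) v = φ a (φ b v) := by
  rw [map_mul]; rfl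

theorem one_ap (v : V) : φ 1 v = v := by
  rw [map_one]; rfl

theorem inj_ap (a : G) : Function.Injective (φ a) := by
  intro v w h
  have h1 := congrArg (φ a⁻¹) h
  rwa [← mul_ap, ← mul_ap, inv_mul_cancel, one_ap, one_ap] at h1

/-- an irreducible module of a finite `2`-group has dimension a power of `2` -/
theorem finrank_irr [FiniteDimensional F V] [Finite G] (hG : IsPGroup 2 G) (k : ℕ) :
    ∀ H : Subgroup G, Nat.card H = 2 ^ k → ∀ W : Submodule F V, IrrS φ H W → ∃ a : ℕ, finrank F W = 2 ^ a := by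
  classical
  induction k with
  | zero =>
    intro H hH W hW
    rw [pow_zero, Subgroup.card_eq_one] at hH
    obtain ⟨w, hw, hw0⟩ := Submodule.exists_mem_ne_zero_of_ne_bot hW.2.1
    refine ⟨0, ?_⟩
    have h1 : InvS φ H (Submodule.span F {w}) := by
      intro a ha v hv
      rw [hH, Subgroup.mem_bot] at ha
      rw [ha, one_ap]
      exact hv
    have h2 : Submodule.span F {w} ≤ W := by
      rw [Submodule.span_singleton_le_iff_mem]
      exact hw
    rcases hW.2.2 _ h2 h1 with h | h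
    · exact absurd (Submodule.span_singleton_eq_bot.1 h) hw0
    · rw [← h, pow_zero]
      exact finrank_span_singleton hw0
  | succ k ih =>
    intro H hH W hW
    obtain ⟨K, hKH, hK⟩ := Sylow.exists_subgroup_le_card_pow_prime_of_le_card (n := k) (H := H) Nat.prime_two hG (by
      rw [hH]
      exact Nat.pow_le_pow_right (by norm_num) (Nat.le_succ k))
    have hidx' : (K.subgroupOf H).index = 2 := by
      have h1 := Subgroup.card_mul_index (K.subgroupOf H)
      rw [Nat.card_congr (Subgroup.subgroupOfEquivOfLe hKH).toEquiv, hK, hH, pow_succ] at h1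
      exact Nat.eq_of_mul_eq_mul_left (by positivity) h1
    -- elements outside
    have hne : ∃ t ∈ H, t ∉ K := by
      by_contra hcon
      push Not at hcon
      have h1 : K = H := le_antisymm hKH hcon
      rw [h1, hH] at hK
      exact absurd hK (Nat.pow_lt_pow_right (by norm_num) (Nat.lt_succ_self k)).ne'
    obtain ⟨t, htH, htK⟩ := hne
    have hmul : ∀ a ∈ H, ∀ b ∈ H, (a * b ∈ K ↔ (a ∈ K ↔ b ∈ K)) := by
      intro a ha b hb
      have h1 := Subgroup.mul_mem_iff_of_index_two hidx' (a := ⟨a, ha⟩) (b := ⟨b, hb⟩)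
      rw [Subgroup.mem_subgroupOf, Subgroup.mem_subgroupOf, Subgroup.mem_subgroupOf] at h1
      exact h1
    have hIK : InvS φ K W := fun a ha => hW.1 a (hKH ha)
    obtain ⟨U, hUW, hU⟩ := exists_irr hIK hW.2.1
    obtain ⟨a, ha⟩ := ih K hK U hU
    set U' := U.map (φ t) with hU'
    have hU'W : U' ≤ W := by
      rintro _ ⟨u, hu, rfl⟩
      exact hW.1 t htH u (hUW hu)
    -- `K` stabilises `U'`
    have hKU' : InvS φ K U' := by
      rintro b hb _ ⟨u, hu, rfl⟩
      have h1 : t⁻¹ * b * t ∈ K := by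
        have h3 : t⁻¹ ∉ K := fun h => htK (inv_mem_iff.1 h)
        have h2 : t⁻¹ * b ∉ K := by
          rw [hmul _ (inv_mem htH) _ (hKH hb)]
          (clear * - hb h3; tauto)
        rw [hmul _ (mul_mem (inv_mem htH) (hKH hb)) _ htH]
        (clear * - htK h2; tauto)
      refine ⟨φ (t⁻¹ * b * t) u, hU.1 _ h1 u hu, ?_⟩
      rw [← mul_ap, ← mul_ap]
      congr 2
      group
    have hsup : U ⊔ U' = W := by
      have h1 : InvS φ H (U ⊔ U') := by
        intro b hb v hv
        obtain ⟨u, hu, u', hu', rfl⟩ := Submodule.mem_sup.1 hv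
        rw [map_add]
        by_cases hbK : b ∈ K
        · exact Submodule.add_mem_sup (hU.1 b hbK u hu) (hKU' b hbK u' hu')
        · obtain ⟨w, hw, rfl⟩ := hu'
          rw [add_comm]
          refine Submodule.add_mem_sup ?_ ?_
          · rw [← mul_ap]
            refine hU.1 _ ?_ w hw
            rw [hmul _ hb _ htH]
            (clear * - htK hbK; tauto)
          · refine ⟨φ (t⁻¹ * b) u, hU.1 _ ?_ u hu, ?_⟩
            · have h3 : t⁻¹ ∉ K := fun h => htK (inv_mem_iff.1 h)
              rw [hmul _ (inv_mem htH) _ hb]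
              (clear * - hbK h3; tauto)
            · rw [← mul_ap, mul_inv_cancel_left]
      rcases hW.2.2 _ (sup_le hUW hU'W) h1 with h | h
      · exact absurd (eq_bot_iff.2 (le_sup_left.trans h.le)) hU.2.1
      · exact h
    have hfr : finrank F U' = finrank F U :=
      (Submodule.equivMapOfInjective (φ t) (inj_ap t) U).finrank_eq.symm
    rcases hU.2.2 (U ⊓ U') inf_le_left (fun b hb v hv => ⟨hU.1 b hb v hv.1, hKU' b hb v hv.2⟩) with h | h
    · refine ⟨a + 1, ?_⟩
      have h1 := Submodule.finrank_sup_add_finrank_inf_eq U U'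
      rw [h, hsup, finrank_bot, add_zero, hfr, ha] at h1
      rw [h1, pow_succ]
      ring
    · refine ⟨a, ?_⟩
      have h1 : U = U' := Submodule.eq_of_le_of_finrank_le (inf_eq_left.1 h) hfr.le
      rw [← hsup, ← h1, sup_idem, ha]

/-- Maschke: an equivariant projection -/
theorem exists_proj [Finite G] (hA : (Nat.card G : F) ≠ 0) (W : Submodule F V) (hW : InvS φ ⊤ W) :
    ∃ f : V →ₗ[F] V, (∀ v, f v ∈ W) ∧ (∀ w ∈ W, f w = w) ∧ ∀ g, φ g * f = f * φ g := by
  classical
  let _ : Fintype G := Fintype.ofFinite G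
  obtain ⟨W₁, hW₁⟩ := W.exists_isCompl
  let π : V →ₗ[F] V := W.subtype ∘ₗ W.projectionOnto W₁ hW₁
  have hπ : ∀ v, π v ∈ W := fun v => (W.projectionOnto W₁ hW₁ v).2
  have hπW : ∀ w ∈ W, π w = w := by
    intro w hw
    show ((W.projectionOnto W₁ hW₁ w : W) : V) = w
    rw [Submodule.projectionOnto_apply_left hW₁ ⟨w, hw⟩]
  let ρ : V →ₗ[F] V := ((Nat.card G : F)⁻¹) • ∑ a : G, (φ a ∘ₗ π ∘ₗ φ a⁻¹)
  have hρ : ∀ v, ρ v = ((Nat.card G : F)⁻¹) • ∑ a : G, φ a (π (φ a⁻¹ v)) := by
    intro v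
    simp only [ρ, _root_.Nat.card_eq_fintype_card, _root_.LinearMap.smul_apply, _root_.LinearMap.coe_sum, _root_.LinearMap.coe_comp, _root_.Finset.sum_apply, _root_.Function.comp_apply]
  refine ⟨ρ, fun v => ?_, fun w hw => ?_, fun b => ?_⟩
  · rw [hρ]
    exact W.smul_mem _ (W.sum_mem fun a _ => hW a trivial _ (hπ _))
  · rw [hρ]
    have h1 : ∀ a : G, φ a (π (φ a⁻¹ w)) = w := by
      intro a
      rw [hπW _ (hW _ trivial _ hw), ← mul_ap, mul_inv_cancel, one_ap]
    rw [Finset.sum_congr rfl fun a _ => h1 a, Finset.sum_const, Finset.card_univ, ← Nat.card_eq_fintype_card,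
      ← Nat.cast_smul_eq_nsmul F, smul_smul, inv_mul_cancel₀ hA, one_smul]
  · refine LinearMap.ext fun v => ?_
    show φ b (ρ v) = ρ (φ b v)
    rw [hρ, hρ, map_smul, map_sum]
    congr 1
    refine Fintype.sum_equiv (Equiv.mulLeft b) _ _ ?_
    intro a
    show φ b (φ a (π (φ a⁻¹ v))) = φ (b * a) (π (φ (b * a)⁻¹ (φ b v)))
    rw [mul_ap, ← mul_ap (b * a)⁻¹ b, mul_inv_rev, inv_mul_cancel_right]

/-- decomposition of `1` into idempotents of rank a power of `2` which commute with the `2`-group -/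
theorem exists_decomp [FiniteDimensional F V] [Finite G] (h2 : IsPGroup 2 G) (hF : (2 : F) ≠ 0) (n : ℕ) :
    ∀ p : V →ₗ[F] V, p * p = p → (∀ g, φ g * p = p * φ g) → finrank F (LinearMap.range p) = n →
    ∃ (m : ℕ) (e : Fin m → (V →ₗ[F] V)), (∀ i, e i * e i = e i) ∧ (∀ i j, i ≠ j → e i * e j = 0) ∧ ∑ i, e i = p ∧
      (∀ i g, φ g * e i = e i * φ g) ∧ ∀ i, ∃ a : ℕ, finrank F (LinearMap.range (e i)) = 2 ^ a := by
  classical
  obtain ⟨k, hk⟩ := IsPGroup.iff_card.1 h2
  have hA : (Nat.card G : F) ≠ 0 := by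
    rw [hk]
    push_cast
    exact pow_ne_zero _ hF
  have hkt : Nat.card (⊤ : Subgroup G) = 2 ^ k := by rw [Subgroup.card_top, hk]
  induction n using Nat.strong_induction_on with
  | _ n ih =>
    intro p hp hpφ hn
    by_cases h0 : LinearMap.range p = ⊥
    · refine ⟨0, fun i => i.elim0, fun i => i.elim0, fun i => i.elim0, ?_, fun i => i.elim0, fun i => i.elim0⟩
      rw [LinearMap.range_eq_bot] at h0
      rw [h0]
      rfl
    · have hI : InvS φ ⊤ (LinearMap.range p) := by
        rintro g - _ ⟨v, rfl⟩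
        exact ⟨φ g v, (LinearMap.congr_fun (hpφ g) v).symm⟩
      obtain ⟨U, hUp, hU⟩ := exists_irr hI h0
      obtain ⟨f, hf1, hf2, hf3⟩ := exists_proj hA U hU.1
      have hpf : p * f = f := by
        refine LinearMap.ext fun v => ?_
        obtain ⟨w, hw⟩ := hUp (hf1 v)
        show p (f v) = f v
        rw [← hw]
        exact LinearMap.congr_fun hp w
      have hff : f * f = f := LinearMap.ext fun v => hf2 _ (hf1 v)
      -- the new idempotent
      have he1 : (f * p) * (f * p) = f * p := by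
        calc (f * p) * (f * p) = f * (p * f) * p := by simp only [mul_assoc]
          _ = f * p := by rw [hpf, hff]
      have hpe : p * (f * p) = f * p := by rw [← mul_assoc, hpf]
      have hep : (f * p) * p = f * p := by rw [mul_assoc, hp]
      have hq : (p - f * p) * (p - f * p) = p - f * p := by
        rw [sub_mul, mul_sub, mul_sub, hp, hpe, hep, he1, sub_self, sub_zero]
      have hr : LinearMap.range (f * p) = U := by
        apply le_antisymm
        · rintro _ ⟨v, rfl⟩
          exact hf1 _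
        · intro u hu
          obtain ⟨w, hw⟩ := hUp hu
          refine ⟨u, ?_⟩
          show f (p u) = u
          have h1 : p u = u := by
            rw [← hw]
            exact LinearMap.congr_fun hp w
          rw [h1, hf2 u hu]
      have heφ : ∀ g, φ g * (f * p) = (f * p) * φ g := by
        intro g
        rw [← mul_assoc, hf3, mul_assoc, hpφ, mul_assoc]
      have hqφ : ∀ g, φ g * (p - f * p) = (p - f * p) * φ g := by
        intro g
        rw [mul_sub, sub_mul, heφ, hpφ]
      have hlt : finrank F (LinearMap.range (p - f * p)) < n := by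
        rw [← hn]
        apply Submodule.finrank_lt_finrank_of_lt
        rw [lt_iff_le_and_ne]
        constructor
        · rintro _ ⟨v, rfl⟩
          refine ⟨(p - f * p) v, ?_⟩
          have h1 : p * (p - f * p) = p - f * p := by rw [mul_sub, hp, hpe]
          exact LinearMap.congr_fun h1 v
        · intro h
          obtain ⟨u, hu, hu0⟩ := Submodule.exists_mem_ne_zero_of_ne_bot hU.2.1
          have h1 : u ∈ LinearMap.range (p - f * p) := by rw [h]; exact hUp hu
          obtain ⟨v, hv⟩ := h1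
          have h2 : (f * p) u = u := by
            have h3 : u ∈ LinearMap.range (f * p) := by rw [hr]; exact hu
            obtain ⟨w, hw⟩ := h3
            rw [← hw]
            exact LinearMap.congr_fun he1 w
          apply hu0
          rw [← h2, ← hv]
          have h3 : (f * p) * (p - f * p) = 0 := by rw [mul_sub, hep, he1, sub_self]
          exact LinearMap.congr_fun h3 v
      obtain ⟨m, e, h1, h2', h3, h4, h5⟩ := ih _ hlt (p - f * p) hq hqφ rfl
      have hei : ∀ i, e i * (p - f * p) = e i := by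
        intro i
        rw [← h3, Finset.mul_sum, Finset.sum_eq_single i (fun j _ hj => h2' i j (Ne.symm hj))
          (fun h => absurd (Finset.mem_univ i) h), h1]
      have hei' : ∀ i, (p - f * p) * e i = e i := by
        intro i
        rw [← h3, Finset.sum_mul, Finset.sum_eq_single i (fun j _ hj => h2' j i hj)
          (fun h => absurd (Finset.mem_univ i) h), h1]
      have ho1 : ∀ i, e i * (f * p) = 0 := by
        intro i
        rw [← hei i, mul_assoc, sub_mul, hpe, he1, sub_self, mul_zero]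
      have ho2 : ∀ i, (f * p) * e i = 0 := by
        intro i
        rw [← hei' i, ← mul_assoc, mul_sub, hep, he1, sub_self, zero_mul]
      refine ⟨m + 1, Fin.cons (f * p) e, ?_, ?_, ?_, ?_, ?_⟩
      · intro i
        refine Fin.cases ?_ (fun i => ?_) i
        · rw [Fin.cons_zero]; exact he1
        · rw [Fin.cons_succ]; exact h1 i
      · intro i j
        refine Fin.cases ?_ (fun i => ?_) i
        · refine Fin.cases (fun h => absurd rfl h) (fun j => ?_) j
          intro _
          rw [Fin.cons_zero, Fin.cons_succ]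
          exact ho2 j
        · refine Fin.cases ?_ (fun j => ?_) j
          · intro _
            rw [Fin.cons_zero, Fin.cons_succ]
            exact ho1 i
          · intro hij
            rw [Fin.cons_succ, Fin.cons_succ]
            exact h2' i j (fun h => hij (congrArg Fin.succ h))
      · rw [Fin.sum_univ_succ, Fin.cons_zero]
        simp only [Fin.cons_succ]
        rw [h3]
        abel
      · intro i
        refine Fin.cases ?_ (fun i => ?_) i
        · rw [Fin.cons_zero]; exact heφ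
        · rw [Fin.cons_succ]; exact h4 i
      · intro i
        refine Fin.cases ?_ (fun i => ?_) i
        · rw [Fin.cons_zero, hr]
          exact finrank_irr h2 k ⊤ hkt U hU
        · rw [Fin.cons_succ]; exact h5 i

end rep

section mat

open Matrix

variable {F : Type} [Field F] {ι : Type} [Fintype ι] [DecidableEq ι]

/-- the first projection -/
def fstH (F : Type) [Field F] : Ex F →+* F := (RingHom.fst F F : F × F →+* F)

/-- the second projection -/
def sndH (F : Type) [Field F] : Ex F →+* F := (RingHom.snd F F : F × F →+* F)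

theorem ex_ext {a b : Ex F} (h1 : fstH F a = fstH F b) (h2 : sndH F a = sndH F b) : a = b := Prod.ext h1 h2

theorem mat_ext {M N : Matrix ι ι (Ex F)} (h1 : M.map (fstH F) = N.map (fstH F))
    (h2 : M.map (sndH F) = N.map (sndH F)) : M = N := by
  ext i j
  exact ex_ext (congrFun (congrFun h1 i) j) (congrFun (congrFun h2 i) j)

/-- a matrix from its components -/
def pr (A B : Matrix ι ι F) : Matrix ι ι (Ex F) := fun i j => ((A i j, B i j) : F × F)

theorem pr_mul (A B A' B' : Matrix ι ι F) : pr A B * pr A' B' = pr (A * A') (B * B') := by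
  apply mat_ext
  · rw [Matrix.map_mul]; rfl
  · rw [Matrix.map_mul]; rfl

theorem star_pr (A B : Matrix ι ι F) : star (pr A B) = pr Bᵀ Aᵀ := rfl

theorem pr_zero : pr (0 : Matrix ι ι F) 0 = 0 := rfl

theorem pr_one : pr (1 : Matrix ι ι F) 1 = 1 := by
  apply mat_ext
  · rw [Matrix.map_one _ (map_zero _) (map_one _)]; rfl
  · rw [Matrix.map_one _ (map_zero _) (map_one _)]; rfl

theorem pr_sum {κ : Type*} (s : Finset κ) (A B : κ → Matrix ι ι F) :
    ∑ i ∈ s, pr (A i) (B i) = pr (∑ i ∈ s, A i) (∑ i ∈ s, B i) := by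
  classical
  induction s using Finset.induction_on with
  | empty => rw [Finset.sum_empty, Finset.sum_empty, Finset.sum_empty, pr_zero]
  | insert i s hi ih =>
    rw [Finset.sum_insert hi, Finset.sum_insert hi, Finset.sum_insert hi, ih]
    rfl

theorem card_fix [Finite F] {a : Matrix ι ι F} (ha : a * a = a) :
    Nat.card {v : ι → F // a *ᵥ v = v} = Nat.card F ^ a.rank := by
  have e : {v : ι → F // a *ᵥ v = v} ≃ LinearMap.range a.mulVecLin :=
    Equiv.subtypeEquivRight fun v => by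
      rw [LinearMap.mem_range]
      constructor
      · intro h
        exact ⟨v, h⟩
      · rintro ⟨w, rfl⟩
        rw [Matrix.mulVecLin_apply, Matrix.mulVec_mulVec, ha]
  rw [Nat.card_congr e, Module.natCard_eq_pow_finrank (K := F)]
  rfl

/-- a vector from its components -/
def vp (v w : ι → F) : ι → Ex F := fun i => ((v i, w i) : F × F)

/-- the fixed vectors of a matrix over `Ex F` -/
def fixEquiv (A B : Matrix ι ι F) :
    {v : ι → Ex F // pr A B *ᵥ v = v} ≃ {v : ι → F // A *ᵥ v = v} × {v : ι → F // B *ᵥ v = v} where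
  toFun v := (⟨fun i => fstH F (v.1 i), by
      funext i
      have h1 := congrArg (fstH F) (congrFun v.2 i)
      rw [RingHom.map_mulVec] at h1
      exact h1⟩, ⟨fun i => sndH F (v.1 i), by
      funext i
      have h1 := congrArg (sndH F) (congrFun v.2 i)
      rw [RingHom.map_mulVec] at h1
      exact h1⟩)
  invFun p := ⟨vp p.1.1 p.2.1, by
    funext i
    apply ex_ext
    · exact (RingHom.map_mulVec (fstH F) (pr A B) (vp p.1.1 p.2.1) i).trans (congrFun p.1.2 i)
    · exact (RingHom.map_mulVec (sndH F) (pr A B) (vp p.1.1 p.2.1) i).trans (congrFun p.2.2 i)⟩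
  left_inv v := rfl
  right_inv p := rfl

theorem rk_pr [Finite F] {a : Matrix ι ι F} (ha : a * a = a) : rk (pr a aᵀ) = a.rank := by
  have hat : aᵀ * aᵀ = aᵀ := by rw [← Matrix.transpose_mul, ha]
  have h1 : Nat.card (Ex F) = Nat.card F * Nat.card F := Nat.card_prod F F
  unfold rk
  rw [Nat.card_congr (fixEquiv a aᵀ), Nat.card_prod, card_fix ha, card_fix hat, Matrix.rank_transpose, h1, ← mul_pow]
  refine Nat.log_pow ?_ _
  have h2 : 1 < Nat.card F := Finite.one_lt_card
  nlinarith only [h2]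

/-- **CA6** -/
theorem two_lin (F : Type) [Field F] [Finite F] : TwoSt (Ex F) := by
  intro h2 ι _ _ T hT
  classical
  have hF2 : (2 : F) ≠ 0 := by
    have h3 := h2.map (fstH F)
    rw [map_ofNat] at h3
    exact h3.ne_zero
  have hfin : Finite (SU ι (Ex F)) := Finite.of_injective mt mt_injective
  let φ : T →* ((ι → F) →ₗ[F] (ι → F)) :=
    { toFun := fun t => Matrix.toLin' ((_root_.Cfsg.Agent.H308.CA.mt (t : SU ι (Ex F))).map (fstH F))
      map_one' := by
        rw [Subgroup.coe_one, map_one, Matrix.map_one _ (map_zero _) (map_one _), Matrix.toLin'_one]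
        rfl
      map_mul' := fun s t => by
        rw [Subgroup.coe_mul, map_mul, Matrix.map_mul, Matrix.toLin'_mul]
        rfl }
  obtain ⟨m, e, h1, h3, h4, h5, h6⟩ := exists_decomp (φ := φ) hT hF2 _ 1 (one_mul 1) (fun g => by rw [mul_one, one_mul])
    rfl
  let a : Fin m → Matrix ι ι F := fun i => LinearMap.toMatrix' (e i)
  have ha1 : ∀ i, a i * a i = a i := by
    intro i
    show LinearMap.toMatrix' (e i) * LinearMap.toMatrix' (e i) = LinearMap.toMatrix' (e i)
    rw [← LinearMap.toMatrix'_mul, h1]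
  have ha3 : ∀ i j, i ≠ j → a i * a j = 0 := by
    intro i j hij
    show LinearMap.toMatrix' (e i) * LinearMap.toMatrix' (e j) = 0
    rw [← LinearMap.toMatrix'_mul, h3 i j hij, map_zero]
  have ha4 : ∑ i, a i = 1 := by
    show ∑ i, LinearMap.toMatrix' (e i) = 1
    rw [← map_sum, h4]
    exact LinearMap.toMatrix'_one
  refine ⟨m, fun i => pr (a i) (a i)ᵀ, fun i => ⟨?_, ?_⟩, ?_, ?_, ?_, ?_⟩
  · rw [pr_mul, ha1, ← Matrix.transpose_mul, ha1]
  · rw [star_pr, Matrix.transpose_transpose]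
  · intro i j hij
    rw [pr_mul, ha3 i j hij, ← Matrix.transpose_mul, ha3 j i hij.symm, Matrix.transpose_zero, pr_zero]
  · rw [pr_sum, ha4, ← Matrix.transpose_sum, ha4, Matrix.transpose_one, pr_one]
  · intro i t ht
    -- the first component
    have hc : (_root_.Cfsg.Agent.H308.CA.mt t).map (fstH F) * a i = a i * (_root_.Cfsg.Agent.H308.CA.mt t).map (fstH F) := by
      have h7 := congrArg LinearMap.toMatrix' (h5 i ⟨t, ht⟩)
      rw [LinearMap.toMatrix'_mul, LinearMap.toMatrix'_mul] at h7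
      have h8 : LinearMap.toMatrix' (φ ⟨t, ht⟩) = (_root_.Cfsg.Agent.H308.CA.mt t).map (fstH F) := LinearMap.toMatrix'_toLin' _
      rw [h8] at h7
      exact h7
    -- the second component is the inverse transpose
    have hs1 : ((_root_.Cfsg.Agent.H308.CA.mt t).map (sndH F))ᵀ * (_root_.Cfsg.Agent.H308.CA.mt t).map (fstH F) = 1 := by
      have h7 := congrArg (fun M => M.map (fstH F)) (star_mt_mul t)
      simp only [Matrix.map_mul, Matrix.map_one _ (map_zero (fstH F)) (map_one (fstH F))] at h7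
      exact h7
    have hs2 : (_root_.Cfsg.Agent.H308.CA.mt t).map (fstH F) * ((_root_.Cfsg.Agent.H308.CA.mt t).map (sndH F))ᵀ = 1 := mul_eq_one_comm.1 hs1
    have hc2 : a i * ((_root_.Cfsg.Agent.H308.CA.mt t).map (sndH F))ᵀ = ((_root_.Cfsg.Agent.H308.CA.mt t).map (sndH F))ᵀ * a i := by
      calc a i * ((_root_.Cfsg.Agent.H308.CA.mt t).map (sndH F))ᵀ
          = (((_root_.Cfsg.Agent.H308.CA.mt t).map (sndH F))ᵀ * (_root_.Cfsg.Agent.H308.CA.mt t).map (fstH F)) * a i * ((_root_.Cfsg.Agent.H308.CA.mt t).map (sndH F))ᵀ := by rw [hs1, one_mul]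
        _ = ((_root_.Cfsg.Agent.H308.CA.mt t).map (sndH F))ᵀ * (a i * (_root_.Cfsg.Agent.H308.CA.mt t).map (fstH F)) * ((_root_.Cfsg.Agent.H308.CA.mt t).map (sndH F))ᵀ := by
            rw [← hc]; simp only [Matrix.mul_assoc]
        _ = ((_root_.Cfsg.Agent.H308.CA.mt t).map (sndH F))ᵀ * a i * ((_root_.Cfsg.Agent.H308.CA.mt t).map (fstH F) * ((_root_.Cfsg.Agent.H308.CA.mt t).map (sndH F))ᵀ) := by
            simp only [Matrix.mul_assoc]
        _ = ((_root_.Cfsg.Agent.H308.CA.mt t).map (sndH F))ᵀ * a i := by rw [hs2, mul_one]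
    have hm : _root_.Cfsg.Agent.H308.CA.mt t = pr ((_root_.Cfsg.Agent.H308.CA.mt t).map (fstH F)) ((_root_.Cfsg.Agent.H308.CA.mt t).map (sndH F)) := mat_ext rfl rfl
    rw [hm, pr_mul, pr_mul, hc]
    congr 1
    have h7 := congrArg Matrix.transpose hc2
    rw [Matrix.transpose_mul, Matrix.transpose_mul, Matrix.transpose_transpose] at h7
    exact h7
  · intro i
    obtain ⟨k, hk⟩ := h6 i
    refine ⟨k, ?_⟩
    rw [rk_pr (ha1 i), ← hk]
    show finrank F (LinearMap.range (a i).mulVecLin) = _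
    have h7 : (a i).mulVecLin = e i := by
      rw [← Matrix.toLin'_apply']
      exact Matrix.toLin'_toMatrix' _
    rw [h7]

end mat

end Cfsg.Agent.H55.CA
end
end

-- part: H481/CA/Inv
section
prune_inst 0x205044007562100020188580b3201c62fe0004220048040004610b0207c9ac4020828861bb30051752a0084560350068135c0000420000000a000000011f01800000000890090000820090000100000000000000000000000000000000010004000000000
set_option linter.all false
open scoped Cfsg.Agent.FastGrp

/-!
# S3852, type A: `InvSt` (CA10, helper481)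
-/

set_option autoImplicit false

namespace Cfsg.Agent.H481.CA

open Module Matrix

section field

variable {K V : Type*} [Field K] [AddCommGroup V] [Module K V] [FiniteDimensional K V] {N : V →ₗ[K] V}

theorem ker_eq_range {k : ℕ} (hV : finrank K V = 2 * k) (hN : ∀ v, N (N v) = 0)
    (hk : finrank K (LinearMap.ker N) = k) : LinearMap.ker N = LinearMap.range N := by
  have h1 : LinearMap.range N ≤ LinearMap.ker N := by
    rintro _ ⟨v, rfl⟩
    exact hN v
  have h2 := LinearMap.finrank_range_add_finrank_ker N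
  exact (Submodule.eq_of_le_of_finrank_eq h1 (by omega)).symm

theorem exists_sqrt {k : ℕ} (hk : finrank K (LinearMap.ker N) = k) (hk1 : Odd k) {B : V →ₗ[K] V} {b : K}
    (hb : b ≠ 0) (hB : ∀ v, B (B v) = b • v) (hBN : ∀ v, B (N v) = N (B v)) : ∃ m : K, m * m = b := by
  have hres : ∀ v ∈ LinearMap.ker N, B v ∈ LinearMap.ker N := by
    intro v hv
    rw [LinearMap.mem_ker] at hv ⊢
    rw [← hBN, hv, map_zero]
  have hf : (B.restrict hres) ∘ₗ (B.restrict hres) = b • (LinearMap.id : LinearMap.ker N →ₗ[K] LinearMap.ker N) := by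
    refine LinearMap.ext fun v => Subtype.ext ?_
    exact hB v
  have hdet : LinearMap.det (B.restrict hres) * LinearMap.det (B.restrict hres) = b ^ k := by
    rw [← LinearMap.det_comp, hf, LinearMap.det_smul, LinearMap.det_id, mul_one, hk]
  obtain ⟨j, rfl⟩ := hk1
  refine ⟨LinearMap.det (B.restrict hres) * (b ^ j)⁻¹, ?_⟩
  have hbj : b ^ j ≠ 0 := pow_ne_zero j hb
  rw [mul_mul_mul_comm, hdet]
  field_simp
  ring

theorem even_rank {k : ℕ} (hV : finrank K V = 2 * k) (hN : ∀ v, N (N v) = 0)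
    (hk : finrank K (LinearMap.ker N) = k) {e : V →ₗ[K] V} (he : ∀ v, e (e v) = e v)
    (heN : ∀ v, e (N v) = N (e v)) : ∃ a, finrank K (LinearMap.range e) = 2 * a := by
  have hker := ker_eq_range hV hN hk
  refine ⟨finrank K (LinearMap.range (N ∘ₗ e)), ?_⟩
  have h1 := LinearMap.finrank_range_add_finrank_ker (N.domRestrict (LinearMap.range e))
  have h2 : LinearMap.range (N.domRestrict (LinearMap.range e)) = LinearMap.range (N ∘ₗ e) := by
    ext w
    constructor
    · rintro ⟨⟨_, u, rfl⟩, rfl⟩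
      exact ⟨u, rfl⟩
    · rintro ⟨u, rfl⟩
      exact ⟨⟨e u, u, rfl⟩, rfl⟩
  have h3 : (LinearMap.ker (N.domRestrict (LinearMap.range e))).map (LinearMap.range e).subtype =
      LinearMap.range (N ∘ₗ e) := by
    ext w
    constructor
    · rintro ⟨⟨v, hv⟩, hv0, rfl⟩
      have h4 : v ∈ LinearMap.ker N := hv0
      rw [hker] at h4
      obtain ⟨u, rfl⟩ := h4
      obtain ⟨z, hz⟩ := hv
      refine ⟨u, ?_⟩
      show N (e u) = N u
      rw [← heN, ← hz, he]
    · rintro ⟨u, rfl⟩
      refine ⟨⟨N (e u), N u, heN u⟩, hN _, rfl⟩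
  have h4 : finrank K (LinearMap.ker (N.domRestrict (LinearMap.range e))) = finrank K (LinearMap.range (N ∘ₗ e)) := by
    rw [← h3]
    exact (LinearEquiv.finrank_eq (Submodule.equivMapOfInjective _ (Submodule.injective_subtype _) _))
  rw [h2, h4] at h1
  omega

/-- the ranks of the idempotents -/
theorem rank_ne {k : ℕ} (hV : finrank K V = 2 * k) (hk1 : Odd k) (hN : ∀ v, N (N v) = 0)
    (hk : finrank K (LinearMap.ker N) = k) {e f : V →ₗ[K] V} (he : ∀ v, e (e v) = e v)
    (hf : ∀ v, f v = v - e v) (heN : ∀ v, e (N v) = N (e v)) :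
    finrank K (LinearMap.range e) ≠ finrank K (LinearMap.range f) := by
  intro heq
  obtain ⟨a, ha⟩ := even_rank hV hN hk he heN
  have h1 : LinearMap.ker e = LinearMap.range f := by
    ext v
    rw [LinearMap.mem_ker]
    constructor
    · intro hv
      exact ⟨v, by rw [hf, hv, sub_zero]⟩
    · rintro ⟨u, rfl⟩
      rw [hf, map_sub, he, sub_self]
  have h2 := LinearMap.finrank_range_add_finrank_ker e
  rw [h1, ← heq] at h2
  obtain ⟨j, hj⟩ := hk1
  omega

end field

section mat

variable {ι : Type} [Fintype ι] [DecidableEq ι]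

theorem card_fix {K : Type} [Field K] [Finite K] {e : Matrix ι ι K} (he : e * e = e) :
    Nat.card {v : ι → K // e *ᵥ v = v} = Nat.card K ^ e.rank := by
  have h1 : ∀ v : ι → K, e *ᵥ v = v ↔ v ∈ LinearMap.range e.mulVecLin := by
    intro v
    constructor
    · intro h
      exact ⟨v, h⟩
    · rintro ⟨u, rfl⟩
      show e *ᵥ (e *ᵥ u) = e *ᵥ u
      rw [mulVec_mulVec, he]
  rw [Nat.card_congr (Equiv.subtypeEquivRight h1)]
  exact Module.natCard_eq_pow_finrank (K := K) (V := LinearMap.range e.mulVecLin)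

theorem card_ker {K : Type} [Field K] [Finite K] (N : Matrix ι ι K) :
    Nat.card {v : ι → K // N *ᵥ v = 0} = Nat.card K ^ finrank K (LinearMap.ker N.mulVecLin) := by
  have h1 : ∀ v : ι → K, N *ᵥ v = 0 ↔ v ∈ LinearMap.ker N.mulVecLin := fun v => Iff.rfl
  rw [Nat.card_congr (Equiv.subtypeEquivRight h1)]
  exact Module.natCard_eq_pow_finrank (K := K) (V := LinearMap.ker N.mulVecLin)

/-- matrix form of `rank_ne` -/
theorem mat_rank_ne {K : Type} [Field K] {k : ℕ} (hι : Fintype.card ι = 2 * k) (hk1 : Odd k) {N : Matrix ι ι K}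
    (hN : N * N = 0) (hk : finrank K (LinearMap.ker N.mulVecLin) = k) {e : Matrix ι ι K} (he : e * e = e)
    (heN : e * N = N * e) : e.rank ≠ (1 - e).rank := by
  have h1 := rank_ne (K := K) (V := ι → K) (N := N.mulVecLin) (k := k) (by rw [finrank_fintype_fun_eq_card, hι]) hk1
    (fun v => by
      show N *ᵥ (N *ᵥ v) = 0
      rw [mulVec_mulVec, hN, zero_mulVec]) hk (e := e.mulVecLin) (f := (1 - e).mulVecLin)
    (fun v => by
      show e *ᵥ (e *ᵥ v) = e *ᵥ v
      rw [mulVec_mulVec, he])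
    (fun v => by
      show (1 - e) *ᵥ v = v - e *ᵥ v
      rw [sub_mulVec, one_mulVec])
    (fun v => by
      show e *ᵥ (N *ᵥ v) = N *ᵥ (e *ᵥ v)
      rw [mulVec_mulVec, mulVec_mulVec, heN])
  exact h1

theorem mat_sqrt {K : Type} [Field K] {k : ℕ} (hk1 : Odd k) {N : Matrix ι ι K}
    (hk : finrank K (LinearMap.ker N.mulVecLin) = k) {B : Matrix ι ι K} {b : K} (hb : b ≠ 0)
    (hB : B * B = b • (1 : Matrix ι ι K)) (hBN : B * N = N * B) : ∃ m : K, m * m = b :=
  exists_sqrt hk hk1 hb (B := B.mulVecLin)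
    (fun v => by
      show B *ᵥ (B *ᵥ v) = b • v
      rw [mulVec_mulVec, hB, smul_mulVec, one_mulVec])
    (fun v => by
      show B *ᵥ (N *ᵥ v) = N *ᵥ (B *ᵥ v)
      rw [mulVec_mulVec, mulVec_mulVec, hBN])

end mat

/-! ### the general algebra -/

section alg

variable {ι : Type} [Fintype ι] [DecidableEq ι] {E : Type} [CommRing E]

theorem two_two (h3 : (3 : E) = 0) : (2 : E) * 2 = 1 := by
  linear_combination h3

/-- the idempotent `(1 + n x) / 2` -/
def ep (n : E) (x : Matrix ι ι E) : Matrix ι ι E := (2 : E) • (1 + n • x)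

theorem ep_idem (h3 : (3 : E) = 0) {n l : E} {x : Matrix ι ι E} (hx : x * x = l • (1 : Matrix ι ι E))
    (hn : n * n * l = 1) : ep n x * ep n x = ep n x := by
  have h1 : (1 + n • x) * (1 + n • x) = (2 : E) • (1 + n • x) := by
    have h2 : (n • x) * (n • x) = 1 := by
      rw [smul_mul_smul_comm, hx, smul_smul, hn, one_smul]
    rw [add_mul, one_mul, mul_add, mul_one, h2, two_smul]
    abel
  rw [ep, smul_mul_smul_comm, two_two h3, one_smul, h1]

theorem idem_sub {e : Matrix ι ι E} (he : e * e = e) : (1 - e) * (1 - e) = 1 - e := by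
  rw [mul_sub, mul_one, sub_mul, one_mul, he, sub_self, sub_zero]

theorem ep_neg (h3 : (3 : E) = 0) (n : E) (x : Matrix ι ι E) : (2 : E) • (1 - n • x) = 1 - ep n x := by
  have h1 : (1 : Matrix ι ι E) = ((2 : E) * 2) • (1 : Matrix ι ι E) := by rw [two_two h3, one_smul]
  have h2 : (1 : Matrix ι ι E) - ep n x = ((2 : E) * 2 - 2) • (1 : Matrix ι ι E) - (2 * n) • x := by
    rw [sub_smul, ← h1, ep, smul_add, smul_smul]
    abel
  rw [h2, smul_sub, smul_smul]
  congr 2
  ring

theorem ep_comm {n : E} {x N : Matrix ι ι E} (h : x * N = N * x) : ep n x * N = N * ep n x := by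
  rw [ep, smul_mul_assoc, mul_smul_comm, add_mul, mul_add, one_mul, mul_one, smul_mul_assoc, mul_smul_comm, h]

end alg

/-! ### unitary elements with scalar square -/

section com

open Cfsg.Agent.H308.CA

variable {ι : Type} [Fintype ι] [DecidableEq ι] {E : Type} [CommRing E] [StarRing E]

theorem star_l [Nonempty ι] {x : SU ι E} {l : E} (hx : _root_.Cfsg.Agent.H308.CA.mt x * _root_.Cfsg.Agent.H308.CA.mt x = l • (1 : Matrix ι ι E)) : star l * l = 1 := by
  have h1 : star (_root_.Cfsg.Agent.H308.CA.mt x * _root_.Cfsg.Agent.H308.CA.mt x) * (_root_.Cfsg.Agent.H308.CA.mt x * _root_.Cfsg.Agent.H308.CA.mt x) = 1 := by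
    rw [star_mul, mul_assoc, ← mul_assoc (star (_root_.Cfsg.Agent.H308.CA.mt x)) (_root_.Cfsg.Agent.H308.CA.mt x) (_root_.Cfsg.Agent.H308.CA.mt x), star_mt_mul, one_mul, star_mt_mul]
  rw [hx, star_smul, star_one, smul_mul_smul_comm, one_mul] at h1
  obtain ⟨i⟩ := ‹Nonempty ι›
  have h2 := congrFun (congrFun h1 i) i
  rwa [Matrix.smul_apply, one_apply_eq, smul_eq_mul, mul_one] at h2

theorem star_x {x : SU ι E} {l : E} (hx : _root_.Cfsg.Agent.H308.CA.mt x * _root_.Cfsg.Agent.H308.CA.mt x = l • (1 : Matrix ι ι E)) (hl : star l * l = 1) :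
    star (_root_.Cfsg.Agent.H308.CA.mt x) = star l • _root_.Cfsg.Agent.H308.CA.mt x := by
  have h1 : _root_.Cfsg.Agent.H308.CA.mt x = l • star (_root_.Cfsg.Agent.H308.CA.mt x) := by
    calc _root_.Cfsg.Agent.H308.CA.mt x = star (_root_.Cfsg.Agent.H308.CA.mt x) * _root_.Cfsg.Agent.H308.CA.mt x * _root_.Cfsg.Agent.H308.CA.mt x := by rw [star_mt_mul, one_mul]
      _ = l • star (_root_.Cfsg.Agent.H308.CA.mt x) := by rw [mul_assoc, hx, mul_smul_comm, mul_one]
  conv_rhs => rw [h1]
  rw [smul_smul, hl, one_smul]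

theorem star_ep (n : E) (x : Matrix ι ι E) : star (ep n x) = (2 : E) • (1 + star n • star x) := by
  rw [ep, star_smul, star_add, star_one, star_smul, star_ofNat]

end com

/-! ### the field case -/

section uni

open Cfsg.Agent.H308.CA

variable {ι : Type} [Fintype ι] [DecidableEq ι] {F : Type} [Field F] [Finite F]

omit [Field F] in
theorem card_gt [Nontrivial F] : 1 < Nat.card F := Finite.one_lt_card

theorem rank_map {e : Matrix ι ι F} (he : e * e = e) (f : F ≃+* F) : (e.map f).rank = e.rank := by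
  have h1 : e.map f * e.map f = e.map f := by
    rw [← Matrix.map_mul, he]
  have h2 : Nat.card {v : ι → F // e.map f *ᵥ v = v} = Nat.card {v : ι → F // e *ᵥ v = v} := by
    refine (Nat.card_congr (Equiv.subtypeEquiv (Equiv.piCongrRight fun _ => f.toEquiv) ?_)).symm
    intro v
    have h3 : e.map f *ᵥ (fun i => f (v i)) = fun i => f ((e *ᵥ v) i) := by
      funext i
      exact (RingHom.map_mulVec (f : F →+* F) e v i).symm
    constructor
    · intro h
      show e.map f *ᵥ (fun i => f (v i)) = fun i => f (v i)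
      rw [h3, h]
    · intro h
      have h4 : e.map f *ᵥ (fun i => f (v i)) = fun i => f (v i) := h
      rw [h3] at h4
      funext i
      exact f.injective (congrFun h4 i)
  rw [card_fix h1, card_fix he] at h2
  exact Nat.pow_right_injective card_gt h2

variable [StarRing F]

theorem rk_eq {e : Matrix ι ι F} (he : e * e = e) : rk e = e.rank := by
  unfold rk
  rw [card_fix he, Nat.log_pow card_gt]

theorem rank_star {e : Matrix ι ι F} (he : e * e = e) : (star e).rank = e.rank := by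
  have h1 : star e = (e.map (starRingAut : RingAut F))ᵀ := rfl
  rw [h1, rank_transpose, rank_map he]

theorem inv_uni : InvSt F := by
  intro ι _ _ y hy h3 x l hx hxy
  obtain ⟨-, hN, k, hk1, hι, hk⟩ := hy
  have h30 : (3 : F) = 0 := by
    have := CharP.cast_eq_zero F 3
    exact_mod_cast this
  have hne : Nonempty ι := by
    obtain ⟨j, rfl⟩ := hk1
    exact Fintype.card_pos_iff.1 (by omega)
  rw [pow_two] at hx hN
  have hl := star_l hx
  have hl0 : l ≠ 0 := by
    rintro rfl
    rw [mul_zero] at hl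
    exact zero_ne_one hl
  have hk' : finrank F (LinearMap.ker (_root_.Cfsg.Agent.H308.CA.mt y - 1).mulVecLin) = k := by
    rw [card_ker] at hk
    exact Nat.pow_right_injective card_gt hk
  have hxy' : _root_.Cfsg.Agent.H308.CA.mt x * _root_.Cfsg.Agent.H308.CA.mt y = _root_.Cfsg.Agent.H308.CA.mt y * _root_.Cfsg.Agent.H308.CA.mt x := by
    rw [← map_mul, ← map_mul, hxy]
  have hxN : _root_.Cfsg.Agent.H308.CA.mt x * (_root_.Cfsg.Agent.H308.CA.mt y - 1) = (_root_.Cfsg.Agent.H308.CA.mt y - 1) * _root_.Cfsg.Agent.H308.CA.mt x := by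
    rw [mul_sub, sub_mul, hxy', mul_one, one_mul]
  obtain ⟨m, hm⟩ := mat_sqrt hk1 hk' hl0 hx hxN
  have hnu : (star m * m) * (star m * m) = 1 := by
    rw [mul_mul_mul_comm, ← star_mul, hm, hl]
  rcases mul_self_eq_one_iff.1 hnu with h1 | h1
  · refine ⟨m, h1, by rw [pow_two, hm], ?_⟩
    have hn : star m * star m * l = 1 := by
      rw [← hm, mul_mul_mul_comm, h1, one_mul]
    have he := ep_idem h30 hx hn
    have hf := idem_sub he
    rw [ep_neg h30]
    change rk (ep (star m) (_root_.Cfsg.Agent.H308.CA.mt x)) ≠ _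
    rw [rk_eq he, rk_eq hf]
    exact mat_rank_ne hι hk1 hN hk' he (ep_comm hxN)
  · exfalso
    have hn : (-star m) * (-star m) * l = 1 := by
      rw [← hm, mul_mul_mul_comm, neg_mul, h1, neg_neg, one_mul]
    have he := ep_idem h30 hx hn
    have hstar : star (ep (-star m) (_root_.Cfsg.Agent.H308.CA.mt x)) = 1 - ep (-star m) (_root_.Cfsg.Agent.H308.CA.mt x) := by
      rw [star_ep, star_x hx hl, smul_smul, ← ep_neg h30, star_neg, star_star]
      have h2 : -m * star l = - -star m := by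
        rw [← hm, star_mul, neg_neg]
        linear_combination (-star m) * h1
      rw [h2, neg_smul, sub_eq_add_neg]
    have h2 := mat_rank_ne hι hk1 hN hk' he (ep_comm hxN)
    rw [← hstar, rank_star he] at h2
    exact h2 rfl

end uni

/-! ### the linear case -/

section lin

open Cfsg.Agent.H308.CA

variable {ι : Type} [Fintype ι] [DecidableEq ι] {F : Type} [Field F]

/-- first component -/
def p1 : Ex F →+* F := RingHom.fst F F

/-- second component -/
def p2 : Ex F →+* F := RingHom.snd F F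

theorem p2_star (a : Ex F) : p2 (star a) = p1 a := rfl

theorem p1_star (a : Ex F) : p1 (star a) = p2 a := rfl

theorem ex_ext {a b : Ex F} (h1 : p1 a = p1 b) (h2 : p2 a = p2 b) : a = b := Prod.ext h1 h2

theorem card_ex : Nat.card (Ex F) = Nat.card F ^ 2 := by
  rw [pow_two]
  exact Nat.card_prod F F

theorem card_eq (M M' : Matrix ι ι (Ex F)) : Nat.card {v : ι → Ex F // M *ᵥ v = M' *ᵥ v} =
    Nat.card {v : ι → F // M.map p1 *ᵥ v = M'.map p1 *ᵥ v} * Nat.card {v : ι → F // M.map p2 *ᵥ v = M'.map p2 *ᵥ v} := by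
  rw [← Nat.card_prod]
  have key : ∀ (f : Ex F →+* F) (A : Matrix ι ι (Ex F)) (v : ι → Ex F), (A.map f) *ᵥ (fun i => f (v i)) =
      fun i => f ((A *ᵥ v) i) := fun f A v => funext fun i => (RingHom.map_mulVec f A v i).symm
  refine Nat.card_congr ⟨fun v => (⟨fun i => p1 (v.1 i), ?_⟩, ⟨fun i => p2 (v.1 i), ?_⟩),
    fun v => ⟨fun i => ((v.1.1 i, v.2.1 i) : F × F), ?_⟩, ?_, ?_⟩
  · rw [key, key, v.2]
  · rw [key, key, v.2]
  · funext i
    have h1 := congrFun (key p1 M (fun i => ((v.1.1 i, v.2.1 i) : F × F))) i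
    have h2 := congrFun (key p1 M' (fun i => ((v.1.1 i, v.2.1 i) : F × F))) i
    have h3 := congrFun (key p2 M (fun i => ((v.1.1 i, v.2.1 i) : F × F))) i
    have h4 := congrFun (key p2 M' (fun i => ((v.1.1 i, v.2.1 i) : F × F))) i
    refine ex_ext ?_ ?_
    · rw [← h1, ← h2]
      exact congrFun v.1.2 i
    · rw [← h3, ← h4]
      exact congrFun v.2.2 i
  · intro v
    rfl
  · intro v
    rfl

theorem card_fix_ex [Finite F] {e : Matrix ι ι (Ex F)} (he : e * e = e) (hs : star e = e) :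
    rk e = (e.map p1).rank := by
  have h1 : e.map p1 * e.map p1 = e.map p1 := by
    rw [← Matrix.map_mul, he]
  have h2 : e.map p2 * e.map p2 = e.map p2 := by
    rw [← Matrix.map_mul, he]
  have h3 : e.map p2 = (e.map p1)ᵀ := by
    ext i j
    show p2 (e i j) = p1 (e j i)
    conv_lhs => rw [← hs]
    rfl
  have h4 := card_eq e 1
  have h5 : (1 : Matrix ι ι (Ex F)).map p1 = 1 := Matrix.map_one _ (map_zero _) (map_one _)
  have h6 : (1 : Matrix ι ι (Ex F)).map p2 = 1 := Matrix.map_one _ (map_zero _) (map_one _)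
  rw [h5, h6] at h4
  simp only [one_mulVec] at h4
  rw [card_fix h1, card_fix h2, h3, rank_transpose, ← pow_add, ← two_mul, pow_mul, ← card_ex] at h4
  unfold rk
  rw [h4, Nat.log_pow]
  exact card_gt

theorem ge_k {k : ℕ} (hι : Fintype.card ι = 2 * k) {N : Matrix ι ι F} (hN : N * N = 0) :
    k ≤ finrank F (LinearMap.ker N.mulVecLin) := by
  have h1 := LinearMap.finrank_range_add_finrank_ker N.mulVecLin
  rw [finrank_fintype_fun_eq_card, hι] at h1
  have h2 : LinearMap.range N.mulVecLin ≤ LinearMap.ker N.mulVecLin := by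
    rintro _ ⟨v, rfl⟩
    show N *ᵥ (N *ᵥ v) = 0
    rw [mulVec_mulVec, hN, zero_mulVec]
  have h3 := Submodule.finrank_mono h2
  omega

theorem inv_lin [Finite F] : InvSt (Ex F) := by
  intro ι _ _ y hy h3 x l hx hxy
  obtain ⟨-, hN, k, hk1, hι, hk⟩ := hy
  have h30 : (3 : Ex F) = 0 := by
    have := CharP.cast_eq_zero (Ex F) 3
    exact_mod_cast this
  have hne : Nonempty ι := by
    obtain ⟨j, rfl⟩ := hk1
    exact Fintype.card_pos_iff.1 (by omega)
  rw [pow_two] at hx hN
  have hl := star_l hx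
  have hl1 : p2 l * p1 l = 1 := congrArg p1 hl
  have hl0 : p1 l ≠ 0 := right_ne_zero_of_mul_eq_one hl1
  have hxy' : _root_.Cfsg.Agent.H308.CA.mt x * _root_.Cfsg.Agent.H308.CA.mt y = _root_.Cfsg.Agent.H308.CA.mt y * _root_.Cfsg.Agent.H308.CA.mt x := by
    rw [← map_mul, ← map_mul, hxy]
  have hxN : _root_.Cfsg.Agent.H308.CA.mt x * (_root_.Cfsg.Agent.H308.CA.mt y - 1) = (_root_.Cfsg.Agent.H308.CA.mt y - 1) * _root_.Cfsg.Agent.H308.CA.mt x := by
    rw [mul_sub, sub_mul, hxy', mul_one, one_mul]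
  have hN1 : (_root_.Cfsg.Agent.H308.CA.mt y - 1).map p1 * (_root_.Cfsg.Agent.H308.CA.mt y - 1).map p1 = 0 := by
    rw [← Matrix.map_mul, hN]
    exact Matrix.map_zero _ (map_zero _)
  have hN2 : (_root_.Cfsg.Agent.H308.CA.mt y - 1).map p2 * (_root_.Cfsg.Agent.H308.CA.mt y - 1).map p2 = 0 := by
    rw [← Matrix.map_mul, hN]
    exact Matrix.map_zero _ (map_zero _)
  have hk' : finrank F (LinearMap.ker ((_root_.Cfsg.Agent.H308.CA.mt y - 1).map p1).mulVecLin) = k := by
    have h4 := card_eq (_root_.Cfsg.Agent.H308.CA.mt y - 1) 0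
    have h5 : (0 : Matrix ι ι (Ex F)).map p1 = 0 := Matrix.map_zero _ (map_zero _)
    have h6 : (0 : Matrix ι ι (Ex F)).map p2 = 0 := Matrix.map_zero _ (map_zero _)
    rw [h5, h6] at h4
    simp only [zero_mulVec] at h4
    rw [hk, card_ker, card_ker, ← pow_add, card_ex, ← pow_mul] at h4
    have h7 := Nat.pow_right_injective (card_gt (F := F)) h4
    have h8 := ge_k hι hN1
    have h9 := ge_k hι hN2
    omega
  have hx1 : (_root_.Cfsg.Agent.H308.CA.mt x).map p1 * (_root_.Cfsg.Agent.H308.CA.mt x).map p1 = p1 l • (1 : Matrix ι ι F) := by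
    rw [← Matrix.map_mul, hx]
    ext i j
    show p1 (l * (1 : Matrix ι ι (Ex F)) i j) = p1 l * (1 : Matrix ι ι F) i j
    rw [map_mul, one_apply, one_apply]
    split_ifs <;> simp
  have hxN1 : (_root_.Cfsg.Agent.H308.CA.mt x).map p1 * (_root_.Cfsg.Agent.H308.CA.mt y - 1).map p1 = (_root_.Cfsg.Agent.H308.CA.mt y - 1).map p1 * (_root_.Cfsg.Agent.H308.CA.mt x).map p1 := by
    rw [← Matrix.map_mul, ← Matrix.map_mul, hxN]
  obtain ⟨m1, hm1⟩ := mat_sqrt hk1 hk' hl0 hx1 hxN1
  have hm0 : m1 ≠ 0 := by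
    rintro rfl
    rw [mul_zero] at hm1
    exact hl0 hm1.symm
  let m : Ex F := ((m1, m1⁻¹) : F × F)
  have hp1 : p1 m = m1 := rfl
  have hp2 : p2 m = m1⁻¹ := rfl
  have hm : m * m = l := by
    refine ex_ext ?_ ?_
    · rw [map_mul, hp1, hm1]
    · rw [map_mul, hp2, ← mul_inv, hm1]
      exact (eq_inv_of_mul_eq_one_left hl1).symm
  have h1 : star m * m = 1 := by
    refine ex_ext ?_ ?_
    · rw [map_mul, p1_star, hp1, hp2, map_one, inv_mul_cancel₀ hm0]
    · rw [map_mul, p2_star, hp1, hp2, map_one, mul_inv_cancel₀ hm0]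
  refine ⟨m, h1, by rw [pow_two, hm], ?_⟩
  have hn : star m * star m * l = 1 := by
    rw [← hm, mul_mul_mul_comm, h1, one_mul]
  have he := ep_idem h30 hx hn
  have hf := idem_sub he
  have hstar : star (ep (star m) (_root_.Cfsg.Agent.H308.CA.mt x)) = ep (star m) (_root_.Cfsg.Agent.H308.CA.mt x) := by
    rw [star_ep, star_x hx hl, smul_smul, star_star]
    have h2 : m * star l = star m := by
      rw [← hm, star_mul]
      linear_combination (star m) * h1
    rw [h2, ep]
  have hstar' : star (1 - ep (star m) (_root_.Cfsg.Agent.H308.CA.mt x)) = 1 - ep (star m) (_root_.Cfsg.Agent.H308.CA.mt x) := by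
    rw [star_sub, star_one, hstar]
  rw [ep_neg h30]
  change rk (ep (star m) (_root_.Cfsg.Agent.H308.CA.mt x)) ≠ _
  rw [card_fix_ex he hstar, card_fix_ex hf hstar']
  have h5 : (1 - ep (star m) (_root_.Cfsg.Agent.H308.CA.mt x)).map p1 = 1 - (ep (star m) (_root_.Cfsg.Agent.H308.CA.mt x)).map p1 := by
    rw [Matrix.map_sub, Matrix.map_one]
    · exact map_zero _
    · exact map_one _
    · exact map_sub _
  rw [h5]
  refine mat_rank_ne hι hk1 hN1 hk' ?_ ?_
  · rw [← Matrix.map_mul, he]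
  · rw [← Matrix.map_mul, ← Matrix.map_mul, ep_comm hxN]

end lin

open Cfsg.Agent.H308.CA in
/-- (INV), CA10 -/
theorem inv_st {E : Type} [CommRing E] [StarRing E] (h : Gd E) : InvSt E := by
  cases h with
  | lin F i _ => exact inv_lin
  | uni F i s _ hs => exact inv_uni

end Cfsg.Agent.H481.CA

private theorem dce_06958c8ded2a : _root_.True := by
  try have : _root_.True := by simp only [_root_.Cfsg.Agent.H481.CA.ep.eq_1]
  exact _root_.True.intro
end

-- part: H911/CA/TwoUni
section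
prune_inst 0x21500000454012002000858291201c42ba000422004b04000461030207884c610d82ae21b92004175a200805003c0048125c00000000000000000400011d018000800008b109010082009e000100000000000000000000000000000000000000000000000
set_option linter.all false
open scoped Cfsg.Agent.FastGrp

/-!
# 2-subgroups of unitary groups (S3852, CA7; helper911)

`two_pow`: irreducible submodules of a 2-group (any field) have 2-power dimension.
`two_uni`: a 2-group of unitary matrices over a field of odd characteristic is an orthogonal sum of pieces of 2-power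
dimension.
-/

set_option autoImplicit false

namespace Cfsg.Agent.H911.CA

open Module

section pow

variable {E : Type*} [Field E] {V : Type*} [AddCommGroup V] [Module E V] {G : Type*} [Group G]
  (ρ : G →* (V →ₗ[E] V))

/-- invariant submodules -/
def Inv (T : Subgroup G) (W : Submodule E V) : Prop := ∀ t ∈ T, ∀ w ∈ W, ρ t w ∈ W

/-- minimal invariant submodules -/
structure IsMin (T : Subgroup G) (W : Submodule E V) : Prop where
  ne : W ≠ ⊥
  inv : Inv ρ T W
  min : ∀ W' ≤ W, Inv ρ T W' → W' ≠ ⊥ → W' = W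

variable {ρ}

theorem Inv.inf {T : Subgroup G} {W W' : Submodule E V} (h : Inv ρ T W) (h' : Inv ρ T W') : Inv ρ T (W ⊓ W') :=
  fun t ht w hw => ⟨h t ht w hw.1, h' t ht w hw.2⟩

theorem Inv.sup {T : Subgroup G} {W W' : Submodule E V} (h : Inv ρ T W) (h' : Inv ρ T W') : Inv ρ T (W ⊔ W') := by
  intro t ht w hw
  obtain ⟨a, ha, b, hb, rfl⟩ := Submodule.mem_sup.1 hw
  rw [map_add]
  exact Submodule.add_mem_sup (h t ht a ha) (h' t ht b hb)

theorem Inv.mono {T T' : Subgroup G} (hT : T' ≤ T) {W : Submodule E V} (h : Inv ρ T W) : Inv ρ T' W :=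
  fun t ht w hw => h t (hT ht) w hw

theorem exists_min [FiniteDimensional E V] {T : Subgroup G} {V' : Submodule E V} (h0 : V' ≠ ⊥) (hi : Inv ρ T V') :
    ∃ W ≤ V', IsMin ρ T W := by
  obtain ⟨n, hn⟩ : ∃ n, finrank E V' = n := ⟨_, rfl⟩
  induction n using Nat.strong_induction_on generalizing V' with
  | _ n ih =>
    by_cases h : ∃ W' ≤ V', Inv ρ T W' ∧ W' ≠ ⊥ ∧ W' ≠ V'
    · obtain ⟨W', h1, h2, h3, h4⟩ := h
      have h5 := Submodule.finrank_lt_finrank_of_lt (lt_of_le_of_ne h1 h4)
      obtain ⟨W, hW, hm⟩ := ih _ (by rw [← hn]; exact h5) h3 h2 rfl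
      exact ⟨W, hW.trans h1, hm⟩
    · push Not at h
      exact ⟨V', le_rfl, h0, hi, fun W' h1 h2 h3 => h W' h1 h2 h3⟩

theorem rho_inv (t : G) (v : V) : ρ t (ρ t⁻¹ v) = v := by
  have h : ρ t * ρ t⁻¹ = 1 := by rw [← map_mul, mul_inv_cancel, map_one]
  exact LinearMap.congr_fun h v

theorem inv_rho (t : G) (v : V) : ρ t⁻¹ (ρ t v) = v := by
  have h : ρ t⁻¹ * ρ t = 1 := by rw [← map_mul, inv_mul_cancel, map_one]
  exact LinearMap.congr_fun h v

/-- **Irreducible submodules of 2-groups have 2-power dimension.** -/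
theorem two_pow [FiniteDimensional E V] (T : Subgroup G) [Finite T] (hT : IsPGroup 2 T) {W : Submodule E V}
    (hW : IsMin ρ T W) : ∃ a : ℕ, finrank E W = 2 ^ a := by
  have hp : Fact (Nat.Prime 2) := ⟨Nat.prime_two⟩
  obtain ⟨n, hn⟩ := (IsPGroup.iff_card).1 hT
  induction n generalizing T W with
  | zero =>
    refine ⟨0, ?_⟩
    have hT1 : T = ⊥ := by
      rw [pow_zero] at hn
      exact Subgroup.card_eq_one.1 hn
    obtain ⟨w, hw, hw0⟩ := (Submodule.ne_bot_iff W).1 hW.ne
    have h1 : Submodule.span E {w} = W := by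
      refine hW.min _ ?_ ?_ ?_
      · rw [Submodule.span_singleton_le_iff_mem]
        exact hw
      · intro t ht v hv
        rw [hT1, Subgroup.mem_bot] at ht
        rw [ht, map_one]
        exact hv
      · rw [Ne, Submodule.span_singleton_eq_bot]
        exact hw0
    rw [← h1, finrank_span_singleton hw0, pow_zero]
  | succ n ih =>
    obtain ⟨M', hM'⟩ := Sylow.exists_subgroup_card_pow_prime (G := T) 2 (n := n) (by rw [hn, pow_succ]; exact dvd_mul_right _ _)
    have hidx : M'.index = 2 := by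
      have h1 := M'.card_mul_index
      rw [hM', hn, pow_succ] at h1
      exact Nat.eq_of_mul_eq_mul_left (by positivity) h1
    have hnorm : M'.Normal := Subgroup.normal_of_index_eq_two hidx
    obtain ⟨M, hMdef⟩ : ∃ M, M = M'.map T.subtype := ⟨_, rfl⟩
    have hMT : M ≤ T := by rw [hMdef]; exact Subgroup.map_subtype_le _
    have hMfin : Finite M := Finite.of_injective _ (Subgroup.inclusion_injective hMT)
    have hMc : Nat.card M = 2 ^ n := by
      rw [hMdef, Subgroup.card_map_of_injective T.subtype_injective, hM']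
    have hMp : IsPGroup 2 M := IsPGroup.of_card hMc
    have hmem : ∀ t : T, (t : G) ∈ M ↔ t ∈ M' := by
      intro t
      rw [hMdef]
      constructor
      · rintro ⟨s, hs, hst⟩
        rwa [← Subtype.ext hst]
      · intro ht
        exact ⟨t, ht, rfl⟩
    obtain ⟨t, htM⟩ : ∃ t : T, t ∉ M' := by
      by_contra h
      push Not at h
      have : M' = ⊤ := eq_top_iff.2 fun x _ => h x
      rw [this, Subgroup.index_top] at hidx
      omega
    have htt : t * t ∈ M' := Subgroup.mul_self_mem_of_index_two hidx t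
    have hcase : ∀ s : T, s ∈ M' ∨ t⁻¹ * s ∈ M' := by
      intro s
      by_cases hs : s ∈ M'
      · exact Or.inl hs
      · right
        rw [Subgroup.mul_mem_iff_of_index_two hidx]
        exact ⟨fun h => absurd (inv_mem_iff.1 h) htM, fun h => absurd h hs⟩
    obtain ⟨W1, hW1, hm⟩ := exists_min (T := M) hW.ne (hW.inv.mono hMT)
    obtain ⟨a, ha⟩ := ih M hMp hm hMc
    -- the translate
    let θ : V ≃ₗ[E] V := LinearEquiv.ofLinearMap (ρ t) (ρ (t : G)⁻¹) (LinearMap.ext fun v => rho_inv _ v)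
      (LinearMap.ext fun v => inv_rho _ v)
    obtain ⟨W2, hW2⟩ : ∃ W2, W2 = W1.map (ρ t) := ⟨_, rfl⟩
    have hW2e : W2 = W1.map (θ : V →ₗ[E] V) := hW2
    have hdim : finrank E W2 = finrank E W1 := by
      rw [hW2e]
      exact (θ.submoduleMap W1).finrank_eq.symm
    have hi2 : Inv ρ M W2 := by
      rw [hW2]
      rintro m hmM _ ⟨w, hw, rfl⟩
      have hmT := hMT hmM
      have h1 : t⁻¹ * ⟨m, hmT⟩ * t ∈ M' := by
        have h2 := hnorm.conj_mem ⟨m, hmT⟩ ((hmem ⟨m, hmT⟩).1 hmM) t⁻¹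
        rwa [inv_inv] at h2
      refine ⟨ρ ((t⁻¹ * ⟨m, hmT⟩ * t : T) : G) w, hm.inv _ ((hmem _).2 h1) w hw, ?_⟩
      have h3 : (t : G) * ((t⁻¹ * ⟨m, hmT⟩ * t : T) : G) = m * t := by
        push_cast
        group
      change (ρ t * ρ ((t⁻¹ * ⟨m, hmT⟩ * t : T) : G)) w = (ρ m * ρ t) w
      rw [← map_mul, ← map_mul, h3]
    have hsup : W1 ⊔ W2 = W := by
      refine hW.min _ (sup_le hW1 ?_) ?_ ?_
      · rw [hW2]
        rintro _ ⟨w, hw, rfl⟩
        exact hW.inv _ t.2 w (hW1 hw)
      · -- invariance under `T`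
        have hts : ∀ w ∈ W1 ⊔ W2, ρ t w ∈ W1 ⊔ W2 := by
          intro w hw
          obtain ⟨x, hx, y, hy, rfl⟩ := Submodule.mem_sup.1 hw
          rw [map_add]
          refine Submodule.add_mem _ (Submodule.mem_sup_right ?_) (Submodule.mem_sup_left ?_)
          · rw [hW2]
            exact ⟨x, hx, rfl⟩
          · rw [hW2] at hy
            obtain ⟨z, hz, rfl⟩ := hy
            have h2 := hm.inv ((t * t : T) : G) ((hmem _).2 htt) z hz
            have h3 : ρ ((t * t : T) : G) z = ρ t (ρ t z) := by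
              rw [Subgroup.coe_mul, map_mul]
              rfl
            rwa [h3] at h2
        have hMs : Inv ρ M (W1 ⊔ W2) := hm.inv.sup hi2
        intro s hs w hw
        rcases hcase ⟨s, hs⟩ with h | h
        · exact hMs s ((hmem ⟨s, hs⟩).2 h) w hw
        · have h2 := hts _ (hMs _ ((hmem _).2 h) w hw)
          have h3 : ρ t (ρ ((t⁻¹ * ⟨s, hs⟩ : T) : G) w) = ρ s w := by
            change (ρ t * ρ ((t⁻¹ * ⟨s, hs⟩ : T) : G)) w = _
            rw [← map_mul]
            congr 2
            push_cast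
            group
          rwa [h3] at h2
      · intro h
        apply hm.ne
        rw [eq_bot_iff, ← h]
        exact le_sup_left
    by_cases hinf : W1 ⊓ W2 = ⊥
    · refine ⟨a + 1, ?_⟩
      have h1 := Submodule.finrank_sup_add_finrank_inf_eq W1 W2
      rw [hinf, finrank_bot, hsup, hdim, ha] at h1
      rw [pow_succ]
      omega
    · refine ⟨a, ?_⟩
      have h1 := hm.min _ inf_le_left (hm.inv.inf hi2) hinf
      have h2 : W1 ≤ W2 := inf_eq_left.1 h1
      have h3 : W1 = W2 := Submodule.eq_of_le_of_finrank_eq h2 hdim.symm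
      rw [← hsup, ← h3, sup_idem, ha]

end pow

open Matrix Cfsg.Agent.H308.CA

section form

variable {ι : Type} [Fintype ι] [DecidableEq ι] {E : Type} [Field E] [StarRing E]

/-- the hermitian form -/
def hf (v w : ι → E) : E := star v ⬝ᵥ w

theorem hf_add (v w w' : ι → E) : hf v (w + w') = hf v w + hf v w' := dotProduct_add _ _ _

theorem hf_smul (c : E) (v w : ι → E) : hf v (c • w) = c * hf v w := dotProduct_smul _ _ _

theorem hf_symm (v w : ι → E) : star (hf v w) = hf w v := by
  rw [hf, hf, star_dotProduct, star_star]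

theorem hf_eq_zero {v w : ι → E} (h : hf v w = 0) : hf w v = 0 := by
  rw [← hf_symm, h, star_zero]

theorem add_hf (v v' w : ι → E) : hf (v + v') w = hf v w + hf v' w := by
  rw [hf, hf, hf, star_add, add_dotProduct]

theorem hf_zero (v : ι → E) : hf v 0 = 0 := dotProduct_zero _

theorem zero_hf (v : ι → E) : hf 0 v = 0 := by
  rw [hf, star_zero, zero_dotProduct]

theorem hf_mulVec (A : Matrix ι ι E) (v w : ι → E) : hf (A *ᵥ v) w = hf v (star A *ᵥ w) := by
  rw [hf, hf, star_mulVec, dotProduct_mulVec, star_eq_conjTranspose]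

theorem hf_nondeg {v : ι → E} (h : ∀ w, hf v w = 0) : v = 0 := by
  have h1 : star v = 0 := by
    funext i
    have h2 := h (Pi.single i 1)
    rw [hf, dotProduct_single, mul_one] at h2
    exact h2
  rw [← star_star v, h1, star_zero]

theorem hf_ext {x y : ι → E} (h : ∀ v, hf v x = hf v y) : x = y := by
  rw [← sub_eq_zero]
  apply hf_nondeg
  intro w
  apply hf_eq_zero
  rw [sub_eq_add_neg, hf_add, h w, ← hf_add, add_neg_cancel, hf_zero]

/-- the orthogonal complement -/
def perp (U : Submodule E (ι → E)) : Submodule E (ι → E) where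
  carrier := {v | ∀ u ∈ U, hf u v = 0}
  zero_mem' := fun u _ => hf_zero u
  add_mem' := by
    intro v w hv hw u hu
    rw [hf_add, hv u hu, hw u hu, add_zero]
  smul_mem' := by
    intro c v hv u hu
    rw [hf_smul, hv u hu, mul_zero]

/-- the functional given by a vector -/
def toD (B : Submodule E (ι → E)) (v : ι → E) : B →ₗ[E] E where
  toFun b := hf v b
  map_add' a b := hf_add _ _ _
  map_smul' c b := hf_smul _ _ _

variable [Finite E]

theorem card_dual (B : Submodule E (ι → E)) : Nat.card (Module.Dual E B) = Nat.card B := by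
  rw [Module.natCard_eq_pow_finrank (K := E) (V := Module.Dual E B), Module.natCard_eq_pow_finrank (K := E) (V := B),
    Subspace.dual_finrank_eq]

theorem toD_inj {A B : Submodule E (ι → E)} (h : ∀ a ∈ A, (∀ b ∈ B, hf a b = 0) → a = 0) :
    Function.Injective (fun a : A => toD B (a : ι → E)) := by
  intro a a' haa
  have h1 : (a : ι → E) - a' = 0 := by
    refine h _ (A.sub_mem a.2 a'.2) fun b hb => ?_
    have h2 := LinearMap.congr_fun haa ⟨b, hb⟩
    have h3 : hf (a : ι → E) b = hf (a' : ι → E) b := h2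
    rw [sub_eq_add_neg, add_hf, h3, ← add_hf, add_neg_cancel, zero_hf]
  exact Subtype.ext (sub_eq_zero.1 h1)

theorem one_lt_card : 1 < Nat.card E := Finite.one_lt_card

theorem finrank_le {A B : Submodule E (ι → E)} (h : ∀ a ∈ A, (∀ b ∈ B, hf a b = 0) → a = 0) :
    finrank E A ≤ finrank E B := by
  have hfin : Finite (Module.Dual E B) := Module.finite_of_finite E
  have h1 := Nat.card_le_card_of_injective _ (toD_inj h)
  change Nat.card A ≤ Nat.card (Module.Dual E B) at h1
  rw [card_dual, Module.natCard_eq_pow_finrank (K := E) (V := A), Module.natCard_eq_pow_finrank (K := E) (V := B)] at h1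
  exact (Nat.pow_le_pow_iff_right one_lt_card).1 h1

theorem isCompl_perp {U : Submodule E (ι → E)} (hU : ∀ u ∈ U, (∀ u' ∈ U, hf u u' = 0) → u = 0) :
    IsCompl U (perp U) := by
  have hfin : Finite (Module.Dual E U) := Module.finite_of_finite E
  constructor
  · rw [Submodule.disjoint_def]
    intro u hu hu'
    exact hU u hu fun u' hu'' => hf_eq_zero (hu' u' hu'')
  · rw [codisjoint_iff, eq_top_iff]
    intro v _
    have hb : Function.Bijective (fun a : U => toD U (a : ι → E)) :=
      (toD_inj hU).bijective_of_nat_card_le (by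
        change Nat.card (Module.Dual E U) ≤ Nat.card U
        rw [card_dual])
    obtain ⟨u, hu⟩ := hb.2 (toD U v)
    refine Submodule.mem_sup.2 ⟨u, u.2, v - u, ?_, by rw [add_sub_cancel]⟩
    intro u' hu'
    have h1 : hf (u : ι → E) u' = hf v u' := LinearMap.congr_fun hu ⟨u', hu'⟩
    apply hf_eq_zero
    rw [sub_eq_add_neg, add_hf, ← h1, ← add_hf, add_neg_cancel, zero_hf]

/-- the orthogonal projection -/
theorem exists_proj {U : Submodule E (ι → E)} (hU : ∀ u ∈ U, (∀ u' ∈ U, hf u u' = 0) → u = 0) :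
    ∃ e : Matrix ι ι E, IsP e ∧ (∀ v, e *ᵥ v ∈ U) ∧ (∀ u ∈ U, e *ᵥ u = u) ∧ (∀ v ∈ perp U, e *ᵥ v = 0) := by
  have hc := isCompl_perp hU
  obtain ⟨P, hP⟩ : ∃ P : (ι → E) →ₗ[E] (ι → E), P = U.subtype ∘ₗ U.linearProjOfIsCompl (perp U) hc := ⟨_, rfl⟩
  have hP1 : ∀ v, P v ∈ U := by
    intro v
    rw [hP]
    exact (U.linearProjOfIsCompl (perp U) hc v).2
  have hP2 : ∀ u ∈ U, P u = u := by
    intro u hu
    rw [hP]
    exact congrArg Subtype.val (Submodule.projectionOnto_apply_left hc ⟨u, hu⟩)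
  have hP3 : ∀ v ∈ perp U, P v = 0 := by
    intro v hv
    rw [hP]
    exact congrArg Subtype.val (Submodule.projectionOnto_apply_right hc ⟨v, hv⟩)
  have hP4 : ∀ v, v - P v ∈ perp U := by
    intro v
    obtain ⟨u, hu, w, hw, rfl⟩ := Submodule.mem_sup.1 (show v ∈ U ⊔ perp U by rw [hc.sup_eq_top]; trivial)
    rw [map_add, hP2 u hu, hP3 w hw, add_zero, add_sub_cancel_left]
    exact hw
  have he : ∀ v, LinearMap.toMatrix' P *ᵥ v = P v := fun v => LinearMap.toMatrix'_mulVec P v
  refine ⟨LinearMap.toMatrix' P, ⟨?_, ?_⟩, fun v => by rw [he]; exact hP1 v, fun u hu => by rw [he]; exact hP2 u hu,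
    fun v hv => by rw [he]; exact hP3 v hv⟩
  · apply Matrix.ext_of_mulVec_single
    intro i
    rw [← mulVec_mulVec, he, he, hP2 _ (hP1 _)]
  · apply Matrix.ext_of_mulVec_single
    intro i
    apply hf_ext
    intro v
    rw [← hf_mulVec, he, he]
    obtain ⟨w, hw⟩ : ∃ w : ι → E, w = Pi.single i 1 := ⟨_, rfl⟩
    rw [← hw]
    have h1 : hf (P v) w = hf (P v) (P w) := by
      conv_lhs => rw [← add_sub_cancel (P w) w]
      rw [hf_add, hP4 w (P v) (hP1 v), add_zero]
    have h2 : hf v (P w) = hf (P v) (P w) := by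
      conv_lhs => rw [← add_sub_cancel (P v) v]
      rw [add_hf, hf_eq_zero (hP4 v (P w) (hP1 w)), add_zero]
    rw [h1, h2]

end form

section group

variable {ι : Type} [Fintype ι] [DecidableEq ι] {E : Type} [Field E] [StarRing E]

/-- the natural representation -/
def rep : SU ι E →* ((ι → E) →ₗ[E] (ι → E)) where
  toFun t := Matrix.toLin' (mt t)
  map_one' := by
    rw [map_one, Matrix.toLin'_one]
    rfl
  map_mul' s t := by
    rw [map_mul, Matrix.toLin'_mul]
    rfl

theorem rep_apply (t : SU ι E) (v : ι → E) : rep t v = mt t *ᵥ v := Matrix.toLin'_apply _ _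

theorem hf_rep (t : SU ι E) (v w : ι → E) : hf v (rep t w) = hf (rep t⁻¹ v) w := by
  rw [rep_apply, rep_apply, hf_mulVec, mt_inv, star_star]

theorem inv_perp {T : Subgroup (SU ι E)} {U : Submodule E (ι → E)} (h : Inv rep T U) : Inv rep T (perp U) := by
  intro t ht v hv u hu
  rw [hf_rep]
  exact hv _ (h t⁻¹ (inv_mem ht) u hu)

variable [Finite E]

/-- Maschke -/
theorem exists_compl (h2 : IsUnit (2 : E)) {T : Subgroup (SU ι E)} (hT : IsPGroup 2 T) {A B : Submodule E (ι → E)}
    (hA : Inv rep T A) (hB : Inv rep T B) (hAB : A ≤ B) : ∃ C ≤ B, Inv rep T C ∧ A ⊓ C = ⊥ ∧ A ⊔ C = B := by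
  classical
  have hfin : Finite (SU ι E) := by
    have : Finite (Matrix ι ι E) := inferInstanceAs (Finite (ι → ι → E))
    exact Finite.of_injective _ mt_injective
  have hft : Fintype T := Fintype.ofFinite T
  obtain ⟨n, hn⟩ := (IsPGroup.iff_card).1 hT
  obtain ⟨N, hN⟩ : ∃ N : E, N = (Fintype.card T : E) := ⟨_, rfl⟩
  have hN0 : N ≠ 0 := by
    rw [hN, ← Nat.card_eq_fintype_card, hn, Nat.cast_pow, Nat.cast_ofNat]
    exact pow_ne_zero _ h2.ne_zero
  obtain ⟨q, hq⟩ := A.exists_isCompl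
  obtain ⟨P, hP⟩ : ∃ P : (ι → E) →ₗ[E] (ι → E), P = A.subtype ∘ₗ A.linearProjOfIsCompl q hq := ⟨_, rfl⟩
  have hP1 : ∀ v, P v ∈ A := by
    intro v
    rw [hP]
    exact (A.linearProjOfIsCompl q hq v).2
  have hP2 : ∀ u ∈ A, P u = u := by
    intro u hu
    rw [hP]
    exact congrArg Subtype.val (Submodule.projectionOnto_apply_left hq ⟨u, hu⟩)
  obtain ⟨P', hP'⟩ : ∃ P' : (ι → E) →ₗ[E] (ι → E), P' = N⁻¹ • ∑ t : T, rep (t : SU ι E) ∘ₗ P ∘ₗ rep (t : SU ι E)⁻¹ := ⟨_, rfl⟩
  have hP'a : ∀ v, P' v = N⁻¹ • ∑ t : T, rep (t : SU ι E) (P (rep (t : SU ι E)⁻¹ v)) := by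
    intro v
    rw [hP', LinearMap.smul_apply, LinearMap.sum_apply]
    rfl
  have h1 : ∀ v, P' v ∈ A := by
    intro v
    rw [hP'a]
    exact A.smul_mem _ (A.sum_mem fun t _ => hA _ t.2 _ (hP1 _))
  have h3 : ∀ a ∈ A, P' a = a := by
    intro a ha
    rw [hP'a]
    have h4 : ∀ t : T, rep (t : SU ι E) (P (rep (t : SU ι E)⁻¹ a)) = a := by
      intro t
      rw [hP2 _ (hA _ (inv_mem t.2) a ha), rho_inv]
    rw [Finset.sum_congr rfl fun t _ => h4 t, Finset.sum_const, Finset.card_univ, ← Nat.cast_smul_eq_nsmul E, ← hN,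
      smul_smul, inv_mul_cancel₀ hN0, one_smul]
  have h4 : ∀ s ∈ T, ∀ v, P' (rep s v) = rep s (P' v) := by
    intro s hs v
    rw [hP'a, hP'a, map_smul, map_sum]
    congr 1
    refine Fintype.sum_equiv (Equiv.mulLeft (⟨s, hs⟩ : T)⁻¹) _ _ fun t => ?_
    have e1 : rep s (rep (((⟨s, hs⟩ : T)⁻¹ * t : T) : SU ι E) (P (rep (((⟨s, hs⟩ : T)⁻¹ * t : T) : SU ι E)⁻¹ v))) =
        (rep s * rep (((⟨s, hs⟩ : T)⁻¹ * t : T) : SU ι E)) (P (rep (((⟨s, hs⟩ : T)⁻¹ * t : T) : SU ι E)⁻¹ v)) := rfl
    rw [Equiv.coe_mulLeft, e1, ← map_mul]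
    have e2 : s * (((⟨s, hs⟩ : T)⁻¹ * t : T) : SU ι E) = t := by
      push_cast
      group
    have e3 : (((⟨s, hs⟩ : T)⁻¹ * t : T) : SU ι E)⁻¹ = (t : SU ι E)⁻¹ * s := by
      push_cast
      group
    rw [e2, e3, map_mul]
    rfl
  refine ⟨B ⊓ LinearMap.ker P', inf_le_left, fun t ht w hw => ⟨hB t ht w hw.1, ?_⟩, ?_, ?_⟩
  · have hw2 : P' w = 0 := hw.2
    change P' (rep t w) = 0
    rw [h4 t ht, hw2, map_zero]
  · rw [eq_bot_iff]
    rintro a ⟨ha, -, ha'⟩
    have ha2 : P' a = 0 := ha'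
    rw [h3 a ha] at ha2
    exact ha2
  · apply le_antisymm (sup_le hAB inf_le_left)
    intro v hv
    refine Submodule.mem_sup.2 ⟨P' v, h1 v, v - P' v, ⟨B.sub_mem hv (hAB (h1 v)), ?_⟩, by rw [add_sub_cancel]⟩
    change P' (v - P' v) = 0
    rw [map_sub, h3 _ (h1 v), sub_self]

/-- one step -/
theorem step (h2 : IsUnit (2 : E)) {T : Subgroup (SU ι E)} (hT : IsPGroup 2 T) {f : Matrix ι ι E} (hf1 : IsP f)
    (hfT : ∀ t ∈ T, mt t * f = f * mt t) (hf0 : f ≠ 0) :
    ∃ e : Matrix ι ι E, IsP e ∧ e ≠ 0 ∧ f * e = e ∧ (∀ t ∈ T, mt t * e = e * mt t) ∧ ∃ a : ℕ, rk e = 2 ^ a := by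
  classical
  have hfin : Finite (SU ι E) := by
    have : Finite (Matrix ι ι E) := inferInstanceAs (Finite (ι → ι → E))
    exact Finite.of_injective _ mt_injective
  -- the fixed space of `f`
  obtain ⟨B, hB⟩ : ∃ B : Submodule E (ι → E), ∀ v, v ∈ B ↔ f *ᵥ v = v :=
    ⟨{ carrier := {v | f *ᵥ v = v}
       zero_mem' := mulVec_zero _
       add_mem' := by
         intro v w hv hw
         change f *ᵥ (v + w) = v + w
         rw [mulVec_add, hv, hw]
       smul_mem' := by
         intro c v hv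
         change f *ᵥ (c • v) = c • v
         rw [mulVec_smul, hv] }, fun v => Iff.rfl⟩
  have hfB : ∀ v, f *ᵥ v ∈ B := by
    intro v
    rw [hB, mulVec_mulVec, hf1.idem]
  have hBT : Inv rep T B := by
    intro t ht v hv
    rw [hB] at hv ⊢
    rw [rep_apply, mulVec_mulVec, ← hfT t ht, ← mulVec_mulVec, hv]
  have hB0 : B ≠ ⊥ := by
    intro h
    apply hf0
    apply Matrix.ext_of_mulVec_single
    intro i
    have h1 := hfB (Pi.single i 1)
    rw [h, Submodule.mem_bot] at h1
    rw [h1, zero_mulVec]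
  have hBn : ∀ v ∈ B, (∀ w ∈ B, hf v w = 0) → v = 0 := by
    intro v hv h
    apply hf_nondeg
    intro w
    rw [← (hB v).1 hv, hf_mulVec, hf1.sym]
    exact h _ (hfB w)
  obtain ⟨W, hWB, hW⟩ := exists_min hB0 hBT
  obtain ⟨a, ha⟩ := two_pow T hT hW
  -- the nondegenerate piece
  obtain ⟨U, hU1, hU2, hU3, hU4, b, hb⟩ : ∃ U ≤ B, U ≠ ⊥ ∧ Inv rep T U ∧ (∀ u ∈ U, (∀ u' ∈ U, hf u u' = 0) → u = 0) ∧
      ∃ b : ℕ, finrank E U = 2 ^ b := by
    by_cases hR : W ⊓ perp W = ⊥
    · refine ⟨W, hWB, hW.ne, hW.inv, fun u hu h => ?_, a, ha⟩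
      have h1 : u ∈ W ⊓ perp W := ⟨hu, fun u' hu' => hf_eq_zero (h u' hu')⟩
      rw [hR] at h1
      exact h1
    · have h1 := hW.min _ inf_le_left (hW.inv.inf (inv_perp hW.inv)) hR
      have hWp : W ≤ perp W := inf_eq_left.1 h1
      obtain ⟨C, hCB, hCT, hAC, hACB⟩ := exists_compl h2 hT ((inv_perp hW.inv).inf hBT) hBT (inf_le_right : perp W ⊓ B ≤ B)
      have hc0 : ∀ c ∈ C, (∀ w ∈ W, hf c w = 0) → c = 0 := by
        intro c hc h
        have h3 : c ∈ (perp W ⊓ B) ⊓ C := ⟨⟨fun u hu => hf_eq_zero (h u hu), hCB hc⟩, hc⟩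
        rw [hAC] at h3
        exact h3
      have hw0 : ∀ w ∈ W, (∀ c ∈ C, hf w c = 0) → w = 0 := by
        intro w hw h
        refine hBn w (hWB hw) fun v hv => ?_
        rw [← hACB] at hv
        obtain ⟨x, hx, c, hc, rfl⟩ := Submodule.mem_sup.1 hv
        rw [hf_add, hx.1 w hw, h c hc, add_zero]
      have hdim : finrank E C = finrank E W := le_antisymm (finrank_le hc0) (finrank_le hw0)
      have hWC : W ⊓ C = ⊥ := by
        rw [eq_bot_iff, ← hAC]
        exact inf_le_inf_right C (le_inf hWp hWB)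
      refine ⟨W ⊔ C, sup_le hWB hCB, fun h => hW.ne ?_, hW.inv.sup hCT, ?_, a + 1, ?_⟩
      · rw [eq_bot_iff, ← h]
        exact le_sup_left
      · intro u hu h
        obtain ⟨w, hw, c, hc, rfl⟩ := Submodule.mem_sup.1 hu
        have h3 : c = 0 := by
          refine hc0 c hc fun w' hw' => ?_
          have h4 := h w' (Submodule.mem_sup_left hw')
          rwa [add_hf, hWp hw' w hw, zero_add] at h4
        subst h3
        rw [add_zero] at h ⊢
        exact hw0 w hw fun c hc => h c (Submodule.mem_sup_right hc)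
      · have h3 := Submodule.finrank_sup_add_finrank_inf_eq W C
        rw [hWC, finrank_bot, hdim, ha] at h3
        rw [pow_succ]
        omega
  obtain ⟨e, he, he1, he2, he3⟩ := exists_proj hU4
  have hfix : ∀ v, e *ᵥ v = v ↔ v ∈ U := fun v => ⟨fun h => by rw [← h]; exact he1 v, he2 v⟩
  refine ⟨e, he, ?_, ?_, ?_, b, ?_⟩
  · rintro rfl
    obtain ⟨u, hu, hu0⟩ := (Submodule.ne_bot_iff U).1 hU2
    apply hu0
    rw [← he2 u hu, zero_mulVec]
  · apply Matrix.ext_of_mulVec_single
    intro i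
    rw [← mulVec_mulVec]
    exact (hB _).1 (hU1 (he1 _))
  · intro t ht
    apply Matrix.ext_of_mulVec_single
    intro i
    obtain ⟨v, hv⟩ : ∃ v : ι → E, v = Pi.single i 1 := ⟨_, rfl⟩
    rw [← hv, ← mulVec_mulVec, ← mulVec_mulVec]
    have hc := isCompl_perp hU4
    obtain ⟨u, hu, w, hw, rfl⟩ := Submodule.mem_sup.1 (show v ∈ U ⊔ perp U by rw [hc.sup_eq_top]; trivial)
    have h3 : mt t *ᵥ u ∈ U := by rw [← rep_apply]; exact hU3 t ht u hu
    have h4 : mt t *ᵥ w ∈ perp U := by rw [← rep_apply]; exact inv_perp hU3 t ht w hw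
    rw [mulVec_add e u w, he2 u hu, he3 w hw, add_zero, mulVec_add (mt t) u w, mulVec_add e, he2 _ h3,
      he3 _ h4, add_zero]
  · have h3 : Nat.card {v : ι → E // e *ᵥ v = v} = Nat.card U := Nat.card_congr (Equiv.subtypeEquivRight hfix)
    rw [rk, h3, Module.natCard_eq_pow_finrank (K := E) (V := U), Nat.log_pow one_lt_card, hb]

theorem decomp (h2 : IsUnit (2 : E)) {T : Subgroup (SU ι E)} (hT : IsPGroup 2 T) (n : ℕ) :
    ∀ f : Matrix ι ι E, IsP f → (∀ t ∈ T, mt t * f = f * mt t) → Nat.card {v : ι → E // f *ᵥ v = v} ≤ n →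
    ∃ (m : ℕ) (e : Fin m → Matrix ι ι E), (∀ i, IsP (e i)) ∧ (∀ i j, i ≠ j → e i * e j = 0) ∧ ∑ i, e i = f ∧
      (∀ i, ∀ t ∈ T, mt t * e i = e i * mt t) ∧ ∀ i, ∃ a : ℕ, rk (e i) = 2 ^ a := by
  induction n with
  | zero =>
    intro f _ _ h
    exfalso
    have : Nonempty {v : ι → E // f *ᵥ v = v} := ⟨⟨0, mulVec_zero _⟩⟩
    have h1 : 0 < Nat.card {v : ι → E // f *ᵥ v = v} := Nat.card_pos
    omega
  | succ n ih =>
    intro f hf1 hfT hn
    by_cases hf0 : f = 0
    · refine ⟨0, Fin.elim0, fun i => i.elim0, fun i => i.elim0, ?_, fun i => i.elim0, fun i => i.elim0⟩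
      rw [hf0]
      exact Finset.sum_of_isEmpty _
    obtain ⟨e, he, he0, hfe, heT, a, ha⟩ := step h2 hT hf1 hfT hf0
    have hef : e * f = e := by
      have h1 := congrArg star hfe
      rwa [star_mul, he.sym, hf1.sym] at h1
    have hg : IsP (f - e) := by
      constructor
      · rw [sub_mul, mul_sub, mul_sub, hf1.idem, hfe, hef, he.idem, sub_self, sub_zero]
      · rw [star_sub, hf1.sym, he.sym]
    have hgT : ∀ t ∈ T, mt t * (f - e) = (f - e) * mt t := by
      intro t ht
      rw [mul_sub, sub_mul, hfT t ht, heT t ht]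
    have hlt : Nat.card {v : ι → E // (f - e) *ᵥ v = v} < Nat.card {v : ι → E // f *ᵥ v = v} := by
      have hsub : ∀ v : ι → E, (f - e) *ᵥ v = v → f *ᵥ v = v := by
        intro v hv
        have h1 : f * (f - e) = f - e := by rw [mul_sub, hf1.idem, hfe]
        rw [← hv, mulVec_mulVec, h1]
      obtain ⟨u, hu, hu0⟩ : ∃ u : ι → E, e *ᵥ u = u ∧ u ≠ 0 := by
        by_contra hcon
        push Not at hcon
        apply he0
        apply Matrix.ext_of_mulVec_single
        intro i
        rw [hcon _ (show e *ᵥ (e *ᵥ Pi.single i 1) = e *ᵥ Pi.single i 1 by rw [mulVec_mulVec, he.idem]), zero_mulVec]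
      refine Set.ncard_lt_ncard (s := {v : ι → E | (f - e) *ᵥ v = v}) (t := {v : ι → E | f *ᵥ v = v})
        ⟨fun v hv => hsub v hv, fun h => hu0 ?_⟩ (Set.toFinite _)
      have h3 : f *ᵥ u = u := by rw [← hu, mulVec_mulVec, hfe]
      have h4 : (f - e) *ᵥ u = u := h h3
      rw [sub_mulVec, h3, hu, sub_self] at h4
      exact h4.symm
    obtain ⟨m, e', h1, h3, h4, h5, h6⟩ := ih (f - e) hg hgT (by omega)
    have h7 : ∀ i, (f - e) * e' i = e' i := by
      intro i
      rw [← h4, Finset.sum_mul, Finset.sum_eq_single i, (h1 i).idem]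
      · intro j _ hj
        exact h3 j i hj
      · intro h
        exact absurd (Finset.mem_univ _) h
    have h8 : ∀ i, e' i * (f - e) = e' i := by
      intro i
      rw [← h4, Finset.mul_sum, Finset.sum_eq_single i, (h1 i).idem]
      · intro j _ hj
        exact h3 i j hj.symm
      · intro h
        exact absurd (Finset.mem_univ _) h
    have h9 : ∀ i, e * e' i = 0 := by
      intro i
      rw [← h7 i, ← mul_assoc, mul_sub, hef, he.idem, sub_self, zero_mul]
    have h10 : ∀ i, e' i * e = 0 := by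
      intro i
      rw [← h8 i, mul_assoc, sub_mul, hfe, he.idem, sub_self, mul_zero]
    refine ⟨m + 1, Fin.cons e e', ?_, ?_, ?_, ?_, ?_⟩
    · intro i
      refine Fin.cases ?_ (fun i => ?_) i
      · exact he
      · exact h1 i
    · intro i j hij
      refine Fin.cases (motive := fun i => i ≠ j → (Fin.cons e e' : Fin (m + 1) → Matrix ι ι E) i *
        (Fin.cons e e' : Fin (m + 1) → Matrix ι ι E) j = 0) ?_ (fun i => ?_) i hij
      · refine Fin.cases (motive := fun j => 0 ≠ j → (Fin.cons e e' : Fin (m + 1) → Matrix ι ι E) 0 *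
          (Fin.cons e e' : Fin (m + 1) → Matrix ι ι E) j = 0) ?_ (fun j => ?_) j
        · intro h
          exact absurd rfl h
        · intro _
          rw [Fin.cons_zero, Fin.cons_succ]
          exact h9 j
      · refine Fin.cases (motive := fun j => i.succ ≠ j → (Fin.cons e e' : Fin (m + 1) → Matrix ι ι E) i.succ *
          (Fin.cons e e' : Fin (m + 1) → Matrix ι ι E) j = 0) ?_ (fun j => ?_) j
        · intro _
          rw [Fin.cons_zero, Fin.cons_succ]
          exact h10 i
        · intro h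
          rw [Fin.cons_succ, Fin.cons_succ]
          exact h3 i j fun h' => h (by rw [h'])
    · rw [Fin.sum_univ_succ, Fin.cons_zero]
      simp only [Fin.cons_succ]
      rw [h4, add_sub_cancel]
    · intro i
      refine Fin.cases ?_ (fun i => ?_) i
      · exact heT
      · exact h5 i
    · intro i
      refine Fin.cases ?_ (fun i => ?_) i
      · exact ⟨a, ha⟩
      · exact h6 i

end group

/-- **S3852, CA7.** -/
theorem two_uni (E : Type) [Field E] [Finite E] [StarRing E] (_hs : ∃ a : E, star a ≠ a) : TwoSt E := by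
  intro h2 ι _ _ T hT
  obtain ⟨m, e, h⟩ := decomp h2 hT _ 1 ⟨one_mul _, star_one _⟩ (fun t _ => by rw [mul_one, one_mul]) le_rfl
  exact ⟨m, e, h⟩

end Cfsg.Agent.H911.CA

private theorem dce_898bd2a3363e : _root_.True := by
  try have : _root_.True := by simp only [_root_.Cfsg.Agent.H308.CA.rk.eq_1]
  try have : _root_.True := by simp only [_root_.Cfsg.Agent.H911.CA.hf.eq_1]
  exact _root_.True.intro
end

-- part: H206/CA/ExLin
section
prune_inst 0x205044007522120000188500a2001c62fa000082004b4400852103020789ac42a4c78e21bbb00513d8b02c5460340068135c0100420800000a000c00011f01800081100880010000800088000000000000000000000000000000000000010000000000000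
set_option linter.all false
open scoped Cfsg.Agent.FastGrp

/-!
# The centraliser of an exotic element, linear case (helper206, S3852, task 4771)
-/

set_option autoImplicit false

namespace Cfsg.Agent.H206.CA

open Matrix Polynomial Cfsg.Agent.H308.CA

section fld

variable {F : Type} [Field F] {ι : Type} [Fintype ι] [DecidableEq ι]

theorem field_part [Finite F] {r : ℕ} (hr : r.Prime) (hr2 : r ≠ 2) (A : Matrix ι ι F) (a : F)
    (hA : A ^ r = a • (1 : Matrix ι ι F)) (ha : ∀ c : F, c ^ r ≠ a) (hdet : A.det = 1) :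
    ∃ (m : ℕ) (F' : Type) (_ : Field F') (_ : Finite F') (ψ : Matrix (Fin m) (Fin m) F' →+* Matrix ι ι F),
      Fintype.card ι = r * m ∧ r ∣ m ∧ Function.Injective ψ ∧ (∀ b, b ∈ Set.range ψ ↔ b * A = A * b) ∧
      (∀ P : Matrix (Fin m) (Fin m) F', P.det = 1 → (ψ P).det = 1) ∧ ∀ p : ℕ, CharP F p → CharP F' p := by
  classical
  have ha0 : a ≠ 0 := by
    intro h
    exact ha 0 (by rw [h, zero_pow hr.ne_zero])
  set f : F[X] := X ^ r - C a with hf
  have hirr : Irreducible f := X_pow_sub_C_irreducible_of_prime hr ha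
  have hfact : Fact (Irreducible f) := ⟨hirr⟩
  have hf0 : f ≠ 0 := hirr.ne_zero
  have hmon : f.Monic := monic_X_pow_sub_C a hr.ne_zero
  have hdeg : f.natDegree = r := natDegree_X_pow_sub_C
  -- the endomorphism
  let T : Module.End F (ι → F) := Matrix.toLin' A
  have hT : T ^ r = a • (1 : Module.End F (ι → F)) := by
    have h1 : T ^ r = Matrix.toLin' (A ^ r) := (Matrix.toLin'_pow A r).symm
    rw [h1, hA, map_smul, Matrix.toLin'_one]
    rfl
  have hTf : (aeval T) f = 0 := by
    rw [hf, map_sub, map_pow, aeval_X, aeval_C, hT, Algebra.algebraMap_eq_smul_one, sub_self]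
  let θ : AdjoinRoot f →+* Module.End F (ι → F) := Ideal.Quotient.lift (Ideal.span {f}) (aeval T).toRingHom (by
    intro g hg
    obtain ⟨g', rfl⟩ := Ideal.mem_span_singleton.1 hg
    rw [map_mul]
    change (aeval T) f * _ = 0
    rw [hTf, zero_mul])
  have hθmk : ∀ g : F[X], θ (AdjoinRoot.mk f g) = aeval T g := fun g => Ideal.Quotient.lift_mk _ _ _
  let _ : Module (AdjoinRoot f) (ι → F) := Module.compHom (ι → F) θ
  have hsm : ∀ (c : AdjoinRoot f) (v : ι → F), c • v = θ c v := fun c v => rfl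
  have hst : IsScalarTower F (AdjoinRoot f) (ι → F) := by
    refine ⟨fun x c v => ?_⟩
    obtain ⟨g, rfl⟩ := AdjoinRoot.mk_surjective c
    rw [hsm, hsm]
    have h1 : x • AdjoinRoot.mk f g = AdjoinRoot.mk f (x • g) := rfl
    rw [h1, hθmk, hθmk, map_smul]
    rfl
  have hfd : FiniteDimensional (AdjoinRoot f) (ι → F) := Module.Finite.of_restrictScalars_finite F _ _
  have hfd' : FiniteDimensional F (AdjoinRoot f) := (AdjoinRoot.powerBasis hf0).finite
  have hfr : Module.finrank F (AdjoinRoot f) = r := by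
    rw [(AdjoinRoot.powerBasis hf0).finrank, AdjoinRoot.powerBasis_dim, hdeg]
  have hfin : Finite (AdjoinRoot f) := Module.finite_of_finite F
  let m := Module.finrank (AdjoinRoot f) (ι → F)
  have hm : Fintype.card ι = r * m := by
    have h1 := Module.finrank_mul_finrank F (AdjoinRoot f) (ι → F)
    rw [hfr, Module.finrank_fintype_fun_eq_card] at h1
    exact h1.symm
  let b : Module.Basis (Fin m) (AdjoinRoot f) (ι → F) := Module.finBasis (AdjoinRoot f) (ι → F)
  let res : Module.End (AdjoinRoot f) (ι → F) →+* Module.End F (ι → F) :=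
    { toFun := fun g => g.restrictScalars F
      map_one' := rfl
      map_mul' := fun _ _ => rfl
      map_zero' := rfl
      map_add' := fun _ _ => rfl }
  let ψ : Matrix (Fin m) (Fin m) (AdjoinRoot f) →+* Matrix ι ι F :=
    ((LinearMap.toMatrixAlgEquiv' : Module.End F (ι → F) ≃ₐ[F] Matrix ι ι F) : Module.End F (ι → F) →+* Matrix ι ι F).comp
      (res.comp ((Matrix.toLinAlgEquiv b : Matrix (Fin m) (Fin m) (AdjoinRoot f) ≃ₐ[AdjoinRoot f] _) :
        Matrix (Fin m) (Fin m) (AdjoinRoot f) →+* Module.End (AdjoinRoot f) (ι → F)))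
  have hψ : ∀ P, ψ P = LinearMap.toMatrix' ((Matrix.toLin b b P).restrictScalars F) := fun P => rfl
  have hdetψ : ∀ P, (ψ P).det = Algebra.norm F P.det := by
    intro P
    rw [hψ, LinearMap.det_toMatrix', LinearMap.det_restrictScalars, LinearMap.det_toLin]
  have hroot : ∀ v, θ (AdjoinRoot.root f) v = T v := by
    intro v
    have h1 : AdjoinRoot.root f = AdjoinRoot.mk f X := rfl
    rw [h1, hθmk, aeval_X]
  refine ⟨m, AdjoinRoot f, inferInstance, hfin, ψ, hm, ?_, ?_, ?_, ?_, ?_⟩
  · -- `r ∣ m`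
    have h1 : ψ (AdjoinRoot.root f • (1 : Matrix (Fin m) (Fin m) (AdjoinRoot f))) = A := by
      rw [hψ, map_smul, Matrix.toLin_one]
      apply Matrix.toLin'.injective
      rw [Matrix.toLin'_toMatrix']
      ext1 v
      apply LinearMap.ext
      intro w
      exact hroot _
    have h2 := hdetψ (AdjoinRoot.root f • (1 : Matrix (Fin m) (Fin m) (AdjoinRoot f)))
    rw [h1, hdet, Matrix.det_smul, Matrix.det_one, mul_one, Fintype.card_fin, map_pow] at h2
    have h3 : Algebra.norm F (AdjoinRoot.root f) = a := by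
      have h4 := Algebra.PowerBasis.norm_gen_eq_coeff_zero_minpoly (AdjoinRoot.powerBasis hf0)
      rw [AdjoinRoot.minpoly_powerBasis_gen_of_monic hmon, AdjoinRoot.powerBasis_gen, AdjoinRoot.powerBasis_dim, hdeg,
        hf, coeff_sub, coeff_X_pow, coeff_C_zero, if_neg hr.ne_zero.symm, zero_sub] at h4
      rw [h4, (hr.odd_of_ne_two hr2).neg_one_pow]
      ring
    rw [h3] at h2
    by_contra hrm
    have hcop : Nat.Coprime r m := (Nat.Prime.coprime_iff_not_dvd hr).2 hrm
    have hbez := Nat.gcd_eq_gcd_ab r m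
    rw [hcop] at hbez
    have h5 : a = (a ^ (Nat.gcdA r m)) ^ r := by
      have h6 : a ^ ((1 : ℕ) : ℤ) = a := by rw [Nat.cast_one, zpow_one]
      rw [hbez, zpow_add₀ ha0, _root_.zpow_mul, _root_.zpow_mul, zpow_natCast, zpow_natCast, ← h2, _root_.one_zpow, mul_one] at h6
      conv_lhs => rw [← h6]
      rw [← zpow_natCast, ← zpow_natCast, _root_.zpow_comm]
    exact ha _ h5.symm
  · -- injective
    intro P P' hPP
    apply (Matrix.toLin b b).injective
    have h1 : (Matrix.toLin b b P).restrictScalars F = (Matrix.toLin b b P').restrictScalars F :=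
      LinearMap.toMatrix'.injective hPP
    exact LinearMap.restrictScalars_injective F h1
  · -- the centraliser
    intro B
    constructor
    · rintro ⟨P, rfl⟩
      apply Matrix.toLin'.injective
      rw [Matrix.toLin'_mul, Matrix.toLin'_mul, hψ, Matrix.toLin'_toMatrix']
      apply LinearMap.ext
      intro v
      change Matrix.toLin b b P (T v) = T (Matrix.toLin b b P v)
      rw [← hroot, ← hroot, ← hsm, ← hsm, map_smul]
    · intro hB
      have hcomm : Commute (Matrix.toLin' B : Module.End F (ι → F)) T := by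
        change Matrix.toLin' B ∘ₗ Matrix.toLin' A = Matrix.toLin' A ∘ₗ Matrix.toLin' B
        rw [← Matrix.toLin'_mul, ← Matrix.toLin'_mul, hB]
      have hcomm2 : ∀ g : F[X], Commute (Matrix.toLin' B : Module.End F (ι → F)) (aeval T g) := by
        intro g
        induction g using Polynomial.induction_on' with
        | add p q hp hq => rw [map_add]; exact hp.add_right hq
        | monomial n c =>
          rw [aeval_monomial, Algebra.algebraMap_eq_smul_one, smul_one_mul]
          exact (hcomm.pow_right n).smul_right c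
      let L : (ι → F) →ₗ[AdjoinRoot f] (ι → F) :=
        { toFun := Matrix.toLin' B
          map_add' := map_add _
          map_smul' := by
            intro c v
            obtain ⟨g, rfl⟩ := AdjoinRoot.mk_surjective c
            rw [hsm, hsm, hθmk, RingHom.id_apply, hθmk]
            exact LinearMap.congr_fun (hcomm2 g).eq v }
      refine ⟨LinearMap.toMatrix b b L, ?_⟩
      rw [hψ, Matrix.toLin_toMatrix]
      have h1 : L.restrictScalars F = Matrix.toLin' B := rfl
      rw [h1, LinearMap.toMatrix'_toLin']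
  · intro P hP
    rw [hdetψ, hP, map_one]
  · intro p hp
    exact charP_of_injective_algebraMap (algebraMap F (AdjoinRoot f)).injective p

end fld

section ex

variable {F : Type} [Field F] {ι : Type} [Fintype ι] [DecidableEq ι]

/-- first components -/
def p1 (F : Type) [Field F] : Ex F →+* F := RingHom.fst F F

/-- second components -/
def p2 (F : Type) [Field F] : Ex F →+* F := RingHom.snd F F

/-- the matrix with given components -/
def mk2 (P R : Matrix ι ι F) : Matrix ι ι (Ex F) := Matrix.of fun i j => ((P i j, R i j) : F × F)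

theorem p1_mk2 (P R : Matrix ι ι F) : (p1 F).mapMatrix (mk2 P R) = P := rfl

theorem p2_mk2 (P R : Matrix ι ι F) : (p2 F).mapMatrix (mk2 P R) = R := rfl

theorem ext2 {X Y : Matrix ι ι (Ex F)} (h1 : (p1 F).mapMatrix X = (p1 F).mapMatrix Y)
    (h2 : (p2 F).mapMatrix X = (p2 F).mapMatrix Y) : X = Y := by
  ext i j
  exact Prod.ext (congrFun (congrFun h1 i) j) (congrFun (congrFun h2 i) j)

theorem p1_star (X : Matrix ι ι (Ex F)) : (p1 F).mapMatrix (star X) = ((p2 F).mapMatrix X)ᵀ := rfl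

theorem p2_star (X : Matrix ι ι (Ex F)) : (p2 F).mapMatrix (star X) = ((p1 F).mapMatrix X)ᵀ := rfl

theorem ext_det {X : Matrix ι ι (Ex F)} : X.det = 1 ↔ ((p1 F).mapMatrix X).det = 1 ∧ ((p2 F).mapMatrix X).det = 1 := by
  rw [← RingHom.map_det, ← RingHom.map_det]
  constructor
  · intro h
    rw [h, map_one, map_one]
    exact ⟨rfl, rfl⟩
  · rintro ⟨h1, h2⟩
    exact Prod.ext h1 h2

theorem charP_ex {p : ℕ} : CharP (Ex F) p ↔ CharP F p := by
  have h : ∀ n : ℕ, ((n : Ex F) = 0 ↔ (n : F) = 0) := by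
    intro n
    constructor
    · intro h
      have := congrArg (p1 F) h
      rwa [map_natCast, map_zero] at this
    · intro h
      have h1 : p1 F (n : Ex F) = 0 := by rw [map_natCast, h]
      have h2 : p2 F (n : Ex F) = 0 := by rw [map_natCast, h]
      exact Prod.ext h1 h2
  constructor
  · intro hp
    exact ⟨fun n => by rw [← h n]; exact CharP.cast_eq_zero_iff (Ex F) p n⟩
  · intro hp
    exact ⟨fun n => by rw [h n]; exact CharP.cast_eq_zero_iff F p n⟩

/-- `(P, R) ↦ (ψ P, (ψ Rᵀ)ᵀ)` -/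
def phi {F' : Type} [Field F'] {κ : Type} [Fintype κ] [DecidableEq κ] (ψ : Matrix κ κ F' →+* Matrix ι ι F) :
    Matrix κ κ (Ex F') →+* Matrix ι ι (Ex F) where
  toFun X := mk2 (ψ ((p1 F').mapMatrix X)) (ψ ((p2 F').mapMatrix X)ᵀ)ᵀ
  map_one' := by
    apply ext2
    · rw [p1_mk2, map_one, map_one, map_one]
    · rw [p2_mk2, map_one, Matrix.transpose_one, map_one, Matrix.transpose_one, map_one]
  map_mul' X Y := by
    apply ext2
    · rw [map_mul (p1 F).mapMatrix, p1_mk2, p1_mk2, p1_mk2, map_mul, map_mul]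
    · rw [map_mul (p2 F).mapMatrix, p2_mk2, p2_mk2, p2_mk2, map_mul, Matrix.transpose_mul, map_mul,
        Matrix.transpose_mul]
  map_zero' := by
    apply ext2
    · rw [p1_mk2, map_zero, map_zero, map_zero]
    · rw [p2_mk2, map_zero, Matrix.transpose_zero, map_zero, Matrix.transpose_zero, map_zero]
  map_add' X Y := by
    apply ext2
    · rw [map_add (p1 F).mapMatrix, p1_mk2, p1_mk2, p1_mk2, map_add, map_add]
    · rw [map_add (p2 F).mapMatrix, p2_mk2, p2_mk2, p2_mk2, map_add, Matrix.transpose_add, map_add,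
        Matrix.transpose_add]

theorem p1_phi {F' : Type} [Field F'] {κ : Type} [Fintype κ] [DecidableEq κ] (ψ : Matrix κ κ F' →+* Matrix ι ι F)
    (X : Matrix κ κ (Ex F')) : (p1 F).mapMatrix (phi ψ X) = ψ ((p1 F').mapMatrix X) := rfl

theorem p2_phi {F' : Type} [Field F'] {κ : Type} [Fintype κ] [DecidableEq κ] (ψ : Matrix κ κ F' →+* Matrix ι ι F)
    (X : Matrix κ κ (Ex F')) : (p2 F).mapMatrix (phi ψ X) = (ψ ((p2 F').mapMatrix X)ᵀ)ᵀ := rfl

end ex

/-- **EX, linear case** -/
theorem ex_lin (F : Type) [Field F] [Finite F] : EXSt (Ex F) := by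
  intro ι _ _ r hr hr2 _ x l hl hx hnr
  classical
  obtain ⟨a, b⟩ := l
  set A := (p1 F).mapMatrix (mt x) with hA
  set B := (p2 F).mapMatrix (mt x) with hB
  have hba : b * a = 1 := congrArg Prod.fst hl
  have ha0 : a ≠ 0 := right_ne_zero_of_mul_eq_one hba
  have hAr : A ^ r = a • (1 : Matrix ι ι F) := by
    have h1 := congrArg (p1 F).mapMatrix hx
    rw [map_pow] at h1
    rw [h1]
    ext i j
    change a * p1 F ((1 : Matrix ι ι (Ex F)) i j) = a * (1 : Matrix ι ι F) i j
    by_cases hij : i = j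
    · subst hij
      rw [Matrix.one_apply_eq, Matrix.one_apply_eq, map_one]
    · rw [Matrix.one_apply_ne hij, Matrix.one_apply_ne hij, map_zero]
  have hnra : ∀ c : F, c ^ r ≠ a := by
    intro c hc
    have hc0 : c ≠ 0 := by
      rintro rfl
      rw [zero_pow hr.ne_zero] at hc
      exact ha0 hc.symm
    refine hnr ((c, c⁻¹) : F × F) ?_ ?_
    · change ((c⁻¹ * c, c * c⁻¹) : F × F) = (1, 1)
      rw [inv_mul_cancel₀ hc0, mul_inv_cancel₀ hc0]
    · have hb : b = a⁻¹ := eq_inv_of_mul_eq_one_left hba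
      change ((c ^ r, c⁻¹ ^ r) : F × F) = (a, b)
      rw [inv_pow, hc, hb]
  have hdet := mt_det x
  rw [ext_det] at hdet
  obtain ⟨m, F', iF, hfin, ψ, hcard, hrm, hinj, hrange, hdetψ, hchar⟩ := field_part hr hr2 A a hAr hnra hdet.1
  have hBA : Bᵀ * A = 1 := by
    have h1 := congrArg (p1 F).mapMatrix (star_mt_mul x)
    rw [map_mul, p1_star, map_one] at h1
    exact h1
  have hAB : A * Bᵀ = 1 := mul_eq_one_comm.1 hBA
  refine ⟨m, Ex F', inferInstance, inferInstance, phi ψ, Good.lin F' iF hfin, hcard, hrm, ?_, ?_, ?_, ?_, ?_⟩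
  · intro X Y hXY
    apply ext2
    · exact hinj (by rw [← p1_phi, hXY, p1_phi])
    · have h1 := congrArg (p2 F).mapMatrix hXY
      rw [p2_phi, p2_phi] at h1
      exact Matrix.transpose_injective (hinj (Matrix.transpose_injective h1))
  · intro X
    apply ext2
    · rw [p1_star, p1_phi, p2_phi, p1_star, Matrix.transpose_transpose]
    · rw [p2_star, p1_phi, p2_phi, p2_star, Matrix.transpose_transpose]
  · intro X
    constructor
    · rintro ⟨Y, rfl⟩
      apply ext2
      · rw [map_mul, map_mul, p1_phi]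
        exact (hrange _).1 ⟨_, rfl⟩
      · rw [map_mul, map_mul, p2_phi]
        apply Matrix.transpose_injective
        rw [Matrix.transpose_mul, Matrix.transpose_mul, Matrix.transpose_transpose]
        change Bᵀ * _ = _ * Bᵀ
        have h1 := (hrange (ψ ((p2 F').mapMatrix Y)ᵀ)).1 ⟨_, rfl⟩
        calc Bᵀ * ψ ((p2 F').mapMatrix Y)ᵀ = Bᵀ * (ψ ((p2 F').mapMatrix Y)ᵀ * A) * Bᵀ := by
              rw [mul_assoc, mul_assoc, hAB, mul_one]
          _ = (Bᵀ * A) * ψ ((p2 F').mapMatrix Y)ᵀ * Bᵀ := by rw [h1, ← mul_assoc]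
          _ = _ := by rw [hBA, one_mul]
    · intro hX
      obtain ⟨P, hP⟩ := (hrange ((p1 F).mapMatrix X)).2 (by
        have := congrArg (p1 F).mapMatrix hX
        rwa [map_mul, map_mul] at this)
      obtain ⟨R, hR⟩ := (hrange ((p2 F).mapMatrix X)ᵀ).2 (by
        have h1 := congrArg (p2 F).mapMatrix hX
        rw [map_mul, map_mul] at h1
        have h2 := congrArg Matrix.transpose h1
        rw [Matrix.transpose_mul, Matrix.transpose_mul] at h2
        change Bᵀ * _ = _ * Bᵀ at h2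
        calc ((p2 F).mapMatrix X)ᵀ * A = (A * Bᵀ) * ((p2 F).mapMatrix X)ᵀ * A := by rw [hAB, one_mul]
          _ = A * (Bᵀ * ((p2 F).mapMatrix X)ᵀ) * A := by rw [mul_assoc A]
          _ = A * ((p2 F).mapMatrix X)ᵀ * (Bᵀ * A) := by rw [h2, mul_assoc, mul_assoc, mul_assoc]
          _ = _ := by rw [hBA, mul_one])
      refine ⟨mk2 P Rᵀ, ?_⟩
      apply ext2
      · rw [p1_phi, p1_mk2, hP]
      · rw [p2_phi, p2_mk2, Matrix.transpose_transpose, hR, Matrix.transpose_transpose]
  · intro u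
    have h1 := mt_det u
    rw [ext_det] at h1 ⊢
    rw [p1_phi, p2_phi, Matrix.det_transpose]
    exact ⟨hdetψ _ h1.1, hdetψ _ (by rw [Matrix.det_transpose]; exact h1.2)⟩
  · intro p hp
    rw [charP_ex] at hp ⊢
    exact hchar p hp

end Cfsg.Agent.H206.CA
end

-- part: H683/CA/ExMat
section
prune_inst 0x215004402562120028188580b1203c66fe0005b2006b04008d010a4006c1ef4220838f61b7f0111752ba0e45603d0068134c0040422800000a000000011d01a08008400882090104a60019809184000000000000000000000000000000010004000000000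
set_option linter.all false
open scoped Cfsg.Agent.FastGrp

-- part: H683/CA/StarAut
section
/-!
# The group of star ring automorphisms preserving `SU` and its action on `SU`
-/

set_option autoImplicit false

namespace Cfsg.Agent.H683.CA

open Matrix Cfsg.Agent.H308.CA

variable {ι : Type} [Fintype ι] [DecidableEq ι] {E : Type} [CommRing E] [StarRing E]

/-- conjugation by a unitary matrix -/
def inn (U : Matrix ι ι E) (h1 : star U * U = 1) : RingAut (Matrix ι ι E) :=
  { toFun := fun a => U * a * star U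
    invFun := fun a => star U * a * U
    left_inv := fun a => by
      change star U * (U * a * star U) * U = a
      calc star U * (U * a * star U) * U = (star U * U) * a * (star U * U) := by
            simp only [mul_assoc]
        _ = a := by rw [h1, one_mul, mul_one]
    right_inv := fun a => by
      have h2 : U * star U = 1 := mul_eq_one_comm.1 h1
      change U * (star U * a * U) * star U = a
      calc U * (star U * a * U) * star U = (U * star U) * a * (U * star U) := by
            simp only [mul_assoc]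
        _ = a := by rw [h2, one_mul, mul_one]
    map_mul' := fun a b => by
      calc U * (a * b) * star U = U * a * 1 * b * star U := by simp only [mul_one, mul_assoc]
        _ = U * a * (star U * U) * b * star U := by rw [h1]
        _ = (U * a * star U) * (U * b * star U) := by simp only [mul_assoc]
    map_add' := fun a b => by rw [mul_add, add_mul] }

theorem inn_apply (U : Matrix ι ι E) (h1 : star U * U = 1) (a : Matrix ι ι E) :
    inn U h1 a = U * a * star U := rfl

theorem inn_inv_apply (U : Matrix ι ι E) (h1 : star U * U = 1) (a : Matrix ι ι E) :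
    (inn U h1)⁻¹ a = star U * a * U := rfl

/-- star ring automorphisms preserving `SU` -/
def SA (ι : Type) [Fintype ι] [DecidableEq ι] (E : Type) [CommRing E] [StarRing E] :
    Subgroup (RingAut (Matrix ι ι E)) where
  carrier := {θ | (∀ a, θ (star a) = star (θ a)) ∧ (∀ u : SU ι E, (θ (_root_.Cfsg.Agent.H308.CA.mt u)).det = 1) ∧
    ∀ u : SU ι E, (θ⁻¹ (_root_.Cfsg.Agent.H308.CA.mt u)).det = 1}
  one_mem' := ⟨fun _ => rfl, fun u => mt_det u, fun u => mt_det u⟩
  mul_mem' := by
    rintro θ τ ⟨h1, h2, h3⟩ ⟨k1, k2, k3⟩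
    have hi : ∀ θ : RingAut (Matrix ι ι E), (∀ a, θ (star a) = star (θ a)) →
        ∀ a, θ⁻¹ (star a) = star (θ⁻¹ a) := by
      intro θ h a
      apply θ.injective
      change θ (θ.symm (star a)) = θ (star (θ.symm a))
      rw [h, RingEquiv.apply_symm_apply, RingEquiv.apply_symm_apply]
    have hu : ∀ θ : RingAut (Matrix ι ι E), (∀ a, θ (star a) = star (θ a)) → ∀ u : SU ι E,
        star (θ (_root_.Cfsg.Agent.H308.CA.mt u)) * θ (_root_.Cfsg.Agent.H308.CA.mt u) = 1 := by
      intro θ h u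
      rw [← h, ← map_mul, star_mt_mul, map_one]
    refine ⟨fun a => ?_, fun u => ?_, fun u => ?_⟩
    · change θ (τ (star a)) = star (θ (τ a))
      rw [k1, h1]
    · exact h2 (mkSU (τ (_root_.Cfsg.Agent.H308.CA.mt u)) (hu τ k1 u) (k2 u))
    · have : ((θ * τ)⁻¹) (_root_.Cfsg.Agent.H308.CA.mt u) = τ⁻¹ (θ⁻¹ (_root_.Cfsg.Agent.H308.CA.mt u)) := by rw [_root_.mul_inv_rev]; rfl
      rw [this]
      exact k3 (mkSU (θ⁻¹ (_root_.Cfsg.Agent.H308.CA.mt u)) (hu θ⁻¹ (hi θ h1) u) (h3 u))
  inv_mem' := by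
    rintro θ ⟨h1, h2, h3⟩
    refine ⟨fun a => ?_, h3, fun u => ?_⟩
    · apply θ.injective
      change θ (θ.symm (star a)) = θ (star (θ.symm a))
      rw [h1, RingEquiv.apply_symm_apply, RingEquiv.apply_symm_apply]
    · rw [inv_inv]
      exact h2 u

theorem SA.star {θ : RingAut (Matrix ι ι E)} (h : θ ∈ SA ι E) (a : Matrix ι ι E) :
    θ (star a) = star (θ a) := h.1 a

/-- the action on `SU` -/
def actFun (θ : SA ι E) (u : SU ι E) : SU ι E :=
  mkSU (θ.1 (_root_.Cfsg.Agent.H308.CA.mt u)) (by rw [← SA.star θ.2, ← map_mul, star_mt_mul, map_one]) (θ.2.2.1 u)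

theorem mt_actFun (θ : SA ι E) (u : SU ι E) : _root_.Cfsg.Agent.H308.CA.mt (actFun θ u) = θ.1 (_root_.Cfsg.Agent.H308.CA.mt u) := rfl

/-- the action on `SU` -/
def act : SA ι E →* MulAut (SU ι E) where
  toFun θ :=
    { toFun := actFun θ
      invFun := actFun θ⁻¹
      left_inv := fun u => by
        apply mt_injective
        change θ.1.symm (θ.1 (_root_.Cfsg.Agent.H308.CA.mt u)) = _root_.Cfsg.Agent.H308.CA.mt u
        rw [RingEquiv.symm_apply_apply]
      right_inv := fun u => by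
        apply mt_injective
        change θ.1 (θ.1.symm (_root_.Cfsg.Agent.H308.CA.mt u)) = _root_.Cfsg.Agent.H308.CA.mt u
        rw [RingEquiv.apply_symm_apply]
      map_mul' := fun u v => by
        apply mt_injective
        rw [map_mul, mt_actFun, mt_actFun, mt_actFun, map_mul, map_mul] }
  map_one' := by
    apply MulEquiv.ext
    intro u
    apply mt_injective
    rfl
  map_mul' θ τ := by
    apply MulEquiv.ext
    intro u
    apply mt_injective
    rfl

theorem mt_act (θ : SA ι E) (u : SU ι E) : _root_.Cfsg.Agent.H308.CA.mt (act θ u) = θ.1 (_root_.Cfsg.Agent.H308.CA.mt u) := rfl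

theorem inn_mem_SA (U : Matrix ι ι E) (h1 : star U * U = 1) : inn U h1 ∈ SA ι E := by
  have h2 : U * star U = 1 := mul_eq_one_comm.1 h1
  have hd1 : U.det * (star U).det = 1 := by rw [← det_mul, h2, det_one]
  refine ⟨fun a => ?_, fun u => ?_, fun u => ?_⟩
  · rw [inn_apply, inn_apply, star_mul, star_mul, star_star, mul_assoc]
  · rw [inn_apply, det_mul, det_mul, mt_det, mul_one, hd1]
  · rw [inn_inv_apply, det_mul, det_mul, mt_det, mul_one, mul_comm, hd1]

/-- a ring automorphism of the coefficients commuting with `star` -/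
theorem map_mem_SA (τ : RingAut E) (h : ∀ a, τ (star a) = star (τ a)) :
    (RingEquiv.mapMatrix τ : RingAut (Matrix ι ι E)) ∈ SA ι E := by
  have h' : ∀ a, τ.symm (star a) = star (τ.symm a) := by
    intro a
    apply τ.injective
    rw [h, RingEquiv.apply_symm_apply, RingEquiv.apply_symm_apply]
  refine ⟨fun a => ?_, fun u => ?_, fun u => ?_⟩
  · ext i j
    change τ (star (a j i)) = star (τ (a j i))
    exact h _
  · have := RingHom.map_det (τ : E →+* E) (_root_.Cfsg.Agent.H308.CA.mt u)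
    change (((τ : E →+* E).mapMatrix (_root_.Cfsg.Agent.H308.CA.mt u))).det = 1
    rw [← this, mt_det, map_one]
  · have := RingHom.map_det (τ.symm : E →+* E) (_root_.Cfsg.Agent.H308.CA.mt u)
    change ((((τ.symm : E ≃+* E) : E →+* E).mapMatrix (_root_.Cfsg.Agent.H308.CA.mt u))).det = 1
    rw [← this, mt_det, map_one]

end Cfsg.Agent.H683.CA
end

-- part: H683/CA/ExMat
section
/-!
# `SU ι (Ex F) ≃* SL ι F`
-/

set_option autoImplicit false
set_option linter.unusedSectionVars false
set_option linter.unusedVariables false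

namespace Cfsg.Agent.H683.CA

open Matrix Cfsg.Agent.H308.CA
open Cfsg.Agent.ClassicalGeometry.AutPSL.Root (pr pr_surjective pr_eq_one_iff)
open Cfsg.Agent.ClassicalGeometry.AutPSL.Auto
open Cfsg.Agent.ClassicalGeometry.AutPSL.Main

variable {ι : Type} [Fintype ι] [DecidableEq ι] {F : Type} [Field F]

def e1 : Ex F →+* F where
  toFun a := a.1
  map_one' := rfl
  map_mul' _ _ := rfl
  map_zero' := rfl
  map_add' _ _ := rfl

def e2 : Ex F →+* F where
  toFun a := a.2
  map_one' := rfl
  map_mul' _ _ := rfl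
  map_zero' := rfl
  map_add' _ _ := rfl

theorem ex_ext {a b : Ex F} (h1 : e1 a = e1 b) (h2 : e2 a = e2 b) : a = b := Prod.ext h1 h2

def ex2 (a b : F) : Ex F := ((a, b) : F × F)

@[simp] theorem e1_ex2 (a b : F) : e1 (ex2 a b) = a := rfl

@[simp] theorem e2_ex2 (a b : F) : e2 (ex2 a b) = b := rfl

def p1 : Matrix ι ι (Ex F) →+* Matrix ι ι F := e1.mapMatrix

def p2 : Matrix ι ι (Ex F) →+* Matrix ι ι F := e2.mapMatrix

theorem mat_ext {X Y : Matrix ι ι (Ex F)} (h1 : p1 X = p1 Y) (h2 : p2 X = p2 Y) : X = Y := by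
  ext i j
  exact ex_ext (congrFun (congrFun h1 i) j) (congrFun (congrFun h2 i) j)

def mk2 (A B : Matrix ι ι F) : Matrix ι ι (Ex F) := Matrix.of fun i j => ex2 (A i j) (B i j)

@[simp] theorem p1_mk2 (A B : Matrix ι ι F) : p1 (mk2 A B) = A := rfl

@[simp] theorem p2_mk2 (A B : Matrix ι ι F) : p2 (mk2 A B) = B := rfl

theorem p1_star (X : Matrix ι ι (Ex F)) : p1 (star X) = (p2 X)ᵀ := rfl

theorem p2_star (X : Matrix ι ι (Ex F)) : p2 (star X) = (p1 X)ᵀ := rfl

theorem star_mk2 (A B : Matrix ι ι F) : star (mk2 A B) = mk2 Bᵀ Aᵀ := rfl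

theorem mk2_mul (A B A' B' : Matrix ι ι F) : mk2 A B * mk2 A' B' = mk2 (A * A') (B * B') :=
  mat_ext (by rw [map_mul]; rfl) (by rw [map_mul]; rfl)

theorem mk2_add (A B A' B' : Matrix ι ι F) : mk2 A B + mk2 A' B' = mk2 (A + A') (B + B') :=
  mat_ext (by rw [map_add]; rfl) (by rw [map_add]; rfl)

theorem mk2_sub (A B A' B' : Matrix ι ι F) : mk2 A B - mk2 A' B' = mk2 (A - A') (B - B') :=
  mat_ext (by rw [map_sub]; rfl) (by rw [map_sub]; rfl)

theorem mk2_one : mk2 (1 : Matrix ι ι F) 1 = 1 :=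
  mat_ext (by rw [map_one]; rfl) (by rw [map_one]; rfl)

theorem det_p1 (X : Matrix ι ι (Ex F)) : (p1 X).det = e1 X.det := (RingHom.map_det e1 X).symm

theorem det_p2 (X : Matrix ι ι (Ex F)) : (p2 X).det = e2 X.det := (RingHom.map_det e2 X).symm

theorem p2_mt (u : SU ι (Ex F)) : (p2 (_root_.Cfsg.Agent.H308.CA.mt u))ᵀ * p1 (_root_.Cfsg.Agent.H308.CA.mt u) = 1 := by
  rw [← p1_star, ← map_mul, star_mt_mul, map_one]

/-- `SU ≅ SL` -/
def toSL : SU ι (Ex F) ≃* Matrix.SpecialLinearGroup ι F where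
  toFun u := ⟨p1 (_root_.Cfsg.Agent.H308.CA.mt u), by rw [det_p1, mt_det, map_one]⟩
  invFun A := mkSU (mk2 A.1 (A⁻¹).1ᵀ) (by
      rw [star_mk2, transpose_transpose, mk2_mul, ← transpose_mul, ← Matrix.SpecialLinearGroup.coe_mul,
        inv_mul_cancel, Matrix.SpecialLinearGroup.coe_one, transpose_one, mk2_one])
    (ex_ext (by rw [← det_p1, map_one]; exact A.2) (by
      rw [← det_p2, map_one, p2_mk2, det_transpose]; exact (A⁻¹).2))
  left_inv u := by
    apply mt_injective
    apply mat_ext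
    · rfl
    · have h1 : (p2 (_root_.Cfsg.Agent.H308.CA.mt u))ᵀ * p1 (_root_.Cfsg.Agent.H308.CA.mt u) = 1 := p2_mt u
      have h2 : p1 (_root_.Cfsg.Agent.H308.CA.mt u) * (p2 (_root_.Cfsg.Agent.H308.CA.mt u))ᵀ = 1 := mul_eq_one_comm.1 h1
      set A : Matrix.SpecialLinearGroup ι F := ⟨p1 (_root_.Cfsg.Agent.H308.CA.mt u), by rw [det_p1, mt_det, map_one]⟩ with hA
      change (A⁻¹).1ᵀ = p2 (_root_.Cfsg.Agent.H308.CA.mt u)
      have h3 : (A⁻¹).1 * p1 (_root_.Cfsg.Agent.H308.CA.mt u) = 1 := by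
        change (A⁻¹).1 * A.1 = 1
        rw [← Matrix.SpecialLinearGroup.coe_mul, inv_mul_cancel, Matrix.SpecialLinearGroup.coe_one]
      have h4 : (A⁻¹).1 = (p2 (_root_.Cfsg.Agent.H308.CA.mt u))ᵀ := by
        calc (A⁻¹).1 = (A⁻¹).1 * (p1 (_root_.Cfsg.Agent.H308.CA.mt u) * (p2 (_root_.Cfsg.Agent.H308.CA.mt u))ᵀ) := by rw [h2, mul_one]
          _ = _ := by rw [← mul_assoc, h3, one_mul]
      rw [h4, transpose_transpose]
  right_inv A := Subtype.ext rfl
  map_mul' u v := by
    apply Subtype.ext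
    change p1 (_root_.Cfsg.Agent.H308.CA.mt (u * v)) = p1 (_root_.Cfsg.Agent.H308.CA.mt u) * p1 (_root_.Cfsg.Agent.H308.CA.mt v)
    rw [map_mul, map_mul]

theorem coe_toSL (u : SU ι (Ex F)) : (toSL u : Matrix ι ι F) = p1 (_root_.Cfsg.Agent.H308.CA.mt u) := rfl

theorem p2_mt_eq (u : SU ι (Ex F)) : p2 (_root_.Cfsg.Agent.H308.CA.mt u) = ((toSL u)⁻¹ : Matrix.SpecialLinearGroup ι F).1ᵀ := by
  have h1 : (p2 (_root_.Cfsg.Agent.H308.CA.mt u))ᵀ * p1 (_root_.Cfsg.Agent.H308.CA.mt u) = 1 := p2_mt u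
  have h3 : (toSL u).1 * ((toSL u)⁻¹).1 = 1 := by
    rw [← Matrix.SpecialLinearGroup.coe_mul, mul_inv_cancel, Matrix.SpecialLinearGroup.coe_one]
  have h4 : (p2 (_root_.Cfsg.Agent.H308.CA.mt u))ᵀ = ((toSL u)⁻¹).1 := by
    calc (p2 (_root_.Cfsg.Agent.H308.CA.mt u))ᵀ = (p2 (_root_.Cfsg.Agent.H308.CA.mt u))ᵀ * ((toSL u).1 * ((toSL u)⁻¹).1) := by rw [h3, mul_one]
      _ = ((p2 (_root_.Cfsg.Agent.H308.CA.mt u))ᵀ * p1 (_root_.Cfsg.Agent.H308.CA.mt u)) * ((toSL u)⁻¹).1 := by rw [mul_assoc]; rfl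
      _ = _ := by rw [h1, one_mul]
  rw [← h4, transpose_transpose]

/-- the action of `SA` on `SL` -/
def actSL : SA ι (Ex F) →* MulAut (Matrix.SpecialLinearGroup ι F) :=
  (MulAut.congr toSL).toMonoidHom.comp act

theorem actSL_apply (θ : SA ι (Ex F)) (u : SU ι (Ex F)) :
    actSL θ (toSL u) = toSL (act θ u) := by
  change toSL (act θ (toSL.symm (toSL u))) = _
  rw [MulEquiv.symm_apply_apply]

/-- the action of `SA` on `PSL` -/
def actPSL : SA ι (Ex F) →* MulAut (Matrix.ProjectiveSpecialLinearGroup ι F) :=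
  lift.comp actSL

theorem actPSL_apply (θ : SA ι (Ex F)) (u : SU ι (Ex F)) :
    actPSL θ (pr (toSL u)) = pr (toSL (act θ u)) := by
  change lift (actSL θ) (pr (toSL u)) = _
  rw [lift_pr, actSL_apply]

/-- the swap -/
def swp : RingAut (Ex F) :=
  { toFun := fun _a => star _a
    invFun := fun _a => star _a
    left_inv := fun _ => rfl
    right_inv := fun _ => rfl
    map_mul' := fun _ _ => rfl
    map_add' := fun _ _ => rfl }

/-- a field automorphism -/
def fex (σ : F ≃+* F) : RingAut (Ex F) :=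
  { toFun := fun a => ex2 (σ a.1) (σ a.2)
    invFun := fun a => ex2 (σ.symm a.1) (σ.symm a.2)
    left_inv := fun a => ex_ext (σ.symm_apply_apply _) (σ.symm_apply_apply _)
    right_inv := fun a => ex_ext (σ.apply_symm_apply _) (σ.apply_symm_apply _)
    map_mul' := fun a b => ex_ext (map_mul σ _ _) (map_mul σ _ _)
    map_add' := fun a b => ex_ext (map_add σ _ _) (map_add σ _ _) }

theorem actSL_inn (C : GL ι F) :
    ∃ θ : SA ι (Ex F), actSL θ = cj C := by
  have h1 : star (mk2 (C : Matrix ι ι F) (((C⁻¹ : GL ι F) : Matrix ι ι F)ᵀ)) *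
      mk2 (C : Matrix ι ι F) (((C⁻¹ : GL ι F) : Matrix ι ι F)ᵀ) = 1 := by
    rw [star_mk2, transpose_transpose, mk2_mul, ← transpose_mul, ← Units.val_mul, inv_mul_cancel,
      Units.val_one, transpose_one, mk2_one]
  refine ⟨⟨inn _ h1, inn_mem_SA _ h1⟩, ?_⟩
  apply MulEquiv.ext
  intro g
  obtain ⟨u, rfl⟩ := toSL.surjective g
  rw [actSL_apply]
  apply Subtype.ext
  rw [coe_toSL, mt_act, coe_cj]
  change p1 (inn _ h1 (_root_.Cfsg.Agent.H308.CA.mt u)) = _
  rw [inn_apply, star_mk2, map_mul, map_mul, p1_mk2, p1_mk2, transpose_transpose]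
  rfl

theorem actSL_fld (σ : F ≃+* F) :
    ∃ θ : SA ι (Ex F), actSL θ = fld σ := by
  refine ⟨⟨_, map_mem_SA (fex σ) (fun a => rfl)⟩, ?_⟩
  apply MulEquiv.ext
  intro g
  obtain ⟨u, rfl⟩ := toSL.surjective g
  rw [actSL_apply]
  apply Subtype.ext
  ext i j
  rfl

theorem actSL_itr :
    ∃ θ : SA ι (Ex F), actSL θ = itr := by
  refine ⟨⟨_, map_mem_SA swp (fun a => rfl)⟩, ?_⟩
  apply MulEquiv.ext
  intro g
  obtain ⟨u, rfl⟩ := toSL.surjective g
  rw [actSL_apply]
  apply Subtype.ext
  rw [coe_itr, ← p2_mt_eq]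
  rfl

theorem actPSL_surjective [Finite F] {n : ℕ} (hn : 3 ≤ n) :
    Function.Surjective (actPSL : SA (Fin n) (Ex F) →* _) := by
  intro α
  obtain ⟨p, hp⟩ := CharP.exists F
  have := Fintype.ofFinite F
  have hpp : Fact p.Prime := by
    rcases CharP.char_is_prime_or_zero F p with h | h
    · exact ⟨h⟩
    · exfalso
      have : CharP F 0 := h ▸ hp
      have := CharP.charP_to_charZero F
      exact not_finite F
  rcases surj_three p hn α with ⟨A, σ, rfl⟩ | ⟨A, σ, rfl⟩
  · obtain ⟨θ1, h1⟩ := actSL_inn A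
    obtain ⟨θ2, h2⟩ := actSL_fld (ι := Fin n) σ
    refine ⟨θ1 * θ2, ?_⟩
    change lift (actSL (θ1 * θ2)) = _
    rw [map_mul actSL, h1, h2]
  · obtain ⟨θ1, h1⟩ := actSL_inn A
    obtain ⟨θ2, h2⟩ := actSL_fld (ι := Fin n) σ
    obtain ⟨θ3, h3⟩ := actSL_itr (ι := Fin n) (F := F)
    refine ⟨θ1 * θ2 * θ3, ?_⟩
    change lift (actSL (θ1 * θ2 * θ3)) = _
    rw [map_mul actSL, map_mul actSL, h1, h2, h3]

/-- an automorphism of `SL` that is trivial on `PSL` is trivial -/
theorem lift_injective (hι : 3 ≤ Fintype.card ι) :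
    Function.Injective (lift : MulAut (Matrix.SpecialLinearGroup ι F) →* _) := by
  rw [injective_iff_map_eq_one]
  intro α hα
  have hz : ∀ x, x⁻¹ * α x ∈ Subgroup.center (Matrix.SpecialLinearGroup ι F) := by
    intro x
    rw [← pr_eq_one_iff, map_mul, ← lift_pr, hα, map_inv, MulAut.one_apply, inv_mul_cancel]
  let χ : Matrix.SpecialLinearGroup ι F →* Subgroup.center (Matrix.SpecialLinearGroup ι F) :=
    { toFun := fun x => ⟨x⁻¹ * α x, hz x⟩
      map_one' := by
        apply Subtype.ext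
        change (1 : Matrix.SpecialLinearGroup ι F)⁻¹ * α 1 = 1
        rw [map_one, inv_one, one_mul]
      map_mul' := fun x y => by
        apply Subtype.ext
        change (x * y)⁻¹ * α (x * y) = (x⁻¹ * α x) * (y⁻¹ * α y)
        have h1 : y⁻¹ * (x⁻¹ * α x) = (x⁻¹ * α x) * y⁻¹ := Subgroup.mem_center_iff.1 (hz x) y⁻¹
        rw [map_mul, _root_.mul_inv_rev, ← mul_assoc (x⁻¹ * α x), ← h1]
        simp only [mul_assoc] }
  have hχ : ∀ x, χ x = 1 := by
    intro x
    have h1 : commutator (Matrix.SpecialLinearGroup ι F) ≤ χ.ker := by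
      rw [commutator_def, Subgroup.commutator_le]
      intro a _ b _
      rw [MonoidHom.mem_ker, map_commutatorElement]
      exact commutatorElement_eq_one_iff_mul_comm.2
        (Subtype.ext (Subgroup.mem_center_iff.1 (χ b).2 (χ a).1))
    rw [Cfsg.Agent.LieClassical.SLGen.commutator_eq_top hι] at h1
    exact h1 (Subgroup.mem_top x)
  apply MulEquiv.ext
  intro x
  have := congrArg Subtype.val (hχ x)
  change x⁻¹ * α x = 1 at this
  exact (inv_mul_eq_one.1 this).symm

open Cfsg.Agent.ClassicalGeometry.AutPSL.Root in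
/-- the transvections -/
theorem exists_trv {i j : ι} (hij : i ≠ j) (a : F) :
    ∃ u : SU ι (Ex F), _root_.Cfsg.Agent.H308.CA.mt u = 1 + mk2 (single i j a) (-single j i a) := by
  refine ⟨toSL.symm (Matrix.SpecialLinearGroup.transvection hij a), ?_⟩
  change mk2 (Matrix.SpecialLinearGroup.transvection hij a).1
    ((Matrix.SpecialLinearGroup.transvection hij a)⁻¹).1ᵀ = _
  rw [Matrix.SpecialLinearGroup.transvection_inv, ← mk2_one, mk2_add]
  congr 1
  change ((1 : Matrix ι ι F) + single i j (-a))ᵀ = _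
  rw [transpose_add, transpose_one, transpose_single]
  congr 1
  ext r s
  simp only [single_apply, Matrix.neg_apply]
  split_ifs <;> simp

theorem actSL_injective (hι : 3 ≤ Fintype.card ι) :
    Function.Injective (actSL : SA ι (Ex F) →* _) := by
  rw [injective_iff_map_eq_one]
  intro θ hθ
  have hu : ∀ u : SU ι (Ex F), θ.1 (_root_.Cfsg.Agent.H308.CA.mt u) = _root_.Cfsg.Agent.H308.CA.mt u := by
    intro u
    rw [← mt_act]
    congr 1
    apply toSL.injective
    rw [← actSL_apply, hθ]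
    rfl
  apply Subtype.ext
  apply RingEquiv.ext
  let R : Subring (Matrix ι ι (Ex F)) := RingHom.eqLocus (θ.1 : Matrix ι ι (Ex F) →+* _) (RingHom.id _)
  have hR : ∀ X, X ∈ R ↔ θ.1 X = X := fun X => Iff.rfl
  have h1 : ∀ (i j : ι) (_ : i ≠ j) (a : F), mk2 (single i j a) (-single j i a) ∈ R := by
    intro i j hij a
    obtain ⟨u, hu'⟩ := exists_trv hij a
    have h2 : _root_.Cfsg.Agent.H308.CA.mt u ∈ R := (hR _).2 (hu u)
    have h3 := R.sub_mem h2 R.one_mem
    rwa [hu', add_sub_cancel_left] at h3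
  have h2 : ∀ (i j : ι) (_ : i ≠ j) (a : F), mk2 (single i j a) 0 ∈ R := by
    intro i j hij a
    obtain ⟨k, hk⟩ : ∃ k : ι, k ∉ ({i, j} : Finset ι) := by
      by_contra hcon
      push Not at hcon
      have h1 : (Finset.univ : Finset ι) ⊆ {i, j} := fun x _ => hcon x
      have h2 := Finset.card_le_card h1
      have h3 := Finset.card_le_two (a := i) (b := j)
      rw [Finset.card_univ] at h2
      omega
    simp only [Finset.mem_insert, Finset.mem_singleton, not_or] at hk
    have h3 := R.mul_mem (h1 i k (Ne.symm hk.1) a) (h1 k j hk.2 1)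
    rw [mk2_mul, single_mul_single_same, mul_one, neg_mul_neg,
      single_mul_single_of_ne _ _ _ _ hij] at h3
    exact h3
  have h3 : ∀ (i j : ι) (_ : i ≠ j) (a : F), mk2 0 (single j i a) ∈ R := by
    intro i j hij a
    have h4 := R.sub_mem (h2 i j hij a) (h1 i j hij a)
    rwa [mk2_sub, sub_self, zero_sub, neg_neg] at h4
  have hne : ∀ i : ι, ∃ j, i ≠ j := by
    intro i
    have : Nontrivial ι := Fintype.one_lt_card_iff_nontrivial.mp (by omega)
    obtain ⟨j, hj⟩ := exists_ne i
    exact ⟨j, hj.symm⟩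
  have h4 : ∀ (i j : ι) (a : F), mk2 (single i j a) 0 ∈ R := by
    intro i j a
    by_cases hij : i = j
    · subst hij
      obtain ⟨k, hk⟩ := hne i
      have h5 := R.mul_mem (h2 i k hk a) (h2 k i hk.symm 1)
      rwa [mk2_mul, single_mul_single_same, mul_one, mul_zero] at h5
    · exact h2 i j hij a
  have h5 : ∀ (i j : ι) (a : F), mk2 0 (single i j a) ∈ R := by
    intro i j a
    by_cases hij : i = j
    · subst hij
      obtain ⟨k, hk⟩ := hne i
      have h5 := R.mul_mem (h3 k i hk.symm a) (h3 i k hk 1)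
      rwa [mk2_mul, single_mul_single_same, mul_one, mul_zero] at h5
    · exact h3 j i (Ne.symm hij) a
  have hz : mk2 (0 : Matrix ι ι F) 0 = 0 :=
    mat_ext (by rw [map_zero]; rfl) (by rw [map_zero]; rfl)
  have h6 : ∀ A : Matrix ι ι F, mk2 A 0 ∈ R := by
    intro A
    induction A using Matrix.induction_on' with
    | h_zero => rw [hz]; exact R.zero_mem
    | h_add A B hA hB =>
      have := R.add_mem hA hB
      rwa [mk2_add, add_zero] at this
    | h_std_basis i j a => exact h4 i j a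
  have h7 : ∀ A : Matrix ι ι F, mk2 0 A ∈ R := by
    intro A
    induction A using Matrix.induction_on' with
    | h_zero => rw [hz]; exact R.zero_mem
    | h_add A B hA hB =>
      have := R.add_mem hA hB
      rwa [mk2_add, add_zero] at this
    | h_std_basis i j a => exact h5 i j a
  intro X
  have h8 : X = mk2 (p1 X) 0 + mk2 0 (p2 X) := by
    rw [mk2_add, add_zero, zero_add]
    exact mat_ext rfl rfl
  rw [h8]
  exact (hR _).1 (R.add_mem (h6 _) (h7 _))

theorem actPSL_injective (hι : 3 ≤ Fintype.card ι) :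
    Function.Injective (actPSL : SA ι (Ex F) →* _) :=
  (lift_injective hι).comp (actSL_injective hι)

end Cfsg.Agent.H683.CA
end
end

-- part: H683/CA/BridgeLin
section
set_option linter.all false
open scoped Cfsg.Agent.FastGrp

/-!
# S3852, [CA11]: the bridge for `PSL_n(F)`, `n ≥ 3`
-/

set_option autoImplicit false

namespace Cfsg.Agent.H683.CA

open Matrix Cfsg.Agent.H308.CA
open Cfsg.Agent.ClassicalGeometry.AutPSL.Root (pr pr_surjective pr_eq_one_iff)

universe u

theorem pr_toSL_eq_one_iff {n : ℕ} {F : Type} [Field F] (u : SU (Fin n) (Ex F)) :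
    pr (toSL u) = 1 ↔ Sc (mt u) 1 := by
  rw [pr_eq_one_iff, Matrix.SpecialLinearGroup.mem_center_iff]
  constructor
  · rintro ⟨r, hr, h⟩
    rcases Nat.eq_zero_or_pos n with hn | hn
    · subst hn
      exact ⟨1, by rw [star_one, mul_one], Subsingleton.elim _ _⟩
    rw [coe_toSL] at h
    have hr0 : r ≠ 0 := by
      rintro rfl
      rw [Fintype.card_fin, zero_pow (by omega)] at hr
      exact zero_ne_one hr
    have h2 : (p2 (mt u))ᵀ * p1 (mt u) = 1 := p2_mt u
    have h3 : p2 (mt u) = scalar (Fin n) r⁻¹ := by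
      have h4 : p1 (mt u) * scalar (Fin n) r⁻¹ = 1 := by
        rw [← h, ← map_mul, mul_inv_cancel₀ hr0, map_one]
      have h5 : (p2 (mt u))ᵀ = scalar (Fin n) r⁻¹ := by
        calc (p2 (mt u))ᵀ = (p2 (mt u))ᵀ * (p1 (mt u) * scalar (Fin n) r⁻¹) := by rw [h4, mul_one]
          _ = _ := by rw [← mul_assoc, h2, one_mul]
      have h6 := congrArg Matrix.transpose h5
      rw [transpose_transpose] at h6
      rw [h6, scalar_apply, diagonal_transpose]
    refine ⟨ex2 r r⁻¹, ex_ext ?_ ?_, mat_ext ?_ ?_⟩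
    · change r⁻¹ * r = 1
      exact inv_mul_cancel₀ hr0
    · change r * r⁻¹ = 1
      exact mul_inv_cancel₀ hr0
    · rw [← h]
      ext i j
      change scalar (Fin n) r i j = e1 (ex2 r r⁻¹ * (1 : Matrix (Fin n) (Fin n) (Ex F)) i j)
      rw [map_mul, e1_ex2, scalar_apply, diagonal_apply, one_apply]
      split_ifs <;> simp
    · rw [h3]
      ext i j
      change scalar (Fin n) r⁻¹ i j = e2 (ex2 r r⁻¹ * (1 : Matrix (Fin n) (Fin n) (Ex F)) i j)
      rw [map_mul, e2_ex2, scalar_apply, diagonal_apply, one_apply]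
      split_ifs <;> simp
  · rintro ⟨c, hc, h⟩
    have h1 : scalar (Fin n) (e1 c) = p1 (mt u) := by
      rw [h]
      ext i j
      change scalar (Fin n) (e1 c) i j = e1 (c * (1 : Matrix (Fin n) (Fin n) (Ex F)) i j)
      rw [map_mul, scalar_apply, diagonal_apply, one_apply]
      split_ifs <;> simp
    refine ⟨e1 c, ?_, h1⟩
    have h2 : (p1 (mt u)).det = 1 := by rw [det_p1, mt_det, map_one]
    rw [← h1, scalar_apply, det_diagonal, Finset.prod_const, Finset.card_univ] at h2
    exact h2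

/-- [CA11] BRIDGE-lin -/
theorem bridge_lin {G : Type u} [Group G] [Finite G] (S : Subgroup G) [S.Normal]
    (_hc : Subgroup.centralizer (S : Set G) = ⊥) (F : Type) [Field F] [Finite F] (n : ℕ) (hn : 3 ≤ n)
    (e : S ≃* Matrix.ProjectiveSpecialLinearGroup (Fin n) F) :
    ∃ T : TA G (Fin n) (Ex F), T.j.range = S ∧ ∀ u, T.j u = 1 ↔ Sc (mt u) 1 := by
  have hcard : 3 ≤ Fintype.card (Fin n) := by rw [Fintype.card_fin]; exact hn
  let Ψ : SA (Fin n) (Ex F) ≃* MulAut (Matrix.ProjectiveSpecialLinearGroup (Fin n) F) :=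
    MulEquiv.ofBijective actPSL ⟨actPSL_injective hcard, actPSL_surjective hn⟩
  have hΨ : ∀ θ, Ψ θ = actPSL θ := fun θ => rfl
  let κ : G →* MulAut (Matrix.ProjectiveSpecialLinearGroup (Fin n) F) :=
    (MulAut.congr e).toMonoidHom.comp MulAut.conjNormal
  have hκ : ∀ (g : G) (x : Matrix.ProjectiveSpecialLinearGroup (Fin n) F),
      κ g x = e (MulAut.conjNormal g (e.symm x)) := fun g x => rfl
  let ρ0 : G →* SA (Fin n) (Ex F) := Ψ.symm.toMonoidHom.comp κ
  have hρ0 : ∀ g, actPSL (ρ0 g) = κ g := by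
    intro g
    rw [← hΨ]
    exact Ψ.apply_symm_apply _
  let j : SU (Fin n) (Ex F) →* G := S.subtype.comp (e.symm.toMonoidHom.comp (pr.comp toSL.toMonoidHom))
  have hj : ∀ u, j u = (e.symm (pr (toSL u)) : G) := fun u => rfl
  have hT : ∀ (g : G) (u v : SU (Fin n) (Ex F)), mt v = (ρ0 g).1 (mt u) → g * j u * g⁻¹ = j v := by
    intro g u v h
    have h1 : act (ρ0 g) u = v := mt_injective (by rw [mt_act, h])
    have h2 := actPSL_apply (ρ0 g) u
    rw [hρ0, hκ, h1] at h2
    have h3 : MulAut.conjNormal g (e.symm (pr (toSL u))) = e.symm (pr (toSL v)) := by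
      apply e.injective
      rw [h2, MulEquiv.apply_symm_apply]
    rw [hj, hj, ← h3, MulAut.conjNormal_apply]
  refine ⟨⟨(SA (Fin n) (Ex F)).subtype.comp ρ0, fun g a => (ρ0 g).2.1 a, j, ?_, hT⟩, ?_, ?_⟩
  · intro u a
    have h1 : ρ0 (j u) = ⟨inn (mt u) (star_mt_mul u), inn_mem_SA _ _⟩ := by
      apply actPSL_injective hcard
      rw [hρ0]
      apply MulEquiv.ext
      intro x
      obtain ⟨x, rfl⟩ := pr_surjective x
      obtain ⟨v, rfl⟩ := toSL.surjective x
      rw [hκ, actPSL_apply]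
      have h2 : act ⟨inn (mt u) (star_mt_mul u), inn_mem_SA _ _⟩ v = u * v * u⁻¹ := by
        apply mt_injective
        rw [mt_act, map_mul, map_mul, mt_inv]
        rfl
      rw [h2, map_mul, map_mul, map_mul, map_mul, map_inv, map_inv]
      have h3 : MulAut.conjNormal (j u) (e.symm (pr (toSL v))) =
          e.symm (pr (toSL u)) * e.symm (pr (toSL v)) * (e.symm (pr (toSL u)))⁻¹ := by
        apply Subtype.ext
        rw [MulAut.conjNormal_apply]
        rfl
      rw [h3, map_mul, map_mul, map_inv, MulEquiv.apply_symm_apply, MulEquiv.apply_symm_apply]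
    change (ρ0 (j u)).1 a = _
    rw [h1]
    rfl
  · change j.range = S
    ext g
    constructor
    · rintro ⟨u, rfl⟩
      exact (e.symm (pr (toSL u))).2
    · intro hg
      obtain ⟨x, hx⟩ := pr_surjective (e ⟨g, hg⟩)
      obtain ⟨u, rfl⟩ := toSL.surjective x
      refine ⟨u, ?_⟩
      rw [hj, hx, MulEquiv.symm_apply_apply]
  · intro u
    change j u = 1 ↔ _
    rw [← pr_toSL_eq_one_iff, hj]
    constructor
    · intro h
      have h1 : e.symm (pr (toSL u)) = 1 := Subtype.ext h
      rw [← e.apply_symm_apply (pr (toSL u)), h1, map_one]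
    · intro h
      rw [h, map_one, Subgroup.coe_one]

end Cfsg.Agent.H683.CA
end

-- part: H18/Carter/Pass2
section
prune_inst 0x10000000000000
set_option linter.all false
open scoped Cfsg.Agent.FastGrp

-- part: H18/Carter/Pass
section
/-!
# PASS: the automorphism group induced by a Carter subgroup on a component

`K` Carter in `X = K N`, `N` the central product of the perfect groups `E i`, permuted transitively by `K`:
the image of `N_K(E i)` in the group induced by `N_K(E i) E i` on `E i` is Carter.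
-/

set_option autoImplicit false
set_option linter.unusedSectionVars false
set_option linter.unusedVariables false

namespace Cfsg.Agent.H18.Carter

open Subgroup Pointwise
open Cfsg.Agent.Solvable.Carter
open scoped commutatorElement

universe u

variable {X : Type u} [Group X]

theorem cj_map {Y : Type*} [Group Y] (f : X →* Y) (g : X) (A : Subgroup X) :
    MulAut.conj (f g) • A.map f = (MulAut.conj g • A).map f := by
  rw [conj_smul_eq_map, conj_smul_eq_map, map_map, map_map]
  refine congrArg (fun φ => Subgroup.map φ A) (MonoidHom.ext fun y => ?_)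
  show f g * f y * (f g)⁻¹ = f (g * y * g⁻¹)
  rw [map_mul, map_mul, map_inv]

/-- three subgroups: `P` perfect, `[P, C] ≤ C(P)` implies `[P, C] = 1`. -/
theorem cent_of_perfect {P C : Subgroup X} (hP : ⁅P, P⁆ = P) (h : ⁅P, C⁆ ≤ centralizer (P : Set X)) :
    C ≤ centralizer (P : Set X) := by
  have h1 : ⁅⁅P, C⁆, P⁆ = ⊥ := commutator_eq_bot_iff_le_centralizer.2 h
  have h2 : ⁅⁅C, P⁆, P⁆ = ⊥ := by rw [commutator_comm C P]; exact h1
  have h3 : ⁅⁅P, P⁆, C⁆ = ⊥ := commutator_commutator_eq_bot_of_rotate h1 h2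
  rw [hP, commutator_eq_bot_iff_le_centralizer] at h3
  exact Subgroup.le_centralizer_iff.1 h3

/-- the central product of perfect groups permuted transitively by `K` -/
structure Comps (X : Type u) [Group X] (K : Subgroup X) (m : ℕ) where
  E : Fin m → Subgroup X
  perf : ∀ i, ⁅E i, E i⁆ = E i
  ne : ∀ i, E i ≠ ⊥
  comm : ∀ i j, i ≠ j → ∀ x ∈ E i, ∀ y ∈ E j, x * y = y * x
  perm : ∀ k ∈ K, ∀ i, ∃ j, MulAut.conj k • E i = E j
  trans : ∀ i j, ∃ k ∈ K, MulAut.conj k • E i = E j

namespace Comps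

variable {K : Subgroup X} {m : ℕ} (c : Comps X K m)

/-- the product -/
def N : Subgroup X := ⨆ i, c.E i

theorem le_N (i : Fin m) : c.E i ≤ c.N := le_iSup c.E i

theorem E_le_cent {i j : Fin m} (h : i ≠ j) : c.E j ≤ centralizer (c.E i : Set X) := fun y hy x hx =>
  c.comm i j h x hx y hy

theorem N_norm (i : Fin m) : c.N ≤ normalizer (c.E i : Set X) := by
  refine iSup_le fun j => ?_
  by_cases h : i = j
  · rw [← h]; exact le_normalizer
  · exact (c.E_le_cent h).trans (centralizer_le_normalizer _)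

theorem K_norm : K ≤ normalizer (c.N : Set X) := by
  intro k hk
  rw [← cj_eq_self_iff]
  have key : ∀ k ∈ K, MulAut.conj k • c.N ≤ c.N := by
    intro k hk
    rw [conj_smul_eq_map, N, Subgroup.map_iSup]
    refine iSup_le fun i => ?_
    obtain ⟨j, hj⟩ := c.perm k hk i
    rw [conj_smul_eq_map] at hj
    rw [hj]
    exact le_iSup c.E j
  refine le_antisymm (key k hk) ?_
  have h1 := key k⁻¹ (inv_mem hk)
  have h2 := Subgroup.pointwise_smul_le_pointwise_smul_iff (a := MulAut.conj k).2 h1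
  rwa [cj_cj, mul_inv_cancel, cj_one] at h2

theorem N_perf : ⁅c.N, c.N⁆ = c.N := by
  refine le_antisymm (commutator_le_self _) ?_
  refine iSup_le fun i => ?_
  rw [← c.perf i]
  exact commutator_mono (c.le_N i) (c.le_N i)

theorem not_le_cent (i : Fin m) : ¬ c.E i ≤ centralizer (c.E i : Set X) := by
  intro h
  apply c.ne i
  rw [← c.perf i]
  exact commutator_eq_bot_iff_le_centralizer.2 h

theorem cent_N_le (i : Fin m) : centralizer (c.N : Set X) ≤ centralizer (c.E i : Set X) :=
  centralizer_le (c.le_N i)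

theorem mem_cent_N {x : X} : x ∈ centralizer (c.N : Set X) ↔ ∀ i, x ∈ centralizer (c.E i : Set X) := by
  constructor
  · exact fun h i => c.cent_N_le i h
  · intro h
    have h2 : c.N ≤ centralizer ({x} : Set X) := by
      refine iSup_le fun i y hy => ?_
      rw [mem_centralizer_singleton_iff]
      exact h i y hy
    intro y hy
    have := h2 hy
    rwa [mem_centralizer_singleton_iff] at this

variable (hKN : K ⊔ c.N = ⊤)

include hKN

theorem N_normal : c.N.Normal := by
  rw [← normalizer_eq_top_iff, eq_top_iff, ← hKN]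
  exact sup_le c.K_norm le_normalizer

theorem C_normal : (centralizer (c.N : Set X)).Normal := by
  have := c.N_normal hKN
  infer_instance

theorem perm_all (g : X) (i : Fin m) : ∃ j, MulAut.conj g • c.E i = c.E j := by
  have hg : g ∈ K ⊔ c.N := by rw [hKN]; trivial
  obtain ⟨k, hk, n, hn, rfl⟩ := mul_mem_of_norm' c.K_norm hg
  obtain ⟨j, hj⟩ := c.perm k hk i
  refine ⟨j, ?_⟩
  rw [← cj_cj, cj_eq_self_iff.2 (c.N_norm i hn), hj]

/-- the configuration of the quotient by `C(N)` -/
noncomputable def cfg (hK : Group.IsSolvable K) : letI := c.C_normal hKN; Cfg (X ⧸ centralizer (c.N : Set X)) m :=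
  letI := c.C_normal hKN
  letI π := QuotientGroup.mk' (centralizer (c.N : Set X))
  { N := c.N.map π
    T := fun i => (c.E i).map π
    nN := (c.N_normal hKN).map _ (QuotientGroup.mk'_surjective _)
    TN := fun i => map_mono (c.le_N i)
    ne := fun i h => by
      rw [Subgroup.map_eq_bot_iff, QuotientGroup.ker_mk'] at h
      exact c.not_le_cent i (h.trans (c.cent_N_le i))
    nT := fun i => (map_mono (c.N_norm i)).trans (le_normalizer_map _)
    comm := by
      rintro i j hij _ ⟨x, hx, rfl⟩ _ ⟨y, hy, rfl⟩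
      rw [← map_mul, c.comm i j hij x hx y hy, map_mul]
    sup := by
      show ⨆ i, (c.E i).map π = (⨆ i, c.E i).map π
      rw [Subgroup.map_iSup]
    cen := by
      rw [eq_bot_iff]
      intro g hg
      obtain ⟨x, rfl⟩ := QuotientGroup.mk'_surjective _ g
      rw [mem_bot, QuotientGroup.mk'_apply, QuotientGroup.eq_one_iff]
      have h1 : ⁅c.N, zpowers x⁆ ≤ centralizer (c.N : Set X) := by
        rw [← QuotientGroup.ker_mk' (centralizer (c.N : Set X)), ← Subgroup.map_eq_bot_iff, map_commutator,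
          commutator_eq_bot_iff_le_centralizer, Subgroup.le_centralizer_iff, MonoidHom.map_zpowers, zpowers_le]
        exact hg
      exact cent_of_perfect c.N_perf h1 (mem_zpowers x)
    zT := by
      intro i
      rw [eq_bot_iff]
      rintro _ ⟨⟨x, hx, rfl⟩, hg⟩
      rw [mem_bot, QuotientGroup.mk'_apply, QuotientGroup.eq_one_iff, c.mem_cent_N]
      have h1 : ⁅c.E i, zpowers x⁆ ≤ centralizer (c.E i : Set X) := by
        refine le_trans ?_ (c.cent_N_le i)
        rw [← QuotientGroup.ker_mk' (centralizer (c.N : Set X)), ← Subgroup.map_eq_bot_iff, map_commutator,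
          commutator_eq_bot_iff_le_centralizer, Subgroup.le_centralizer_iff, MonoidHom.map_zpowers, zpowers_le]
        exact hg
      intro j
      by_cases hij : i = j
      · rw [← hij]
        exact cent_of_perfect (c.perf i) h1 (mem_zpowers x)
      · exact c.E_le_cent (Ne.symm hij) hx
    perm := by
      intro g i
      obtain ⟨x, rfl⟩ := QuotientGroup.mk'_surjective _ g
      obtain ⟨j, hj⟩ := c.perm_all hKN x i
      refine ⟨j, ?_⟩
      rw [← hj]
      exact cj_map _ _ _
    trans := by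
      intro i j
      obtain ⟨k, hk, hj⟩ := c.trans i j
      refine ⟨π k, ?_⟩
      rw [← hj]
      exact cj_map _ _ _
    sol := by
      have : (c.N.map π).Normal := (c.N_normal hKN).map _ (QuotientGroup.mk'_surjective _)
      have h4 : Function.Surjective ((QuotientGroup.mk' (c.N.map π)).comp (π.comp K.subtype)) := by
        intro y
        obtain ⟨y, rfl⟩ := QuotientGroup.mk'_surjective _ y
        obtain ⟨x, rfl⟩ := QuotientGroup.mk'_surjective _ y
        have hx : x ∈ K ⊔ c.N := by rw [hKN]; trivial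
        obtain ⟨k, hk, n, hn, rfl⟩ := mul_mem_of_norm' c.K_norm hx
        refine ⟨⟨k, hk⟩, ?_⟩
        refine QuotientGroup.eq.2 ?_
        show (π k)⁻¹ * π (k * n) ∈ c.N.map π
        rw [map_mul, inv_mul_cancel_left]
        exact mem_map_of_mem _ hn
      exact Group.isSolvable_of_surjective h4 }

end Comps

/-- the subgroup `(K ⊓ N(E)) E` -/
def DD (K E : Subgroup X) : Subgroup X := (K ⊓ normalizer (E : Set X)) ⊔ E

theorem DD_le_norm (K E : Subgroup X) : DD K E ≤ normalizer (E : Set X) := sup_le inf_le_right le_normalizer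

theorem le_DD (K E : Subgroup X) : E ≤ DD K E := le_sup_right

theorem inf_le_DD (K E : Subgroup X) : K ⊓ normalizer (E : Set X) ≤ DD K E := le_sup_left

/-- the conclusion of PASS -/
structure PassD (K E : Subgroup X) (B : Type u) [Group B] (S R : Subgroup B) (f : ↥(DD K E) →* B) : Prop where
  surj : Function.Surjective f
  ker : ∀ x : ↥(DD K E), f x = 1 ↔ (x : X) ∈ centralizer (E : Set X)
  S_iff : ∀ b : B, b ∈ S ↔ ∃ x : ↥(DD K E), (x : X) ∈ E ∧ f x = b
  R_iff : ∀ b : B, b ∈ R ↔ ∃ x : ↥(DD K E), (x : X) ∈ K ∧ f x = b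
  normal : S.Normal
  cen : centralizer (S : Set B) = ⊥
  carter : IsCarter R
  sup : R ⊔ S = ⊤

namespace Comps

variable {K : Subgroup X} {m : ℕ} (c : Comps X K m)

/-- **PASS in the group `K N`.** -/
theorem pass_top [Finite X] (hKN : K ⊔ c.N = ⊤) (hK : IsCarter K) (IH : ∀ H : Subgroup X, H ≠ ⊤ → CC H) (i : Fin m) :
    ∃ (B : Type u) (_ : Group B) (_ : Finite B) (S R : Subgroup B) (f : ↥(DD K (c.E i)) →* B),
      PassD K (c.E i) B S R f := by
  have hsol : Group.IsSolvable K := by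
    have := hK.1
    infer_instance
  have := c.C_normal hKN
  set C := centralizer (c.N : Set X) with hC
  let π : X →* X ⧸ C := QuotientGroup.mk' C
  have hπ : Function.Surjective π := QuotientGroup.mk'_surjective C
  let d := c.cfg hKN hsol
  have hdT : ∀ j, d.T j = (c.E j).map π := fun _ => rfl
  have hdN : d.N = c.N.map π := rfl
  have hKb : IsCarter (K.map π) := hK.map hπ fun H hH => IH H hH
  have hKNb : K.map π ⊔ d.N = ⊤ := by
    rw [hdN, ← Subgroup.map_sup, hKN, map_top_of_surjective _ hπ]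
  have hcar := d.carter_im hKb hKNb i
  have hnorm : ∀ x ∈ normalizer (c.E i : Set X), π x ∈ normalizer (d.T i : Set (X ⧸ C)) := by
    intro x hx
    rw [← cj_eq_self_iff, hdT, cj_map, cj_eq_self_iff.2 hx]
  have hinj : ∀ j, d.T j = d.T i → j = i := by
    intro j hj
    by_contra hne
    apply d.ne i
    rw [eq_bot_iff, ← d.zT i]
    refine le_inf le_rfl ?_
    have := d.T_le_cent (Ne.symm hne)
    rwa [hj] at this
  -- elements of `X` normalising `T i` modulo `C`
  have hback : ∀ x : X, π x ∈ normalizer (d.T i : Set (X ⧸ C)) → x ∈ normalizer (c.E i : Set X) := by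
    intro x hx
    obtain ⟨j, hj⟩ := c.perm_all hKN x i
    have h1 : d.T j = d.T i := by
      rw [hdT j, ← hj, ← cj_map]
      exact cj_eq_self_iff.2 hx
    rw [← cj_eq_self_iff, hj, hinj j h1]
  let f : ↥(DD K (c.E i)) →* d.A i :=
    { toFun := fun x => d.pr i ⟨π x, hnorm x (DD_le_norm _ _ x.2)⟩
      map_one' := by
        rw [← map_one (d.pr i)]
        exact congrArg (d.pr i) (Subtype.ext (map_one π))
      map_mul' := fun x y => by
        rw [← map_mul (d.pr i)]
        exact congrArg (d.pr i) (Subtype.ext (map_mul π (x : X) (y : X))) }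
  have hf : ∀ x : ↥(DD K (c.E i)), f x = d.pr i ⟨π x, hnorm x (DD_le_norm _ _ x.2)⟩ := fun _ => rfl
  have hker : ∀ x : ↥(DD K (c.E i)), f x = 1 ↔ (x : X) ∈ centralizer (c.E i : Set X) := by
    intro x
    rw [hf, QuotientGroup.mk'_apply, QuotientGroup.eq_one_iff, mem_subgroupOf]
    show π x ∈ centralizer (d.T i : Set (X ⧸ C)) ↔ _
    constructor
    · intro hx
      have h1 : ⁅c.E i, zpowers (x : X)⁆ ≤ centralizer (c.E i : Set X) := by
        refine le_trans ?_ (c.cent_N_le i)
        rw [← hC, ← QuotientGroup.ker_mk' C, ← Subgroup.map_eq_bot_iff, map_commutator,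
          commutator_eq_bot_iff_le_centralizer, Subgroup.le_centralizer_iff, MonoidHom.map_zpowers, zpowers_le]
        exact hx
      exact cent_of_perfect (c.perf i) h1 (mem_zpowers _)
    · intro hx
      rintro _ ⟨y, hy, rfl⟩
      rw [← map_mul, hx y hy, map_mul]
  have hsurj : Function.Surjective f := by
    intro b
    obtain ⟨g, rfl⟩ := QuotientGroup.mk'_surjective _ b
    obtain ⟨s, hs, y, hy, e⟩ := d.norm_decomp hKNb i g.2
    obtain ⟨s, hs, rfl⟩ := hs
    obtain ⟨k, hk, z, hz, rfl⟩ := mul_mem_of_norm' (inf_le_right.trans (cent_norm _)) hy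
    obtain ⟨⟨k, hk, rfl⟩, hk'⟩ := hk
    have hkn : k ∈ normalizer (c.E i : Set X) := hback k hk'
    refine ⟨⟨s * k, mul_mem (le_DD _ _ hs) (inf_le_DD _ _ ⟨hk, hkn⟩)⟩, ?_⟩
    refine QuotientGroup.eq.2 ?_
    show (π (s * k))⁻¹ * (g : X ⧸ C) ∈ centralizer (d.T i : Set (X ⧸ C))
    rw [e, map_mul]
    have : (π s * π k)⁻¹ * (π s * (π k * z)) = z := by group
    rw [this]
    exact hz
  have hS : ∀ b, b ∈ ((c.E i).subgroupOf (DD K (c.E i))).map f ↔ ∃ x : ↥(DD K (c.E i)), (x : X) ∈ c.E i ∧ f x = b :=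
    fun b => Iff.rfl
  refine ⟨d.A i, inferInstance, inferInstance, ((c.E i).subgroupOf (DD K (c.E i))).map f, d.im (K.map π) i, f, ?_⟩
  refine ⟨hsurj, hker, hS, ?_, ?_, ?_, hcar, ?_⟩
  · intro b
    constructor
    · rintro ⟨g, hg, rfl⟩
      obtain ⟨k, hk, e⟩ := hg
      have hkn : k ∈ normalizer (c.E i : Set X) := hback k (by rw [e]; exact g.2)
      refine ⟨⟨k, inf_le_DD _ _ ⟨hk, hkn⟩⟩, hk, ?_⟩
      rw [hf]
      exact congrArg (d.pr i) (Subtype.ext e)
    · rintro ⟨x, hx, rfl⟩
      exact ⟨⟨π x, hnorm x (DD_le_norm _ _ x.2)⟩, mem_map_of_mem π hx, rfl⟩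
  · have : ((c.E i).subgroupOf (DD K (c.E i))).Normal := normal_subgroupOf_of_le_normalizer (DD_le_norm _ _)
    exact this.map _ hsurj
  · rw [eq_bot_iff]
    intro b hb
    obtain ⟨x, rfl⟩ := hsurj b
    rw [mem_bot, hker]
    have h1 : ⁅c.E i, zpowers (x : X)⁆ ≤ centralizer (c.E i : Set X) := by
      rw [commutator_le]
      intro y hy z hz
      obtain ⟨n, rfl⟩ := mem_zpowers_iff.1 hz
      have hyD : y ∈ DD K (c.E i) := le_DD _ _ hy
      have h2 : f (⁅(⟨y, hyD⟩ : ↥(DD K (c.E i))), x ^ n⁆) = 1 := by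
        rw [map_commutatorElement, commutatorElement_eq_one_iff_mul_comm]
        have h3 : f (x ^ n) ∈ centralizer ((((c.E i).subgroupOf (DD K (c.E i))).map f : Subgroup (d.A i)) : Set (d.A i)) := by
          rw [map_zpow]
          exact zpow_mem hb n
        exact h3 _ (mem_map_of_mem f (mem_subgroupOf.2 hy))
      have h4 := (hker _).1 h2
      exact h4
    exact cent_of_perfect (c.perf i) h1 (mem_zpowers _)
  · rw [eq_top_iff]
    intro b _
    obtain ⟨x, rfl⟩ := hsurj b
    have hx : (x : X) ∈ (K ⊓ normalizer (c.E i : Set X)) ⊔ c.E i := x.2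
    obtain ⟨k, hk, e, he, hke⟩ := mul_mem_of_norm' (inf_le_right : K ⊓ normalizer (c.E i : Set X) ≤ _) hx
    have hx' : x = ⟨k, inf_le_DD _ _ hk⟩ * ⟨e, le_DD _ _ he⟩ := Subtype.ext hke
    rw [hx', map_mul]
    refine mul_mem (mem_sup_left ?_) (mem_sup_right ?_)
    · exact ⟨⟨π k, hnorm k hk.2⟩, mem_map_of_mem π hk.1, rfl⟩
    · exact mem_map_of_mem f (mem_subgroupOf.2 he)

end Comps

end Cfsg.Agent.H18.Carter
end

-- part: H18/Carter/Pass2
section
/-!
# PASS in an arbitrary group, one component and orbits of components; Sylow subgroups pulled back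
-/

set_option autoImplicit false
set_option linter.unusedSectionVars false
set_option linter.unusedVariables false

namespace Cfsg.Agent.H18.Carter

open Subgroup Pointwise
open Cfsg.Agent.Solvable.Carter
open scoped commutatorElement

universe u

variable {G : Type u} [Group G]

/-- elements of `DD K E` -/
theorem mem_DD {K E : Subgroup G} {x : G} :
    x ∈ DD K E ↔ ∃ k ∈ K, k ∈ normalizer (E : Set G) ∧ ∃ e ∈ E, x = k * e := by
  constructor
  · intro hx
    obtain ⟨k, hk, e, he, rfl⟩ := mul_mem_of_norm' (inf_le_right : K ⊓ normalizer (E : Set G) ≤ _) hx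
    exact ⟨k, hk.1, hk.2, e, he, rfl⟩
  · rintro ⟨k, hk, hkn, e, he, rfl⟩
    exact mul_mem (inf_le_DD _ _ ⟨hk, hkn⟩) (le_DD _ _ he)

theorem mem_normalizer_subgroupOf {X E : Subgroup G} (hE : E ≤ X) {x : X} :
    x ∈ normalizer ((E.subgroupOf X : Subgroup X) : Set X) ↔ (x : G) ∈ normalizer (E : Set G) := by
  rw [← subgroupOf_normalizer_eq hE, mem_subgroupOf]

theorem DD_le {X K E : Subgroup G} (hK : K ≤ X) (hE : E ≤ X) : DD K E ≤ X := sup_le (inf_le_left.trans hK) hE

theorem mem_DD_sub {X K E : Subgroup G} (hE : E ≤ X) {x : X} :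
    x ∈ DD (K.subgroupOf X) (E.subgroupOf X) ↔ (x : G) ∈ DD K E := by
  rw [mem_DD, mem_DD]
  constructor
  · rintro ⟨k, hk, hkn, e, he, rfl⟩
    exact ⟨k, hk, (mem_normalizer_subgroupOf hE).1 hkn, e, he, rfl⟩
  · rintro ⟨k, hk, hkn, e, he, hx⟩
    have hkX : k ∈ X := by
      have : k = (x : G) * e⁻¹ := by rw [hx]; group
      rw [this]
      exact mul_mem x.2 (inv_mem (hE he))
    exact ⟨⟨k, hkX⟩, hk, (mem_normalizer_subgroupOf hE).2 hkn, ⟨e, hE he⟩, he, Subtype.ext hx⟩

theorem PassD.transport {X K E : Subgroup G} (hK : K ≤ X) (hE : E ≤ X) {B : Type u} [Group B] {S R : Subgroup B}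
    {f' : ↥(DD (K.subgroupOf X) (E.subgroupOf X)) →* B} (h : PassD (K.subgroupOf X) (E.subgroupOf X) B S R f') :
    ∃ f : ↥(DD K E) →* B, PassD K E B S R f := by
  let j : ↥(DD K E) →* ↥(DD (K.subgroupOf X) (E.subgroupOf X)) :=
    { toFun := fun x => ⟨⟨x, DD_le hK hE x.2⟩, (mem_DD_sub hE).2 x.2⟩
      map_one' := rfl
      map_mul' := fun _ _ => rfl }
  have hj : Function.Surjective j := fun y => ⟨⟨y, (mem_DD_sub hE).1 y.2⟩, rfl⟩
  refine ⟨f'.comp j, ?_, ?_, ?_, ?_, h.normal, h.cen, h.carter, h.sup⟩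
  · exact h.surj.comp hj
  · intro x
    rw [MonoidHom.comp_apply, h.ker]
    constructor
    · intro h1 e he
      exact congrArg Subtype.val (h1 ⟨e, hE he⟩ he)
    · intro h1 e he
      exact Subtype.ext (h1 e he)
  · intro b
    rw [h.S_iff]
    constructor
    · rintro ⟨x, hx, rfl⟩
      obtain ⟨y, rfl⟩ := hj x
      exact ⟨y, hx, rfl⟩
    · rintro ⟨x, hx, rfl⟩
      exact ⟨j x, hx, rfl⟩
  · intro b
    rw [h.R_iff]
    constructor
    · rintro ⟨x, hx, rfl⟩
      obtain ⟨y, rfl⟩ := hj x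
      exact ⟨y, hx, rfl⟩
    · rintro ⟨x, hx, rfl⟩
      exact ⟨j x, hx, rfl⟩

namespace Comps

variable {K : Subgroup G} {m : ℕ} (c : Comps G K m)

/-- restriction to a subgroup -/
def sub {X : Subgroup G} (hK : K ≤ X) (hE : ∀ i, c.E i ≤ X) : Comps X (K.subgroupOf X) m where
  E := fun i => (c.E i).subgroupOf X
  perf := fun i => by
    apply Subgroup.map_injective X.subtype_injective
    rw [map_commutator, subgroupOf_map_subtype, inf_eq_left.2 (hE i), c.perf i]
  ne := fun i h => c.ne i (by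
    rw [subgroupOf_eq_bot] at h
    exact h.eq_bot_of_le (hE i))
  comm := fun i j hij x hx y hy => Subtype.ext (c.comm i j hij x hx y hy)
  perm := fun k hk i => by
    obtain ⟨j, hj⟩ := c.perm k hk i
    refine ⟨j, ?_⟩
    rw [← hj]
    exact conj_smul_subgroupOf (hE i) k
  trans := fun i j => by
    obtain ⟨k, hk, hj⟩ := c.trans i j
    refine ⟨⟨k, hK hk⟩, hk, ?_⟩
    rw [← hj]
    exact conj_smul_subgroupOf (hE i) ⟨k, hK hk⟩

/-- **PASS.** -/
theorem pass [Finite G] (hK : IsCarter K) (IH : ∀ (B : Type u) [Group B] [Finite B], Nat.card B < Nat.card G → CC B)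
    (i : Fin m) : ∃ (B : Type u) (_ : Group B) (_ : Finite B) (S R : Subgroup B) (f : ↥(DD K (c.E i)) →* B),
      PassD K (c.E i) B S R f ∧ Nat.card B ≤ Nat.card ↥(K ⊔ c.N) := by
  set X := K ⊔ c.N with hX
  have hKX : K ≤ X := le_sup_left
  have hEX : ∀ i, c.E i ≤ X := fun i => (c.le_N i).trans le_sup_right
  let c' := c.sub hKX hEX
  have hN : c'.N = c.N.subgroupOf X := by
    apply Subgroup.map_injective X.subtype_injective
    rw [subgroupOf_map_subtype, inf_eq_left.2 (le_sup_right : c.N ≤ X)]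
    show (⨆ i, (c.E i).subgroupOf X).map X.subtype = ⨆ i, c.E i
    rw [Subgroup.map_iSup]
    refine iSup_congr fun i => ?_
    rw [subgroupOf_map_subtype, inf_eq_left.2 (hEX i)]
  have htop : K.subgroupOf X ⊔ c'.N = ⊤ := by
    apply Subgroup.map_injective X.subtype_injective
    rw [hN, Subgroup.map_sup, subgroupOf_map_subtype, subgroupOf_map_subtype, inf_eq_left.2 hKX,
      inf_eq_left.2 (le_sup_right : c.N ≤ X), ← hX, ← MonoidHom.range_eq_map, range_subtype]
  have hIH : ∀ H : Subgroup X, H ≠ ⊤ → CC H := fun H hH => IH H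
    ((Cfsg.Agent.Lib.SolvableNormalP.card_lt_of_ne_top hH).trans_le (Subgroup.card_le_card_group X))
  obtain ⟨B, _, _, S, R, f', h⟩ := c'.pass_top htop (hK.subgroupOf hKX) hIH i
  obtain ⟨f, hf⟩ := PassD.transport hKX (hEX i) h
  refine ⟨B, inferInstance, inferInstance, S, R, f, hf, ?_⟩
  calc Nat.card B ≤ Nat.card ↥(DD K (c.E i)) := Nat.card_le_card_of_surjective _ hf.surj
    _ ≤ Nat.card X := Nat.card_mono (Set.toFinite _) (DD_le hKX (hEX i))

end Comps

/-! ### Sylow subgroups -/

/-- `K` normalises a Sylow `l`-subgroup of `N` -/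
def Nrm (l : ℕ) (K N : Subgroup G) : Prop :=
  ∃ P : Subgroup G, P ≤ N ∧ IsPGroup l P ∧ ¬ l ∣ P.relIndex N ∧ K ≤ normalizer (P : Set G)

theorem le_normalizer_of_conj {P : Subgroup G} {k : G} (h : MulAut.conj k • P ≤ P) (h' : MulAut.conj k⁻¹ • P ≤ P) :
    k ∈ normalizer (P : Set G) := by
  rw [← cj_eq_self_iff]
  refine le_antisymm h ?_
  have h2 := Subgroup.pointwise_smul_le_pointwise_smul_iff (a := MulAut.conj k).2 h'
  rwa [cj_cj, mul_inv_cancel, cj_one] at h2

/-- the socle is `E / Z(E)` -/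
theorem PassD.equiv {K E : Subgroup G} {B : Type u} [Group B] {S R : Subgroup B} {f : ↥(DD K E) →* B}
    (h : PassD K E B S R f) : Nonempty (↥E ⧸ center ↥E ≃* ↥S) := by
  let g : ↥E →* ↥S :=
    { toFun := fun x => ⟨f ⟨x, le_DD _ _ x.2⟩, (h.S_iff _).2 ⟨⟨x, le_DD _ _ x.2⟩, x.2, rfl⟩⟩
      map_one' := Subtype.ext (map_one f)
      map_mul' := fun x y => Subtype.ext (map_mul f ⟨x, le_DD _ _ x.2⟩ ⟨y, le_DD _ _ y.2⟩) }
  have hg : Function.Surjective g := by
    rintro ⟨b, hb⟩
    obtain ⟨x, hx, rfl⟩ := (h.S_iff b).1 hb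
    exact ⟨⟨x, hx⟩, rfl⟩
  have hker : g.ker = center ↥E := by
    ext x
    rw [MonoidHom.mem_ker, mem_center_iff]
    constructor
    · intro h1
      have h2 : f ⟨x, le_DD _ _ x.2⟩ = 1 := congrArg Subtype.val h1
      have h3 := (h.ker _).1 h2
      exact fun y => Subtype.ext (h3 y y.2)
    · intro h1
      apply Subtype.ext
      show f ⟨x, le_DD _ _ x.2⟩ = 1
      rw [h.ker]
      intro y hy
      exact congrArg Subtype.val (h1 ⟨y, hy⟩)
  exact ⟨(QuotientGroup.quotientMulEquivOfEq hker.symm).trans (QuotientGroup.quotientKerEquivOfSurjective g hg)⟩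

end Cfsg.Agent.H18.Carter
end

private theorem dce_065b32992500 : _root_.True := by
  try have : _root_.True := by simp only [_root_.Cfsg.Agent.H18.Carter.Comps.N.eq_1]
  exact _root_.True.intro
end

-- part: H18/Carter/Pass3
section
set_option linter.all false
open scoped Cfsg.Agent.FastGrp

/-!
# PASS: simplicity of the socle, divisibility
-/

set_option autoImplicit false
set_option linter.unusedSectionVars false
set_option linter.unusedVariables false

namespace Cfsg.Agent.H18.Carter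

open Subgroup Pointwise
open Cfsg.Agent.Solvable.Carter
open scoped commutatorElement

universe u

variable {G : Type u} [Group G]

theorem PassD.simple {K E : Subgroup G} {B : Type u} [Group B] {S R : Subgroup B} {f : ↥(DD K E) →* B}
    (h : PassD K E B S R f) (hs : IsSimpleGroup (↥E ⧸ center ↥E)) : IsSimpleGroup ↥S := by
  obtain ⟨e⟩ := h.equiv
  have : Nontrivial ↥S := e.symm.toEquiv.nontrivial
  exact IsSimpleGroup.isSimpleGroup_of_surjective e.toMonoidHom e.surjective

theorem PassD.na {K E : Subgroup G} {B : Type u} [Group B] {S R : Subgroup B} {f : ↥(DD K E) →* B}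
    (h : PassD K E B S R f) (hE : ⁅E, E⁆ = E) (hE1 : E ≠ ⊥) : ¬ ∀ a b : ↥S, a * b = b * a := by
  intro hab
  have h1 : ⁅E, E⁆ ≤ centralizer (E : Set G) := by
    rw [commutator_le]
    intro x hx y hy
    have hx' : f ⟨x, le_DD _ _ hx⟩ ∈ S := (h.S_iff _).2 ⟨_, hx, rfl⟩
    have hy' : f ⟨y, le_DD _ _ hy⟩ ∈ S := (h.S_iff _).2 ⟨_, hy, rfl⟩
    have h2 := congrArg Subtype.val (hab ⟨_, hx'⟩ ⟨_, hy'⟩)
    have h3 : f ⁅(⟨x, le_DD _ _ hx⟩ : DD K E), ⟨y, le_DD _ _ hy⟩⁆ = 1 := by
      rw [map_commutatorElement, commutatorElement_eq_one_iff_mul_comm]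
      exact h2
    exact (h.ker _).1 h3
  rw [hE] at h1
  apply hE1
  rw [← hE]
  exact commutator_eq_bot_iff_le_centralizer.2 h1

/-- elements of `K ∩ E C(E)` -/
theorem PassD.mem_inf {K E : Subgroup G} {B : Type u} [Group B] {S R : Subgroup B} {f : ↥(DD K E) →* B}
    (h : PassD K E B S R f) {x : G} (hx : x ∈ K) (hxn : x ∈ normalizer (E : Set G))
    (hxE : x ∈ E ⊔ centralizer (E : Set G)) : f ⟨x, inf_le_DD _ _ ⟨hx, hxn⟩⟩ ∈ R ⊓ S := by
  refine Subgroup.mem_inf.2 ⟨(h.R_iff _).2 ⟨_, hx, rfl⟩, ?_⟩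
  obtain ⟨e, he, z, hz, rfl⟩ := mul_mem_of_norm (centralizer_le_normalizer _) hxE
  refine (h.S_iff _).2 ⟨⟨e, le_DD _ _ he⟩, he, ?_⟩
  have hzD : z ∈ DD K E := by
    have := mul_mem (inv_mem (le_DD K E he)) (inf_le_DD _ _ ⟨hx, hxn⟩)
    rwa [inv_mul_cancel_left] at this
  have h1 : f ⟨z, hzD⟩ = 1 := (h.ker _).2 hz
  have h2 : (⟨e * z, inf_le_DD _ _ ⟨hx, hxn⟩⟩ : DD K E) = ⟨e, le_DD _ _ he⟩ * ⟨z, hzD⟩ := rfl
  rw [h2, map_mul, h1, mul_one]

/-- **Divisibility.** -/
theorem Comps.dvd [Finite G] {K : Subgroup G} {m : ℕ} (c : Comps G K m) {i : Fin m} {B : Type u} [Group B] [Finite B]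
    {S R : Subgroup B} {f : ↥(DD K (c.E i)) →* B} (h : PassD K (c.E i) B S R f) {r : ℕ} (hr : r.Prime)
    (hd : r ∣ Nat.card ↥(K ⊓ c.N)) :
    r ∣ Nat.card ↥(R ⊓ S) ∨ r ∣ Nat.card ↥(c.N ⊓ centralizer (c.N : Set G) : Subgroup G) := by
  have : Fact r.Prime := ⟨hr⟩
  obtain ⟨x, hx⟩ := exists_prime_orderOf_dvd_card' r hd
  have hxo : orderOf (x : G) = r := by rw [← hx]; exact (Subgroup.orderOf_coe x)
  have hxK : (x : G) ∈ K := x.2.1
  have hxN : (x : G) ∈ c.N := x.2.2
  have hN : ∀ j, c.N ≤ c.E j ⊔ centralizer (c.E j : Set G) := by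
    intro j
    refine iSup_le fun j' => ?_
    by_cases hj : j = j'
    · rw [hj]; exact le_sup_left
    · exact (c.E_le_cent hj).trans le_sup_right
  by_cases hall : ∀ k ∈ K, k * (x : G) * k⁻¹ ∈ centralizer (c.E i : Set G)
  · right
    have h1 : (x : G) ∈ centralizer (c.N : Set G) := by
      rw [c.mem_cent_N]
      intro j
      obtain ⟨k, hk, hj⟩ := c.trans j i
      have h2 := hall k hk
      rw [← hj, ← cj_centralizer, mem_cj] at h2
      have e : k⁻¹ * (k * (x : G) * k⁻¹) * k = x := by group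
      rwa [e] at h2
    rw [← hxo, ← Subgroup.orderOf_mk (x : G) (Subgroup.mem_inf.2 ⟨hxN, h1⟩ : (x : G) ∈ c.N ⊓ centralizer (c.N : Set G))]
    exact orderOf_dvd_natCard _
  · left
    push Not at hall
    obtain ⟨k, hk, hkx⟩ := hall
    have hyK : k * (x : G) * k⁻¹ ∈ K := mul_mem (mul_mem hk hxK) (inv_mem hk)
    have hyN : k * (x : G) * k⁻¹ ∈ c.N := (mem_normalizer_iff.1 (c.K_norm hk) _).1 hxN
    have hyn := c.N_norm i hyN
    have h1 := h.mem_inf hyK hyn (hN i hyN)
    have h2 : f ⟨k * (x : G) * k⁻¹, inf_le_DD _ _ ⟨hyK, hyn⟩⟩ ≠ 1 := fun h3 => hkx ((h.ker _).1 h3)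
    have h3 : (⟨k * (x : G) * k⁻¹, inf_le_DD _ _ ⟨hyK, hyn⟩⟩ : DD K (c.E i)) ^ r = 1 := by
      apply Subtype.ext
      show (k * (x : G) * k⁻¹) ^ r = 1
      rw [conj_pow, ← hxo, pow_orderOf_eq_one, mul_one, mul_inv_cancel]
    have h4 : orderOf (f ⟨k * (x : G) * k⁻¹, inf_le_DD _ _ ⟨hyK, hyn⟩⟩) = r := by
      apply orderOf_eq_prime
      · rw [← map_pow, h3, map_one]
      · exact h2
    rw [← h4, ← Subgroup.orderOf_mk _ h1]
    exact orderOf_dvd_natCard _

/-- one component -/
def Comps.single {K E : Subgroup G} (hE : ⁅E, E⁆ = E) (hE1 : E ≠ ⊥) (hK : K ≤ normalizer (E : Set G)) : Comps G K 1 where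
  E := fun _ => E
  perf := fun _ => hE
  ne := fun _ => hE1
  comm := fun i j hij => absurd (Subsingleton.elim i j) hij
  perm := fun k hk i => ⟨0, cj_eq_self_iff.2 (hK hk)⟩
  trans := fun i j => ⟨1, one_mem _, cj_one _⟩

theorem Comps.single_N {K E : Subgroup G} (hE : ⁅E, E⁆ = E) (hE1 : E ≠ ⊥) (hK : K ≤ normalizer (E : Set G)) :
    (Comps.single hE hE1 hK).N = E := by
  show (⨆ _ : Fin 1, E) = E
  exact ciSup_const

end Cfsg.Agent.H18.Carter
end

-- part: H18/Carter/OfAS
section
set_option linter.all false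
open scoped Cfsg.Agent.FastGrp

/-!
# `Ctx G S` from one Carter subgroup `K` with `K S = G`
-/

set_option autoImplicit false

namespace Cfsg.Agent.H18.Carter

open Subgroup Pointwise
open Cfsg.Agent.Solvable.Carter

universe u

/-- one Carter subgroup with `K S = G` and the conjugacy theorem for all smaller groups give `Ctx`. -/
theorem Ctx.of_carter {G : Type u} [Group G] [Finite G] {S K : Subgroup G} [S.Normal] (hs : IsSimpleGroup S)
    (na : ¬ ∀ a b : S, a * b = b * a) (cen : centralizer (S : Set G) = ⊥)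
    (min : ∀ (B : Type u) [Group B] [Finite B], Nat.card B < Nat.card G → CC B) (hK : IsCarter K)
    (prod : K ⊔ S = ⊤) : Ctx G S := by
  have hsurj := QuotientGroup.mk'_surjective S
  have hKn := hK.1
  have hnil : Group.IsNilpotent (G ⧸ S) := by
    have h4 : Function.Surjective ((QuotientGroup.mk' S).comp K.subtype) := by
      intro y
      have hm : K.map (QuotientGroup.mk' S) = ⊤ := by
        have h5 : (K ⊔ S).map (QuotientGroup.mk' S) = ⊤ := by
          rw [prod, map_top_of_surjective _ hsurj]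
        rw [Subgroup.map_sup] at h5
        have h6 : S.map (QuotientGroup.mk' S) = ⊥ := by
          rw [Subgroup.map_eq_bot_iff, QuotientGroup.ker_mk']
        rwa [h6, sup_bot_eq] at h5
      have : y ∈ K.map (QuotientGroup.mk' S) := by rw [hm]; trivial
      obtain ⟨x, hx, rfl⟩ := this
      exact ⟨⟨x, hx⟩, rfl⟩
    exact Group.nilpotent_of_surjective _ h4
  refine ⟨hs, na, cen, hnil, fun C hC => ?_, min⟩
  have h1 : IsCarter (C.map (QuotientGroup.mk' S)) :=
    hC.map hsurj fun H hH => min H (Cfsg.Agent.Lib.SolvableNormalP.card_lt_of_ne_top hH)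
  have h2 := h1.eq_top
  rw [eq_top_iff]
  intro x _
  have h3 : QuotientGroup.mk' S x ∈ C.map (QuotientGroup.mk' S) := by rw [h2]; trivial
  obtain ⟨y, hy, e⟩ := h3
  have h4 : y⁻¹ * x ∈ S := QuotientGroup.eq.1 e
  have := mul_mem (mem_sup_left hy : y ∈ C ⊔ S) (mem_sup_right h4 : y⁻¹ * x ∈ C ⊔ S)
  rwa [mul_inv_cancel_left] at this

end Cfsg.Agent.H18.Carter
end

-- part: H248/CA/Prod
section
set_option linter.all false
open scoped Cfsg.Agent.FastGrp

/-!
# S3852, type A: [CA19] Sylow 2-subgroups of a product of commuting subgroups; a cyclic quotient (helper248)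
-/

set_option autoImplicit false

namespace Cfsg.Agent.H248.CA.Prod

open Subgroup

universe u

theorem sylow_prod {G : Type u} [Group G] [Finite G] {L1 L2 T1 T2 : Subgroup G}
    (hc : ∀ x ∈ L1, ∀ y ∈ L2, x * y = y * x) (h1 : T1 ≤ L1) (h2 : T2 ≤ L2) (p1 : IsPGroup 2 T1)
    (p2 : IsPGroup 2 T2) (i1 : ¬ 2 ∣ T1.relIndex L1) (i2 : ¬ 2 ∣ T2.relIndex L2) :
    IsPGroup 2 (T1 ⊔ T2 : Subgroup G) ∧ ¬ 2 ∣ (T1 ⊔ T2).relIndex (L1 ⊔ L2) := by
  refine ⟨IsPGroup.to_sup_of_normal_right' p1 p2 fun x hx => ?_, fun hdvd => ?_⟩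
  · refine centralizer_le_normalizer _ (mem_centralizer_iff.2 fun y hy => ?_)
    exact (hc x (h1 hx) y (h2 hy)).symm
  · let f : L1 × L2 →* G := MonoidHom.noncommCoprod L1.subtype L2.subtype fun a b => hc a a.2 b b.2
    have hf : ∀ a : L1, ∀ b : L2, f (a, b) = (a : G) * b := fun a b => rfl
    let H : Subgroup (L1 × L2) := (T1.subgroupOf L1).prod (T2.subgroupOf L2)
    have hH : H.map f = T1 ⊔ T2 := by
      apply le_antisymm
      · rintro _ ⟨⟨a, b⟩, hab, rfl⟩
        rw [hf]
        exact mul_mem (mem_sup_left (mem_subgroupOf.1 hab.1)) (mem_sup_right (mem_subgroupOf.1 hab.2))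
      · refine sup_le (fun x hx => ?_) fun x hx => ?_
        · exact ⟨(⟨x, h1 hx⟩, 1), ⟨mem_subgroupOf.2 hx, one_mem _⟩, by rw [hf]; exact mul_one x⟩
        · exact ⟨(1, ⟨x, h2 hx⟩), ⟨one_mem _, mem_subgroupOf.2 hx⟩, by rw [hf]; exact one_mul x⟩
    have hT : (⊤ : Subgroup (L1 × L2)).map f = L1 ⊔ L2 := by
      apply le_antisymm
      · rintro _ ⟨⟨a, b⟩, -, rfl⟩
        rw [hf]
        exact mul_mem (mem_sup_left a.2) (mem_sup_right b.2)
      · refine sup_le (fun x hx => ?_) fun x hx => ?_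
        · exact ⟨(⟨x, hx⟩, 1), mem_top _, by rw [hf]; exact mul_one x⟩
        · exact ⟨(1, ⟨x, hx⟩), mem_top _, by rw [hf]; exact one_mul x⟩
    rw [← hH, ← hT, relIndex_map_map, top_sup_eq, relIndex_top_right] at hdvd
    have h3 : 2 ∣ H.index := hdvd.trans (index_dvd_of_le le_sup_left)
    rw [index_prod] at h3
    rcases Nat.prime_two.dvd_mul.1 h3 with h4 | h4
    · exact i1 h4
    · exact i2 h4

theorem isCyclic_quot {U : Type*} [Group U] {G : Type u} [Group G] (j : U →* G) (Y0 : Subgroup U) {C : Type*}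
    [Group C] [IsCyclic C] (d : Y0 →* C) (L : Subgroup G) [((L.subgroupOf (Y0.map j))).Normal]
    (hd : ∀ u : Y0, d u = 1 → j u ∈ L) : IsCyclic (↥(Y0.map j) ⧸ L.subgroupOf (Y0.map j)) := by
  have hc : IsCyclic (↥Y0 ⧸ d.ker) := isCyclic_of_injective (QuotientGroup.kerLift d) (QuotientGroup.kerLift_injective d)
  let φ : Y0 →* ↥(Y0.map j) ⧸ L.subgroupOf (Y0.map j) := (QuotientGroup.mk' _).comp (j.subgroupMap Y0)
  have hφ : Function.Surjective φ := (QuotientGroup.mk'_surjective _).comp (j.subgroupMap_surjective Y0)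
  have hk : d.ker ≤ φ.ker := by
    intro u hu
    rw [MonoidHom.mem_ker] at hu ⊢
    exact (QuotientGroup.eq_one_iff _).2 (mem_subgroupOf.2 (hd u hu))
  refine isCyclic_of_surjective (QuotientGroup.lift d.ker φ hk) fun x => ?_
  obtain ⟨u, rfl⟩ := hφ x
  exact ⟨(u : ↥Y0 ⧸ d.ker), rfl⟩

end Cfsg.Agent.H248.CA.Prod
end

-- part: H248/CA/CardU
section
prune_inst 0x10000000000000
set_option linter.all false

/-!
# S3852, type A: [CA22] the orders of the groups of norm one elements (helper248)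
-/

set_option autoImplicit false

namespace Cfsg.Agent.H248.CA.CardU

open Cfsg.Agent.H308.CA

end Cfsg.Agent.H248.CA.CardU
end
end
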